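import Mathlib
import Cfsg.Agent.Lib.Fusion.Top
import Cfsg.Agent.Lib.Fusion.AutPair
import Cfsg.Agent.Lib.Fusion.Essential

/-!
# Fusion systems on `3 ^ 6 : 3 ^ (1 + 2)`: definitions (plans/CF3.md)
-/

set_option autoImplicit false

namespace CfsgLib.Cf3

open Subgroup Matrix Cfsg CfsgLib.Fusion

/-- the field -/
abbrev K : Type := ZMod 3
/-- the module, basis `e1², e1e2, e2², e1e3, e2e3, e3²` -/
abbrev V : Type := Fin 6 → K
/-- matrices -/
abbrev Mat : Type := Matrix (Fin 6) (Fin 6) K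
/-- the linear group; it acts on `V` by `g • v = g.1 *ᵥ v` -/
abbrev G6 : Type := GL (Fin 6) K
/-- signs -/
abbrev Sg : Type := Kˣ × Kˣ × Kˣ

instance fact3 : Fact (Nat.Prime 3) := ⟨Nat.prime_three⟩

theorem smul_def (g : G6) (v : V) : g • v = g.1 *ᵥ v := rfl

/-- a unit from a matrix and its inverse -/
def mkG (A B : Mat) (h : A * B = 1) : G6 := ⟨A, B, h, mul_eq_one_comm.1 h⟩

@[simp] theorem mkG_val (A B : Mat) (h : A * B = 1) : (mkG A B h).1 = A := rfl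

/-- the basis vectors -/
def f (i : Fin 6) : V := Pi.single i 1

/-- unitriangular matrices `e2 ↦ e2 + a e1`, `e3 ↦ e3 + b e2 + c e1` -/
@[ext] structure U where
  /-- entry `(1, 2)` -/
  a : K
  /-- entry `(2, 3)` -/
  b : K
  /-- entry `(1, 3)` -/
  c : K
  deriving DecidableEq, Fintype

namespace U

instance : Mul U := ⟨fun x y => ⟨x.a + y.a, x.b + y.b, x.c + y.c + x.a * y.b⟩⟩
instance : One U := ⟨⟨0, 0, 0⟩⟩
instance : Inv U := ⟨fun x => ⟨-x.a, -x.b, x.a * x.b - x.c⟩⟩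

@[simp] theorem mul_a (x y : U) : (x * y).a = x.a + y.a := rfl
@[simp] theorem mul_b (x y : U) : (x * y).b = x.b + y.b := rfl
@[simp] theorem mul_c (x y : U) : (x * y).c = x.c + y.c + x.a * y.b := rfl
@[simp] theorem one_a : (1 : U).a = 0 := rfl
@[simp] theorem one_b : (1 : U).b = 0 := rfl
@[simp] theorem one_c : (1 : U).c = 0 := rfl
@[simp] theorem inv_a (x : U) : x⁻¹.a = -x.a := rfl
@[simp] theorem inv_b (x : U) : x⁻¹.b = -x.b := rfl
@[simp] theorem inv_c (x : U) : x⁻¹.c = x.a * x.b - x.c := rfl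

instance : Group U := Group.ofLeftAxioms
  (fun x y z => by ext <;> simp <;> ring) (fun x => by ext <;> simp) (fun x => by ext <;> simp)

end U

/-- generators -/
def x1 : U := ⟨1, 0, 0⟩
/-- generators -/
def x2 : U := ⟨0, 1, 0⟩
/-- the central element -/
def z : U := ⟨0, 0, 1⟩
/-- a regular element -/
def r0 : U := ⟨1, 1, 0⟩
/-- regular elements -/
def Reg (u : U) : Prop := u.a ≠ 0 ∧ u.b ≠ 0

/-- the subgroup `b = t a` (`Ya 0 = ⟨z, x1⟩`) -/
def Ya (t : K) : Subgroup U where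
  carrier := {u | u.b = t * u.a}
  one_mem' := by simp
  mul_mem' := fun {x y} hx hy => by simp only [Set.mem_ofPred_eq, U.mul_a, U.mul_b] at *; rw [hx, hy]; ring
  inv_mem' := fun {x} hx => by simp only [Set.mem_ofPred_eq, U.inv_a, U.inv_b] at *; rw [hx]; ring

/-- `⟨z, x1⟩` -/
abbrev Y1 : Subgroup U := Ya 0

/-- `⟨z, x2⟩` -/
def Y2 : Subgroup U where
  carrier := {u | u.a = 0}
  one_mem' := rfl
  mul_mem' := fun {x y} hx hy => by simp only [Set.mem_ofPred_eq, U.mul_a] at *; rw [hx, hy, add_zero]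
  inv_mem' := fun {x} hx => by simp only [Set.mem_ofPred_eq, U.inv_a] at *; rw [hx, neg_zero]

theorem mem_Ya {t : K} {u : U} : u ∈ Ya t ↔ u.b = t * u.a := Iff.rfl
theorem mem_Y1 {u : U} : u ∈ Y1 ↔ u.b = 0 := by rw [mem_Ya, zero_mul]
theorem mem_Y2 {u : U} : u ∈ Y2 ↔ u.a = 0 := Iff.rfl

/-- the action on the symmetric square -/
def rhoM (u : U) : Mat := !![1, u.a, u.a ^ 2, u.c, u.a * u.c, u.c ^ 2;
  0, 1, 2 * u.a, u.b, u.c + u.a * u.b, 2 * u.b * u.c; 0, 0, 1, 0, u.b, u.b ^ 2;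
  0, 0, 0, 1, u.a, 2 * u.c; 0, 0, 0, 0, 1, 2 * u.b; 0, 0, 0, 0, 0, 1]

theorem rhoM_mul (x y : U) : rhoM (x * y) = rhoM x * rhoM y := by
  ext i j
  fin_cases i <;> fin_cases j <;> simp [rhoM, Matrix.mul_apply, Fin.sum_univ_succ] <;> ring

theorem rhoM_one : rhoM 1 = 1 := by decide

/-- the action on the symmetric square -/
def ρ : U →* G6 where
  toFun u := mkG (rhoM u) (rhoM u⁻¹) (by rw [← rhoM_mul, mul_inv_cancel, rhoM_one])
  map_one' := Units.ext rhoM_one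
  map_mul' x y := Units.ext (rhoM_mul x y)

theorem ρ_val (u : U) : (ρ u).1 = rhoM u := rfl

/-- the coordinates of `ρ u • v` -/
theorem ρ_smul (u : U) (v : V) : ρ u • v =
    ![v 0 + u.a * v 1 + u.a ^ 2 * v 2 + u.c * v 3 + u.a * u.c * v 4 + u.c ^ 2 * v 5,
      v 1 + 2 * u.a * v 2 + u.b * v 3 + (u.c + u.a * u.b) * v 4 + 2 * u.b * u.c * v 5,
      v 2 + u.b * v 4 + u.b ^ 2 * v 5, v 3 + u.a * v 4 + 2 * u.c * v 5, v 4 + 2 * u.b * v 5, v 5] := by
  ext i
  fin_cases i <;> simp [smul_def, ρ_val, rhoM, mulVec, dotProduct, Fin.sum_univ_succ] <;> ring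

/-- the group `V : U` -/
@[ext] structure M where
  /-- the vector -/
  v : V
  /-- the unitriangular matrix -/
  u : U
  deriving DecidableEq, Fintype

namespace M

instance : Mul M := ⟨fun x y => ⟨x.v + ρ x.u • y.v, x.u * y.u⟩⟩
instance : One M := ⟨⟨0, 1⟩⟩
instance : Inv M := ⟨fun x => ⟨-(ρ x.u⁻¹ • x.v), x.u⁻¹⟩⟩

@[simp] theorem mul_v (x y : M) : (x * y).v = x.v + ρ x.u • y.v := rfl
@[simp] theorem mul_u (x y : M) : (x * y).u = x.u * y.u := rfl
@[simp] theorem one_v : (1 : M).v = 0 := rfl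
@[simp] theorem one_u : (1 : M).u = 1 := rfl
@[simp] theorem inv_v (x : M) : x⁻¹.v = -(ρ x.u⁻¹ • x.v) := rfl
@[simp] theorem inv_u (x : M) : x⁻¹.u = x.u⁻¹ := rfl

instance : Group M := Group.ofLeftAxioms
  (fun x y z => M.ext (by simp [mul_smul, add_assoc]) (mul_assoc _ _ _))
  (fun x => M.ext (by simp) (one_mul _)) (fun x => M.ext (by simp) (inv_mul_cancel _))

end M

/-- a vector as an element of `M` -/
def vec (v : V) : M := ⟨v, 1⟩
/-- the complement -/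
def up : U →* M where
  toFun u := ⟨0, u⟩
  map_one' := rfl
  map_mul' x y := M.ext (by simp) rfl
/-- the projection -/
def π : M →* U where
  toFun x := x.u
  map_one' := rfl
  map_mul' _ _ := rfl

@[simp] theorem vec_v (v : V) : (vec v).v = v := rfl
@[simp] theorem vec_u (v : V) : (vec v).u = 1 := rfl
@[simp] theorem up_v (u : U) : (up u).v = 0 := rfl
@[simp] theorem up_u (u : U) : (up u).u = u := rfl
@[simp] theorem π_apply (x : M) : π x = x.u := rfl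
theorem vec_add (v w : V) : vec (v + w) = vec v * vec w := M.ext (by simp) (by simp)
theorem vec_zero : vec 0 = 1 := rfl
theorem vec_neg (v : V) : vec (-v) = (vec v)⁻¹ := M.ext (by simp) (by simp)
theorem vec_inj {v w : V} : vec v = vec w ↔ v = w := ⟨fun h => congrArg M.v h, congrArg vec⟩
theorem vec_mul_up (x : M) : vec x.v * up x.u = x := M.ext (by simp) (by simp)
theorem conj_vec (x : M) (v : V) : x * vec v * x⁻¹ = vec (ρ x.u • v) :=
  M.ext (by simp [← mul_smul]) (by simp)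

/-- the subgroup `A Y` -/
def AY (Y : Subgroup U) : Subgroup M := Y.comap π
/-- the Thompson subgroup -/
def A : Subgroup M := AY ⊥

theorem mem_AY {Y : Subgroup U} {x : M} : x ∈ AY Y ↔ x.u ∈ Y := Iff.rfl
theorem mem_A {x : M} : x ∈ A ↔ x.u = 1 := mem_bot
theorem vec_mem_A (v : V) : vec v ∈ A := mem_A.2 rfl
theorem eq_vec {x : M} (h : x ∈ A) : x = vec x.v := M.ext rfl (mem_A.1 h)
theorem A_le_AY (Y : Subgroup U) : A ≤ AY Y := comap_mono bot_le

/-- the vectors with vanishing coordinates in `L` -/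
def co (L : List (Fin 6)) : Submodule K V where
  carrier := {v | ∀ i ∈ L, v i = 0}
  zero_mem' _ _ := rfl
  add_mem' hv hw i hi := by rw [Pi.add_apply, hv i hi, hw i hi, add_zero]
  smul_mem' c v hv i hi := by rw [Pi.smul_apply, hv i hi, smul_zero]

theorem mem_co {L : List (Fin 6)} {v : V} : v ∈ co L ↔ ∀ i ∈ L, v i = 0 := Iff.rfl

instance (L : List (Fin 6)) (v : V) : Decidable (v ∈ co L) := decidable_of_iff _ mem_co.symm

/-- `⟨e1²⟩` -/
abbrev wZ : Submodule K V := co [1, 2, 3, 4, 5]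
/-- `⟨e1², e1e2⟩` -/
abbrev wZ2 : Submodule K V := co [2, 3, 4, 5]
/-- `⟨e1², e1e2, e2²⟩` -/
abbrev wD : Submodule K V := co [3, 4, 5]
/-- `⟨e1², e1e2, e1e3⟩` -/
abbrev wP : Submodule K V := co [2, 4, 5]
/-- `D + P` -/
abbrev w4 : Submodule K V := co [4, 5]
/-- the invariant hyperplane -/
abbrev w5 : Submodule K V := co [5]

/-- the subgroup of `A` given by a subspace -/
def vg (W : Submodule K V) : Subgroup M where
  carrier := {x | x.u = 1 ∧ x.v ∈ W}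
  one_mem' := ⟨rfl, W.zero_mem⟩
  mul_mem' := fun {x y} hx hy => ⟨by simp [hx.1, hy.1], by simpa [hx.1] using W.add_mem hx.2 hy.2⟩
  inv_mem' := fun {x} hx => ⟨by simp [hx.1], by simpa [hx.1] using hx.2⟩

theorem mem_vg {W : Submodule K V} {x : M} : x ∈ vg W ↔ x.u = 1 ∧ x.v ∈ W := Iff.rfl

/-- the subspace given by a subgroup -/
def Wof (P : Subgroup M) : Submodule K V where
  carrier := {v | vec v ∈ P}
  zero_mem' := P.one_mem
  add_mem' hv hw := by rw [Set.mem_ofPred_eq, vec_add]; exact P.mul_mem hv hw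
  smul_mem' c v hv := by
    have : c = 0 ∨ c = 1 ∨ c = -1 := by revert c; decide
    rcases this with rfl | rfl | rfl
    · rw [zero_smul]; exact P.one_mem
    · rwa [one_smul]
    · rw [neg_one_smul, Set.mem_ofPred_eq, vec_neg]; exact P.inv_mem hv

theorem mem_Wof {P : Subgroup M} {v : V} : v ∈ Wof P ↔ vec v ∈ P := Iff.rfl

/-- the essential subgroup not containing `A` -/
def E3 : Subgroup M where
  carrier := {x | x.v 5 = 0}
  one_mem' := rfl
  mul_mem' := fun {x y} hx hy => by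
    simp only [Set.mem_ofPred_eq, M.mul_v, Pi.add_apply, ρ_smul] at *; simp [hx, hy]
  inv_mem' := fun {x} hx => by
    simp only [Set.mem_ofPred_eq, M.inv_v, Pi.neg_apply, ρ_smul] at *; simp [hx]

theorem mem_E3 {x : M} : x ∈ E3 ↔ x.v 5 = 0 := Iff.rfl

/-- the subgroup `3 ^ (3 + 4)` -/
def R : Subgroup M := E3 ⊓ AY Y2

theorem mem_R {x : M} : x ∈ R ↔ x.v 5 = 0 ∧ x.u.a = 0 := Iff.rfl

/-! ### the diagonal automorphisms and the automorphism `β` -/

/-- the diagonal -/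
def tauD (s : Sg) : V := ![s.2.2, s.2.2 * s.1, s.2.2, s.2.2 * s.1 * s.2.1, s.2.2 * s.2.1, s.2.2]

theorem tauD_mul : ∀ s t : Sg, tauD (s * t) = tauD s * tauD t := by decide

/-- the diagonal matrices -/
def τA : Sg →* G6 where
  toFun s := mkG (diagonal (tauD s)) (diagonal (tauD s)) (by revert s; decide)
  map_one' := Units.ext (by decide)
  map_mul' s t := Units.ext (by simp only [mkG_val, Units.val_mul, tauD_mul, diagonal_mul_diagonal]; rfl)

theorem τA_val (s : Sg) : (τA s).1 = diagonal (tauD s) := rfl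

theorem τA_smul (s : Sg) (v : V) : τA s • v = tauD s * v := by
  ext i; rw [smul_def, τA_val, mulVec_diagonal]; rfl

/-- the diagonal automorphisms of `U` -/
def τU (s : Sg) (u : U) : U := ⟨s.1 * u.a, s.2.1 * u.b, s.1 * s.2.1 * u.c⟩

theorem τA_mul_ρ (s : Sg) (u : U) : τA s * ρ u = ρ (τU s u) * τA s :=
  Units.ext (by revert s u; decide +kernel)

theorem τU_τU : ∀ (s : Sg) (u : U), τU s (τU s u) = u := by decide +kernel

theorem τU_mul (s : Sg) (x y : U) : τU s (x * y) = τU s x * τU s y := by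
  ext <;> simp [τU] <;> ring

theorem sg_sq : ∀ s : Sg, s * s = 1 := by decide

/-- the diagonal automorphisms of `M` -/
def τ (s : Sg) : MulAut M where
  toFun x := ⟨τA s • x.v, τU s x.u⟩
  invFun x := ⟨τA s • x.v, τU s x.u⟩
  left_inv x := M.ext (by simp only [← mul_smul, ← map_mul, sg_sq, map_one, one_smul]) (τU_τU s _)
  right_inv x := M.ext (by simp only [← mul_smul, ← map_mul, sg_sq, map_one, one_smul]) (τU_τU s _)
  map_mul' x y := M.ext (by simp only [M.mul_v, smul_add, ← mul_smul, τA_mul_ρ]) (τU_mul s _ _)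

@[simp] theorem τ_v (s : Sg) (x : M) : (τ s x).v = τA s • x.v := rfl
@[simp] theorem τ_u (s : Sg) (x : M) : (τ s x).u = τU s x.u := rfl

/-- inverts `Y1` -/
def s2 : Sg := (-1, 1, 1)
/-- inverts `Y2` -/
def s3 : Sg := (1, -1, 1)
/-- inverts `A`, centralises `U` -/
def s0 : Sg := (1, 1, -1)

/-- `e3² ↦ e3² + k e1²` -/
def betaM (k : K) : Mat := !![1,0,0,0,0,k; 0,1,0,0,0,0; 0,0,1,0,0,0; 0,0,0,1,0,0; 0,0,0,0,1,0; 0,0,0,0,0,1]

/-- `e3² ↦ e3² + k e1²` -/
def β (k : K) : G6 := mkG (betaM k) (betaM (-k)) (by revert k; decide)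

theorem β_mul : ∀ j k : K, β j * β k = β (j + k) := fun j k => Units.ext (by revert j k; decide)
theorem β_zero : β 0 = 1 := Units.ext (by decide)
theorem β_inv (k : K) : (β k)⁻¹ = β (-k) := inv_eq_of_mul_eq_one_right (by rw [β_mul, add_neg_cancel, β_zero])
theorem β_mul_ρ (k : K) (u : U) : β k * ρ u = ρ u * β k := Units.ext (by revert k u; decide +kernel)
theorem β_mul_τA (k : K) (s : Sg) : β k * τA s = τA s * β k := Units.ext (by revert k s; decide +kernel)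

/-- the automorphism of `M` given by `β k` -/
def βM (k : K) : MulAut M where
  toFun x := ⟨β k • x.v, x.u⟩
  invFun x := ⟨(β k)⁻¹ • x.v, x.u⟩
  left_inv x := M.ext (by simp) rfl
  right_inv x := M.ext (by simp) rfl
  map_mul' x y := M.ext (by simp only [M.mul_v, smul_add, ← mul_smul, β_mul_ρ]) rfl

@[simp] theorem βM_v (k : K) (x : M) : (βM k x).v = β k • x.v := rfl
@[simp] theorem βM_u (k : K) (x : M) : (βM k x).u = x.u := rfl

/-- `e1 ↦ e1 + e2`, conjugated by `β k` -/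
def y1M (k : K) : Mat := !![1,0,0,0,0,0; 2,1,0,0,0,k; 1,1,1,0,0,2*k; 0,0,0,1,0,0; 0,0,0,1,1,0; 0,0,0,0,0,1]
/-- `e2 ↦ e2 + e3`, conjugated by `β k` -/
def y2M (k : K) : Mat := !![1,0,k,0,k,0; 0,1,0,0,0,0; 0,0,1,0,0,0; 0,1,0,1,0,0; 0,0,2,0,1,0; 0,0,1,0,1,1]
/-- `e1 ↦ e1 + e2`, conjugated by `β k` -/
def y1 (k : K) : G6 := mkG (y1M k) (y1M k * y1M k) (by revert k; decide +kernel)
/-- `e2 ↦ e2 + e3`, conjugated by `β k` -/
def y2 (k : K) : G6 := mkG (y2M k) (y2M k * y2M k) (by revert k; decide +kernel)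

theorem β_mul_y1 (j k : K) : β j * y1 k = y1 (j + k) * β j := Units.ext (by revert j k; decide +kernel)
theorem β_mul_y2 (j k : K) : β j * y2 k = y2 (j + k) * β j := Units.ext (by revert j k; decide +kernel)

/-- the matrix of the duality -/
def J : G6 := mkG !![0,0,0,0,0,1; 0,0,0,0,1,0; 0,0,1,0,0,0; 0,0,0,2,0,0; 0,1,0,0,0,0; 1,0,0,0,0,0]
  !![0,0,0,0,0,1; 0,0,0,0,1,0; 0,0,1,0,0,0; 0,0,0,2,0,0; 0,1,0,0,0,0; 1,0,0,0,0,0] (by decide)

/-! ### subgroups of the linear group -/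

/-- the image of `U` -/
def UU : Subgroup G6 := ρ.range
/-- the image of a subgroup of `U` -/
def YY (Y : Subgroup U) : Subgroup G6 := Y.map ρ
/-- its normaliser in `X` -/
def NX (X : Subgroup G6) (Y : Subgroup U) : Subgroup G6 := X ⊓ normalizer (YY Y : Set G6)

/-- the stabiliser of a subspace -/
def St (W : Submodule K V) : Subgroup G6 where
  carrier := {g | ∀ v, g • v ∈ W ↔ v ∈ W}
  one_mem' v := by rw [one_smul]
  mul_mem' hg hh v := by rw [mul_smul, hg, hh]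
  inv_mem' {g} hg v := by rw [← hg, smul_inv_smul]

theorem mem_St {W : Submodule K V} {g : G6} : g ∈ St W ↔ ∀ v, g • v ∈ W ↔ v ∈ W := Iff.rfl

/-- the stabiliser of the two invariant flags -/
def B : Subgroup G6 := St wZ ⊓ St wZ2 ⊓ St wD ⊓ St wP ⊓ St w4 ⊓ St w5

/-- the conjugate `g X g⁻¹` -/
def cj (g : G6) (X : Subgroup G6) : Subgroup G6 := X.map (MulAut.conj g).toMonoidHom

theorem mem_cj {g h : G6} {X : Subgroup G6} : h ∈ cj g X ↔ g⁻¹ * h * g ∈ X :=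
  ⟨by rintro ⟨k, hk, rfl⟩; simpa [mul_assoc] using hk, fun e => ⟨_, e, by simp [mul_assoc]⟩⟩

/-- `U` is a Sylow subgroup of `X` whose normaliser is in standard position -/
structure XD (X : Subgroup G6) : Prop where
  syl : SylIn 3 UU X
  bor : ∀ g ∈ X, g ∈ B → ∃ u s, τA s ∈ X ∧ g = ρ u * τA s

/-- `H` contains the Borel subgroup of `X` -/
structure Bor (X H : Subgroup G6) : Prop where
  uu : ∀ u, ρ u ∈ H
  tt : ∀ s, τA s ∈ X → τA s ∈ H

/-- the normaliser of `Y2` is not in the Borel subgroup -/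
def P1 (X : Subgroup G6) : Prop := ¬ NX X Y2 ≤ B
/-- the normaliser of `Y1` is not in the Borel subgroup -/
def P2 (X : Subgroup G6) : Prop := ¬ NX X Y1 ≤ B

/-- `Y` is radical and fully normalised in `X` -/
structure Rad (X : Subgroup G6) (Y : Subgroup U) : Prop where
  rad : ∀ Q ≤ NX X Y, IsPGroup 3 Q → NX X Y ≤ normalizer (Q : Set G6) → Q ≤ YY Y
  syl : SylIn 3 (NX UU Y) (NX X Y)

/-- `N` is strongly embedded in `X` -/
structure SE (X N : Subgroup G6) : Prop where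
  syl : SylIn 3 UU X
  le : N ≤ X
  nle : ¬ X ≤ N
  uu : ∀ u, ρ u ∈ N
  spe : ∀ g ∈ X, ∀ h ∈ N, IsPGroup 3 (zpowers h) → h ≠ 1 → g * h * g⁻¹ ∈ N → g ∈ N

/-! ### the linear data of an essential subgroup not containing `A` -/

/-- `b` normalises -/
def InB (Eb : Subgroup U) (W0 : Submodule K V) (b : V) : Prop := ∀ e ∈ Eb, ρ e • b - b ∈ W0

/-- the linear data -/
structure LD (Eb Yb : Subgroup U) (W0 WI : Submodule K V) : Prop where
  le : Yb ≤ Eb
  comm : ∀ y ∈ Yb, ∀ y' ∈ Yb, y * y' = y' * y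
  norm : ∀ e ∈ Eb, ∀ y ∈ Yb, e * y * e⁻¹ ∈ Yb
  IW : WI ≤ W0
  ne : W0 ≠ ⊤
  inv0 : ∀ e ∈ Eb, ∀ w ∈ W0, ρ e • w ∈ W0
  invI : ∀ e ∈ Eb, ∀ w ∈ WI, ρ e • w ∈ WI
  fixI : ∀ y ∈ Yb, ∀ w ∈ WI, ρ y • w = w
  sub : ∀ y ∈ Yb, ∀ w ∈ W0, ρ y • w - w ∈ WI
  card : Nat.card W0 = Nat.card WI * Nat.card Yb
  cen : ∀ v, (∀ e ∈ Eb, ρ e • v = v) → v ∈ W0
  zc : (∀ e ∈ Eb, e ≠ 1 → ∃ w ∈ W0, ρ e • w ≠ w) → ∀ v, (∀ e ∈ Eb, ρ e • v = v) → v ∈ WI
  r0 : ∀ b, InB Eb W0 b → b ∉ W0 → ∃ y ∈ Yb, ρ y • b - b ∉ WI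
  r1 : Nat.card Yb = 9 → ∀ b₁ b₂, InB Eb W0 b₁ → InB Eb W0 b₂ →
    (∀ i j : K, i • b₁ + j • b₂ ∈ W0 → i = 0 ∧ j = 0) →
    ∀ b, InB Eb W0 b → b ∉ W0 → ∀ y ∈ Yb, y ≠ 1 → ρ y • b - b ∉ WI
  r2 : Nat.card Yb = 9 → Eb = ⊤ → ∀ b, InB Eb W0 b → b ∉ W0 → ∀ y ∈ Yb, y ≠ 1 → ρ y • b - b ∉ WI

/-- the binary form `w` is irreducible -/
def Aniso (w : V) : Prop := w 1 ^ 2 - w 0 * w 2 = 2

/-- the automizer of an essential subgroup -/
structure EA (E : Subgroup M) (Γ N : Subgroup (MulAut E)) : Prop where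
  ess : EssAut 3 Γ (autInducedBy ⊤ E) N
  cen : ∀ x : M, (∀ y ∈ E, y * x = x * y) → x ∈ E

/-- the image of `A ⊓ E` -/
noncomputable def A1 {E : Subgroup M} (φ : MulAut E) : Subgroup M := img (A ⊓ E) (extAut φ)

/-! ### fusion systems on `M` -/

/-- fusion systems on `M` -/
abbrev FS : Type := FusionSystem (⊤ : Subgroup M)

/-- `g` induces the matrix `h` -/
def Ind (g : M → M) (h : G6) : Prop := ∀ v, g (vec v) = vec (h • v)

/-- the automizer of `A` -/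
def X (F : FS) : Subgroup G6 where
  carrier := {h | ∃ g, Mor F A g ∧ Ind g h}
  one_mem' := ⟨id, Mor.id F le_top, fun v => by simp⟩
  mul_mem' := fun {h k} ⟨g, hg, e⟩ ⟨g', hg', e'⟩ => ⟨g ∘ g', hg'.comp hg fun x hx => by
    rw [eq_vec hx, e']; exact vec_mem_A _, fun v => by rw [Function.comp_apply, e', e, mul_smul]⟩
  inv_mem' := fun {h} ⟨g, hg, e⟩ => by
    have h1 : img A g = A := le_antisymm
      (img_le_iff.2 fun x hx => by rw [eq_vec hx, e]; exact vec_mem_A _) fun x hx =>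
      hg.mem_img.2 ⟨_, vec_mem_A (h⁻¹ • x.v), by rw [e, smul_inv_smul, ← eq_vec hx]⟩
    obtain ⟨g', hg', e', -⟩ := hg.exists_inv' h1
    exact ⟨g', hg', fun v => by rw [← e' _ (vec_mem_A (h⁻¹ • v)), e, smul_inv_smul]⟩

theorem mem_X {F : FS} {h : G6} : h ∈ X F ↔ ∃ g, Mor F A g ∧ Ind g h := Iff.rfl

/-- the automizer of `M` is in standard position -/
def Nm (F : FS) : Prop :=
  ∀ g, Mor F ⊤ g → ∃ (s : Sg) (m : M), Mor F ⊤ (τ s) ∧ ∀ x, g x = m * τ s x * m⁻¹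

/-- `g` is an automorphism of `E` in `F` -/
def Au (F : FS) (E : Subgroup M) (g : M → M) : Prop := Mor F E g ∧ ∀ x ∈ E, g x ∈ E

/-- the action on the section `R / ⟨D, e1e3, z⟩` -/
def Mu (g : M → M) (m : Matrix (Fin 2) (Fin 2) K) : Prop :=
  ∀ x ∈ R, g x ∈ R ∧ ![(g x).v 4, (g x).u.b] = m *ᵥ ![x.v 4, x.u.b]

/-- the Weyl element on `E3` -/
def W0 (g : M → M) : Prop := g (up x1) = up x1 ∧ g (vec (f 4)) = up x2 ∧ g (up x2) = vec (-f 4)

/-- the data that determine the system -/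
structure Dat (F : FS) (t : Prop) (k : K) : Prop where
  sat : F.IsSaturated 3
  core : F.core = ⊥
  nm : Nm F
  h1 : y1 k ∈ X F
  h2 : y2 0 ∈ X F
  ht : Mor F ⊤ (τ s0) ↔ t

/-- the data in a finite group -/
structure RG {G : Type*} [Group G] (θ : M →* G) (t : Prop) (k : K) : Prop where
  inj : Function.Injective θ
  idx : ¬ 3 ∣ θ.range.index
  t2 : ∃ g, ∀ x, g * θ x * g⁻¹ = θ (τ s2 x)
  t3 : ∃ g, ∀ x, g * θ x * g⁻¹ = θ (τ s3 x)
  t0 : t → ∃ g, ∀ x, g * θ x * g⁻¹ = θ (τ s0 x)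
  nt0 : ¬ t → ∀ g, g * θ (vec (f 0)) * g⁻¹ ≠ θ (vec (-f 0))
  h1 : ∃ g, ∀ v, g * θ (vec v) * g⁻¹ = θ (vec (y1 k • v))
  h2 : ∃ g, ∀ v, g * θ (vec v) * g⁻¹ = θ (vec (y2 0 • v))
  out : ∃ g v x, x ∉ A ∧ g * θ (vec v) * g⁻¹ = θ x

end CfsgLib.Cf3
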