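import Mathlib
import Cfsg.Agent.Lib.Cf3.Defs

/-! Package BAS: the model (plans/CF3.md). -/

set_option autoImplicit false
set_option maxRecDepth 100000
set_option Elab.async false

namespace CfsgLib.Cf3

open Subgroup Matrix Cfsg CfsgLib.Fusion

theorem card_U : Nat.card U = 27 := by
  rw [Nat.card_eq_fintype_card]; decide +kernel

theorem card_V : Nat.card V = 729 := by
  rw [Nat.card_fun, Nat.card_zmod]; simp

theorem card_M : Nat.card M = 3 ^ 9 := by
  rw [Nat.card_congr (⟨fun x => (x.v, x.u), fun p => ⟨p.1, p.2⟩, fun _ => rfl, fun _ => rfl⟩ : M ≃ V × U),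
    Nat.card_prod, card_U, card_V]
  norm_num

theorem card_A : Nat.card A = 729 := by
  rw [← card_V]
  exact Nat.card_congr ⟨fun x => x.1.v, fun v => ⟨vec v, vec_mem_A v⟩, fun x => Subtype.ext (eq_vec x.2).symm,
    fun _ => rfl⟩

theorem pU : IsPGroup 3 U := IsPGroup.of_card (n := 3) (by rw [card_U]; norm_num)

theorem pM : IsPGroup 3 M := IsPGroup.of_card card_M

theorem pT : IsPGroup 3 (⊤ : Subgroup M) := pM.to_subgroup _

theorem ρ_inj : Function.Injective ρ := fun x y h => by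
  have e : ∀ i j, rhoM x i j = rhoM y i j := fun i j => congrArg (fun g : G6 => g.1 i j) h
  exact U.ext (e 0 1) (e 1 3) (e 0 3)

theorem U_cube (u : U) : u ^ 3 = 1 := by
  rw [pow_three]; revert u; decide +kernel

theorem mem_zpowers_U {u y : U} : u ∈ zpowers y ↔ u = 1 ∨ u = y ∨ u = y⁻¹ := by
  refine ⟨fun h => ?_, ?_⟩
  · obtain ⟨n, rfl⟩ := (Submonoid.mem_powers_iff _ _).1 (mem_powers_iff_mem_zpowers.2 h)
    have e : y ^ 2 = y⁻¹ := eq_inv_of_mul_eq_one_left (by rw [← U_cube y, pow_succ y 2])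
    rw [pow_eq_pow_mod n (U_cube y)]
    have : n % 3 = 0 ∨ n % 3 = 1 ∨ n % 3 = 2 := by omega
    rcases this with k | k | k <;> simp [k, e]
  · rintro (rfl | rfl | rfl)
    exacts [one_mem _, mem_zpowers _, inv_mem (mem_zpowers _)]

namespace Bas

theorem mem_of {Y : Subgroup U} (hz : z ∈ Y) {u w : U} (hu : u ∈ Y) (i : K) (h1 : w.a = i * u.a)
    (h2 : w.b = i * u.b) : w ∈ Y := by
  have k : ∀ u : U, ∀ i c : K, ∃ n : Fin 3, ⟨i * u.a, i * u.b, c⟩ = u ^ i.val * z ^ (n : ℕ) := by decide +kernel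
  obtain ⟨n, e⟩ := k u i w.c
  rw [show w = ⟨i * u.a, i * u.b, w.c⟩ from U.ext h1 h2 rfl, e]
  exact mul_mem (pow_mem hu _) (pow_mem hz _)

theorem top_of {Y : Subgroup U} {u v : U} (hu : u ∈ Y) (hv : v ∈ Y) (h : u.a * v.b ≠ u.b * v.a) : Y = ⊤ := by
  have k : ∀ u v : U, u.a * v.b ≠ u.b * v.a → z = u * v * u⁻¹ * v⁻¹ ∨ z = v * u * v⁻¹ * u⁻¹ := by decide +kernel
  have hz : z ∈ Y := by
    rcases k u v h with e | e <;> rw [e]
    exacts [mul_mem (mul_mem (mul_mem hu hv) (inv_mem hu)) (inv_mem hv),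
      mul_mem (mul_mem (mul_mem hv hu) (inv_mem hv)) (inv_mem hu)]
  have k2 : ∀ a b c d : K, a * d ≠ b * c → ∀ x y : K, ∃ i j : K, x = i * a + j * c ∧ y = i * b + j * d := by
    decide +kernel
  refine (eq_top_iff' _).2 fun w => ?_
  obtain ⟨i, j, e1, e2⟩ := k2 _ _ _ _ h w.a w.b
  exact mem_of hz (mul_mem (mem_of hz hu (w := ⟨i * u.a, i * u.b, 0⟩) i rfl rfl)
    (mem_of hz hv (w := ⟨j * v.a, j * v.b, 0⟩) j rfl rfl)) 1 (by rw [one_mul, e1]; rfl) (by rw [one_mul, e2]; rfl)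

theorem z_mem {Y : Subgroup U} {y u : U} (hy : y ∈ Y) (hu : u ∈ Y) (h1 : y ≠ 1) (h2 : u ∉ zpowers y)
    (h : y.a * u.b = y.b * u.a) : z ∈ Y := by
  have k : ∀ y u : U, y ≠ 1 → ¬ (u = 1 ∨ u = y ∨ u = y⁻¹) → y.a * u.b = y.b * u.a →
      ∃ m n : Fin 3, z = y ^ (m : ℕ) * u ^ (n : ℕ) := by decide +kernel
  obtain ⟨m, n, e⟩ := k y u h1 (mt mem_zpowers_U.2 h2) h
  exact e ▸ mul_mem (pow_mem hy _) (pow_mem hu _)

theorem tri (e : U) (b : V) (i : Fin 6) (h : ∀ j, i < j → b j = 0) : (ρ e • b) i = b i := by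
  rw [ρ_smul]
  fin_cases i
  · simp [h 1 (by decide), h 2 (by decide), h 3 (by decide), h 4 (by decide), h 5 (by decide)]
  · simp [h 2 (by decide), h 3 (by decide), h 4 (by decide), h 5 (by decide)]
  · simp [h 4 (by decide), h 5 (by decide)]
  · simp [h 4 (by decide), h 5 (by decide)]
  · simp [h 5 (by decide)]
  · simp

theorem fix_wZ : ∀ v : V, ρ x1 • v = v → ρ x2 • v = v → v ∈ wZ := by
  simp only [ρ_smul]; decide +kernel

theorem wZ_fix (u : U) {v : V} (h : v ∈ wZ) : ρ u • v = v :=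
  funext fun i => by
    by_cases e : i = 0
    · exact tri u v i fun j hj => h j (by subst e; revert j; decide)
    · exact tri u v i fun j hj => h j (by revert i j; decide)

theorem fix_card : ∀ u : U, u ≠ 1 → (Finset.univ.filter fun v : V => ρ u • v = v).card ≤ 27 := by
  simp only [ρ_smul]; decide +kernel

theorem w5_le {W : Submodule K V} (hW : ∀ e, ∀ w ∈ W, ρ e • w ∈ W) (h : f 4 ∈ W) : w5 ≤ W := fun v hv => by
  have h2 : f 2 ∈ W := (show ρ x2 • f 4 - f 4 = f 2 by decide +kernel) ▸ W.sub_mem (hW _ _ h) h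
  have h1 : f 1 ∈ W := (show ρ z • f 4 - f 4 = f 1 by decide +kernel) ▸ W.sub_mem (hW _ _ h) h
  have h3 : f 3 ∈ W := (show ρ x1 • f 4 - f 4 = f 3 by decide +kernel) ▸ W.sub_mem (hW _ _ h) h
  have h0 : f 0 ∈ W := (show ρ z • f 3 - f 3 = f 0 by decide +kernel) ▸ W.sub_mem (hW _ _ h3) h3
  have e : v = v 0 • f 0 + v 1 • f 1 + v 2 • f 2 + v 3 • f 3 + v 4 • f 4 := by
    have := hv 5 (by simp)
    ext i; fin_cases i <;> simp [f, this]
  rw [e]
  exact W.add_mem (W.add_mem (W.add_mem (W.add_mem (W.smul_mem _ h0) (W.smul_mem _ h1)) (W.smul_mem _ h2))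
    (W.smul_mem _ h3)) (W.smul_mem _ h)

theorem top_le {W : Submodule K V} (hW : ∀ e, ∀ w ∈ W, ρ e • w ∈ W) (h : f 5 ∈ W) (v : V) : v ∈ W := by
  have h1 := W.sub_mem (hW x2 _ h) h
  have h2 := W.sub_mem (hW x2 _ h1) h1
  have h4 : f 4 ∈ W := (show -(ρ x2 • f 5 - f 5 + (ρ x2 • (ρ x2 • f 5 - f 5) - (ρ x2 • f 5 - f 5))) = f 4 by
    decide +kernel) ▸ W.neg_mem (W.add_mem h1 h2)
  rw [← sub_add_cancel v (v 5 • f 5)]
  exact W.add_mem (w5_le hW h4 fun i hi => by simp at hi; simp [hi, f]) (W.smul_mem _ h)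

theorem up_mem {H : Subgroup M} (h1 : up x1 ∈ H) (h2 : up x2 ∈ H) (u : U) : up u ∈ H :=
  mem_comap.1 ((top_of (Y := H.comap up) h1 h2 (by decide)) ▸ mem_top u)

theorem inv_Wof {H : Subgroup M} (h : ∀ u, up u ∈ H) : ∀ e, ∀ w ∈ Wof H, ρ e • w ∈ Wof H := fun e w hw => by
  have := conj_vec (up e) w
  rw [mem_Wof, ← up_u e, ← this]
  exact mul_mem (mul_mem (h e) hw) (inv_mem (h e))

end Bas

open Bas

theorem sub_cases (Y : Subgroup U) :
    Y = ⊥ ∨ Y = ⊤ ∨ Y = Y2 ∨ (∃ t, Y = Ya t) ∨ ∃ y, y ≠ 1 ∧ Y = zpowers y := by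
  by_contra! ⟨h1, h2, h3, h4, h5⟩
  have k : ∀ u ∈ Y, ∀ v ∈ Y, u.a * v.b = u.b * v.a := fun u hu v hv => by_contra fun e => h2 (top_of hu hv e)
  have k1 : ∀ y ∈ Y, y ≠ 1 → ∃ u ∈ Y, u ∉ zpowers y := fun y hy e => by_contra fun n =>
    h5 y e (le_antisymm (fun u hu => by_contra fun m => n ⟨u, hu, m⟩) (zpowers_le.2 hy))
  obtain ⟨⟨y, hy⟩, e⟩ := ne_bot_iff_exists_ne_one.1 h1
  have e' : y ≠ 1 := fun n => e (Subtype.ext n)
  obtain ⟨u, hu, n⟩ := k1 y hy e'
  have hz := z_mem hy hu e' n (k _ hy _ hu)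
  obtain ⟨w, hw, m⟩ := k1 z hz (by decide)
  rw [mem_zpowers_U] at m
  by_cases c : w.a = 0
  · have c2 : w.b ≠ 0 := by clear * - c m; revert w; decide +kernel
    refine h3 (le_antisymm (fun v hv => ?_) fun v hv => mem_of hz hw (v.b * w.b) ?_ ?_)
    · have := k _ hw _ hv
      rw [c, zero_mul] at this
      exact (mul_eq_zero.1 this.symm).resolve_left c2
    · rw [c, mul_zero]; exact hv
    · generalize w.b = p, v.b = q at c2 ⊢; revert p q; decide
  · refine h4 (w.b * w.a) (le_antisymm (fun v hv => ?_) fun v hv => mem_of hz hw (v.a * w.a) ?_ ?_)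
    · have := k _ hw _ hv
      rw [mem_Ya]
      generalize w.a = p, w.b = q, v.a = r, v.b = s at c this ⊢; revert p q r s; decide
    · generalize w.a = p, v.a = q at c ⊢; revert p q; decide
    · rw [mem_Ya.1 hv]; ring

theorem card_Y2 : Nat.card Y2 = 9 :=
  (Nat.subtype_card (Finset.univ.filter fun u : U => u.a = 0) (by simp [mem_Y2])).trans (by decide +kernel)

theorem card_Ya (t : K) : Nat.card (Ya t) = 9 :=
  (Nat.subtype_card (Finset.univ.filter fun u : U => u.b = t * u.a) (by simp [mem_Ya])).trans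
    (by revert t; decide +kernel)

theorem card_zpowers_U {y : U} (h : y ≠ 1) : Nat.card (zpowers y) = 3 := by
  rw [Nat.card_zpowers, orderOf_eq_prime (U_cube y) h]

theorem eq_top_of_Y2_lt {Y : Subgroup U} (h : Y2 ≤ Y) : Y = Y2 ∨ Y = ⊤ :=
  (em (Y ≤ Y2)).imp (fun e => le_antisymm e h) fun e => by
    obtain ⟨u, hu, n⟩ := SetLike.not_le_iff_exists.1 e
    exact top_of hu (h (show x2 ∈ Y2 from rfl)) (by simpa [x2, mem_Y2] using n)

theorem eq_top_of_Ya_lt {t : K} {Y : Subgroup U} (h : Ya t ≤ Y) : Y = Ya t ∨ Y = ⊤ :=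
  (em (Y ≤ Ya t)).imp (fun e => le_antisymm e h) fun e => by
    obtain ⟨u, hu, n⟩ := SetLike.not_le_iff_exists.1 e
    exact top_of (h (show (⟨1, t, 0⟩ : U) ∈ Ya t from (mul_one t).symm)) hu (by simpa [mem_Ya] using n)

theorem card_co (L : List (Fin 6)) (h : L.Nodup) : Nat.card (co L) = 3 ^ (6 - L.length) := by
  rw [Nat.card_congr (⟨fun v i => v.1 i.1, fun w => ⟨fun i => if h : i ∈ L then 0 else w ⟨i, h⟩,
    fun i hi => dif_pos hi⟩, fun v => Subtype.ext (funext fun i => by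
      by_cases e : i ∈ L
      · simp [e, v.2 i e]
      · simp [e]), fun w => funext fun i => dif_neg i.2⟩ : co L ≃ ({i // i ∉ L} → K)), Nat.card_fun, Nat.card_zmod,
    Nat.card_eq_fintype_card, Fintype.card_subtype_compl, Fintype.card_fin,
    Fintype.card_of_subtype L.toFinset (fun _ => List.mem_toFinset), List.toFinset_card_of_nodup h]

theorem eq_A_of_comm {P : Subgroup M} (hc : ∀ x ∈ P, ∀ y ∈ P, x * y = y * x) (h : 729 ≤ Nat.card P) : P = A := by
  refine eq_of_le_of_card_ge (fun x hx => by_contra fun n => ?_) (card_A ▸ h)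
  have e1 := card_eq_card_quotient_mul_card_subgroup (π.comp P.subtype).ker
  rw [Nat.card_congr (QuotientGroup.quotientKerEquivRange _).toEquiv] at e1
  have e2 : Nat.card (π.comp P.subtype).range ≤ 9 := by
    rcases sub_cases (π.comp P.subtype).range with e | e | e | ⟨t, e⟩ | ⟨y, hy, e⟩
    · rw [e, card_bot]; norm_num
    · obtain ⟨a, ha⟩ : x1 ∈ (π.comp P.subtype).range := e ▸ mem_top _
      obtain ⟨b, hb⟩ : x2 ∈ (π.comp P.subtype).range := e ▸ mem_top _
      have := congrArg M.u (hc _ a.2 _ b.2)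
      rw [M.mul_u, M.mul_u, show a.1.u = x1 from ha, show b.1.u = x2 from hb] at this
      exact absurd this (by decide)
    · rw [e, card_Y2]
    · rw [e, card_Ya]
    · rw [e, card_zpowers_U hy]; norm_num
  have e3 : Nat.card (π.comp P.subtype).ker ≤ 27 := by
    refine le_trans ?_ (fix_card x.u (mt mem_A.2 n))
    rw [← Nat.subtype_card (p := fun v : V => ρ x.u • v = v) _ (by simp)]
    refine Nat.card_le_card_of_injective (fun y => ⟨y.1.1.v, ?_⟩) fun y y' e => ?_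
    · have hy : y.1.1 = vec y.1.1.v := eq_vec (mem_A.2 y.2)
      rw [← vec_inj, ← conj_vec, ← hy, hc _ hx _ y.1.2, mul_inv_cancel_right]
    · exact Subtype.ext (Subtype.ext (M.ext (congrArg Subtype.val e) (y.2.trans y'.2.symm)))
  have := Nat.mul_le_mul e2 e3
  omega

theorem mem_A_of_comm {x : M} (h : ∀ y ∈ A, y * x = x * y) : x ∈ A := by
  have k : ∀ v, ρ x.u • v = v := fun v => by
    rw [← vec_inj, ← conj_vec, ← h _ (vec_mem_A v), mul_inv_cancel_right]
  have e : ∀ u : U, ρ u • f 1 = f 1 → ρ u • f 3 = f 3 → u = 1 := by decide +kernel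
  exact mem_A.2 (e _ (k _) (k _))

theorem eq_AY {E : Subgroup M} (h : A ≤ E) : E = AY (E.map π) :=
  (comap_map_eq_self (f := π) fun _ hx => h (mem_A.2 hx)).symm

theorem mem_center_M {x : M} : x ∈ center M ↔ x ∈ vg wZ := by
  rw [mem_center_iff]
  refine ⟨fun h => ?_, fun h g => ?_⟩
  · have h1 := mem_A_of_comm fun y _ => h y
    have k : ∀ u, ρ u • x.v = x.v := fun u => by
      rw [← vec_inj, ← up_u u, ← conj_vec, ← eq_vec h1, h, mul_inv_cancel_right]
    exact ⟨mem_A.1 h1, fix_wZ _ (k _) (k _)⟩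
  · rw [eq_vec (mem_A.2 h.1), ← mul_inv_eq_iff_eq_mul, conj_vec, wZ_fix _ h.2]

theorem exists_fix_mod {Y : Subgroup U} {W W' : Submodule K V} (hW : ∀ e ∈ Y, ∀ w ∈ W, ρ e • w ∈ W)
    (hW' : ∀ e ∈ Y, ∀ w ∈ W', ρ e • w ∈ W') (h : ¬ W' ≤ W) : ∃ b ∈ W', b ∉ W ∧ ∀ e ∈ Y, ρ e • b - b ∈ W := by
  by_contra n
  have k : ∀ m : ℕ, ∀ b ∈ W', (∀ i : Fin 6, m ≤ i.1 → b i = 0) → b ∈ W := fun m => by
    induction m with
    | zero => exact fun b _ e => (show b = 0 from funext fun i => e i (Nat.zero_le _)) ▸ W.zero_mem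
    | succ m ih =>
      exact fun b hb e => by_contra fun c => n ⟨b, hb, c, fun y hy => ih _ (W'.sub_mem (hW' y hy b hb) hb)
        fun i hi => sub_eq_zero.2 (tri y b i fun j hj => e j (lt_of_le_of_lt hi hj))⟩
  exact h fun b hb => k 6 b hb fun i hi => absurd i.2 (not_lt.2 hi)

theorem f0_mem {W : Submodule K V} (hW : ∀ e, ∀ w ∈ W, ρ e • w ∈ W) (h : W ≠ ⊥) : f 0 ∈ W := by
  obtain ⟨b, h1, h2, h3⟩ := exists_fix_mod (Y := ⊤) (W := ⊥) (W' := W)
    (fun e _ w hw => by rw [(Submodule.mem_bot K).1 hw, smul_zero]; exact Submodule.zero_mem _)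
    (fun e _ => hW e) (mt le_bot_iff.1 h)
  have h4 : ∀ e, ρ e • b = b := fun e => sub_eq_zero.1 ((Submodule.mem_bot K).1 (h3 e (mem_top e)))
  have k : ∀ b : V, b ∈ wZ → b ≠ 0 → f 0 = b 0 • b := by decide +kernel
  rw [k b (fix_wZ b (h4 _) (h4 _)) (mt (Submodule.mem_bot K).2 h2)]
  exact W.smul_mem _ h1

theorem normal_eq_bot (N : Subgroup M) [N.Normal] (h : vec (f 0) ∉ N) : N = ⊥ := by
  have h1 : Wof N = ⊥ := by_contra fun e => h (f0_mem (W := Wof N) (fun u w hw => by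
    rw [mem_Wof, ← up_u u, ← conj_vec]; exact Normal.conj_mem inferInstance _ hw _) e)
  have h2 : ∀ v, vec v ∈ N → v = 0 := fun v hv => (Submodule.mem_bot K).1 (h1 ▸ mem_Wof.2 hv)
  refine (eq_bot_iff_forall _).2 fun x hx => ?_
  have h3 : x ∈ A := mem_A_of_comm fun y hy => by
    have e : x * y * x⁻¹ * y⁻¹ = vec (ρ x.u • y.v - y.v) := by
      rw [sub_eq_add_neg, vec_add, vec_neg, ← conj_vec, ← eq_vec hy]
    have := h2 _ (e ▸ (show x * y * x⁻¹ * y⁻¹ ∈ N by
      rw [mul_assoc, mul_assoc, ← mul_assoc y]; exact mul_mem hx (Normal.conj_mem inferInstance _ (inv_mem hx) _)))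
    rw [this, vec_zero, mul_inv_eq_one, mul_inv_eq_iff_eq_mul] at e
    exact e.symm
  rw [eq_vec h3, h2 x.v (eq_vec h3 ▸ hx), vec_zero]

theorem closure_gen : closure {up x1, up x2, vec (f 5)} = ⊤ := by
  have h := up_mem (H := closure {up x1, up x2, vec (f 5)}) (subset_closure (by simp)) (subset_closure (by simp))
  refine (eq_top_iff' _).2 fun x => ?_
  rw [← vec_mul_up x]
  exact mul_mem (top_le (inv_Wof h) (mem_Wof.2 (subset_closure (by simp))) x.v) (h _)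

theorem closure_E3 : closure {up x1, up x2, vec (f 4)} = E3 := by
  have h := up_mem (H := closure {up x1, up x2, vec (f 4)}) (subset_closure (by simp)) (subset_closure (by simp))
  refine le_antisymm ((closure_le _).2 ?_) fun x hx => ?_
  · rintro _ (rfl | rfl | rfl) <;> exact mem_E3.2 rfl
  · rw [← vec_mul_up x]
    exact mul_mem (w5_le (inv_Wof h) (mem_Wof.2 (subset_closure (by simp))) fun i hi => by
      rw [List.mem_singleton.1 hi]; exact hx) (h _)

end CfsgLib.Cf3
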