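import Mathlib
import Cfsg.Agent.Lib.Cf3.Bas

/-! Package B1: a pair of abelian normal subgroups (plans/CF3.md). -/

set_option autoImplicit false
set_option maxRecDepth 100000

namespace CfsgLib.Cf3

open Subgroup Matrix Cfsg CfsgLib.Fusion

variable {E : Subgroup M} {Γ N : Subgroup (MulAut E)} {φ : MulAut E}

namespace B1

section gen

variable {Ω : Type*} [Group Ω] {E X P Q A0 A1 c l : Subgroup Ω} {f : Ω → Ω}

/-- the elements of `E ∩ N(X)` which `f` moves inside their coset -/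
def T (hf : IsHomOn E f) (X : Subgroup Ω) : Subgroup Ω where
  carrier := {y | y ∈ E ∧ y ∈ normalizer (X : Set Ω) ∧ y⁻¹ * f y ∈ X}
  one_mem' := ⟨one_mem _, one_mem _, by rw [hf.map_one, mul_one]; exact inv_mem (one_mem _)⟩
  mul_mem' := fun {x y} hx hy => ⟨mul_mem hx.1 hy.1, mul_mem hx.2.1 hy.2.1, by
    have := mul_mem ((mem_normalizer_iff.1 (inv_mem hy.2.1) _).1 hx.2.2) hy.2.2
    rw [hf.map_mul hx.1 hy.1]
    convert this using 1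
    group⟩
  inv_mem' := fun {x} hx => ⟨inv_mem hx.1, inv_mem hx.2.1, by
    have := (mem_normalizer_iff.1 hx.2.1 _).1 (inv_mem hx.2.2)
    rw [hf.map_inv hx.1]
    convert this using 1
    group⟩

theorem fix {x : Ω} (h : f x = x) : x⁻¹ * f x ∈ X := by
  rw [h, inv_mul_cancel]
  exact one_mem _

/-- two abelian normal subgroups -/
structure Pr (E A0 A1 : Subgroup Ω) : Prop where
  l0 : A0 ≤ E
  l1 : A1 ≤ E
  n0 : ∀ e ∈ E, ∀ x ∈ A0, e * x * e⁻¹ ∈ A0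
  n1 : ∀ e ∈ E, ∀ x ∈ A1, e * x * e⁻¹ ∈ A1
  c0 : ∀ x ∈ A0, ∀ y ∈ A0, x * y = y * x
  c1 : ∀ x ∈ A1, ∀ y ∈ A1, x * y = y * x

theorem Pr.nrm (h : Pr E A0 A1) (h1 : A0 ⊓ A1 ≤ X) (h2 : X ≤ A1 ⊔ A0) :
    A0 ≤ normalizer (X : Set Ω) ∧ A1 ≤ normalizer (X : Set Ω) := by
  have nI : E ≤ normalizer ((A0 ⊓ A1 : Subgroup Ω) : Set Ω) :=
    le_normalizer_of_conj_mem fun e he x hx => ⟨h.n0 e he x hx.1, h.n1 e he x hx.2⟩
  have cm : ∀ {P : Subgroup Ω} {a y}, a ∈ P → y⁻¹ * a * y⁻¹⁻¹ ∈ P → y⁻¹ * (a * y * a⁻¹) ∈ P := fun ha k => by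
    convert mul_mem k (inv_mem ha) using 1
    group
  have k : ∀ {P : Subgroup Ω}, (∀ a ∈ P, ∀ y, (y ∈ A1 ∨ y ∈ A0) → y⁻¹ * (a * y * a⁻¹) ∈ A0 ⊓ A1) →
      P ≤ normalizer (X : Set Ω) := fun k => le_normalizer_of_conj_mem fun a ha x hx => by
    have := mul_mem hx (h1 ((sup_le (c := T (isHomOn_conj E a) (A0 ⊓ A1))
      (fun y hy => ⟨h.l1 hy, nI (h.l1 hy), k a ha y (.inl hy)⟩)
      (fun y hy => ⟨h.l0 hy, nI (h.l0 hy), k a ha y (.inr hy)⟩) (h2 hx)).2.2))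
    rwa [mul_inv_cancel_left] at this
  refine ⟨k fun a ha y hy => hy.elim (fun hy => ⟨cm ha (h.n0 _ (inv_mem (h.l1 hy)) a ha),
    A1.mul_mem (inv_mem hy) (h.n1 a (h.l0 ha) y hy)⟩) fun hy => ?_, k fun a ha y hy => hy.elim (fun hy => ?_) fun hy =>
      ⟨A0.mul_mem (inv_mem hy) (h.n0 a (h.l1 ha) y hy), cm ha (h.n1 _ (inv_mem (h.l0 hy)) a ha)⟩⟩
  · rw [h.c0 a ha y hy, mul_inv_cancel_right, inv_mul_cancel]
    exact one_mem _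
  · rw [h.c1 a ha y hy, mul_inv_cancel_right, inv_mul_cancel]
    exact one_mem _

theorem Pr.mid (h : Pr E A0 A1) (hf : IsHomOn E f) (h1 : A0 ⊓ A1 ≤ X) (h2 : X ≤ A1 ⊔ A0) (hP : P ≤ A1) (hQ : Q ≤ A0)
    (sP : ∀ y ∈ P, y⁻¹ * f y ∈ X) (sQ : ∀ y ∈ Q, y⁻¹ * f y ∈ X) {y : Ω} (hy : y ∈ P ⊔ Q) : y⁻¹ * f y ∈ X :=
  (sup_le (c := T hf X) (fun y hy => ⟨h.l1 (hP hy), (h.nrm h1 h2).2 (hP hy), sP y hy⟩)
    (fun y hy => ⟨h.l0 (hQ hy), (h.nrm h1 h2).1 (hQ hy), sQ y hy⟩) hy).2.2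

theorem chain [Finite Ω] {p : ℕ} [Fact p.Prime] (hE : IsPGroup p E) (K : ℕ → Subgroup Ω) (n : ℕ) (h0 : K 0 = ⊥)
    (hn : K n = ⊤) (hm : ∀ i, K i ≤ K (i + 1)) : ∃ R : Subgroup (MulAut E), IsPGroup p R ∧
      ∀ α, (∀ i, ∀ x ∈ E, x ∈ K (i + 1) → x⁻¹ * extAut α x ∈ K i) → α ∈ R := by
  refine ⟨_, isPGroup_chainStab hE (⨅ i, autStab ((K i).subgroupOf E)) K n (fun α hα i x hx k => ?_)
    (fun x _ k => mem_bot.1 (h0 ▸ k)) (hn ▸ le_top), fun α hα => ⟨mem_iInf.2 fun i =>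
      mem_autStab_of_finite fun x hx => ?_, fun i _ => hα i⟩⟩
  · rw [extAut_apply α hx]
    exact (mem_iInf.1 hα i ⟨x, hx⟩).2 k
  rw [mem_subgroupOf, coe_eq_extAut]
  cases i with
  | zero =>
    rw [mem_bot.1 (h0 ▸ hx : (x : Ω) ∈ ⊥), (isHomOn_extAut α).map_one]
    exact one_mem _
  | succ i => simpa using mul_mem (show (x : Ω) ∈ K (i + 1) from hx) (hm i (hα i x x.2 hx))

theorem Pr.pair [Finite Ω] {p : ℕ} [Fact p.Prime] (h : Pr E A0 A1) (hE : IsPGroup p E) {α β : MulAut E}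
    (a1 : ∀ x ∈ A0, extAut α x = x) (a2 : ∀ x ∈ E, x⁻¹ * extAut α x ∈ A0) (b1 : ∀ x ∈ A1, extAut β x = x)
    (b2 : ∀ x ∈ E, x⁻¹ * extAut β x ∈ A1) (c1 : A0 ⊓ A1 ≤ c) (c2 : c ≤ A0) (l1 : A0 ⊓ A1 ≤ l) (l2 : l ≤ A1)
    (h1 : ∀ x ∈ A1, x⁻¹ * extAut α x ∈ c) (h2 : ∀ x ∈ l, x⁻¹ * extAut α x ∈ A0 ⊓ A1)
    (h3 : ∀ x ∈ c, x⁻¹ * extAut β x ∈ l) : ∃ R : Subgroup (MulAut E), IsPGroup p R ∧ α ∈ R ∧ β ∈ R := by
  obtain ⟨R, hR, k⟩ := chain hE (fun i => match i with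
    | 0 => ⊥ | 1 => A0 ⊓ A1 | 2 => l | 3 => l ⊔ c | 4 => A1 ⊔ c | 5 => A1 ⊔ A0 | _ + 6 => ⊤) 6 rfl rfl fun i =>
    match i with
    | 0 => bot_le | 1 => l1 | 2 => le_sup_left | 3 => sup_le_sup_right l2 c | 4 => sup_le_sup_left c2 A1
    | 5 => le_top | _ + 6 => le_top
  have m2 : l ≤ A1 ⊔ A0 := l2.trans le_sup_left
  have m3 : l ⊔ c ≤ A1 ⊔ A0 := sup_le_sup l2 c2
  have m4 : A1 ⊔ c ≤ A1 ⊔ A0 := sup_le_sup_left c2 A1
  have ha := isHomOn_extAut α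
  have hb := isHomOn_extAut β
  exact ⟨R, hR, k α fun i => match i with
    | 0 => fun x _ k => fix (a1 x k.1)
    | 1 => fun x _ k => h2 x k
    | 2 => fun x _ k => h.mid ha l1 m2 l2 c2 (fun y k => l1 (h2 y k)) (fun y k => fix (a1 y (c2 k))) k
    | 3 => fun x _ k => h.mid ha (l1.trans le_sup_left) m3 le_rfl c2 (fun y k => mem_sup_right (h1 y k))
      (fun y k => fix (a1 y (c2 k))) k
    | 4 => fun x _ k => h.mid ha (c1.trans le_sup_right) m4 le_rfl le_rfl (fun y k => mem_sup_right (h1 y k))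
      (fun y k => fix (a1 y k)) k
    | 5 => fun x k _ => mem_sup_right (a2 x k)
    | _ + 6 => fun _ _ _ => trivial, k β fun i => match i with
    | 0 => fun x _ k => fix (b1 x k.2)
    | 1 => fun x _ k => fix (b1 x (l2 k))
    | 2 => fun x _ k => h.mid hb l1 m2 l2 c2 (fun y k => fix (b1 y (l2 k))) h3 k
    | 3 => fun x _ k => h.mid hb (l1.trans le_sup_left) m3 le_rfl c2 (fun y k => fix (b1 y k))
      (fun y k => mem_sup_left (h3 y k)) k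
    | 4 => fun x _ k => h.mid hb (c1.trans le_sup_right) m4 le_rfl le_rfl (fun y k => fix (b1 y k))
      (fun y k => mem_sup_left (b2 y (h.l0 k))) k
    | 5 => fun x k _ => mem_sup_left (b2 x k)
    | _ + 6 => fun _ _ _ => trivial⟩

end gen

theorem comm_vec (x : M) (b : V) : x⁻¹ * (vec b * x * (vec b)⁻¹) = vec (ρ x.u⁻¹ • b - b) := by
  rw [sub_eq_add_neg, vec_add, vec_neg, ← M.inv_u, ← conj_vec]
  group

theorem A_comm {x y : M} (hx : x ∈ A) (hy : y ∈ A) : x * y = y * x := by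
  rw [eq_vec hx, eq_vec hy, ← vec_add, ← vec_add, add_comm]

theorem A_norm (e : M) {x : M} (hx : x ∈ A) : e * x * e⁻¹ ∈ A := by
  rw [eq_vec hx, conj_vec]
  exact vec_mem_A _

theorem vec_nsmul (k : ℕ) (v : V) : vec (k • v) = vec v ^ k := by
  induction k with
  | zero => rw [zero_smul, pow_zero, vec_zero]
  | succ k ih => rw [succ_nsmul, vec_add, ih, pow_succ]

theorem U_z : (∀ y : U, y ≠ 1 → y = z ∨ y⁻¹ = z ∨ ∃ e, e * y * e⁻¹ * y⁻¹ = z) ∧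
    (∀ u : U, x1 * u * x1⁻¹ = u → x2 * u * x2⁻¹ = u → u = 1 ∨ u = z ∨ u = z⁻¹) ∧
    ∀ u e : U, u⁻¹ * (e * u * e⁻¹) = 1 ∨ u⁻¹ * (e * u * e⁻¹) = z ∨ u⁻¹ * (e * u * e⁻¹) = z⁻¹ := by
  decide +kernel

end B1

open B1

theorem mem_A1 {x : M} : x ∈ A1 φ ↔ ∃ y, y ∈ A ∧ y ∈ E ∧ extAut φ y = x :=  ((isHomOn_extAut φ).mono inf_le_right).mem_img.trans ⟨fun ⟨y, k, e⟩ => ⟨y, k.1, k.2, e⟩,
    fun ⟨y, k, k', e⟩ => ⟨y, ⟨k, k'⟩, e⟩⟩

theorem A1_le : A1 φ ≤ E := fun x hx => by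
  obtain ⟨y, -, k, rfl⟩ := mem_A1.1 hx
  exact extAut_mem φ k

theorem A1_comm {x y : M} (hx : x ∈ A1 φ) (hy : y ∈ A1 φ) : x * y = y * x := by
  obtain ⟨x, k1, k2, rfl⟩ := mem_A1.1 hx
  obtain ⟨y, k3, k4, rfl⟩ := mem_A1.1 hy
  rw [← (isHomOn_extAut φ).map_mul k2 k4, A_comm k1 k3, (isHomOn_extAut φ).map_mul k4 k2]

theorem A1_norm {e x : M} (he : e ∈ E) (hx : x ∈ A1 φ) : e * x * e⁻¹ ∈ A1 φ := by
  obtain ⟨x, k1, k2, rfl⟩ := mem_A1.1 hx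
  have k := extAut_mem φ⁻¹ he
  exact mem_A1.2 ⟨_, A_norm (extAut φ⁻¹ e) k1, mul_mem (mul_mem k k2) (inv_mem k), by
    rw [(isHomOn_extAut φ).map_conj k k2, extAut_apply_inv]⟩

theorem card_A1 : Nat.card (A1 φ) = Nat.card (Wof E) :=  (((isHomOn_extAut φ).mono inf_le_right).card_img (injOn_extAut φ _)).trans (Nat.card_congr
    ⟨fun x => ⟨x.1.v, mem_Wof.2 (eq_vec x.2.1 ▸ x.2.2)⟩, fun v => ⟨vec v, vec_mem_A _, v.2⟩,
      fun x => Subtype.ext (eq_vec x.2.1).symm, fun _ => rfl⟩)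

theorem vec_mem_normalizer {b : V} : vec b ∈ normalizer (E : Set M) ↔ InB (E.map π) (Wof E) b := by
  refine ⟨?_, fun h => mem_normalizer_fintype fun x hx => ?_⟩
  · rintro h _ ⟨x, hx, rfl⟩
    have := mul_mem (inv_mem (inv_mem hx)) ((mem_normalizer_iff.1 h _).1 (inv_mem hx))
    rwa [comm_vec, M.inv_u, inv_inv] at this
  · have := mul_mem hx (mem_Wof.1 (h _ (inv_mem (mem_map_of_mem π hx))))
    rwa [π_apply, ← comm_vec, mul_inv_cancel_left] at this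

theorem EA.b1_inn (h : EA E Γ N) {n : M} (hn : n ∈ normalizer (E : Set M)) (hE : n ∉ E) : conjAut E n hn ∉ Inn E :=
  fun k => hE (mem_of_conjAut_mem_Inn (S := ⊤) (fun x hx => h.cen x (mem_centralizerIn'.1 hx).2) le_top trivial hn k)

theorem EA.far (h : EA E Γ N) (hφ : φ ∈ Γ) (hN : φ ∉ N) {n : M} (hn : n ∈ normalizer (E : Set M)) (hE : n ∉ E) :
    φ⁻¹ * conjAut E n hn * φ ∈ Γ ∧ φ⁻¹ * conjAut E n hn * φ ∉ N := by
  have k := conjAut_mem_autInducedBy (K := ⊤) hn trivial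
  exact ⟨mul_mem (mul_mem (inv_mem hφ) (h.ess.U_le_A k)) hφ, by
    simpa using h.ess.conj_notMem (inv_mem hφ) (fun m => hN (inv_mem_iff.1 m)) k (h.b1_inn hn hE)⟩

theorem b1_pr : Pr E (A ⊓ E) (A1 φ) :=
  ⟨inf_le_right, A1_le, fun e he _ hx => ⟨A_norm e hx.1, E.mul_mem (mul_mem he hx.2) (inv_mem he)⟩,
    fun _ he _ => A1_norm he, fun _ hx _ hy => A_comm hx.1 hy.1, fun _ hx _ => A1_comm hx⟩

/-- the commutator of `x` with the conjugate by `φ` of the automorphism induced by `b` -/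
noncomputable def b1F (φ : MulAut E) (x : M) (b : V) : M := extAut φ (vec (ρ (extAut φ⁻¹ x).u⁻¹ • b - b))

theorem b1_D {b : V} (hb : InB (E.map π) (Wof E) b) {x : M} (hx : x ∈ E) : vec (ρ x.u⁻¹ • b - b) ∈ E :=
  hb _ (inv_mem (mem_map_of_mem π hx))

theorem b1F_mem {b : V} (hb : InB (E.map π) (Wof E) b) {x : M} (hx : x ∈ E) : b1F φ x b ∈ A1 φ :=
  mem_A1.2 ⟨_, vec_mem_A _, b1_D hb (extAut_mem _ hx), rfl⟩

theorem b1F_eq {b : V} (hb : vec b ∈ normalizer (E : Set M)) {x : M} (hx : x ∈ E) :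
    x⁻¹ * extAut (φ * conjAut E _ hb * φ⁻¹) x = b1F φ x b := by
  have k := extAut_mem φ⁻¹ hx
  rw [extAut_mul_apply, extAut_mul_apply, extAut_conjAut hb k, b1F, ← comm_vec, (isHomOn_extAut φ).map_mul (inv_mem k)
    ((mem_normalizer_iff.1 hb _).1 k), (isHomOn_extAut φ).map_inv k, extAut_apply_inv]

theorem EA.b1_pair (h : EA E Γ N) (hφ : φ ∈ Γ) (hN : φ ∉ N) {b b' : V} (hb : InB (E.map π) (Wof E) b)
    (nb : b ∉ Wof E) (hb' : InB (E.map π) (Wof E) b') (nb' : b' ∉ Wof E) {l : Subgroup M} {c : M} (c1 : c ∈ A ⊓ E)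
    (l1 : (A ⊓ E) ⊓ A1 φ ≤ l) (l2 : l ≤ A1 φ) (h2 : ∀ x ∈ l, vec (ρ x.u⁻¹ • b - b) ∈ A1 φ) {a : M}
    (ha : l ⊔ zpowers a = A1 φ) (hc : c = vec (ρ a.u⁻¹ • b - b)) : b1F φ c b' ∉ l := fun h3 => by
  have n1 := vec_mem_normalizer.2 hb
  have n2 := vec_mem_normalizer.2 hb'
  have e1 : ∀ x ∈ E, x⁻¹ * extAut (conjAut E _ n1) x = vec (ρ x.u⁻¹ • b - b) := fun x hx => by
    rw [extAut_conjAut n1 hx, comm_vec]
  have aA : a ∈ A1 φ := ha ▸ mem_sup_right (mem_zpowers a)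
  have c2 : (A ⊓ E) ⊓ A1 φ ⊔ zpowers c ≤ A ⊓ E := sup_le inf_le_left (zpowers_le.2 c1)
  have h2' : ∀ x ∈ l, x⁻¹ * extAut (conjAut E _ n1) x ∈ (A ⊓ E) ⊓ A1 φ := fun x hx => by
    rw [e1 x (A1_le (l2 hx))]
    exact ⟨⟨vec_mem_A _, b1_D hb (A1_le (l2 hx))⟩, h2 x hx⟩
  have b1 : ∀ x ∈ A1 φ, extAut (φ * conjAut E _ n2 * φ⁻¹) x = x := fun x hx => by
    obtain ⟨y, k1, k2, rfl⟩ := mem_A1.1 hx
    rw [extAut_mul_apply, extAut_mul_apply, extAut_inv_apply, extAut_conjAut n2 k2, A_comm (vec_mem_A _) k1,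
      mul_inv_cancel_right]
  have nc := (b1_pr.nrm le_sup_left (c2.trans le_sup_right : _ ≤ A1 φ ⊔ A ⊓ E)).2
  have nl := (b1_pr.nrm l1 (l2.trans le_sup_left)).1
  obtain ⟨R, hR, m1, m2⟩ := b1_pr.pair (pM.to_subgroup E) (α := conjAut E _ n1) (β := φ * conjAut E _ n2 * φ⁻¹)
    (fun x hx => by rw [extAut_conjAut n1 hx.2, A_comm (vec_mem_A _) hx.1, mul_inv_cancel_right])
    (fun x hx => by rw [e1 x hx]; exact ⟨vec_mem_A _, b1_D hb hx⟩) b1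
    (fun x hx => by rw [b1F_eq n2 hx]; exact b1F_mem hb' hx) le_sup_left c2 l1 l2
    (fun x hx => (sup_le (c := T (isHomOn_extAut _) _)
      (fun y hy => ⟨A1_le (l2 hy), nc (l2 hy), mem_sup_left (h2' y hy)⟩) (zpowers_le.2 ⟨A1_le aA, nc aA, by
        rw [e1 a (A1_le aA), ← hc]
        exact mem_sup_right (mem_zpowers c)⟩) (ha.ge hx)).2.2) h2'
    fun x hx => (sup_le (c := T (isHomOn_extAut _) _) (fun y hy => ⟨hy.1.2, nl hy.1, fix (b1 y hy.2)⟩)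
      (zpowers_le.2 ⟨c1.2, nl c1, by rwa [b1F_eq n2 c1.2]⟩) hx).2.2
  have k1 := conjAut_mem_autInducedBy (K := ⊤) n1 trivial
  have k2 := conjAut_mem_autInducedBy (K := ⊤) n2 trivial
  exact h.ess.conj_notMem hφ hN k2 (h.b1_inn n2 nb') (h.ess.le_of_isPGroup (hR.to_inf_left (K := Γ)) inf_le_right
    ⟨m1, h.ess.U_le_A k1⟩ (h.ess.U_le k1) (h.b1_inn n1 nb)
    ⟨m2, Γ.mul_mem (mul_mem hφ (h.ess.U_le_A k2)) (inv_mem hφ)⟩)

theorem EA.r0 (h : EA E Γ N) (hφ : φ ∈ Γ) (hN : φ ∉ N) {b : V} (hb : InB (E.map π) (Wof E) b) (hb' : b ∉ Wof E) :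
    ∃ y ∈ (A1 φ).map π, ρ y • b - b ∉ Wof (A1 φ) := by
  by_contra k
  push Not at k
  exact h.b1_pair hφ hN hb hb' hb hb' (one_mem _) inf_le_right le_rfl
    (fun x hx => k _ (inv_mem (mem_map_of_mem π hx))) (a := 1) (by simp) (by simp [vec_zero]) (b1F_mem hb (one_mem _))

theorem b1_inv {e : U} (he : e ∈ E.map π) {w : V} (hw : w ∈ Wof (A1 φ)) : ρ e • w ∈ Wof (A1 φ) := by
  obtain ⟨e, he, rfl⟩ := he
  rw [mem_Wof, π_apply, ← conj_vec]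
  exact A1_norm he hw

theorem b1_sub {y : U} (hy : y ∈ (A1 φ).map π) {w : V} (hw : w ∈ Wof E) : ρ y • w - w ∈ Wof (A1 φ) := by
  obtain ⟨a, ha, rfl⟩ := hy
  have := mul_mem (inv_mem (inv_mem ha)) (A1_norm hw (inv_mem ha))
  rwa [comm_vec, M.inv_u, inv_inv] at this

/-- the elements of `π A1` that centralise `b` modulo `I` -/
def b1L (φ : MulAut E) (b : V) : Subgroup U where
  carrier := {u | u ∈ (A1 φ).map π ∧ ρ u • b - b ∈ Wof (A1 φ)}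
  one_mem' := ⟨one_mem _, by simp⟩
  mul_mem' := fun {x y} hx hy => ⟨mul_mem hx.1 hy.1, by
    convert add_mem (b1_inv (map_mono A1_le hx.1) hy.2) hx.2 using 1
    rw [map_mul, mul_smul, smul_sub]
    abel⟩
  inv_mem' := fun {x} hx => ⟨inv_mem hx.1, by
    convert neg_mem (b1_inv (map_mono A1_le (inv_mem hx.1)) hx.2) using 1
    rw [smul_sub, map_inv, inv_smul_smul, neg_sub]⟩

theorem EA.b1_key (h : EA E Γ N) (hφ : φ ∈ Γ) (hN : φ ∉ N) (h9 : Nat.card ((A1 φ).map π) = 9) {b : V}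
    (hb : InB (E.map π) (Wof E) b) (nb : b ∉ Wof E) {y : U} (hy : y ∈ b1L φ b) (hy1 : y ≠ 1) :
    (∀ a ∈ A1 φ, a ∉ (b1L φ b).comap π ⊓ A1 φ → (b1L φ b).comap π ⊓ A1 φ ⊔ zpowers a = A1 φ) ∧ ∃ a ∈ A1 φ,
      ∀ b', InB (E.map π) (Wof E) b' → b' ∉ Wof E →
        b1F φ (vec (ρ a.u⁻¹ • b - b)) b' ∉ (b1L φ b).comap π ⊓ A1 φ := by
  obtain ⟨_, ⟨a, ha, rfl⟩, na⟩ := h.r0 hφ hN hb nb
  have k1 := Core.card_mul_relIndex_of_le (H := b1L φ b) (K := (A1 φ).map π) fun _ k => k.1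
  have k2 : ((b1L φ b).relIndex ((A1 φ).map π)).Prime := by
    rw [h9, mul_comm] at k1
    rcases (Nat.dvd_prime Nat.prime_three).1 (dvd_prime_of_mul_eq_sq (p := 3) k1 fun k =>
      hy1 (mem_bot.1 ((eq_bot_of_card_eq _ k).le hy))) with k | k
    · exact absurd (relIndex_eq_one.1 k (mem_map_of_mem π ha)).2 na
    · exact k ▸ Nat.prime_three
  rw [← relIndex_comap, ← inf_relIndex_right] at k2
  have k3 := fun a => eq_sup_zpowers_of_relIndex_prime inf_le_right k2 (y := a)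
  exact ⟨k3, a, ha, fun b' hb' nb' => h.b1_pair hφ hN hb nb hb' nb' ⟨vec_mem_A _, b1_D hb (A1_le ha)⟩
    (fun x hx => ⟨show x.u ∈ b1L φ b from mem_A.1 hx.1.1 ▸ one_mem _, hx.2⟩) inf_le_right
    (fun x hx => (inv_mem (show x.u ∈ b1L φ b from hx.1)).2) (k3 a ha fun k => na k.1.2) rfl⟩

theorem EA.r1 (h : EA E Γ N) (hφ : φ ∈ Γ) (hN : φ ∉ N) (h9 : Nat.card ((A1 φ).map π) = 9) {b₁ b₂ : V}
    (h1 : InB (E.map π) (Wof E) b₁) (h2 : InB (E.map π) (Wof E) b₂)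
    (hi : ∀ i j : K, i • b₁ + j • b₂ ∈ Wof E → i = 0 ∧ j = 0) {b : V} (hb : InB (E.map π) (Wof E) b)
    (hb' : b ∉ Wof E) {y : U} (hy : y ∈ (A1 φ).map π) (hy1 : y ≠ 1) : ρ y • b - b ∉ Wof (A1 φ) := fun k => by
  obtain ⟨k1, a, ha, k2⟩ := h.b1_key hφ hN h9 hb hb' ⟨hy, k⟩ hy1
  have c1 := b1_D hb (A1_le ha)
  generalize vec (ρ a.u⁻¹ • b - b) = c at k2 c1
  have m1 := b1F_mem (φ := φ) h1 c1
  obtain ⟨l, hl, _, ⟨j, rfl⟩, e⟩ := (Core.mem_sup_of_le_normalizer_left (le_normalizer_of_conj_mem fun x hx y hy => by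
    rwa [A1_comm (zpowers_le.2 m1 hx) hy.2, mul_inv_cancel_right])).1 ((k1 _ m1 (k2 b₁ h1 fun m => one_ne_zero
      (hi 1 0 (by simpa using m)).1)).ge (inv_mem (b1F_mem h2 c1)))
  obtain ⟨j, e'⟩ := mem_powers_iff_mem_zpowers.2 (zpow_mem_zpowers (b1F φ c b₁) j)
  simp only [← e'] at e
  have d1 := b1_D h1 (extAut_mem φ⁻¹ c1)
  refine k2 ((j : K) • b₁ + (1 : K) • b₂) (fun u hu => ?_) (fun m => one_ne_zero (hi _ _ m).2) ?_
  · convert add_mem (Submodule.smul_mem _ (j : K) (h1 u hu)) (h2 u hu) using 1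
    rw [one_smul, smul_add, smul_comm, smul_sub]
    abel
  · convert inv_mem hl using 1
    rw [eq_mul_inv_of_mul_eq e, _root_.mul_inv_rev, inv_inv, inv_inv, b1F, b1F, b1F, ← (isHomOn_extAut φ).map_pow d1,
      ← (isHomOn_extAut φ).map_mul (pow_mem d1 j) (b1_D h2 (extAut_mem φ⁻¹ c1)), ← vec_nsmul, ← vec_add, one_smul,
      smul_add, smul_comm, Nat.cast_smul_eq_nsmul, Nat.cast_smul_eq_nsmul, smul_sub]
    congr 2
    abel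

theorem EA.r2 (h : EA E Γ N) (hφ : φ ∈ Γ) (hN : φ ∉ N) (h9 : Nat.card ((A1 φ).map π) = 9) (ht : E.map π = ⊤)
    {b : V} (hb : InB (E.map π) (Wof E) b) (hb' : b ∉ Wof E) {y : U} (hy : y ∈ (A1 φ).map π) (hy1 : y ≠ 1) :
    ρ y • b - b ∉ Wof (A1 φ) := fun k => by
  obtain ⟨-, a, ha, k2⟩ := h.b1_key hφ hN h9 hb hb' ⟨hy, k⟩ hy1
  obtain ⟨u1, u2, u3⟩ := U_z
  have tp : ∀ e, e ∈ E.map π := fun e => ht.ge trivial
  have nY : ∀ e, ∀ u ∈ (A1 φ).map π, e * u * e⁻¹ ∈ (A1 φ).map π := by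
    rintro e _ ⟨x, hx, rfl⟩
    obtain ⟨e, he, rfl⟩ := tp e
    exact ⟨_, A1_norm he hx, rfl⟩
  have zL : z ∈ b1L φ b := by
    have yL : y ∈ b1L φ b := ⟨hy, k⟩
    rcases u1 y hy1 with m | m | ⟨e, m⟩ <;> rw [← m]
    exacts [yL, inv_mem yL, mul_mem ⟨nY e y hy, by
      convert b1_inv (tp e) (add_mem (b1_sub hy (hb _ (tp e⁻¹))) k) using 1
      simp only [map_mul, map_inv, mul_smul, smul_sub, smul_add, smul_inv_smul]
      abel⟩ (inv_mem yL)]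
  have zL' : ∀ {u}, u = 1 ∨ u = z ∨ u = z⁻¹ → u ∈ b1L φ b := by
    rintro _ (rfl | rfl | rfl)
    exacts [one_mem _, zL, inv_mem zL]
  have aY : a.u⁻¹ ∈ (A1 φ).map π := inv_mem (mem_map_of_mem π ha)
  have c1 := b1_D hb (A1_le ha)
  have n1 := vec_mem_normalizer.2 hb
  have hβ := isHomOn_extAut (φ * conjAut E _ n1 * φ⁻¹)
  have cen : ∀ e, e * (b1F φ (vec (ρ a.u⁻¹ • b - b)) b).u * e⁻¹ = (b1F φ (vec (ρ a.u⁻¹ • b - b)) b).u := fun e => by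
    have m1 : ρ e • (ρ a.u⁻¹ • b - b) - (ρ a.u⁻¹ • b - b) ∈ Wof (A1 φ) := by
      convert add_mem (b1_inv (tp a.u⁻¹) (zL' (u3 a.u⁻¹ e)).2) (b1_sub (nY e _ aY) (hb _ (tp e))) using 1
      simp only [map_mul, map_inv, mul_smul, smul_sub, smul_inv_smul, inv_smul_smul]
      abel
    obtain ⟨e, he, rfl⟩ := tp e
    rw [π_apply] at m1 ⊢
    have m2 := hβ.map_conj he c1
    obtain ⟨y, k1, k3, k4⟩ := mem_A1.1 (mem_Wof.1 m1)
    rw [conj_vec, ← sub_add_cancel (ρ e.u • _) (ρ a.u⁻¹ • b - b), vec_add, hβ.map_mul (A1_le m1) c1,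
      eq_mul_of_inv_mul_eq (b1F_eq n1 he), eq_mul_of_inv_mul_eq (b1F_eq n1 c1), extAut_mul_apply, extAut_mul_apply,
      show extAut φ⁻¹ (vec (ρ e.u • _ - _)) = y from k4 ▸ extAut_inv_apply φ y, extAut_conjAut n1 k3,
      A_comm (vec_mem_A _) k1, mul_inv_cancel_right, k4] at m2
    have m3 := congrArg M.u (A1_comm (b1F_mem (φ := φ) hb he) (b1F_mem hb c1))
    have m4 := congrArg M.u m2
    simp only [M.mul_u, M.inv_u, vec_u, one_mul, mul_one] at m3 m4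
    rw [mul_assoc e.u, m3] at m4
    conv_rhs => rw [m4]
    group
  exact k2 b hb hb' ⟨zL' (u2 _ (cen _) (cen _)), b1F_mem hb c1⟩

end CfsgLib.Cf3
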