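import Mathlib
import Cfsg.Agent.Lib.Cf3.B1

/-! Package B2: the linear data (plans/CF3.md). -/

set_option autoImplicit false
set_option maxRecDepth 100000

namespace CfsgLib.Cf3

open Subgroup Matrix Cfsg CfsgLib.Fusion

variable {E : Subgroup M} {Γ N : Subgroup (MulAut E)} {φ : MulAut E}

theorem b2_card (P : Subgroup M) : Nat.card P = Nat.card (Wof P) * Nat.card (P.map π) := by
  have e : (π.ker.subgroupOf P) ≃ Wof P :=
    ⟨fun x => ⟨x.1.1.v, by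
        rw [mem_Wof, ← eq_vec (x := x.1.1) (mem_A.2 x.2)]; exact x.1.2⟩,
      fun w => ⟨⟨vec w.1, w.2⟩, rfl⟩,
      fun x => Subtype.ext (Subtype.ext (eq_vec (mem_A.2 x.2)).symm), fun _ => rfl⟩
  rw [← relIndex_ker, ← Nat.card_congr e, relIndex, card_mul_index]

theorem b2_comm {x : M} {v : V} : x * vec v = vec v * x ↔ ρ x.u • v = v := by
  rw [← mul_inv_eq_iff_eq_mul, conj_vec, vec_inj]

theorem EA.ld (h : EA E Γ N) (hφ : φ ∈ Γ) (hN : φ ∉ N) (hA : ¬ A ≤ E) :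
    LD (E.map π) ((A1 φ).map π) (Wof E) (Wof (A1 φ)) := by
  have cen : ∀ v, (∀ e ∈ E.map π, ρ e • v = v) → vec v ∈ E := fun v hv =>
    h.cen _ fun y hy => b2_comm.2 (hv _ ⟨y, hy, rfl⟩)
  refine ⟨map_mono A1_le, ?_, ?_, fun w hw => A1_le hw, fun e => hA fun x hx => ?_, ?_, ?_, ?_, ?_,
    by rw [← card_A1 (φ := φ), b2_card], cen, fun H v hv => ?_, fun b => h.r0 hφ hN,
    fun h9 b₁ b₂ h1 h2 hi b hb hb' y hy => h.r1 hφ hN h9 h1 h2 hi hb hb' hy,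
    fun h9 ht b hb hb' y hy => h.r2 hφ hN h9 ht hb hb' hy⟩
  · rintro _ ⟨a, ha, rfl⟩ _ ⟨b, hb, rfl⟩
    rw [← map_mul, ← map_mul, A1_comm ha hb]
  · rintro _ ⟨e, he, rfl⟩ _ ⟨a, ha, rfl⟩
    exact ⟨_, A1_norm he ha, by rw [map_mul, map_mul, map_inv]⟩
  · rw [eq_vec hx, ← mem_Wof, e]; trivial
  · rintro _ ⟨e, he, rfl⟩ w hw
    rw [mem_Wof, π_apply, ← conj_vec]
    exact mul_mem (mul_mem he hw) (inv_mem he)
  · rintro _ ⟨e, he, rfl⟩ w hw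
    rw [mem_Wof, π_apply, ← conj_vec]
    exact A1_norm he hw
  · rintro _ ⟨a, ha, rfl⟩ w hw
    exact b2_comm.1 (A1_comm ha hw)
  · rintro _ ⟨a, ha, rfl⟩ w hw
    rw [mem_Wof, π_apply, sub_eq_add_neg, vec_add, vec_neg, ← conj_vec, mul_assoc, mul_assoc,
      ← mul_assoc (vec w)]
    exact mul_mem ha (A1_norm hw (inv_mem ha))
  · have c : ∀ e : E, e * φ⁻¹ ⟨_, cen v hv⟩ = φ⁻¹ ⟨_, cen v hv⟩ * e := fun e => φ.injective (by
      rw [map_mul, map_mul, MulAut.apply_inv_self]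
      exact Subtype.ext (b2_comm.2 (hv _ ⟨_, (φ e).2, rfl⟩)))
    generalize hy : φ⁻¹ ⟨_, cen v hv⟩ = y at c
    refine mem_A1.2 ⟨y, mem_A.2 ?_, y.2, by rw [extAut_coe, ← hy, MulAut.apply_inv_self]⟩
    by_contra ne
    obtain ⟨w, hw, e⟩ := H _ ⟨y, y.2, rfl⟩ ne
    exact e (b2_comm.1 (congrArg Subtype.val (c ⟨_, hw⟩)).symm)

theorem ea_of_essential {F : FS} (hF : F.IsSaturated 3) (hE : F.IsEssential 3 E) : ∃ N, EA E (F.autGroup E) N := by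
  obtain ⟨N, h⟩ := essential_essAut pT hF hE
  exact ⟨N, h, fun x hx => essential_mem_of_comm hE trivial hx⟩

/-- the three abelian subgroups of order `3 ^ 5` over `Y2` -/
def Rc (c : K) : Subgroup M where
  carrier := {x | x.u.a = 0 ∧ x.v 5 = 0 ∧ x.v 3 = c * x.u.c ∧ x.v 4 = c * x.u.b}
  one_mem' := by simp
  mul_mem' := fun {x y} hx hy => by
    obtain ⟨h1, h2, h3, h4⟩ := hx
    obtain ⟨k1, k2, k3, k4⟩ := hy
    simp [ρ_smul, h1, h2, h3, h4, k1, k2, k3, k4, mul_add]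
  inv_mem' := fun {x} hx => by
    obtain ⟨h1, h2, h3, h4⟩ := hx
    simp [-map_inv, ρ_smul, h1, h2, h3, h4]

theorem mem_Rc {c : K} {x : M} : x ∈ Rc c ↔ x.u.a = 0 ∧ x.v 5 = 0 ∧ x.v 3 = c * x.u.c ∧ x.v 4 = c * x.u.b := by
  rfl

theorem b2_le {P Q : Subgroup M} (h1 : P.map π ≤ (P ⊓ Q).map π) (h2 : Wof P ≤ Wof Q) : P ≤ Q := by
  intro x hx
  obtain ⟨q, hq, e⟩ := h1 ⟨x, hx, rfl⟩
  have h3 : x * q⁻¹ ∈ A := mem_A.2 (by
    rw [← π_apply, map_mul, map_inv, e, mul_inv_cancel])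
  have h4 : x * q⁻¹ ∈ P := mul_mem hx (inv_mem hq.1)
  rw [eq_vec h3] at h4
  have h5 := mem_Wof.1 (h2 h4)
  rw [← eq_vec h3] at h5
  exact (mul_mem_cancel_right (Q.inv_mem hq.2)).1 h5

theorem b2_Y2 {Y : Subgroup U} (h1 : z ∈ Y) (h2 : x2 ∈ Y) : Y2 ≤ Y := fun u hu => by
  rw [(by decide +kernel : ∀ u : U, u.a = 0 → u = z ^ u.c.val * x2 ^ u.b.val) u hu]
  exact mul_mem (pow_mem h1 _) (pow_mem h2 _)

theorem Wof_Rc (c : K) : Wof (Rc c) = wD := by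
  ext v
  simp [mem_Wof, mem_Rc, mem_co]
  tauto

theorem map_Rc (c : K) : (Rc c).map π = Y2 :=
  le_antisymm (by rintro _ ⟨x, hx, rfl⟩; exact hx.1) fun u hu =>
    ⟨⟨![0, 0, 0, c * u.c, c * u.b, 0], u⟩, ⟨hu, rfl, rfl, rfl⟩, rfl⟩

theorem eq_Rc {P : Subgroup M} (hc : ∀ x ∈ P, ∀ y ∈ P, x * y = y * x) (h1 : P.map π = Y2) (h2 : Wof P = wD) :
    ∃ c, P = Rc c := by
  obtain ⟨⟨a, _⟩, ha, rfl⟩ : z ∈ P.map π := h1 ▸ (rfl : z.a = 0)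
  obtain ⟨⟨b, _⟩, hb, rfl⟩ : x2 ∈ P.map π := h1 ▸ (rfl : x2.a = 0)
  have e := congrArg M.v (hc _ ha _ hb)
  simp only [M.mul_v, ρ_smul, z, x2] at e
  have e0 := congrFun e 0
  have e1 := congrFun e 1
  have e2 := congrFun e 2
  have e3 := congrFun e 3
  have e4 := congrFun e 4
  simp at e0 e1 e2 e3 e4
  have two : (2 : K) ≠ 0 := by decide
  have a5 : a 5 = 0 := mul_left_cancel₀ two (by linear_combination -e4)
  have b5 : b 5 = 0 := mul_left_cancel₀ two (by linear_combination e3)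
  have m1 : (⟨a, z⟩ : M) ∈ Rc (a 3) :=
    ⟨rfl, a5, (mul_one _).symm, by change a 4 = _ * 0; linear_combination -e2 - a5⟩
  have m2 : (⟨b, x2⟩ : M) ∈ Rc (a 3) :=
    ⟨rfl, b5, by change b 3 = _ * 0; linear_combination e0 - b5,
      by change b 4 = _ * 1; linear_combination e1⟩
  have k : Y2 ≤ (P ⊓ Rc (a 3)).map π := b2_Y2 ⟨_, ⟨ha, m1⟩, rfl⟩ ⟨_, ⟨hb, m2⟩, rfl⟩
  exact ⟨a 3, le_antisymm (b2_le (h1 ▸ k) (by rw [h2, Wof_Rc]))
    (b2_le (by rwa [map_Rc, inf_comm]) (by rw [h2, Wof_Rc]))⟩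

theorem card_Rc (c : K) : Nat.card (Rc c) = 243 := by
  rw [b2_card, Wof_Rc, map_Rc, card_Y2, card_co _ (by decide)]
  rfl

end CfsgLib.Cf3
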