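import Mathlib
import Cfsg.Agent.Lib.Cf3.Bas

/-! Package B3A: the linear data, cyclic case (plans/CF3.md). -/

set_option autoImplicit false
set_option maxRecDepth 100000

namespace CfsgLib.Cf3

open Subgroup Matrix Cfsg CfsgLib.Fusion

variable {Eb Yb : Subgroup U} {W0 WI : Submodule K V}

/-- the map `ρ y - 1` -/
def tL (y : U) : V →ₗ[K] V where
  toFun v := ρ y • v - v
  map_add' v w := by rw [smul_add]; abel
  map_smul' k v := by rw [smul_def, smul_def, mulVec_smul, smul_sub]; rfl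

theorem tL_apply (y : U) (v : V) : tL y v = ρ y • v - v := rfl

theorem tL_comm {e y : U} (h : e * y = y * e) (v : V) : tL y (ρ e • v) = ρ e • tL y v := by
  rw [tL_apply, tL_apply, smul_sub, ← mul_smul, ← mul_smul, ← map_mul, ← map_mul, h]

theorem tL_inv (y : U) (v : V) : tL y⁻¹ v = -(ρ y⁻¹ • tL y v) := by
  rw [tL_apply, tL_apply, smul_sub, ← mul_smul, ← map_mul, inv_mul_cancel, map_one, one_smul, neg_sub]

theorem tL_Y2 {y : U} (hy : y.a = 0) (v : V) : tL y v =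
    ![y.c * v 3 + y.c ^ 2 * v 5, y.b * v 3 + y.c * v 4 + 2 * y.b * y.c * v 5,
      y.b * v 4 + y.b ^ 2 * v 5, 2 * y.c * v 5, 2 * y.b * v 5, 0] := by
  ext i
  rw [tL_apply, Pi.sub_apply, ρ_smul, hy]
  fin_cases i <;> simp <;> ring

/-- a subspace of codimension one -/
theorem b3_codim {W W' : Submodule K V} (le : W ≤ W') (c : Nat.card W' = Nat.card W * 3) {x : V}
    (hx : x ∈ W') (hn : x ∉ W) {w : V} (hw : w ∈ W') : ∃ k : K, w - k • x ∈ W := by
  rw [Module.natCard_eq_pow_finrank (K := K) (V := W'), Module.natCard_eq_pow_finrank (K := K) (V := W),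
    Nat.card_zmod, ← pow_succ] at c
  have c' := Nat.pow_right_injective (by norm_num) c
  have h1 : W ⊔ Submodule.span K {x} ≤ W' := sup_le le ((Submodule.span_singleton_le_iff_mem _ _).2 hx)
  have h2 : W < W ⊔ Submodule.span K {x} := lt_of_le_of_ne le_sup_left fun e =>
    hn (e ▸ Submodule.mem_sup_right (Submodule.mem_span_singleton_self x))
  have h3 := Submodule.finrank_lt_finrank_of_lt h2
  rw [← Submodule.eq_of_le_of_finrank_le h1 (by omega)] at hw
  obtain ⟨a, ha, _, hb, rfl⟩ := Submodule.mem_sup.1 hw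
  obtain ⟨k, rfl⟩ := Submodule.mem_span_singleton.1 hb
  exact ⟨k, by rwa [add_sub_cancel_right]⟩

theorem b3_two : ∀ y : U, y ≠ 1 → ∃ b₁ ∈ [f 1, f 3], ∃ b₂ ∈ [f 4, f 4 + f 2, f 4 - f 2, tL y (f 5)],
    tL y (tL y b₁) = 0 ∧ tL y (tL y b₂) = 0 ∧
      ∀ i j : K, i • tL y b₁ = j • tL y b₂ → i = 0 ∧ j = 0 := by
  decide +kernel

theorem b3_ex {y : U} (hy : y ≠ 1) : ∃ b₁ b₂, tL y (tL y b₁) = 0 ∧ tL y (tL y b₂) = 0 ∧
    ∀ (x : V) (k₁ k₂ : K), tL y b₁ = k₁ • x → tL y b₂ = k₂ • x → False := by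
  obtain ⟨b₁, -, b₂, -, h1, h2, h3⟩ := b3_two y hy
  refine ⟨b₁, b₂, h1, h2, fun x k₁ k₂ e1 e2 => ?_⟩
  obtain ⟨-, rfl⟩ := h3 k₂ k₁ (by rw [e1, e2, smul_comm])
  exact one_ne_zero (h3 1 0 (by rw [e1]; simp)).1

theorem b3_cen : ∀ e y : U, (e * y * e⁻¹ = 1 ∨ e * y * e⁻¹ = y ∨ e * y * e⁻¹ = y⁻¹) → e * y = y * e := by
  decide +kernel

theorem b3_z : ∀ e y : U, y ≠ 1 → e * y = y * e → (e = 1 ∨ e = y ∨ e = y⁻¹) ∨
    ∃ i j : Fin 3, z = e ^ i.val * y ^ j.val := by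
  decide +kernel

theorem b3_fix {u : U} (hu : u.a ≠ 0) {v : V} (h1 : ρ z • v = v) (h2 : ρ u • v = v) : v ∈ wZ := by
  rw [ρ_smul] at h1 h2
  have e0 := congrFun h1 0
  have e1 := congrFun h1 1
  have e3 := congrFun h1 3
  have g0 := congrFun h2 0
  have g1 := congrFun h2 1
  simp [z] at e0 e1 e3 g0 g1
  have two : (2 : K) ≠ 0 := by decide
  have v5 : v 5 = 0 := e3.resolve_left two
  have v3 : v 3 = 0 := by linear_combination e0 - v5
  have v2 : v 2 = 0 := mul_left_cancel₀ (mul_ne_zero two hu) (by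
    rw [v3, v5, e1] at g1; linear_combination g1)
  have v1 : v 1 = 0 := mul_left_cancel₀ hu (by rw [v2, v3, v5, e1] at g0; linear_combination g0)
  simp [mem_co, v1, v2, v3, e1, v5]

theorem b3_Y2 {e y : U} (he : e.a = 0) (hy : y.a = 0) (y1 : y ≠ 1) {v : V}
    (h : tL y (tL y v) = 0) : tL y (tL e v) = 0 := by
  have v5 : v 5 = 0 := by
    have e0 := congrFun h 0
    have e2 := congrFun h 2
    have two : (2 : K) ≠ 0 := by decide
    by_contra ne
    simp [tL_Y2 hy, two, ne] at e0 e2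
    exact y1 (U.ext hy e2 e0)
  ext i
  fin_cases i <;> simp [tL_Y2 he, tL_Y2 hy, v5]

theorem b3_line {c x : V} (hc : c ∈ wZ) (hx : x ∈ wZ) (h : c ≠ 0) : ∃ k : K, x = k • c := by
  simp only [mem_co, List.forall_mem_cons] at hc hx
  have h0 : c 0 ≠ 0 := fun e => h (by ext i; fin_cases i <;> simp [e, hc])
  exact ⟨x 0 / c 0, by ext i; fin_cases i <;> simp [h0, hc, hx]⟩

theorem LD.cyc {y : U} (h : LD Eb (zpowers y) W0 WI) (hy : y ≠ 1) : False := by
  have yE : y ∈ Eb := h.le (mem_zpowers y)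
  have cm : ∀ e ∈ Eb, e * y = y * e := fun e he =>
    b3_cen e y (mem_zpowers_U.1 (h.norm e he y (mem_zpowers y)))
  have card := h.card
  rw [card_zpowers_U hy] at card
  have fI : ∀ w ∈ WI, tL y w = 0 := fun w hw => sub_eq_zero.2 (h.fixI y (mem_zpowers y) w hw)
  have k0 : ∀ b, InB Eb W0 b → b ∉ W0 → tL y b ∉ WI := fun b h1 h2 h3 => by
    obtain ⟨y', hy', e⟩ := h.r0 b h1 h2
    rcases mem_zpowers_U.1 hy' with rfl | rfl | rfl
    · exact e (by simp)
    · exact e h3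
    · rw [← tL_apply, tL_inv] at e
      exact e (neg_mem (h.invI _ (inv_mem yE) _ h3))
  have k2 : LinearMap.ker (tL y) ≤ W0 := by
    by_contra hn
    obtain ⟨b, h1, h2, h3⟩ := exists_fix_mod h.inv0 (W' := LinearMap.ker (tL y)) (fun e he w hw => by
      rw [LinearMap.mem_ker] at hw ⊢
      rw [tL_comm (cm e he), hw, smul_zero]) hn
    exact k0 b h3 h2 ((LinearMap.mem_ker.1 h1).symm ▸ zero_mem _)
  obtain ⟨b₁, b₂, s1, s2, dep⟩ := b3_ex hy
  obtain ⟨b, h1, h2, h3⟩ := exists_fix_mod h.inv0 (W' := LinearMap.ker (tL y ∘ₗ tL y))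
    (fun e he w hw => by
      rw [LinearMap.mem_ker, LinearMap.comp_apply] at hw ⊢
      rw [tL_comm (cm e he), tL_comm (cm e he), hw, smul_zero]) (fun le => by
      by_cases m : b₁ ∈ WI
      · exact dep (tL y b₂) 0 1 (by rw [fI _ m, zero_smul]) (one_smul _ _).symm
      · obtain ⟨k, hk⟩ := b3_codim h.IW card (le s1) m (le s2)
        have := fI _ hk
        rw [map_sub, map_smul, sub_eq_zero] at this
        exact dep (tL y b₁) 1 k (one_smul _ _).symm this)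
  have h4 : tL y (tL y b) = 0 := h1
  have h5 := k0 b h3 h2
  have h6 : tL y b ∈ W0 := h3 y yE
  have k3 : ∀ w ∈ W0, tL y w = 0 := fun w hw => by
    obtain ⟨k, hk⟩ := b3_codim h.IW card h6 h5 hw
    have := fI _ hk
    rwa [map_sub, map_smul, h4, smul_zero, sub_zero] at this
  have h7 : ∀ e ∈ Eb, ρ e • tL y b = tL y b := fun e he => by
    have := k3 _ (h3 e he)
    rwa [map_sub, tL_comm (cm e he), sub_eq_zero] at this
  obtain ⟨c, c1, c2, c3⟩ := exists_fix_mod (Y := Eb) (W := ⊥) (W' := WI)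
    (fun e _ w hw => by rw [(Submodule.mem_bot K).1 hw, smul_zero]; exact zero_mem _) h.invI (fun le => by
      obtain ⟨k₁, e1⟩ := b3_codim h.IW card h6 h5 (k2 s1)
      obtain ⟨k₂, e2⟩ := b3_codim h.IW card h6 h5 (k2 s2)
      exact dep _ k₁ k₂ (sub_eq_zero.1 (le e1)) (sub_eq_zero.1 (le e2)))
  obtain ⟨v, v1, v2⟩ : ∃ v, v ∉ wZ ∧ ∀ e ∈ Eb, ρ e • v = v := by
    by_cases m : c ∈ wZ
    · refine ⟨_, fun m' => ?_, h7⟩
      obtain ⟨k, hk⟩ := b3_line m m' c2
      exact h5 (hk ▸ WI.smul_mem k c1)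
    · exact ⟨c, m, fun e he => sub_eq_zero.1 (c3 e he)⟩
  have k4 : ∀ b', tL y (tL y b') = 0 → ∃ k : K, tL y b' = k • tL y b := fun b' hb' => by
    have i1 : InB Eb W0 b' := fun e he => k2 (by
      change tL y (tL e b') = 0
      rcases b3_z e y hy (cm e he) with (rfl | rfl | rfl) | ⟨i, j, e1⟩
      · simp [tL_apply]
      · exact hb'
      · rw [tL_inv, map_neg, tL_comm (cm _ he), hb', smul_zero, neg_zero]
      · have zE : z ∈ Eb := e1 ▸ mul_mem (pow_mem he _) (pow_mem yE _)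
        refine b3_Y2 ?_ ?_ hy hb' <;> by_contra ne
        exacts [v1 (b3_fix ne (v2 z zE) (v2 e he)), v1 (b3_fix ne (v2 z zE) (v2 y yE))])
    obtain ⟨k, hk⟩ := b3_codim h.IW card h6 h5 (i1 y yE)
    have i2 : InB Eb W0 (b' - k • b) := fun e he => by
      rw [← tL_apply, map_sub, map_smul]
      exact sub_mem (i1 e he) (W0.smul_mem k (h3 e he))
    have i3 : b' - k • b ∈ W0 := by
      by_contra hn
      exact k0 _ i2 hn (by rwa [map_sub, map_smul])
    have := k3 _ i3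
    rw [map_sub, map_smul, sub_eq_zero] at this
    exact ⟨k, this⟩
  obtain ⟨k₁, e1⟩ := k4 b₁ s1
  obtain ⟨k₂, e2⟩ := k4 b₂ s2
  exact dep _ k₁ k₂ e1 e2

end CfsgLib.Cf3
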