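import Mathlib
import Cfsg.Agent.Lib.Cf3.B3a

/-! Package B3B: the linear data, rank two (plans/CF3.md). -/

set_option autoImplicit false
set_option Elab.async false
set_option maxRecDepth 100000

namespace CfsgLib.Cf3

open Subgroup Matrix Cfsg CfsgLib.Fusion

variable {Eb Yb : Subgroup U} {W0 WI : Submodule K V}

namespace B3bx

theorem card_le {W W' : Submodule K V} (h : W ≤ W') : Nat.card W ≤ Nat.card W' :=
  Nat.card_le_card_of_injective (Submodule.inclusion h) (Submodule.inclusion_injective h)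

theorem eq_of_card {W W' : Submodule K V} (h : W ≤ W') (c : Nat.card W' ≤ Nat.card W) : W = W' :=
  SetLike.coe_injective (Set.eq_of_subset_of_ncard_le h c)

theorem cZ : Nat.card wZ = 3 := card_co _ (by decide)
theorem cD : Nat.card wD = 27 := card_co _ (by decide)
theorem c5 : Nat.card w5 = 243 := card_co _ (by decide)

/-- the vectors fixed by `Ya t` modulo `wZ` -/
def Wt (t : K) : Submodule K V where
  carrier := {v | v 4 = 0 ∧ v 5 = 0 ∧ v 2 = t * v 3}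
  zero_mem' := by simp
  add_mem' := fun {v w} hv hw => by
    simp only [Set.mem_ofPred_eq, Pi.add_apply] at *
    rw [hv.1, hv.2.1, hv.2.2, hw.1, hw.2.1, hw.2.2]
    exact ⟨add_zero _, add_zero _, by ring⟩
  smul_mem' := fun c v hv => by
    simp only [Set.mem_ofPred_eq, Pi.smul_apply, smul_eq_mul] at *
    rw [hv.1, hv.2.1, hv.2.2]
    exact ⟨mul_zero _, mul_zero _, by ring⟩

theorem mem_Wt {t : K} {v : V} : v ∈ Wt t ↔ v 4 = 0 ∧ v 5 = 0 ∧ v 2 = t * v 3 := Iff.rfl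

instance (t : K) (v : V) : Decidable (v ∈ Wt t) := decidable_of_iff _ mem_Wt.symm

theorem cWt (t : K) : Nat.card (Wt t) ≤ 27 := by
  have : Nat.card (K × K × K) = 27 := by simp [Nat.card_prod]
  rw [← this]
  refine Nat.card_le_card_of_injective (fun v => (v.1 0, v.1 1, v.1 3)) fun v w e => Subtype.ext ?_
  obtain ⟨e0, e1, e3⟩ : v.1 0 = w.1 0 ∧ v.1 1 = w.1 1 ∧ v.1 3 = w.1 3 := by simpa using e
  obtain ⟨a4, a5, a2⟩ := mem_Wt.1 v.2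
  obtain ⟨b4, b5, b2⟩ := mem_Wt.1 w.2
  funext i
  fin_cases i
  exacts [e0, e1, a2.trans (e3 ▸ b2.symm), e3, a4.trans b4.symm, a5.trans b5.symm]

theorem a1 : ∀ (t : K) (v : V), ρ z • v = v → ρ ⟨1, t, 0⟩ • v = v → v ∈ wZ := by decide +kernel
theorem a2 : ∀ (t : K) (v : V), ρ z • v - v ∈ wZ → ρ ⟨1, t, 0⟩ • v - v ∈ wZ → v ∈ Wt t := by decide +kernel
theorem a3 : ∀ (t : K) (u : U), ρ u • f 2 - f 2 ∈ Wt t ∧ (u.b = t * u.a → ρ u • f 4 - f 4 ∈ Wt t) := by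
  decide +kernel
theorem a4 : ∀ t i j : K, i • f 2 + j • f 4 ∈ Wt t → i = 0 ∧ j = 0 := by decide +kernel
theorem a5 : (∀ t : K, f 2 ∉ Wt t) ∧ ρ z • f 2 - f 2 = 0 ∧ z ≠ 1 ∧ x1 * x2 ≠ x2 * x1 ∧ f 3 ∉ wD ∧
    ρ z • f 3 - f 3 = f 0 ∧ (∀ u : U, ρ u • f 3 - f 3 ∈ wD) ∧ ∀ i j : K, i • f 3 + j • f 4 ∈ wD → i = 0 ∧ j = 0 := by
  decide +kernel
theorem a6 : ∀ v w : V, v ∈ wZ → v ≠ 0 → w ∈ wZ → w = (w 0 * v 0) • v := by
  intro v w hv h0 hw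
  have k : ∀ v : V, v ∈ wZ → v = v 0 • f 0 ∧ (v ≠ 0 → v 0 * v 0 = 1) := by decide +kernel
  obtain ⟨k1, k2⟩ := k v hv
  nth_rewrite 2 [k1]
  rw [smul_smul, mul_assoc, k2 h0, mul_one]
  exact (k w hw).1

theorem mD {v : V} : v ∈ wD ↔ v 3 = 0 ∧ v 4 = 0 ∧ v 5 = 0 := by simp [mem_co]

theorem zs (v : V) : ρ z • v - v = ![v 3 + v 5, v 4, 0, 2 * v 5, 0, 0] := by
  funext i
  fin_cases i <;> simp [ρ_smul, z, add_assoc]

theorem xs (v : V) : ρ x2 • v - v = ![0, v 3, v 4 + v 5, 0, 2 * v 5, 0] := by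
  funext i
  fin_cases i <;> simp [ρ_smul, x2, add_assoc]

theorem b1 (v : V) : (ρ z • v = v → v ∈ wD) ∧ (ρ x2 • v - v ∈ wD → v 5 = 0) ∧
    (v ∈ wD → v = v 0 • f 0 + v 1 • f 1 + v 2 • f 2) ∧ (v 5 = 0 → ρ z • v - v = v 3 • f 0 + v 4 • f 1) := by
  have k : ∀ c : K, 2 * c = 0 → c = 0 := by decide
  refine ⟨fun e => ?_, fun e => ?_, fun e => ?_, fun e => ?_⟩
  · rw [← sub_eq_zero, zs] at e
    have e5 : v 5 = 0 := k _ (congrFun e 3)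
    have e3 : v 3 + v 5 = 0 := congrFun e 0
    exact mD.2 ⟨by rwa [e5, add_zero] at e3, congrFun e 1, e5⟩
  · rw [xs] at e
    exact k _ (mD.1 e).2.1
  · obtain ⟨h3, h4, h5⟩ := mD.1 e
    funext i
    fin_cases i <;> simp [f, h3, h4, h5]
  · rw [zs]
    funext i
    fin_cases i <;> simp [f, e]

theorem b2 (v : V) (h : v 5 ≠ 0) : f 0 = (2 * v 5) • (ρ z • (ρ z • v - v) - (ρ z • v - v)) ∧
    f 1 = (2 * v 5) • (ρ x2 • (ρ z • v - v) - (ρ z • v - v)) ∧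
    f 2 = (2 * v 5) • (ρ x2 • (ρ x2 • v - v) - (ρ x2 • v - v)) := by
  have k : ∀ c : K, c ≠ 0 → 2 * c * (2 * c) = 1 := by decide
  have := k _ h
  simp only [zs, xs]
  refine ⟨?_, ?_, ?_⟩ <;> funext i <;> fin_cases i <;> simp [f, this]

theorem b3 (v : V) : (v ∈ wD → ∀ u : U, ρ u • v ∈ wD ∧ (u.a = 0 → ρ u • v - v = 0)) ∧
    (v 5 = 0 → ∀ u : U, u.a = 0 → ρ u • v - v ∈ wD ∧ (v ∉ wD → u ≠ 1 → ρ u • v ≠ v)) := by
  refine ⟨fun hv u => ?_, fun h5 u ha => ⟨?_, fun hv hu e => ?_⟩⟩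
  · obtain ⟨h3, h4, h5⟩ := mD.1 hv
    refine ⟨by simp [mD, ρ_smul, h3, h4, h5], fun ha => ?_⟩
    funext i
    fin_cases i <;> simp [ρ_smul, h3, h4, h5, ha]
  · rw [mD]
    simp only [Pi.sub_apply]
    simp [ρ_smul, h5, ha]
  have k : ∀ b c p q : K, (c * p = 0 ∧ b * p + c * q = 0 ∧ b * q = 0) → (p = 0 ∧ q = 0) ∨ (b = 0 ∧ c = 0) := by
    decide +kernel
  have e0 := congrFun e 0
  have e1 := congrFun e 1
  have e2 := congrFun e 2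
  simp only [ρ_smul, h5, ha] at e0 e1 e2
  rcases k u.b u.c (v 3) (v 4) ⟨by simpa using e0, by simpa [add_assoc] using e1, by simpa using e2⟩ with h | h
  · exact hv (mD.2 ⟨h.1, h.2, h5⟩)
  · exact hu (U.ext ha h.1 h.2)

theorem b4 (w : V) (hw : w ∈ wD) (w0 : w ≠ 0) : w 1 ^ 2 - w 0 * w 2 = 2 ∨ ∃ i j b c : K, (⟨0, b, c⟩ : U) ≠ 1 ∧
    i • f 3 + j • f 4 ∉ wD ∧ (i • f 3 + j • f 4) 5 = 0 ∧
    ρ ⟨0, b, c⟩ • (i • f 3 + j • f 4) - (i • f 3 + j • f 4) = w := by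
  have k : ∀ p q r : K, ¬ (p = 0 ∧ q = 0 ∧ r = 0) → q ^ 2 - p * r = 2 ∨ ∃ i j b c : K, ¬ (b = 0 ∧ c = 0) ∧
      ¬ (i = 0 ∧ j = 0) ∧ c * i = p ∧ b * i + c * j = q ∧ b * j = r := by decide +kernel
  obtain ⟨h3, h4, h5⟩ := mD.1 hw
  refine (k (w 0) (w 1) (w 2) fun h => w0 ?_).imp_right fun ⟨i, j, b, c, k1, k2, k3, k4, k5⟩ =>
    ⟨i, j, b, c, fun e => k1 ⟨congrArg U.b e, congrArg U.c e⟩, by simpa [mD, f] using k2, by simp [f], ?_⟩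
  · funext n
    fin_cases n
    exacts [h.1, h.2.1, h.2.2, h3, h4, h5]
  · funext n
    fin_cases n <;> simp [ρ_smul, f, k3, k4, k5, h3, h4, h5]

theorem b5 : ∀ w : V, w ∈ wD → w ∈ wZ ∨ ∃ i j k : K, f 1 = i • f 0 + j • w + k • ρ x1 • w := by decide +kernel

theorem exb (h : LD Eb Yb W0 WI) : ∃ b, InB Eb W0 b ∧ b ∉ W0 :=
  let ⟨b, _, h1, h2⟩ := exists_fix_mod (W' := ⊤) h.inv0 (fun _ _ _ _ => trivial) fun e => h.ne (top_le_iff.1 e)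
  ⟨b, h2, h1⟩

end B3bx
open B3bx

theorem LD.ya {t : K} (h : LD Eb (Ya t) W0 WI) : False := by
  have m1 : z ∈ Ya t := mem_Ya.2 (mul_zero t).symm
  have m2 : (⟨1, t, 0⟩ : U) ∈ Ya t := mem_Ya.2 (mul_one t).symm
  have IZ : WI ≤ wZ := fun w hw => a1 t w (h.fixI _ m1 w hw) (h.fixI _ m2 w hw)
  have c := h.card
  rw [card_Ya] at c
  have ne : WI ≠ ⊥ := by
    rintro rfl
    have : W0 ≤ wZ := fun w hw => a1 t w (sub_eq_zero.1 (h.sub _ m1 w hw)) (sub_eq_zero.1 (h.sub _ m2 w hw))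
    have h1 := card_le this
    have h2 : 0 < Nat.card (⊥ : Submodule K V) := Nat.card_pos
    rw [cZ] at h1
    omega
  obtain ⟨v, hv, v0⟩ := (Submodule.ne_bot_iff WI).1 ne
  have ZI : wZ ≤ WI := fun w hw => a6 v w (IZ hv) v0 hw ▸ WI.smul_mem _ hv
  have c3 := card_le ZI
  rw [cZ] at c3
  have e : W0 = Wt t := eq_of_card (fun w hw => a2 t w (IZ (h.sub _ m1 w hw)) (IZ (h.sub _ m2 w hw)))
    ((cWt t).trans (by omega))
  have i2 : InB Eb W0 (f 2) := fun u _ => e ▸ (a3 t u).1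
  have n2 : f 2 ∉ W0 := e ▸ a5.1 t
  have z0 : ρ z • f 2 - f 2 ∈ WI := a5.2.1 ▸ WI.zero_mem
  rcases eq_top_of_Ya_lt h.le with hE | hE
  · exact h.r1 (card_Ya t) (f 2) (f 4) i2 (fun u hu => e ▸ (a3 t u).2 (mem_Ya.1 (hE ▸ hu)))
      (fun i j m => a4 t i j (e ▸ m)) (f 2) i2 n2 z m1 a5.2.2.1 z0
  · exact h.r2 (card_Ya t) hE (f 2) i2 n2 z m1 a5.2.2.1 z0

theorem LD.y2 (h : LD Eb Y2 W0 WI) :
    (W0 = w5 ∧ WI = wD) ∨ (Eb = Y2 ∧ W0 = wD ∧ ∀ w ∈ WI, w ≠ 0 → Aniso w) := by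
  have m1 : z ∈ Y2 := rfl
  have m2 : x2 ∈ Y2 := rfl
  have ID : WI ≤ wD := fun w hw => (b1 w).1 (h.fixI _ m1 w hw)
  have W5 : ∀ w ∈ W0, w 5 = 0 := fun w hw => (b1 w).2.1 (ID (h.sub _ m2 w hw))
  have c := h.card
  rw [card_Y2] at c
  have DW : wD ≤ W0 := by
    by_contra n
    obtain ⟨b, hb, n0, hi⟩ := exists_fix_mod h.inv0 (fun e _ w hw => ((b3 w).1 hw e).1) n
    obtain ⟨y, hy, ny⟩ := h.r0 b hi n0
    exact ny ((((b3 b).1 hb y).2 hy).symm ▸ WI.zero_mem)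
  obtain ⟨b, hb, n0⟩ := exb h
  by_cases h5 : b 5 = 0
  swap
  · obtain ⟨k0, k1, k2⟩ := b2 b h5
    have f0 : f 0 ∈ WI := k0 ▸ WI.smul_mem _ (h.sub _ m1 _ (hb _ (h.le m1)))
    have f1 : f 1 ∈ WI := k1 ▸ WI.smul_mem _ (h.sub _ m2 _ (hb _ (h.le m1)))
    have f2 : f 2 ∈ WI := k2 ▸ WI.smul_mem _ (h.sub _ m2 _ (hb _ (h.le m2)))
    have e : WI = wD := le_antisymm ID fun w hw => by
      rw [(b1 w).2.2.1 hw]
      exact add_mem (add_mem (WI.smul_mem _ f0) (WI.smul_mem _ f1)) (WI.smul_mem _ f2)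
    refine Or.inl ⟨eq_of_card (fun w hw => by simpa [mem_co] using W5 w hw) ?_, e⟩
    rw [c, e, cD, c5]
  right
  have nD : ¬ wD ≤ WI := fun e => by
    obtain ⟨y, hy, ny⟩ := h.r0 b hb n0
    exact ny (e ((b3 b).2 h5 y hy).1)
  rcases eq_top_of_Y2_lt h.le with hE | hE
  · have e : W0 = wD := by
      refine le_antisymm (fun w hw => ?_) DW
      by_contra n
      refine nD fun v hv => h.zc (fun u hu u1 => ⟨w, hw, ((b3 w).2 (W5 w hw) u (mem_Y2.1 (hE ▸ hu))).2 n u1⟩) v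
        fun u hu => sub_eq_zero.1 (((b3 v).1 hv u).2 (mem_Y2.1 (hE ▸ hu)))
    have ib : ∀ v : V, v 5 = 0 → InB Eb W0 v := fun v hv u hu => e ▸ ((b3 v).2 hv u (mem_Y2.1 (hE ▸ hu))).1
    refine ⟨hE, e, fun w hw w0 => ?_⟩
    rcases b4 w (ID hw) w0 with k | ⟨i, j, p, q, k1, k2, k3, k4⟩
    · exact k
    · exact absurd (k4 ▸ hw) (h.r1 card_Y2 (f 3) (f 4) (ib _ rfl) (ib _ rfl)
        (fun i j m => a5.2.2.2.2.2.2.2 i j (e ▸ m)) _ (ib _ k3) (e ▸ k2) ⟨0, p, q⟩ rfl k1)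
  exfalso
  have cW := card_le DW
  rw [cD] at cW
  have ne : WI ≠ ⊥ := by
    rintro rfl
    rw [show Nat.card (⊥ : Submodule K V) = 1 from Nat.card_unique] at c
    omega
  have f0 : f 0 ∈ WI := f0_mem (fun u => h.invI u (hE ▸ mem_top u)) ne
  have f1 : f 1 ∉ WI := fun f1 => h.r2 card_Y2 hE b hb n0 z m1 a5.2.2.1 (by
    rw [(b1 b).2.2.2 h5]
    exact add_mem (WI.smul_mem _ f0) (WI.smul_mem _ f1))
  have IZ : WI ≤ wZ := fun w hw => (b5 w (ID hw)).resolve_right fun ⟨i, j, k, e⟩ => f1 (by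
    rw [e]
    exact add_mem (add_mem (WI.smul_mem _ f0) (WI.smul_mem _ hw))
      (WI.smul_mem _ (h.invI _ (hE ▸ mem_top _) w hw)))
  have c3 := card_le IZ
  rw [cZ] at c3
  have e : wD = W0 := eq_of_card DW (by rw [cD]; omega)
  exact h.r2 card_Y2 hE (f 3) (fun u _ => e ▸ a5.2.2.2.2.2.2.1 u) (e ▸ a5.2.2.2.2.1) z m1 a5.2.2.1
    (a5.2.2.2.2.2.1 ▸ f0)

theorem LD.cases (h : LD Eb Yb W0 WI) :
    Yb = Y2 ∧ ((W0 = w5 ∧ WI = wD) ∨ (Eb = Y2 ∧ W0 = wD ∧ ∀ w ∈ WI, w ≠ 0 → Aniso w)) := by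
  rcases sub_cases Yb with rfl | rfl | rfl | ⟨t, rfl⟩ | ⟨y, hy, rfl⟩
  · obtain ⟨b, hb, n0⟩ := exb h
    obtain ⟨y, hy, ny⟩ := h.r0 b hb n0
    rw [mem_bot.1 hy, map_one, one_smul, sub_self] at ny
    exact absurd WI.zero_mem ny
  · exact absurd (h.comm x1 (mem_top _) x2 (mem_top _)) a5.2.2.2.1
  · exact ⟨rfl, h.y2⟩
  · exact h.ya.elim
  · exact (h.cyc hy).elim

end CfsgLib.Cf3
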