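import Mathlib
import Cfsg.Agent.Lib.Cf3.B2
import Cfsg.Agent.Lib.Cf3.B3b

/-! Package B4: essential subgroups not containing `A` (plans/CF3.md). -/

set_option autoImplicit false
set_option maxRecDepth 100000

namespace CfsgLib.Cf3

open Subgroup Matrix Cfsg CfsgLib.Fusion

variable {E : Subgroup M} {Γ N : Subgroup (MulAut E)} {φ : MulAut E}

namespace B4

theorem conj_v (m x : M) : (m * x * m⁻¹).v = m.v + ρ m.u • x.v - ρ (m.u * x.u * m.u⁻¹) • m.v := by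
  simp [sub_eq_add_neg, mul_smul]

theorem conj_Rc {c : K} {m x : M} (hm : m ∈ E3) (hx : x ∈ Rc c) : m * x * m⁻¹ ∈ Rc c := by
  obtain ⟨h1, h2, h3, h4⟩ := hx
  rw [mem_E3] at hm
  rw [mem_Rc, conj_v, ρ_smul, ρ_smul]
  simp only [Pi.sub_apply, Pi.add_apply]
  simp [hm, h1, h2, h3, h4]
  ring

theorem of_conj_Rc {c : K} {m : M} (h : ∀ x ∈ Rc c, m * x * m⁻¹ ∈ Rc c) : m ∈ E3 := by
  have := (h ⟨![0, 0, 0, 0, c, 0], x2⟩ ⟨rfl, rfl, (mul_zero _).symm, (mul_one _).symm⟩).2.2.2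
  rw [conj_v, ρ_smul, ρ_smul] at this
  simp only [Pi.sub_apply, Pi.add_apply] at this
  simp [x2] at this
  exact this.resolve_left (by decide)

theorem norm_of {P : Subgroup M} {m : M} (h : ∀ x ∈ P, m * x * m⁻¹ ∈ P) : m ∈ normalizer (P : Set M) :=
  mem_normalizer_fintype h

/-- a transversal -/
def nn (p : K × K × K) : M := ⟨![0, 0, 0, p.1, p.2.1, 0], ⟨p.2.2, 0, 0⟩⟩

theorem nn_inj : ∀ (c : K) (p q : K × K × K), (nn q)⁻¹ * nn p ∈ Rc c → p = q := by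
  simp only [mem_Rc, M.mul_v, M.inv_v, ρ_smul]
  decide +kernel

instance (w : V) : Decidable (Aniso w) := inferInstanceAs (Decidable (_ = _))

theorem card_iso : Nat.card {w : V // w ∈ wD ∧ w ≠ 0 ∧ ¬ Aniso w} = 20 := by
  rw [Nat.card_eq_fintype_card]
  decide +kernel

theorem far_apply {n : M} (hn : n ∈ normalizer (E : Set M)) {x y : M} (hx : x ∈ E)
    (e : n * extAut φ x * n⁻¹ = extAut φ y) : extAut (φ⁻¹ * conjAut E n hn * φ) x = y := by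
  rw [extAut_mul_apply, extAut_mul_apply, extAut_conjAut hn (extAut_mem φ hx), e, extAut_inv_apply]

end B4

open B4

theorem EA.one (h : EA E Γ N) (h1 : E.map π = Y2) (h2 : Wof E = wD) : False := by
  have hA : ¬ A ≤ E := fun k => absurd (h2 ▸ mem_Wof.2 (k (vec_mem_A (f 5)))) (by decide)
  have an : ∀ ψ ∈ Γ, ψ ∉ N → (A1 ψ).map π = Y2 ∧ ∀ w, vec w ∈ A1 ψ → w ≠ 0 → Aniso w := fun ψ a b => by
    obtain ⟨k, ⟨k1, -⟩ | ⟨-, -, k1⟩⟩ := (h.ld a b hA).cases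
    · exact absurd ((h2.symm.trans k1).symm ▸ (by decide : f 3 ∈ w5)) (by decide : f 3 ∉ wD)
    · exact ⟨k, k1⟩
  obtain ⟨φ, hφ, hN⟩ := SetLike.not_le_iff_exists.1 h.ess.not_le
  have cv : ∀ x ∈ E, ∀ w ∈ wD, x * vec w = vec w * x := fun x hx w hw =>
    b2_comm.2 (sub_eq_zero.1 (((B3bx.b3 w).1 hw _).2 (h1.le ⟨x, hx, rfl⟩)))
  have dc : ∀ x ∈ E, ∃ w ∈ wD, ∃ a ∈ A1 φ, x = vec w * a := fun x hx => by
    obtain ⟨a, ha, e⟩ := (an φ hφ hN).1.ge (h1.le ⟨x, hx, rfl⟩)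
    have k : x * a⁻¹ ∈ A := mem_A.2 (by rw [← π_apply, map_mul, map_inv, e, mul_inv_cancel])
    exact ⟨_, h2.le (mem_Wof.2 (eq_vec k ▸ mul_mem hx (inv_mem (A1_le ha)))), a, ha, by rw [← eq_vec k, inv_mul_cancel_right]⟩
  have cm : ∀ x ∈ E, ∀ y ∈ E, x * y = y * x := fun x hx y hy => by
    obtain ⟨w, hw, a, ha, e⟩ := dc x hx
    obtain ⟨w', hw', a', ha', e'⟩ := dc y hy
    have : a * y = y * a := by
      rw [e', ← mul_assoc, cv a (A1_le ha) w' hw', mul_assoc, A1_comm ha ha', mul_assoc]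
    rw [e, mul_assoc, this, ← mul_assoc, ← cv y hy w hw, mul_assoc]
  obtain ⟨c, rfl⟩ := eq_Rc cm h1 h2
  have ve : ∀ w ∈ wD, vec w ∈ Rc c := fun w hw => h2.ge hw
  have := Nat.card_le_card_of_injective
    (fun p : (K × K × K) × {w : V // w ∈ wD ∧ w ≠ 0 ∧ ¬ Aniso w} =>
      (⟨nn p.1 * extAut φ (vec p.2.1) * (nn p.1)⁻¹, conj_Rc rfl (extAut_mem φ (ve _ p.2.2.1))⟩ : Rc c)) ?_
  · rw [card_Rc, Nat.card_prod, card_iso, Nat.card_eq_fintype_card] at this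
    exact absurd this (by decide)
  rintro ⟨p, w, hw⟩ ⟨q, w', hw'⟩ e
  have e : (nn q)⁻¹ * nn p * extAut φ (vec w) * ((nn q)⁻¹ * nn p)⁻¹ = extAut φ (vec w') := by
    have e : nn p * extAut φ (vec w) * (nn p)⁻¹ = nn q * extAut φ (vec w') * (nn q)⁻¹ := congrArg Subtype.val e
    calc _ = (nn q)⁻¹ * (nn p * extAut φ (vec w) * (nn p)⁻¹) * nn q := by group
      _ = _ := by rw [e]; group
  by_cases k : (nn q)⁻¹ * nn p ∈ Rc c
  · obtain rfl := nn_inj c p q k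
    rw [inv_mul_cancel, one_mul, inv_one, mul_one] at e
    obtain rfl := vec_inj.1 ((extAut φ).injective e)
    rfl
  have hn := norm_of fun x => conj_Rc (c := c) (x := x) (E3.mul_mem (E3.inv_mem (x := nn q) rfl) (y := nn p) rfl)
  obtain ⟨a, b⟩ := h.far hφ hN hn k
  exact absurd ((an _ a b).2 w' (mem_A1.2 ⟨_, vec_mem_A w, ve w hw.1, far_apply hn (ve w hw.1) e⟩) hw'.2.1) hw'.2.2

theorem EA.cases (h : EA E Γ N) : A ≤ E ∨ E = E3 := by
  refine or_iff_not_imp_left.2 fun hA => ?_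
  obtain ⟨φ, hφ, hN⟩ := SetLike.not_le_iff_exists.1 h.ess.not_le
  obtain ⟨k, ⟨k1, k2⟩ | ⟨k1, k2, -⟩⟩ := (h.ld hφ hN hA).cases
  swap
  · exact (h.one k1 k2).elim
  obtain ⟨c, hc⟩ := eq_Rc (fun _ a _ b => A1_comm a b) k k2
  have le : E ≤ E3 := fun e he => of_conj_Rc (c := c) fun x hx => hc.le (A1_norm he (hc.ge hx))
  have w : ∀ v : V, v 5 = 0 → v ∈ Wof E := fun v hv => k1.ge (by simpa [mem_co] using hv)
  obtain k3 | k3 := eq_top_of_Y2_lt (k.ge.trans (map_mono (A1_le (φ := φ))))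
  · have eR : E = R := le_antisymm (fun x hx => ⟨le hx, k3.le ⟨x, hx, rfl⟩⟩) (b2_le (by
      rintro _ ⟨x, hx, rfl⟩
      obtain ⟨y, hy, e⟩ := k3.ge hx.2
      exact ⟨y, ⟨⟨le hy, k3.le ⟨y, hy, rfl⟩⟩, hy⟩, e⟩) fun v hv => w v hv.1)
    have hn : up x1 ∈ normalizer (E : Set M) := norm_of fun x hx => eR.ge
      ⟨E3.mul_mem (E3.mul_mem rfl (le hx)) (E3.inv_mem rfl), by simpa [mem_AY, mem_Y2] using (eR.le hx).2⟩
    obtain ⟨a, b⟩ := h.far hφ hN hn fun e => absurd (mem_R.1 (eR.le e)).2 (by decide)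
    obtain ⟨x, hx, e⟩ := (h.ld a b hA).cases.1.ge (rfl : z ∈ Y2)
    obtain ⟨y, y1, y2, rfl⟩ := mem_A1.1 hx
    obtain ⟨y', y3, -, e'⟩ := mem_A1.1 (hc.ge (conj_Rc (m := up x1) rfl (hc.le (mem_A1.2 ⟨y, y1, y2, rfl⟩))))
    rw [far_apply hn y2 e'.symm, π_apply, mem_A.1 y3] at e
    exact absurd e (by decide)
  · exact le_antisymm le (b2_le (by rw [inf_of_le_right le, k3]; exact le_top) w)

theorem essential_cases {F : FS} (hF : F.IsSaturated 3) (hE : F.IsEssential 3 E) : (∃ Y, E = AY Y) ∨ E = E3 := by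
  obtain ⟨N, h⟩ := ea_of_essential hF hE
  exact h.cases.imp_left fun k => ⟨_, eq_AY k⟩

end CfsgLib.Cf3
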