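import Mathlib
import Cfsg.Agent.Lib.Cf3.Defs
import Cfsg.Agent.Lib.Comput.Net

/-! Package CMP: words in explicit matrices (plans/CF3.md). -/

set_option autoImplicit false
set_option maxRecDepth 100000
set_option Elab.async false

namespace CfsgLib.Cf3

open Subgroup Matrix Cfsg CfsgLib.Fusion

/-- a lower unitriangular element in the centraliser of `r0` -/
def qM : Mat := !![0,0,2,0,2,1; 2,1,0,2,0,1; 1,2,0,1,2,2; 1,0,0,2,0,2; 0,1,1,0,2,0; 0,0,1,2,1,1]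

/-- as a unit -/
def q0 : G6 := mkG qM (qM * qM) (by decide +kernel)

namespace Cmp

open CfsgLib.Comput

/-- tests on coordinates -/
abbrev T6 : Type := ℕ → ℕ → ℕ → ℕ → ℕ → ℕ → Bool

/-- the test implies the property -/
def Rep (p : T6) (P : V → Prop) : Prop :=
  ∀ a b c d e g : ℕ, p a b c d e g = true → P ![(a : K), (b : K), (c : K), (d : K), (e : K), (g : K)]

/-- reduce and evaluate the coordinates -/
noncomputable def f6 (p : T6) (a b c d e g : ℕ) : Bool :=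
  force (a % 3) fun a => force (b % 3) fun b => force (c % 3) fun c => force (d % 3) fun d =>
    force (e % 3) fun e => force (g % 3) fun g => p a b c d e g

theorem f6_rep {p : T6} {P : V → Prop} (h : Rep p P) : Rep (f6 p) P := fun a b c d e g k => by
  simp only [f6, force_eq] at k
  simpa only [ZMod.natCast_mod] using h _ _ _ _ _ _ k

/-- the letters -/
def lt (k : K) : ℕ → G6
  | 0 => ρ x1
  | 1 => ρ x2
  | 2 => y1 k
  | 3 => y2 0
  | _ => q0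

/-- one letter -/
noncomputable def stp (k : ℕ) (p : T6) (l : ℕ) : T6 := fun a b c d e g =>
  cond (l.beq 0) (f6 p (a + b + c) (b + 2 * c) c (d + e) e g)
  (cond (l.beq 1) (f6 p a (b + d) (c + e + g) d (e + 2 * g) g)
  (cond (l.beq 2) (f6 p a (2 * a + b + k * g) (a + b + c + 2 * k * g) d (d + e) g)
  (cond (l.beq 3) (f6 p a b c (b + d) (2 * c + e) (c + e + g))
  (f6 p (2 * c + 2 * e + g) (2 * a + b + 2 * d + g) (a + 2 * b + d + 2 * e + 2 * g) (a + 2 * d + 2 * g)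
    (b + c + 2 * e) (c + 2 * d + e + g)))))

theorem stp_rep {p : T6} {P : V → Prop} (h : Rep p P) (k l : ℕ) : Rep (stp k p l) fun v => P (lt k l • v) :=
  fun a b c d e g t => by
  have key : ∀ {m : G6} {v w : V}, P w → m.1 *ᵥ v = w → P (m • v) := fun h e => by rw [smul_def, e]; exact h
  match l, t with
  | 0, t => refine key (f6_rep h _ _ _ _ _ _ t) ?_; ext i; fin_cases i <;>
      simp [lt, ρ_val, rhoM, x1, mulVec, dotProduct, Fin.sum_univ_succ, add_assoc]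
  | 1, t => refine key (f6_rep h _ _ _ _ _ _ t) ?_; ext i; fin_cases i <;>
      simp [lt, ρ_val, rhoM, x2, mulVec, dotProduct, Fin.sum_univ_succ, add_assoc]
  | 2, t => refine key (f6_rep h _ _ _ _ _ _ t) ?_; ext i; fin_cases i <;>
      simp [lt, y1, y1M, mulVec, dotProduct, Fin.sum_univ_succ, add_assoc]
  | 3, t => refine key (f6_rep h _ _ _ _ _ _ t) ?_; ext i; fin_cases i <;>
      simp [lt, y2, y2M, mulVec, dotProduct, Fin.sum_univ_succ, add_assoc]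
  | l + 4, t => refine key (f6_rep h _ _ _ _ _ _ t) ?_; ext i; fin_cases i <;>
      simp [lt, q0, qM, mulVec, dotProduct, Fin.sum_univ_succ, add_assoc]

/-- a word -/
noncomputable def wd (k : ℕ) (w : List ℕ) (p : T6) : T6 :=
  List.rec (motive := fun _ => T6 → T6) (fun p => p) (fun l _ ih p => ih (stp k p l)) w p

theorem wd_rep (k : ℕ) (w : List ℕ) : ∀ {p : T6} {P : V → Prop}, Rep p P →
    Rep (wd k w p) fun v => P ((w.map (lt k)).prod • v) := by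
  induction w with
  | nil => exact fun h => by simpa [wd] using h
  | cons l w ih =>
    intro p P h
    simp only [List.map_cons, List.prod_cons, mul_smul]
    exact ih (stp_rep h k l)

theorem Rep.val {p : T6} {P : V → Prop} (h : Rep p P) {v : V}
    (t : p (v 0).val (v 1).val (v 2).val (v 3).val (v 4).val (v 5).val = true) : P v := by
  have := h _ _ _ _ _ _ t
  simp only [ZMod.natCast_val, ZMod.cast_id', id] at this
  exact (show ![v 0, v 1, v 2, v 3, v 4, v 5] = v by ext i; fin_cases i <;> rfl) ▸ this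

/-- the test of a decidable property -/
def dc (P : V → Prop) [DecidablePred P] : T6 := fun a b c d e g =>
  decide (P ![(a : K), (b : K), (c : K), (d : K), (e : K), (g : K)])

theorem dc_rep (P : V → Prop) [DecidablePred P] : Rep (dc P) P := fun _ _ _ _ _ _ => of_decide_eq_true

theorem wd_eq (k : ℕ) (w : List ℕ) (T : G6) (h : ∀ j : Fin 6, wd k w (dc fun v => v = T • f j)
    (f j 0).val (f j 1).val (f j 2).val (f j 3).val (f j 4).val (f j 5).val = true) : (w.map (lt k)).prod = T :=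
  Units.ext (Matrix.ext fun i j => by
    have := congrFun ((wd_rep k w (dc_rep fun v => v = T • f j)).val (h j)) i
    simpa only [smul_def, f, mulVec_single_one, col_apply] using this)

theorem wd_mem {H : Subgroup G6} {k : K} (w : List ℕ) (h : ∀ l ∈ w, lt k l ∈ H) : (w.map (lt k)).prod ∈ H :=
  list_prod_mem (by simpa using h)

/-- the vectors with a nontrivial stabiliser in `U` -/
def NR (v : V) : Prop :=
  (v 4 = 0 ∧ v 5 = 0 ∧ (v 3 = 0 ∨ v 2 ≠ 0)) ∨ ∃ c : K, v 4 = c * v 5 ∧ v 2 = c * v 4 ∧ v 1 = -(c * v 3)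

instance : DecidablePred NR := fun v => by unfold NR; infer_instance

theorem nr_iff (v : V) : NR v ↔ ∃ u, u ≠ 1 ∧ ρ u • v = v := by
  have k : ∀ v1 v2 v3 v4 v5 : K, ((v4 = 0 ∧ v5 = 0 ∧ (v3 = 0 ∨ v2 ≠ 0)) ∨
      ∃ c : K, v4 = c * v5 ∧ v2 = c * v4 ∧ v1 = -(c * v3)) ↔ ∃ u : U, u ≠ 1 ∧ 2 * u.b * v5 = 0 ∧
      u.a * v4 + 2 * u.c * v5 = 0 ∧ u.b * v4 + u.b ^ 2 * v5 = 0 ∧
      2 * u.a * v2 + u.b * v3 + (u.c + u.a * u.b) * v4 + 2 * u.b * u.c * v5 = 0 ∧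
      u.a * v1 + u.a ^ 2 * v2 + u.c * v3 + u.a * u.c * v4 + u.c ^ 2 * v5 = 0 := by decide +kernel
  refine (k _ _ _ _ _).trans (exists_congr fun u => and_congr_right fun _ => ?_)
  rw [ρ_smul, funext_iff]
  simp only [Fin.forall_fin_succ, add_assoc]
  simp
  tauto

/-- the test for `NR` -/
def nr : T6 := fun _ b c d e g => (e.beq 0 && g.beq 0 && (d.beq 0 || c.beq 1 || c.beq 2)) ||
  (e.beq 0 && c.beq 0 && b.beq 0) || (e.beq g && c.beq e && ((b + d) % 3).beq 0) ||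
  (((e + g) % 3).beq 0 && ((c + e) % 3).beq 0 && b.beq d)

theorem nr_rep : Rep nr NR := fun a b c d e g t => by
  have z3 : ∀ x y : ℕ, (x + y) % 3 = 0 → (x : K) = -y := fun x y h => by
    rw [eq_neg_iff_add_eq_zero, ← Nat.cast_add, ← ZMod.natCast_mod, h, Nat.cast_zero]
  simp only [nr, Bool.or_eq_true, Bool.and_eq_true, Nat.beq_eq] at t
  rcases t with ((⟨⟨rfl, rfl⟩, (rfl | rfl) | rfl⟩ | ⟨⟨rfl, rfl⟩, rfl⟩) | ⟨⟨rfl, rfl⟩, t⟩) | ⟨⟨t1, t2⟩, rfl⟩
  · exact Or.inl (by simp)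
  · exact Or.inl (by simp)
  · exact Or.inl ⟨by simp, by simp, Or.inr (show ((2 : ℕ) : K) ≠ 0 by decide)⟩
  · exact Or.inr ⟨0, by simp⟩
  · exact Or.inr ⟨1, by simp [z3 _ _ t]⟩
  · exact Or.inr ⟨-1, by simp [z3 _ _ t1, z3 _ _ t2]⟩

theorem nonreg {H : Subgroup G6} (k : ℕ) (ws : List (List ℕ)) (h : ∀ l < 4, lt k l ∈ H)
    (h1 : ∀ w ∈ ws, ∀ l ∈ w, l < 4)
    (h2 : ∀ a < 3, ∀ b < 3, ∀ c < 3, ∀ d < 3, ∀ e < 3, ∀ g < 3, (ws.any fun w => wd k w nr a b c d e g) = true) (v : V) :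
    ∃ g ∈ H, ∃ u, u ≠ 1 ∧ ρ u • g • v = g • v := by
  obtain ⟨w, hw, t⟩ := List.any_eq_true.1 (h2 _ (v 0).val_lt _ (v 1).val_lt _ (v 2).val_lt _ (v 3).val_lt
    _ (v 4).val_lt _ (v 5).val_lt)
  exact ⟨_, wd_mem w fun l hl => h l (h1 w hw l hl), (nr_iff _).1 ((wd_rep k w nr_rep).val t)⟩

end Cmp

open Cmp

theorem sq1 (k : K) : (ρ x1 * y1 k) ^ 2 = τA s3 := by
  rw [pow_two]; exact Units.ext (by revert k; decide +kernel)

theorem sq2 (k : K) : (ρ x2 * y2 k) ^ 2 = τA s2 := by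
  rw [pow_two]; exact Units.ext (by revert k; decide +kernel)

theorem ord18 : (ρ x1 * y1 2 * y2 0) ^ 18 = 1 ∧ (ρ x1 * y1 2 * y2 0) ^ 6 ≠ 1 := by
  have e : ∀ n, (((List.replicate n [0, 2, 3]).flatten).map (lt (2 : ℕ))).prod = (ρ x1 * y1 2 * y2 0) ^ n := fun n => by
    rw [List.map_flatten, List.prod_flatten, List.map_replicate, List.map_replicate, List.prod_replicate]
    simp [lt, mul_assoc]
  refine ⟨e 18 ▸ wd_eq 2 _ 1 (by decide +kernel), fun h => ?_⟩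
  have := (wd_rep 2 (List.replicate 6 [0, 2, 3]).flatten (dc_rep fun v => v ≠ f 1)).val (v := f 1) (by decide +kernel)
  rw [e, h, one_smul] at this
  exact this rfl

theorem y1_comm (k : K) : y1 k * τA s3 = τA s3 * y1 k := Units.ext (by revert k; decide +kernel)

theorem y2_comm (k : K) : y2 k * τA s2 = τA s2 * y2 k := Units.ext (by revert k; decide +kernel)

theorem τA_s0_comm (g : G6) : g * τA s0 = τA s0 * g := Units.ext (by
  rw [Units.val_mul, Units.val_mul, show (τA s0).1 = -1 by decide +kernel, mul_neg_one, neg_one_mul])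

theorem words_q {H : Subgroup G6} (h1 : ρ x1 ∈ H) (h2 : ρ x2 ∈ H) (h : q0 ∈ H) : y1 1 ∈ H ∧ y2 0 ∈ H :=
  ⟨wd_eq 1 [4, 1, 4, 0, 0, 4, 0, 4, 4, 1, 4, 1, 4, 0] (y1 1) (by decide +kernel) ▸
      wd_mem _ (by simp [lt, h1, h2, h]),
    wd_eq 1 [0, 1, 4, 0, 4, 0, 4, 4, 1, 4, 1, 1, 4, 0, 4] (y2 0) (by decide +kernel) ▸
      wd_mem _ (by simp [lt, h1, h2, h])⟩

theorem words_y {H : Subgroup G6} (h1 : ρ x1 ∈ H) (h2 : ρ x2 ∈ H) (h3 : y1 1 ∈ H) (h4 : y2 0 ∈ H) :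
    q0 ∈ H ∧ τA s0 ∈ H :=
  ⟨wd_eq 1 [0, 0, 2, 3, 2, 3, 2, 0, 2, 2, 3] q0 (by decide +kernel) ▸ wd_mem _ (by simp [lt, h1, h3, h4]),
    wd_eq 1 [0, 0, 1, 2, 3, 2, 0, 3, 1, 1, 2, 3, 2, 3, 1, 0, 2, 3, 2, 3] (τA s0) (by decide +kernel) ▸
      wd_mem _ (by simp [lt, h1, h2, h3, h4])⟩

theorem card_reg : (Finset.univ.filter fun v : V => ∀ u : U, u ≠ 1 → ρ u • v ≠ v).card = 594 := by
  rw [Finset.filter_congr (q := fun v => ¬ NR v) fun v _ => by rw [nr_iff, not_exists]; simp only [not_and]]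
  decide +kernel

theorem exists_nonreg {H : Subgroup G6} {k : K} (hk : k ≠ 2) (h1 : ρ x1 ∈ H) (h2 : ρ x2 ∈ H) (h3 : y1 k ∈ H)
    (h4 : y2 0 ∈ H) (v : V) : ∃ g ∈ H, ∃ u, u ≠ 1 ∧ ρ u • g • v = g • v := by
  have e : ∀ l < 4, lt k l ∈ H := fun l hl => by interval_cases l <;> assumption
  obtain rfl | rfl : k = (0 : ℕ) ∨ k = (1 : ℕ) := by clear * - hk; revert k; decide
  · exact nonreg 0 [[], [2], [2, 0], [2, 0, 0], [3], [3, 1], [3, 1, 1], [2, 3], [2, 0, 3], [2, 0, 0, 3], [3, 2],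
      [3, 1, 2], [2, 3, 3, 2], [3, 1, 1, 2], [2, 3, 1, 2], [3, 2, 0, 3], [2, 3, 1, 0, 2], [3, 2, 0, 1, 3], [2, 3, 1],
      [2, 3, 2], [2, 3, 3], [2, 0, 3, 2], [2, 3, 1, 0], [3, 2, 3, 1], [2, 3, 2, 0, 1], [3, 2, 0, 0], [2, 0, 3, 2, 0]]
      e (by decide) (by decide +kernel) v
  · exact nonreg 1 [[], [2, 3, 2, 3], [2, 3, 2, 3, 1], [2, 3, 2, 0, 3], [3, 2, 3, 2], [3, 2, 3, 1, 2], [2, 3, 2, 0, 1],
      [2, 0, 3, 2], [3, 2, 3], [3, 2, 3, 3], [3, 2, 3, 3, 2], [2, 0, 3, 2, 2], [3, 2, 3, 2, 0], [3, 2, 3, 3, 1],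
      [2, 3, 1], [2, 3, 1, 2, 3], [3, 2], [3, 1, 2]] e (by decide) (by decide +kernel) v

end CfsgLib.Cf3
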