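import Mathlib
import Cfsg.Agent.Lib.Cf3.Bas

/-! Package TRI: triangular matrices (plans/CF3.md). -/

set_option autoImplicit false
set_option maxRecDepth 100000
set_option synthInstance.maxSize 4096

namespace CfsgLib.Cf3

open Subgroup Matrix Cfsg CfsgLib.Fusion

/-- upper triangular matrices -/
def T6 : Subgroup G6 := St wZ ⊓ St wZ2 ⊓ St wD ⊓ St w4 ⊓ St w5

theorem tri_app (g : G6) (v : V) (i : Fin 6) : (g • v) i = ∑ j, g.1 i j * v j := rfl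

theorem mem_St_of {W : Submodule K V} {g : G6} (h : ∀ v ∈ W, g • v ∈ W) : g ∈ St W := by
  refine fun v => ⟨fun hv => ?_, h v⟩
  obtain ⟨w, hw⟩ := Finite.surjective_of_injective (f := fun w : W => (⟨g • w.1, h w w.2⟩ : W))
    (fun a b e => Subtype.ext (smul_left_cancel g (congrArg Subtype.val e))) ⟨_, hv⟩
  rw [← smul_left_cancel g (congrArg Subtype.val hw)]
  exact w.2

theorem tri_co {L : List (Fin 6)} {g : G6} : g ∈ St (co L) ↔ ∀ i ∈ L, ∀ j ∉ L, g.1 i j = 0 := by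
  refine ⟨fun h i hi j hj => ?_, fun h => mem_St_of fun v hv i hi => (tri_app g v i).trans (Finset.sum_eq_zero fun j _ => ?_)⟩
  · have := (h (f j)).2 (fun l hl => Pi.single_eq_of_ne (by rintro rfl; exact hj hl) _) i hi
    simpa [smul_def, f] using this
  · by_cases hj : j ∈ L
    · rw [hv j hj, mul_zero]
    · exact mul_eq_zero_of_left (h i hi j hj) _

theorem mem_T6 {g : G6} : g ∈ T6 ↔ ∀ i j, j < i → g.1 i j = 0 := by
  simp only [T6, mem_inf, tri_co]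
  refine ⟨fun ⟨⟨⟨⟨h1, h2⟩, h3⟩, h4⟩, h5⟩ i j hij => ?_, fun h => ⟨⟨⟨⟨?_, ?_⟩, ?_⟩, ?_⟩, ?_⟩⟩
  · have : ∀ i j : Fin 6, j < i → i ∈ [1, 2, 3, 4, 5] ∧ j ∉ [1, 2, 3, 4, 5] ∨ i ∈ [2, 3, 4, 5] ∧ j ∉ [2, 3, 4, 5] ∨
        i ∈ [3, 4, 5] ∧ j ∉ [3, 4, 5] ∨ i ∈ [4, 5] ∧ j ∉ [4, 5] ∨ i ∈ [5] ∧ j ∉ [5] := by decide
    rcases this i j hij with e | e | e | e | e
    exacts [h1 i e.1 j e.2, h2 i e.1 j e.2, h3 i e.1 j e.2, h4 i e.1 j e.2, h5 i e.1 j e.2]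
  all_goals exact fun i hi j hj => h i j (by revert i j; decide)

theorem mem_B {g : G6} : g ∈ B ↔ (∀ i j, j < i → g.1 i j = 0) ∧ g.1 2 3 = 0 := by
  rw [← mem_T6]
  refine ⟨fun ⟨⟨⟨⟨⟨h1, h2⟩, h3⟩, h4⟩, h5⟩, h6⟩ => ⟨⟨⟨⟨⟨h1, h2⟩, h3⟩, h5⟩, h6⟩, tri_co.1 h4 2 (by decide) 3 (by decide)⟩,
    fun ⟨h, e⟩ => ⟨⟨⟨h.1.1, tri_co.2 fun i hi j hj => ?_⟩, h.1.2⟩, h.2⟩⟩
  rcases (by decide : ∀ i j : Fin 6, i ∈ [2, 4, 5] → j ∉ [2, 4, 5] → j < i ∨ i = 2 ∧ j = 3) i j hi hj with m | ⟨rfl, rfl⟩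
  exacts [mem_T6.1 h i j m, e]

theorem B_le_T6 : B ≤ T6 := by
  exact fun g h => (mem_T6.2 (mem_B.1 h).1)

theorem ρ_mem_B (u : U) : ρ u ∈ B := by
  refine mem_B.2 ⟨fun i j h => ?_, rfl⟩
  fin_cases i <;> fin_cases j <;> first | rfl | exact absurd h (by decide)

theorem τA_mem_B (s : Sg) : τA s ∈ B := by
  exact mem_B.2 ⟨fun i j h => diagonal_apply_ne _ h.ne', rfl⟩

theorem β_mem_B (k : K) : β k ∈ B := by
  refine mem_B.2 ⟨fun i j h => ?_, rfl⟩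
  fin_cases i <;> fin_cases j <;> first | rfl | exact absurd h (by decide)

theorem exists_flag (W : ℕ → Submodule K V) (n : ℕ) (h0 : W 0 = ⊥) (hn : W n = ⊤) (hm : ∀ i < n, W i ≤ W (i + 1)) :
    ∃ Q : Subgroup G6, IsPGroup 3 Q ∧ ∀ g, g ∈ Q ↔ ∀ i < n, ∀ v ∈ W (i + 1), g • v - v ∈ W i := by
  have st : ∀ g : G6, (∀ i < n, ∀ v ∈ W (i + 1), g • v - v ∈ W i) → ∀ i < n, g ∈ St (W (i + 1)) :=
    fun g h i hi => mem_St_of fun v hv => by simpa using add_mem (hm i hi (h i hi v hv)) hv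
  let Q : Subgroup G6 :=
    { carrier := {g | ∀ i < n, ∀ v ∈ W (i + 1), g • v - v ∈ W i}
      one_mem' := fun i _ v _ => by simp
      mul_mem' := fun {g k} hg hk i hi v hv => by
        simpa [mul_smul] using add_mem (hg i hi _ ((st k hk i hi v).2 hv)) (hk i hi v hv)
      inv_mem' := fun {g} hg i hi v hv => by
        simpa using neg_mem (hg i hi _ ((inv_mem (st g hg i hi) v).2 hv)) }
  refine ⟨Q, fun g => ⟨n, Subtype.ext (Units.ext ?_)⟩, fun g => Iff.rfl⟩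
  have key : ∀ i ≤ n, ∀ v ∈ W i, (g.1.1 - 1) ^ i *ᵥ v = 0 := fun i => by
    induction i with
    | zero => intro _ v hv; simpa [h0] using hv
    | succ i ih =>
      intro hi v hv
      rw [pow_succ, ← mulVec_mulVec, sub_mulVec, one_mulVec]
      exact ih (by omega) _ (g.2 i hi v hv)
  have e : (g.1.1 - 1) ^ n = 0 := by
    ext i j
    simpa using congrFun (key n le_rfl (Pi.single j 1) (hn ▸ Submodule.mem_top)) i
  have := pow_eq_zero_of_le (Nat.lt_pow_self (by norm_num : 1 < 3)).le e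
  rw [sub_pow_char_pow_of_commute _ _ (Commute.one_right _), one_pow, sub_eq_zero] at this
  simpa using this

theorem tri_unip {g : G6} (h : g ∈ T6) (h1 : ∀ i, g.1 i i = 1) : ∃ k, g ^ 3 ^ k = 1 := by
  let W : ℕ → Submodule K V := fun n =>
    { carrier := {v | ∀ j : Fin 6, n ≤ j → v j = 0}
      zero_mem' := fun _ _ => rfl
      add_mem' := fun hv hw j hj => by rw [Pi.add_apply, hv j hj, hw j hj, add_zero]
      smul_mem' := fun c v hv j hj => by rw [Pi.smul_apply, hv j hj, smul_zero] }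
  obtain ⟨Q, hQ, mem⟩ := exists_flag W 6 (eq_bot_iff.2 fun v hv => funext fun j => hv j (Nat.zero_le _))
    (eq_top_iff.2 fun v _ j hj => absurd j.2 (by omega)) fun i _ v hv j hj => hv j (by omega)
  obtain ⟨k, hk⟩ := hQ ⟨g, (mem g).2 fun i _ v hv j hj => by
    rw [Pi.sub_apply, sub_eq_zero, tri_app, Finset.sum_eq_single j (fun l _ hl => ?_) (by simp), h1, one_mul]
    rcases lt_or_gt_of_ne hl with m | m
    · exact mul_eq_zero_of_left (mem_T6.1 h j l m) _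
    · exact mul_eq_zero_of_right _ (hv l (by omega))⟩
  exact ⟨k, congrArg Subtype.val hk⟩

/-- the diagonal -/
def tri_dg : T6 →* (Fin 6 → K) where
  toFun g i := g.1.1 i i
  map_one' := funext fun i => by simp
  map_mul' g k := funext fun i => by
    change ∑ l, g.1.1 i l * k.1.1 l i = g.1.1 i i * k.1.1 i i
    refine Finset.sum_eq_single i (fun l _ hl => ?_) fun e => absurd (Finset.mem_univ i) e
    rcases lt_or_gt_of_ne hl with m | m
    · exact mul_eq_zero_of_left (mem_T6.1 g.2 i l m) _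
    · exact mul_eq_zero_of_right _ (mem_T6.1 k.2 l i m)

theorem exists_tc {H : Subgroup G6} {h : G6} (hH : H ≤ cj h T6) : ∃ Q ≤ H, IsPGroup 3 Q ∧
    H ≤ normalizer (Q : Set G6) ∧ ∀ g ∈ H, IsPGroup 3 (zpowers g) → g ∈ Q := by
  let φ : H →* T6 := ((MulAut.conj h⁻¹).toMonoidHom.comp H.subtype).codRestrict T6 fun g => by
    simpa using mem_cj.1 (hH g.2)
  have inj : Function.Injective φ := fun a b e => Subtype.ext ((MulAut.conj h⁻¹).injective (congrArg Subtype.val e))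
  refine ⟨(tri_dg.comp φ).ker.map H.subtype, map_subtype_le _, IsPGroup.map (fun g => ?_) _,
    fun k hk => mem_normalizer_fintype ?_, fun g hg h3 => ⟨⟨g, hg⟩, funext fun i => ?_, rfl⟩⟩
  · obtain ⟨k, hk⟩ := tri_unip (φ g).2 fun i => congrFun g.2 i
    exact ⟨k, Subtype.ext (inj (by rw [SubgroupClass.coe_pow, map_pow]; exact Subtype.ext (hk.trans (by simp))))⟩
  · rintro _ ⟨g, hg, rfl⟩
    exact ⟨_, (MonoidHom.normal_ker _).conj_mem g hg ⟨k, hk⟩, rfl⟩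
  · obtain ⟨k, hk⟩ := h3 ⟨g, mem_zpowers g⟩
    have e : (⟨g, hg⟩ : H) ^ 3 ^ k = 1 := Subtype.ext (by simpa using congrArg Subtype.val hk)
    have := congrFun (congrArg (tri_dg.comp φ) e) i
    rwa [map_pow, map_one, Pi.pow_apply, ZMod.pow_card_pow] at this

theorem isPGroup_of_unip {g : G6} (h : g ∈ T6) (h1 : ∀ i, g.1 i i = 1) : IsPGroup 3 (zpowers g) := by
  obtain ⟨k, hk⟩ := tri_unip h h1
  rintro ⟨_, i, rfl⟩
  refine ⟨k, Subtype.ext ?_⟩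
  change (g ^ i) ^ 3 ^ k = 1
  rw [← zpow_natCast, ← _root_.zpow_mul, mul_comm, _root_.zpow_mul, zpow_natCast, hk, _root_.one_zpow]

theorem isPGroup_ρ (u : U) : IsPGroup 3 (zpowers (ρ u)) := by
  exact MonoidHom.map_zpowers ρ u ▸ (pU.to_subgroup _).map ρ

theorem tri_act {g : G6} {y y' : U} (h : g * ρ y = ρ y' * g) (v : V) :
    g • (ρ y • v - v) = ρ y' • g • v - g • v := by
  rw [smul_sub, ← mul_smul, h, mul_smul]

theorem tri_zc {y : U} (hy : y = z ∨ y = z⁻¹) (v : V) :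
    ρ y • v - v = ![y.c * v 3 + v 5, y.c * v 4, 0, 2 * y.c * v 5, 0, 0] := by
  ext i
  simp only [ρ_smul, Pi.sub_apply]
  rcases hy with rfl | rfl <;> fin_cases i <;> simp [z] <;> ring

theorem tri_x1 (v : V) : ρ x1 • v - v = ![v 1 + v 2, 2 * v 2, 0, v 4, 0, 0] := by
  ext i
  simp only [ρ_smul, Pi.sub_apply]
  fin_cases i <;> simp [x1]
  ring

theorem tri_c {y : U} (hy : y = z ∨ y = z⁻¹) : y.c ≠ 0 := by
  rcases hy with rfl | rfl <;> decide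

theorem tri_D {y : U} (hy : y = z ∨ y = z⁻¹) (v : V) (h : ρ y • v - v = 0) : v ∈ wD := by
  rw [tri_zc hy] at h
  simpa [mem_co] using (by decide : ∀ c a b d : K, c ≠ 0 → c * a + d = 0 → c * b = 0 → 2 * c * d = 0 →
    a = 0 ∧ b = 0 ∧ d = 0) _ _ _ _ (tri_c hy) (congrFun h 0) (congrFun h 1) (congrFun h 3)

theorem tri_5 {y : U} (hy : y = z ∨ y = z⁻¹) (v : V) (h : ρ y • v - v ∈ wD) : v ∈ w5 := by
  rw [tri_zc hy] at h
  simpa [mem_co] using (by decide : ∀ c d : K, c ≠ 0 → 2 * c * d = 0 → d = 0) _ _ (tri_c hy) (h 3 (by decide))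

theorem tri_D' {y : U} (hy : y ∈ Y2) {v : V} (hv : v ∈ wD) : ρ y • v - v = 0 := by
  simp only [mem_co, List.forall_mem_cons] at hv
  ext i
  fin_cases i <;> simp [ρ_smul, hv, mem_Y2.1 hy]

theorem tri_5' {y : U} (hy : y ∈ Y2) {v : V} (hv : v ∈ w5) : ρ y • v - v ∈ wD := by
  simp only [mem_co, List.forall_mem_cons] at hv
  simp only [mem_co, List.forall_mem_cons, Pi.sub_apply, ρ_smul]
  simp [hv, mem_Y2.1 hy]

theorem tri_Z' (y : U) {v : V} (hv : v ∈ wZ) : ρ y • v - v = 0 := by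
  simp only [mem_co, List.forall_mem_cons] at hv
  ext i
  fin_cases i <;> simp [ρ_smul, hv]

theorem tri_P' {y : U} (hy : y ∈ Y1) {v : V} (hv : v ∈ wP) : ρ y • v - v ∈ wZ := by
  simp only [mem_co, List.forall_mem_cons] at hv
  simp only [mem_co, List.forall_mem_cons, Pi.sub_apply, ρ_smul]
  simp [hv, mem_Y1.1 hy]

theorem norm_z {g : G6} (h : g * ρ z * g⁻¹ = ρ z ∨ g * ρ z * g⁻¹ = ρ z⁻¹) : g ∈ B := by
  obtain ⟨y, hy, e⟩ : ∃ y, (y = z ∨ y = z⁻¹) ∧ g * ρ z = ρ y * g :=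
    h.elim (fun e => ⟨_, .inl rfl, mul_inv_eq_iff_eq_mul.1 e⟩) fun e => ⟨_, .inr rfl, mul_inv_eq_iff_eq_mul.1 e⟩
  have hD : ∀ v ∈ wD, g • v ∈ wD := fun v hv => tri_D hy _ (by rw [← tri_act e, tri_D' rfl hv, smul_zero])
  have h5 : ∀ v ∈ w5, g • v ∈ w5 := fun v hv => tri_5 hy _ (tri_act e v ▸ hD _ (tri_5' rfl hv))
  have hP : ∀ v ∈ wP, g • v ∈ wP := fun v hv => by
    have : v = ρ z • ![0, 0, 0, v 0 + v 3, v 1, -v 3] - ![0, 0, 0, v 0 + v 3, v 1, -v 3] := by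
      simp only [mem_co, List.forall_mem_cons] at hv
      rw [tri_zc (.inl rfl)]
      ext i
      fin_cases i <;> simp [z, hv]
      exact (by decide : ∀ a : K, a = -(2 * a)) _
    rw [this, tri_act e, tri_zc hy]
    simp [mem_co]
  have hZ : ∀ v ∈ wZ, g • v ∈ wZ := fun v hv => by
    have : v = ρ z • ![0, 0, 0, v 0, 0, 0] - ![0, 0, 0, v 0, 0, 0] := by
      simp only [mem_co, List.forall_mem_cons] at hv
      rw [tri_zc (.inl rfl)]
      ext i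
      fin_cases i <;> simp [z, hv]
    rw [this, tri_act e]
    exact tri_P' (by rcases hy with rfl | rfl <;> rfl) (hP _ (by simp [mem_co]))
  refine ⟨⟨⟨⟨⟨mem_St_of hZ, mem_St_of fun v hv => ?_⟩, mem_St_of hD⟩, mem_St_of hP⟩, mem_St_of fun v hv => ?_⟩,
    mem_St_of h5⟩
  · have : ∀ v : V, v ∈ wZ2 ↔ v ∈ wD ∧ v ∈ wP := fun v => by simp only [mem_co, List.forall_mem_cons]; tauto
    exact (this _).2 (((this v).1 hv).imp (hD v) (hP v))
  · have : ∀ v : V, v ∈ wD ∨ v ∈ wP → v ∈ w4 := fun v => by simp only [mem_co, List.forall_mem_cons]; tauto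
    rw [← sub_add_cancel v (v 3 • f 3), smul_add]
    refine add_mem (this _ (.inl (hD _ ?_))) (this _ (.inr (hP _ ?_)))
    · simpa [mem_co, f] using hv
    · simp [mem_co, f]

theorem tri_ex {Y : Subgroup U} {g : G6} (h : g ∈ normalizer (YY Y : Set G6)) {y : U} (hy : y ∈ Y) :
    ∃ y' ∈ Y, g * ρ y = ρ y' * g := by
  obtain ⟨y', hy', e⟩ := (mem_normalizer_iff.1 h _).1 ⟨y, hy, rfl⟩
  exact ⟨y', hy', mul_inv_eq_iff_eq_mul.1 e.symm⟩

theorem tri_ex' {Y : Subgroup U} {g : G6} (h : g ∈ normalizer (YY Y : Set G6)) {y : U} (hy : y ∈ Y) :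
    ∃ y' ∈ Y, g * ρ y' = ρ y * g := by
  obtain ⟨y', hy', e⟩ := tri_ex (inv_mem h) hy
  exact ⟨y', hy', by rw [← mul_inv_eq_iff_eq_mul, mul_assoc, ← e, mul_inv_cancel_left]⟩

theorem tri_ne {g : G6} {y : U} (e : g * ρ z = ρ y * g) : y ≠ 1 := by
  rintro rfl
  rw [map_one, one_mul, mul_eq_left] at e
  exact absurd (ρ_inj (e.trans (map_one ρ).symm)) (by decide)

theorem norm_top : normalizer (YY ⊤ : Set G6) ≤ B := by
  intro g h
  obtain ⟨y, -, e⟩ := tri_ex h (mem_top z)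
  have c : ∀ u, y * u = u * y := fun u => by
    obtain ⟨u', -, e'⟩ := tri_ex' h (mem_top u)
    refine ρ_inj (mul_right_cancel (b := g) ?_)
    rw [map_mul, map_mul, mul_assoc, mul_assoc, ← e', ← e, ← mul_assoc, ← mul_assoc, ← e, ← e', mul_assoc, mul_assoc,
      ← map_mul, ← map_mul, (by decide : ∀ u, z * u = u * z) u']
  refine norm_z ?_
  rw [e, mul_inv_cancel_right]
  exact ((by decide +kernel : ∀ y : U, y * x1 = x1 * y → y * x2 = x2 * y → y ≠ 1 → y = z ∨ y = z⁻¹) y (c _) (c _)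
    (tri_ne e)).imp (congrArg ρ) (congrArg ρ)

theorem norm_Ya {t : K} (ht : t ≠ 0) : normalizer (YY (Ya t) : Set G6) ≤ B := by
  intro g h
  obtain ⟨y, hy, e⟩ := tri_ex h (show z ∈ Ya t from (mul_zero t).symm)
  have two : ∀ v, ∃ c : K, ρ y • (ρ y • v - v) - (ρ y • v - v) = c • g • f 0 := fun v => by
    obtain ⟨w, rfl⟩ : ∃ w, v = g • w := ⟨g⁻¹ • v, (smul_inv_smul g v).symm⟩
    refine ⟨2 * w 5, ?_⟩
    rw [← tri_act e, ← tri_act e, smul_comm (2 * w 5) g, tri_zc (.inl rfl) w, tri_zc (.inl rfl)]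
    congr 1
    ext i
    fin_cases i <;> simp [z, f]
  obtain ⟨c, hc⟩ := two (f 5)
  obtain ⟨d, hd⟩ := two (f 3)
  refine norm_z ?_
  rw [e, mul_inv_cancel_right]
  have h1 := congrFun hc 2
  have h2 := congrFun hd 2
  have h3 := congrFun hd 0
  simp only [ρ_smul, Pi.sub_apply, Pi.smul_apply, smul_eq_mul] at h1 h2 h3
  simp [f] at h1 h2 h3
  refine ((by decide +kernel : ∀ (t : K) (y : U), t ≠ 0 → y.b = t * y.a → y ≠ 1 → (y.b = 0 ∨ y.a * y.b = 0) →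
    y = z ∨ y = z⁻¹) t y ht hy (tri_ne e) ?_).imp (congrArg ρ) (congrArg ρ)
  rcases h2 with h2 | h2
  · exact .inr (by rw [h3, h2, zero_mul])
  · exact .inl ((by decide : ∀ b : K, b * (2 * b) = 0 → b = 0) _ (by rw [h1, h2, mul_zero]))

theorem norm_Y2_St : normalizer (YY Y2 : Set G6) ≤ St wD ⊓ St w5 := by
  intro g h
  obtain ⟨y, hy, e⟩ := tri_ex' h (show z ∈ Y2 from rfl)
  have hD : ∀ v ∈ wD, g • v ∈ wD := fun v hv => tri_D (.inl rfl) _ (by rw [← tri_act e, tri_D' hy hv, smul_zero])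
  exact ⟨mem_St_of hD, mem_St_of fun v hv => tri_5 (.inl rfl) _ (tri_act e v ▸ hD _ (tri_5' hy hv))⟩

theorem norm_Y1_St : normalizer (YY Y1 : Set G6) ≤ St wZ ⊓ St wP := by
  intro g h
  obtain ⟨y, hy, e⟩ := tri_ex' h (show z ∈ Y1 from rfl)
  obtain ⟨y', hy', e'⟩ := tri_ex' h (show x1 ∈ Y1 from rfl)
  have two : ∀ a : K, 2 * a = 0 → a = 0 := by decide
  have k1 : ∀ v : V, ρ z • v - v = 0 → ρ x1 • v - v = 0 → v ∈ wZ := fun v h1 h2 => by
    have := tri_D (.inl rfl) v h1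
    rw [tri_x1] at h2
    have h3 : v 2 = 0 := two _ (congrFun h2 1)
    have h4 : v 1 + v 2 = 0 := congrFun h2 0
    simp only [mem_co, List.forall_mem_cons] at this ⊢
    exact ⟨by rwa [h3, add_zero] at h4, h3, this⟩
  have k2 : ∀ v : V, ρ z • v - v ∈ wZ → ρ x1 • v - v ∈ wZ → v ∈ wP := fun v h1 h2 => by
    rw [tri_zc (.inl rfl)] at h1
    rw [tri_x1] at h2
    have h3 : v 5 = 0 := two _ (h1 3 (by decide))
    have h4 : v 2 = 0 := two _ (h2 1 (by decide))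
    have h5 : v 4 = 0 := h2 3 (by decide)
    simp [mem_co, h3, h4, h5]
  have hZ : ∀ v ∈ wZ, g • v ∈ wZ := fun v hv =>
    k1 _ (by rw [← tri_act e, tri_Z' y hv, smul_zero]) (by rw [← tri_act e', tri_Z' y' hv, smul_zero])
  exact ⟨mem_St_of hZ, mem_St_of fun v hv =>
    k2 _ (tri_act e v ▸ hZ _ (tri_P' hy hv)) (tri_act e' v ▸ hZ _ (tri_P' hy' hv))⟩

theorem mem_norm_YY {Y : Subgroup U} {g : G6} (h : ∀ y ∈ Y, ∃ y' ∈ Y, g * ρ y = ρ y' * g) :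
    g ∈ normalizer (YY Y : Set G6) := by
  refine mem_normalizer_fintype ?_
  rintro _ ⟨y, hy, rfl⟩
  obtain ⟨y', hy', e⟩ := h y hy
  exact ⟨y', hy', (mul_inv_eq_iff_eq_mul.2 e).symm⟩

theorem exists_of_norm_YY {Y : Subgroup U} {g : G6} (h : g ∈ normalizer (YY Y : Set G6)) {y : U} (hy : y ∈ Y) :
    ∃ y' ∈ Y, g * ρ y = ρ y' * g := by
  exact tri_ex h hy

theorem no9 {X : Subgroup G6} (h : SylIn 3 UU X) {g : G6} (hg : g ∈ X) (h9 : g ^ 18 = 1) : g ^ 6 = 1 := by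
  obtain ⟨y, -, hy⟩ := h.exists_conj (U := zpowers (g ^ 2)) (by
    rintro ⟨_, i, rfl⟩
    refine ⟨2, Subtype.ext ?_⟩
    change ((g ^ 2) ^ i) ^ 9 = 1
    rw [← zpow_natCast, ← _root_.zpow_mul, mul_comm, _root_.zpow_mul, zpow_natCast, ← pow_mul, h9, _root_.one_zpow])
    (zpowers_le.2 (pow_mem hg 2))
  obtain ⟨u, hu⟩ := hy _ (mem_zpowers _)
  have := congrArg ρ (U_cube u)
  rwa [map_pow, hu, map_one, conj_pow, conj_eq_one_iff, ← pow_mul] at this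

theorem mem_UU_of_T6 {X : Subgroup G6} (h : SylIn 3 UU X) {g : G6} (hg : g ∈ X) (hB : g ∈ T6)
    (h3 : IsPGroup 3 (zpowers g)) : ∃ u, g = ρ u := by
  obtain ⟨Q, le, hQ, -, mem⟩ := exists_tc (H := X ⊓ T6) (h := 1) fun k hk => mem_cj.2 (by simpa using hk.2)
  have e := h.eq_of_le hQ (by
    rintro _ ⟨u, rfl⟩
    exact mem _ ⟨h.le ⟨u, rfl⟩, B_le_T6 (ρ_mem_B u)⟩ (isPGroup_ρ u)) (le.trans inf_le_left)
  obtain ⟨u, hu⟩ : g ∈ UU := e ▸ mem g ⟨hg, hB⟩ h3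
  exact ⟨u, hu.symm⟩

theorem XD.mem_of_B {X H : Subgroup G6} (h : XD X) (hH : Bor X H) {g : G6} (hg : g ∈ X) (hB : g ∈ B) : g ∈ H := by
  obtain ⟨u, s, hs, rfl⟩ := h.bor g hg hB
  exact mul_mem (hH.uu u) (hH.tt s hs)

theorem XD.ρ_mem {X : Subgroup G6} (h : XD X) (u : U) : ρ u ∈ X := by
  exact h.syl.le ⟨u, rfl⟩

end CfsgLib.Cf3
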