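import Mathlib
import Cfsg.Agent.Lib.Cf3.Tri
import Cfsg.Agent.Lib.Cf3.Cmp

/-! Package D2: the stabiliser of the socle (plans/CF3.md). -/

set_option autoImplicit false
set_option maxRecDepth 100000

namespace CfsgLib.Cf3

open Subgroup Matrix Cfsg CfsgLib.Fusion

variable {X N : Subgroup G6}

theorem SE.le_of_pgroup (h : SE X N) {Q : Subgroup G6} (hQ : Q ≤ X) (h3 : IsPGroup 3 Q) {g : G6} (hg : g ∈ Q)
    (hN : g ∈ N) (h1 : g ≠ 1) : Q ≤ N := by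
  by_contra hc
  have hlt : Q ⊓ N < Q := lt_of_le_of_ne inf_le_left fun e => hc (e ▸ inf_le_right)
  obtain ⟨n, hn, hn1, hn2⟩ := exists_mem_normalizer_notMem h3 hlt
  have h2 : n * g * n⁻¹ ∈ Q ⊓ N := (mem_normalizer_iff.1 hn1 g).1 ⟨hg, hN⟩
  exact hn2 ⟨hn, h.spe n (hQ hn) g hN (h3.to_le (zpowers_le.2 hg)) h1 h2.2⟩

theorem D2.ρ_ne {u : U} (hu : u ≠ 1) : ρ u ≠ 1 := fun e => hu (ρ_inj (e.trans (map_one ρ).symm))

theorem SE.conj_ρ (h : SE X N) {g : G6} (hg : g ∈ X) {u : U} (hu : u ≠ 1) (e : g * ρ u * g⁻¹ ∈ N) : g ∈ N :=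
  h.spe g hg (ρ u) (h.uu u) (isPGroup_ρ u) (D2.ρ_ne hu) e

namespace D2

/-- the image of a subspace -/
def tr (h : G6) (W : Submodule K V) : Submodule K V where
  carrier := {v | h⁻¹ • v ∈ W}
  zero_mem' := by simp
  add_mem' hv hw := by rw [Set.mem_ofPred_eq, smul_add]; exact W.add_mem hv hw
  smul_mem' c v hv := by rw [Set.mem_ofPred_eq, smul_comm]; exact W.smul_mem c hv

theorem mem_tr {h : G6} {W : Submodule K V} {v : V} : v ∈ tr h W ↔ h⁻¹ • v ∈ W := Iff.rfl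

theorem mem_wZ {v : V} : v ∈ wZ ↔ v 1 = 0 ∧ v 2 = 0 ∧ v 3 = 0 ∧ v 4 = 0 ∧ v 5 = 0 := by simp [mem_co]

theorem mem_wP {v : V} : v ∈ wP ↔ v 2 = 0 ∧ v 4 = 0 ∧ v 5 = 0 := by simp [mem_co]

theorem wZ_le_wP : wZ ≤ wP := fun v hv => by rw [mem_wZ] at hv; rw [mem_wP]; tauto

theorem y_top {y : U} (hy : y.b = 0) (v : V) : ρ y • v - v ∈ wP := by
  rw [mem_wP, ρ_smul]; simp [hy]

theorem y_P {y : U} (hy : y.b = 0) {v : V} (hv : v ∈ wP) : ρ y • v - v ∈ wZ := by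
  rw [mem_wP] at hv; rw [mem_wZ, ρ_smul]; simp [hy, hv]

theorem y_Z (y : U) {v : V} (hv : v ∈ wZ) : ρ y • v - v = 0 := by
  rw [mem_wZ] at hv; rw [ρ_smul]; ext i; fin_cases i <;> simp [hv]

theorem dec1 : ∀ w1 w3 : K, ¬ (w1 = 0 ∧ w3 = 0) → ∃ p1 p3 : K, ∀ v1 v3 : K, ∃ j k : K,
    v1 = j * w1 + k * p1 ∧ v3 = j * w3 + k * p3 := by decide

theorem dec2 : ∀ w1 w3 v2 v4 v5 : K, ¬ (w1 = 0 ∧ w3 = 0) → ∃ a c j : K, ¬ (a = 0 ∧ c = 0) ∧
    2 * a * v2 + c * v4 = j * w1 ∧ a * v4 + 2 * c * v5 = j * w3 := by decide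

theorem lemA {h : G6} (hZ : h ∈ St wZ) {w : V} (hw : w ∈ wP) (hw' : w ∉ wZ) (hw2 : h⁻¹ • w ∈ wP) :
    ∃ y : U, y.b = 0 ∧ y ≠ 1 ∧ ∀ v ∈ tr h wP, ρ y • v - v ∈ wP ⊓ tr h wP := by
  have hZ' : ∀ v ∈ wZ, v ∈ wP ⊓ tr h wP := fun v hv =>
    ⟨wZ_le_wP hv, wZ_le_wP (((St wZ).inv_mem hZ v).2 hv)⟩
  have hW : w ∈ wP ⊓ tr h wP := ⟨hw, hw2⟩
  have n1 : ¬ (w 1 = 0 ∧ w 3 = 0) := fun e => hw' (by rw [mem_wP] at hw; rw [mem_wZ]; tauto)
  have n2 : ¬ ((h⁻¹ • w) 1 = 0 ∧ (h⁻¹ • w) 3 = 0) := fun e =>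
    hw' (((St wZ).inv_mem hZ w).1 (by rw [mem_wP] at hw2; rw [mem_wZ]; tauto))
  obtain ⟨p1, p3, hp⟩ := dec1 _ _ n2
  set p : V := h • (![0, p1, 0, p3, 0, 0] : V) with hpd
  obtain ⟨a, c, j, hac, e1, e3⟩ := dec2 _ _ (p 2) (p 4) (p 5) n1
  refine ⟨⟨a, 0, c⟩, rfl, fun e => hac ⟨congrArg U.a e, congrArg U.c e⟩, fun v hv => ?_⟩
  have hyp : ρ ⟨a, 0, c⟩ • p - p ∈ wP ⊓ tr h wP := by
    have : ρ ⟨a, 0, c⟩ • p - p - j • w ∈ wZ := by
      rw [mem_wP] at hw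
      rw [mem_wZ, ρ_smul]
      simp only [Pi.sub_apply, Pi.smul_apply, smul_eq_mul, hw, ← e1, ← e3]
      simp
      constructor <;> ring
    have h2 := Submodule.add_mem _ (hZ' _ this) (Submodule.smul_mem _ j hW)
    rwa [sub_add_cancel] at h2
  obtain ⟨i, k, f1, f3⟩ := hp ((h⁻¹ • v) 1) ((h⁻¹ • v) 3)
  have hd : v - i • w - k • p ∈ wZ := by
    rw [← (St wZ).inv_mem hZ, smul_sub, smul_sub, smul_comm h⁻¹ i, smul_comm h⁻¹ k, hpd, inv_smul_smul]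
    rw [mem_tr, mem_wP] at hv
    rw [mem_wP] at hw2
    rw [mem_wZ]
    simp only [Pi.sub_apply, Pi.smul_apply, smul_eq_mul, hv, hw2, f1, f3]
    simp
  have e : ρ ⟨a, 0, c⟩ • v - v = (ρ ⟨a, 0, c⟩ • (v - i • w - k • p) - (v - i • w - k • p)) +
      i • (ρ ⟨a, 0, c⟩ • w - w) + k • (ρ ⟨a, 0, c⟩ • p - p) := by
    rw [smul_sub, smul_sub, smul_comm (ρ _) i, smul_comm (ρ _) k, smul_sub, smul_sub]
    abel
  rw [e, y_Z _ hd, zero_add]
  exact Submodule.add_mem _ (Submodule.smul_mem _ _ (hZ' _ (y_P rfl hw))) (Submodule.smul_mem _ _ hyp)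

theorem claim (h : SE X N) {g : G6} (hg : g ∈ X) (hZ : g ∈ St wZ) {w : V} (hw : w ∈ wP) (hw' : w ∉ wZ)
    (hw2 : g⁻¹ • w ∈ wP) : g ∈ N := by
  obtain ⟨y, hy, hy1, hA⟩ := lemA hZ hw hw' hw2
  obtain ⟨t, ht, ht1, hB⟩ := lemA ((St wZ).inv_mem hZ) hw2 (mt ((St wZ).inv_mem hZ w).1 hw')
    (by rwa [inv_inv, smul_inv_smul])
  let W : ℕ → Submodule K V := fun i => match i with
    | 0 => ⊥
    | 1 => wZ
    | 2 => wP ⊓ tr g wP
    | 3 => wP ⊔ tr g wP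
    | _ => ⊤
  have hZ' : ∀ v ∈ wZ, v ∈ wP ⊓ tr g wP := fun v hv =>
    ⟨wZ_le_wP hv, wZ_le_wP (((St wZ).inv_mem hZ v).2 hv)⟩
  obtain ⟨Q, hQ, hm⟩ := exists_flag W 4 rfl rfl (by
    intro i hi
    interval_cases i
    · exact bot_le
    · exact hZ'
    · exact inf_le_sup
    · exact le_top)
  have e : ∀ v : V, (g * ρ t * g⁻¹) • v - v = g • (ρ t • g⁻¹ • v - g⁻¹ • v) := fun v => by
    rw [smul_sub, smul_inv_smul, mul_smul, mul_smul]
  have h1 : ρ y ∈ Q := by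
    rw [hm]
    intro i hi v hv
    interval_cases i
    · exact (Submodule.mem_bot K).2 (y_Z y hv)
    · exact y_P hy hv.1
    · obtain ⟨a, ha, b, hb, rfl⟩ := Submodule.mem_sup.1 hv
      have : ρ y • (a + b) - (a + b) = (ρ y • a - a) + (ρ y • b - b) := by rw [smul_add]; abel
      rw [this]
      exact Submodule.add_mem _ (hZ' _ (y_P hy ha)) (hA b hb)
    · exact Submodule.mem_sup_left (y_top hy v)
  have h2 : g * ρ t * g⁻¹ ∈ Q := by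
    rw [hm]
    intro i hi v hv
    interval_cases i
    · rw [e, y_Z t (((St wZ).inv_mem hZ v).2 hv), smul_zero]
      exact Submodule.zero_mem _
    · rw [e]
      exact (hZ _).2 (y_P ht hv.2)
    · obtain ⟨a, ha, b, hb, rfl⟩ := Submodule.mem_sup.1 hv
      have : (g * ρ t * g⁻¹) • (a + b) - (a + b) =
          ((g * ρ t * g⁻¹) • a - a) + ((g * ρ t * g⁻¹) • b - b) := by rw [smul_add]; abel
      rw [this, e, e]
      refine Submodule.add_mem _ ?_ (hZ' _ ((hZ _).2 (y_P ht hb)))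
      have := hB (g⁻¹ • a) (by rwa [mem_tr, inv_inv, smul_inv_smul])
      refine ⟨?_, ?_⟩
      · have h3 := this.2
        rwa [SetLike.mem_coe, mem_tr, inv_inv] at h3
      · rw [SetLike.mem_coe, mem_tr, inv_smul_smul]
        exact this.1
    · refine Submodule.mem_sup_right ?_
      rw [e, mem_tr, inv_smul_smul]
      exact y_top ht _
  have hu : ∀ u, ρ u ∈ X := fun u => h.le (h.uu u)
  have h3 : Q ⊓ X ≤ N := h.le_of_pgroup inf_le_right (hQ.to_inf_left) ⟨h1, hu y⟩ (h.uu y) (ρ_ne hy1)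
  exact h.conj_ρ hg ht1 (h3 ⟨h2, X.mul_mem (X.mul_mem hg (hu t)) (X.inv_mem hg)⟩)

theorem card_P : (Finset.univ.filter fun v : V => v ∈ wP ∧ v ∉ wZ).card = 24 := by decide +kernel

theorem ρ_St (u : U) : ρ u ∈ St wZ := (ρ_mem_B u).1.1.1.1.1

end D2

theorem SE.d2 (h : SE X N) {g : G6} (hg : g ∈ X) (e : g • f 0 ∈ wZ) : g ∈ N := by
  by_contra hN
  have hZ : g ∈ St wZ := mem_St_of fun v hv => by
    have : v = v 0 • f 0 := by
      rw [D2.mem_wZ] at hv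
      ext i; fin_cases i <;> simp [f, hv]
    rw [this, smul_comm]
    exact Submodule.smul_mem _ _ e
  have hu : ∀ u, ρ u ∈ X := fun u => h.le (h.uu u)
  have key : ∀ u u' : U, ∀ p p' : V, p ∈ wP → p ∉ wZ → p' ∈ wP → ρ u • g • p = ρ u' • g • p' → u = u' := by
    intro u u' p p' hp hp1 hp' e
    by_contra hne
    have hne' : u⁻¹ * u' ≠ 1 := fun e => hne (inv_mul_eq_one.1 e)
    have hk : g⁻¹ * ρ (u⁻¹ * u') * g⁻¹⁻¹ ∈ N := by
      refine D2.claim h (X.mul_mem (X.mul_mem (X.inv_mem hg) (hu _)) (X.inv_mem (X.inv_mem hg)))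
        ((St wZ).mul_mem ((St wZ).mul_mem ((St wZ).inv_mem hZ) (D2.ρ_St _))
          ((St wZ).inv_mem ((St wZ).inv_mem hZ))) hp hp1 ?_
      have : (g⁻¹ * ρ (u⁻¹ * u') * g⁻¹⁻¹)⁻¹ • p = p' := by
        rw [inv_smul_eq_iff, inv_inv, map_mul, map_inv, mul_smul, mul_smul, mul_smul, ← e, inv_smul_smul,
          inv_smul_smul]
      rwa [this]
    exact hN (inv_mem_iff.1 (h.conj_ρ (X.inv_mem hg) hne' hk))
  have hc := Finset.card_le_card_of_injOn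
    (s := (Finset.univ : Finset U) ×ˢ (Finset.univ.filter fun v : V => v ∈ wP ∧ v ∉ wZ))
    (t := Finset.univ.filter fun v : V => ∀ u : U, u ≠ 1 → ρ u • v ≠ v)
    (fun x => ρ x.1 • g • x.2) (by
      rintro ⟨u, p⟩ hx
      simp only [Finset.coe_product, Finset.coe_univ, Finset.coe_filter, Finset.mem_univ, true_and,
        Set.mem_prod, Set.mem_univ, Set.mem_ofPred_eq] at hx ⊢
      intro t ht e
      rw [← mul_smul, ← map_mul] at e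
      exact ht (mul_eq_right.1 (key _ _ p p hx.1 hx.2 hx.1 e))) (by
      rintro ⟨u, p⟩ hx ⟨u', p'⟩ hx' e
      simp only [Finset.coe_product, Finset.coe_univ, Finset.coe_filter, Finset.mem_univ, true_and,
        Set.mem_prod, Set.mem_univ, Set.mem_ofPred_eq] at hx hx' e
      obtain rfl := key _ _ p p' hx.1 hx.2 hx'.1 e
      rw [smul_left_cancel_iff, smul_left_cancel_iff] at e
      rw [e])
  rw [card_reg, Finset.card_product, D2.card_P, Finset.card_univ, ← Nat.card_eq_fintype_card, card_U] at hc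
  omega

end CfsgLib.Cf3
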