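import Mathlib
import Cfsg.Agent.Lib.Cf3.D2

/-! Package DM: counting the conjugates of `D` (plans/CF3.md). -/

set_option autoImplicit false
set_option maxRecDepth 100000

namespace CfsgLib.Cf3

open Subgroup Matrix Cfsg CfsgLib.Fusion

namespace Dm

/-- a free action on an invariant finite set -/
theorem dvd_of_free {P G Ω : Type*} [Group P] [Group G] [MulAction G Ω] (φ : P →* G) (S : Finset Ω)
    (hS : ∀ p, ∀ x ∈ S, φ p • x ∈ S) (hf : ∀ p, ∀ x ∈ S, φ p • x = x → p = 1) : Nat.card P ∣ S.card := by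
  letI : MulAction P S :=
    { smul := fun p x => ⟨φ p • x.1, hS p _ x.2⟩
      one_smul := fun x => Subtype.ext (by change φ 1 • x.1 = x.1; rw [map_one, one_smul])
      mul_smul := fun p q x => Subtype.ext (by
        change φ (p * q) • x.1 = φ p • φ q • x.1; rw [map_mul, mul_smul]) }
  have e := MulAction.selfEquivOrbitsQuotientProd (G := P) (X := S) fun x =>
    eq_bot_iff.2 fun p hp => mem_bot.2 (hf p x.1 x.2 (congrArg Subtype.val hp))
  rw [← Nat.card_eq_finsetCard, Nat.card_congr e, Nat.card_prod]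
  exact Dvd.intro_left _ rfl

variable {X N : Subgroup G6}

/-- the cosets -/
abbrev Om (X N : Subgroup G6) : Type := X ⧸ N.subgroupOf X

noncomputable instance : Fintype (Om X N) := Fintype.ofFinite _

/-- the base point -/
def o (X N : Subgroup G6) : Om X N := ((1 : X) : Om X N)

theorem mk_eq_o {g : X} : (g : Om X N) = o X N ↔ (g : G6) ∈ N := by
  rw [o, QuotientGroup.eq, mul_one, mem_subgroupOf, coe_inv, inv_mem_iff]

/-- `U` inside `X` -/
def rX (h : SE X N) : U →* X := ρ.codRestrict X fun u => h.le (h.uu u)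

theorem rX_val (h : SE X N) (u : U) : (rX h u : G6) = ρ u := rfl

theorem smul_mk (g a : X) : g • (a : Om X N) = ((g * a : X) : Om X N) := rfl

theorem rX_o (h : SE X N) (u : U) : rX h u • o X N = o X N := by
  rw [o, smul_mk, mul_one]; exact mk_eq_o.2 (h.uu u)

theorem rX_ne (h : SE X N) (u : U) {ω : Om X N} (hω : ω ≠ o X N) : rX h u • ω ≠ o X N := fun e =>
  hω (by rw [← rX_o h u] at e; exact smul_left_cancel _ e)

theorem free (h : SE X N) {u : U} {ω : Om X N} (hω : ω ≠ o X N) (e : rX h u • ω = ω) : u = 1 := by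
  by_contra hu
  induction ω using QuotientGroup.induction_on with | H g => ?_
  rw [smul_mk, eq_comm, QuotientGroup.eq, mem_subgroupOf] at e
  refine hω (mk_eq_o.2 (N.inv_mem_iff.1 (h.conj_ρ (X.inv_mem g.2) hu ?_)))
  simpa [rX_val, mul_assoc] using e

theorem card_Om : Fintype.card (Om X N) = N.relIndex X := by
  rw [← Nat.card_eq_fintype_card]; rfl

open Classical in
theorem card_ne : (Finset.univ.filter fun ω : Om X N => ω ≠ o X N).card + 1 = N.relIndex X := by
  rw [← card_Om, Finset.filter_ne', Finset.card_erase_add_one (Finset.mem_univ _), Finset.card_univ]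

theorem out_ne {ω : Om X N} (hω : ω ≠ o X N) : ((ω.out : X) : G6) ∉ N := fun e =>
  hω (by rw [← QuotientGroup.out_eq' ω]; exact mk_eq_o.2 e)

theorem unit_f0 : ∀ e e' : Kˣ, e • f 0 = e' • f 0 → e = e' := by decide

theorem unit_wZ : ∀ e : Kˣ, e • f 0 ∈ wZ := by decide

theorem card_G6 : Nat.card G6 = 728 * 726 * 720 * 702 * 648 * 486 := by
  rw [Matrix.card_GL_field, ZMod.card]; decide

/-- a vector `g • v` fixed by `u ≠ 1` -/
theorem mem_of_fix_f0 (h : SE X N) {g : G6} (hg : g ∈ X) {u : U} (hu : u ≠ 1) (e : ρ u • g • f 0 = g • f 0) :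
    g ∈ N := by
  refine N.inv_mem_iff.1 (h.conj_ρ (X.inv_mem hg) hu (h.d2 ?_ ?_))
  · exact X.mul_mem (X.mul_mem (X.inv_mem hg) (h.le (h.uu u))) (X.inv_mem (X.inv_mem hg))
  · rw [inv_inv, mul_smul, mul_smul, e, inv_smul_smul]; decide

/-- `v` lies in the conjugate of `D` -/
def inD (ω : Om X N) (v : V) : Prop := ((ω.out : X) : G6)⁻¹ • v ∈ wD

theorem inD_mk (hN : N ≤ St wD) (g : X) (v : V) : inD (g : Om X N) v ↔ (g : G6)⁻¹ • v ∈ wD := by
  obtain ⟨n, hn⟩ := QuotientGroup.mk_out_eq_mul (N.subgroupOf X) g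
  rw [inD, hn, coe_mul, _root_.mul_inv_rev, mul_smul]
  exact (St wD).inv_mem (hN n.2) _

theorem inD_smul (hN : N ≤ St wD) (g : X) (ω : Om X N) (v : V) : inD (g • ω) ((g : G6) • v) ↔ inD ω v := by
  induction ω using QuotientGroup.induction_on with | H a => ?_
  rw [smul_mk, inD_mk hN, inD_mk hN, coe_mul, _root_.mul_inv_rev, mul_smul, inv_smul_smul]

theorem inD_o (hN : N ≤ St wD) (v : V) : inD (o X N) v ↔ v ∈ wD := by
  rw [o, inD_mk hN, coe_one, inv_one, one_smul]

theorem inD_unit (e : Kˣ) (ω : Om X N) (v : V) : inD ω (e • v) ↔ inD ω v := by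
  rw [inD, inD, smul_comm]
  exact wD.smul_mem_iff' e

theorem inD_comb {ω : Om X N} {v w : V} (hv : inD ω v) (hw : inD ω w) (i j : K) : inD ω (i • v + j • w) := by
  rw [inD, smul_add, smul_comm, smul_comm _ j]
  exact wD.add_mem (wD.smul_mem i hv) (wD.smul_mem j hw)

theorem fix_wD : ∀ (u : U) (v : V), u.a = 0 → v ∈ wD → ρ u • v = v := by
  intro u v hu hv
  have h3 := hv 3 (by simp)
  have h4 := hv 4 (by simp)
  have h5 := hv 5 (by simp)
  rw [ρ_smul]; ext i; fin_cases i <;> simp [hu, h3, h4, h5]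

theorem eq_o_of_f0 (h : SE X N) (hN : N ≤ St wD) {ω : Om X N} (e : inD ω (f 0)) : ω = o X N := by
  induction ω using QuotientGroup.induction_on with | H g => ?_
  rw [inD_mk hN] at e
  refine mk_eq_o.2 (h.conj_ρ g.2 (u := z) (by decide) (h.d2 ?_ ?_))
  · exact X.mul_mem (X.mul_mem g.2 (h.le (h.uu z))) (X.inv_mem g.2)
  · rw [mul_smul, mul_smul, fix_wD z _ rfl e, smul_inv_smul]; decide

open Classical in
/-- the conjugates that contain `v` -/
noncomputable def bs (X N : Subgroup G6) (v : V) : Finset (Om X N) := Finset.univ.filter fun ω => inD ω v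

theorem mem_bs {v : V} {ω : Om X N} : ω ∈ bs X N v ↔ inD ω v := by simp [bs]

/-- their number -/
noncomputable def b (X N : Subgroup G6) (v : V) : ℕ := (bs X N v).card

theorem b_smul (hN : N ≤ St wD) (g : X) (v : V) : b X N ((g : G6) • v) = b X N v := by
  refine (Finset.card_bij (fun ω _ => g • ω) (fun ω hω => ?_) (fun _ _ _ _ e => smul_left_cancel _ e)
    fun ω hω => ⟨g⁻¹ • ω, ?_, smul_inv_smul _ _⟩).symm
  · exact mem_bs.2 ((inD_smul hN g ω v).2 (mem_bs.1 hω))
  · exact mem_bs.2 ((inD_smul hN g _ v).1 (by rw [smul_inv_smul]; exact mem_bs.1 hω))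

theorem b_unit (e : Kˣ) (v : V) : b X N (e • v) = b X N v := by
  rw [b, b]; congr 1; ext ω; rw [mem_bs, mem_bs, inD_unit]

theorem wZ_cases : ∀ v : V, v ∈ wZ → v ≠ 0 → ∃ e : Kˣ, v = e • f 0 := by decide +kernel

theorem b_wZ (h : SE X N) (hN : N ≤ St wD) {v : V} (hv : v ∈ wZ) (h0 : v ≠ 0) : b X N v = 1 := by
  obtain ⟨e, rfl⟩ := wZ_cases v hv h0
  rw [b_unit, b, Finset.card_eq_one]
  refine ⟨o X N, Finset.eq_singleton_iff_unique_mem.2 ⟨mem_bs.2 ((inD_o hN _).2 (by decide)), fun ω hω => ?_⟩⟩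
  exact eq_o_of_f0 h hN (mem_bs.1 hω)

open Classical in
theorem b_eq (hN : N ≤ St wD) {v : V} (hv : v ∈ wD) : ((bs X N v).erase (o X N)).card + 1 = b X N v :=
  Finset.card_erase_add_one (mem_bs.2 ((inD_o hN v).2 hv))

theorem inD_Y2 (h : SE X N) (hN : N ≤ St wD) {v : V} (hv : v ∈ wD) {u : U} (hu : u.a = 0) {ω : Om X N}
    (e : inD ω v) : inD (rX h u • ω) v := by
  rw [← fix_wD u v hu hv]; exact (inD_smul hN (rX h u) ω v).2 e

theorem b_mod (h : SE X N) (hN : N ≤ St wD) {v : V} (hv : v ∈ wD) : ∃ m, b X N v = 9 * m + 1 := by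
  classical
  have := dvd_of_free ((rX h).comp Y2.subtype) ((bs X N v).erase (o X N))
    (fun u ω hω => Finset.mem_erase.2 ⟨rX_ne h _ (Finset.mem_erase.1 hω).1,
      mem_bs.2 (inD_Y2 h hN hv u.2 (mem_bs.1 (Finset.mem_erase.1 hω).2))⟩)
    fun u ω hω e => Subtype.ext (free h (Finset.mem_erase.1 hω).1 e)
  rw [card_Y2] at this
  obtain ⟨m, hm⟩ := this
  exact ⟨m, by rw [← b_eq hN hv, hm]⟩

theorem b_lt (h : SE X N) (hN : N ≤ St wD) {v : V} (h0 : v ≠ 0) : b X N v < N.relIndex X := by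
  rw [← card_Om]
  refine (Finset.card_le_univ _).lt_of_ne fun e => ?_
  have hall : ∀ ω : Om X N, inD ω v := fun ω => mem_bs.1 (by rw [Finset.eq_univ_of_card _ e]; simp)
  let W : Submodule K V :=
    { carrier := {w | ∀ ω : Om X N, inD ω w}
      zero_mem' := fun ω => by rw [inD, smul_zero]; exact wD.zero_mem
      add_mem' := fun ha hb ω => by simpa using inD_comb (ha ω) (hb ω) 1 1
      smul_mem' := fun c w hw ω => by simpa using inD_comb (hw ω) (hw ω) c 0 }
  have hf : f 0 ∈ W := f0_mem (fun u w hw ω => by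
      have := (inD_smul hN (rX h u) _ w).2 (hw ((rX h u)⁻¹ • ω))
      rwa [smul_inv_smul] at this)
    fun e1 => h0 ((Submodule.eq_bot_iff _).1 e1 v hall)
  exact h.nle fun g hg => mk_eq_o.1 (eq_o_of_f0 h hN (hf ((⟨g, hg⟩ : X) : Om X N)))

/-- the nonzero vectors of `D` with `b = j` -/
noncomputable def C (X N : Subgroup G6) (j : ℕ) : Finset V :=
  Finset.univ.filter fun v => (v ∈ wD ∧ v ≠ 0) ∧ b X N v = j

theorem mem_C {j : ℕ} {v : V} : v ∈ C X N j ↔ (v ∈ wD ∧ v ≠ 0) ∧ b X N v = j := by simp [C]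

theorem card_D : (Finset.univ.filter fun v : V => v ∈ wD ∧ v ≠ 0).card = 26 := by decide +kernel

theorem dvd_C (hN : N ≤ St wD) (j : ℕ) : j ∣ N.relIndex X * (C X N j).card := by
  classical
  have key := Finset.card_mul_eq_card_mul (s := (Finset.univ : Finset (Om X N)))
    (t := Finset.univ.filter fun v : V => v ≠ 0 ∧ b X N v = j) (fun ω v => inD ω v)
    (m := (C X N j).card) (n := j) ?_ ?_
  · rw [Finset.card_univ, card_Om] at key
    rw [key]; exact Dvd.intro_left _ rfl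
  · intro ω _
    refine (Finset.card_bij (fun v _ => ((ω.out : X) : G6) • v) (fun v hv => ?_)
      (fun _ _ _ _ e => smul_left_cancel _ e) fun v hv => ⟨((ω.out : X) : G6)⁻¹ • v, ?_, smul_inv_smul _ _⟩).symm
    · obtain ⟨⟨h1, h2⟩, h3⟩ := mem_C.1 hv
      simp only [Finset.bipartiteAbove, Finset.mem_filter, Finset.mem_univ, true_and]
      exact ⟨⟨by rwa [Ne, smul_eq_zero_iff_eq], by rw [b_smul hN, h3]⟩, by rwa [inD, inv_smul_smul]⟩
    · simp only [Finset.bipartiteAbove, Finset.mem_filter, Finset.mem_univ, true_and] at hv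
      exact mem_C.2 ⟨⟨hv.2, by rw [Ne, smul_eq_zero_iff_eq]; exact hv.1.1⟩,
        by rw [← coe_inv, b_smul hN, hv.1.2]⟩
  · intro v hv
    rw [← (Finset.mem_filter.1 hv).2.2, b]
    congr 1

theorem two_dvd_C (j : ℕ) : 2 ∣ (C X N j).card := by
  have := dvd_of_free (MonoidHom.id Kˣ) (C X N j) (fun e v hv => ?_) fun e v hv h1 => ?_
  · rwa [Nat.card_eq_fintype_card] at this
  · obtain ⟨⟨h1, h2⟩, h3⟩ := mem_C.1 hv
    exact mem_C.2 ⟨⟨(wD.smul_mem_iff' e).2 h1, by rwa [Ne, smul_eq_zero_iff_eq]⟩, by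
      rw [MonoidHom.id_apply, b_unit, h3]⟩
  · have key : ∀ (e : Kˣ) (v : V), v ≠ 0 → e • v = v → e = 1 := by decide +kernel
    exact key e v (mem_C.1 hv).1.2 h1

theorem ρ_wD (u : U) {v : V} (hv : v ∈ wD) : ρ u • v ∈ wD :=
  ((B_le_T6 (ρ_mem_B u)).1.1.2 v).2 hv

theorem three_dvd_C (h : SE X N) (hN : N ≤ St wD) {j : ℕ} (hj : j ≠ 1) : 3 ∣ (C X N j).card := by
  have := dvd_of_free (ρ.comp (zpowers x1).subtype) (C X N j) (fun e v hv => ?_) fun e v hv h1 => ?_
  · rwa [card_zpowers_U (by decide)] at this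
  · obtain ⟨⟨h1, h2⟩, h3⟩ := mem_C.1 hv
    exact mem_C.2 ⟨⟨ρ_wD _ h1, by rwa [Ne, smul_eq_zero_iff_eq]⟩, (b_smul hN (rX h e) v).trans h3⟩
  · obtain ⟨⟨h2, h3⟩, h4⟩ := mem_C.1 hv
    have key : ∀ v : V, v ∈ wD → (ρ x1 • v = v ∨ ρ x1⁻¹ • v = v) → v ∈ wZ := by decide +kernel
    obtain ⟨e, he⟩ := e
    rcases mem_zpowers_U.1 he with rfl | rfl | rfl
    · rfl
    · exact absurd (h4.symm.trans (b_wZ h hN (key v h2 (.inl h1)) h3)) hj
    · exact absurd (h4.symm.trans (b_wZ h hN (key v h2 (.inr h1)) h3)) hj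

theorem C_le (j : ℕ) : (C X N j).card ≤ 26 := by
  rw [← card_D]
  exact Finset.card_le_card fun v hv => Finset.mem_filter.2 ⟨Finset.mem_univ _, (mem_C.1 hv).1⟩

theorem C_one (h : SE X N) (hN : N ≤ St wD) : (N.relIndex X - 1) * (C X N 1).card ≤ 594 := by
  classical
  rw [← card_ne, Nat.add_sub_cancel, ← Finset.card_product, ← card_reg]
  have one : ∀ {v : V}, v ∈ C X N 1 → ∀ ω ω' : Om X N, inD ω' (((ω.out : X) : G6) • v) → ω' = ω := by
    intro v hv ω ω' e
    obtain ⟨⟨h1, -⟩, h3⟩ := mem_C.1 hv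
    rw [← b_smul hN ω.out, b] at h3
    exact Finset.card_le_one.1 h3.le _ (mem_bs.2 e) _ (mem_bs.2 (by rwa [inD, inv_smul_smul]))
  refine Finset.card_le_card_of_injOn (fun p => ((p.1.out : X) : G6) • p.2) ?_ ?_
  · rintro ⟨ω, v⟩ hp
    obtain ⟨hω, hv⟩ := Finset.mem_product.1 hp
    simp only [Finset.coe_filter, Finset.mem_univ, true_and, Set.mem_ofPred_eq]
    intro u hu e1
    refine hu (free h (Finset.mem_filter.1 hω).2 (one hv _ _ ?_))
    rw [← e1]
    exact (inD_smul hN (rX h u) ω _).2 (by rw [inD, inv_smul_smul]; exact (mem_C.1 hv).1.1)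
  · rintro ⟨ω, v⟩ hp ⟨ω', v'⟩ hp' e
    obtain ⟨-, hv⟩ := Finset.mem_product.1 hp
    obtain ⟨-, hv'⟩ := Finset.mem_product.1 hp'
    dsimp only at e
    obtain rfl : ω' = ω := one hv _ _ (by rw [e, inD, inv_smul_smul]; exact (mem_C.1 hv').1.1)
    rw [smul_left_cancel _ e]

set_option synthInstance.maxSize 4000 in
set_option synthInstance.maxHeartbeats 400000 in
/-- two planes in `D` meet -/
theorem planes : ∀ a0 a1 a2 c0 c1 c2 : K, ![a0, a1, a2, 0, 0, 0] ≠ (0 : V) → ![c0, c1, c2, 0, 0, 0] ≠ (0 : V) →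
    ![c0, c1, c2, 0, 0, 0] ≠ (![a0, a1, a2, 0, 0, 0] : V) → ![c0, c1, c2, 0, 0, 0] ≠ -(![a0, a1, a2, 0, 0, 0] : V) →
    ∃ i j i' j' : K, (i * a0 + j * c0 ≠ 0 ∨ i * a1 + j * c1 ≠ 0 ∨ i * a2 + j * c2 ≠ 0) ∧
      i * a0 + j * c0 = i' * a0 + j' * c0 + (i' * a1 + j' * c1) + (i' * a2 + j' * c2) ∧
      i * a1 + j * c1 = i' * a1 + j' * c1 + 2 * (i' * a2 + j' * c2) ∧ i * a2 + j * c2 = i' * a2 + j' * c2 := by
  decide +kernel

theorem planes' {v w : V} (hv : v ∈ wD) (hw : w ∈ wD) (h1 : v ≠ 0) (h2 : w ≠ 0) (h3 : w ≠ v) (h4 : w ≠ -v) :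
    ∃ i j i' j' : K, i • v + j • w ≠ 0 ∧ i • v + j • w = ρ x1 • (i' • v + j' • w) := by
  have ev : ∀ v ∈ wD, v = ![v 0, v 1, v 2, 0, 0, 0] := fun v hv => by
    ext i; fin_cases i <;> simp [hv 3 (by simp), hv 4 (by simp), hv 5 (by simp)]
  obtain ⟨i, j, i', j', e0, e1, e2, e3⟩ := planes (v 0) (v 1) (v 2) (w 0) (w 1) (w 2) (by rwa [← ev v hv])
    (by rwa [← ev w hw]) (by rwa [← ev v hv, ← ev w hw]) (by rwa [← ev v hv, ← ev w hw])
  refine ⟨i, j, i', j', fun e => ?_, ?_⟩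
  · rcases e0 with e0 | e0 | e0
    · exact e0 (congrFun e 0)
    · exact e0 (congrFun e 1)
    · exact e0 (congrFun e 2)
  · rw [ρ_smul]
    ext k
    fin_cases k <;>
      simp [x1, e1, e2, e3, hv 3 (by simp), hv 4 (by simp), hv 5 (by simp), hw 3 (by simp), hw 4 (by simp),
        hw 5 (by simp)]

theorem ten : (Finset.univ.filter fun u : U => u.a = 0 ∨ u = x1).card = 10 := by decide +kernel

open Classical in
theorem meet_le (h : SE X N) (hN : N ≤ St wD) (hb : ∀ v ∈ wD, v ≠ 0 → b X N v ≤ 10) {ω : Om X N}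
    (hω : ω ≠ o X N) : ((C X N 10).bipartiteBelow (fun v ω => inD ω v) ω).card ≤ 2 := by
  by_contra hc
  obtain ⟨v, hv⟩ := Finset.card_pos.1 (show 0 < ((C X N 10).bipartiteBelow (fun v ω => inD ω v) ω).card by omega)
  obtain ⟨w, hw, hw'⟩ := Finset.exists_mem_notMem_of_card_lt_card
    (show ({v, -v} : Finset V).card < _ from Finset.card_le_two.trans_lt (not_le.1 hc))
  simp only [Finset.mem_bipartiteBelow, mem_C, Finset.mem_insert, Finset.mem_singleton, not_or] at hv hw hw'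
  obtain ⟨i, j, i', j', e0, e1⟩ := planes' hv.1.1.1 hw.1.1.1 hv.1.1.2 hw.1.1.2 hw'.1 hw'.2
  have hD : i • v + j • w ∈ wD := wD.add_mem (wD.smul_mem i hv.1.1.1) (wD.smul_mem j hw.1.1.1)
  have h10 := hb _ hD e0
  rw [← b_eq hN hD] at h10
  have : 10 ≤ ((bs X N (i • v + j • w)).erase (o X N)).card := by
    rw [← ten]
    refine Finset.card_le_card_of_injOn (fun u => rX h u • ω) (fun u hu => ?_) fun u _ u' _ e => ?_
    · refine Finset.mem_coe.2 (Finset.mem_erase.2 ⟨rX_ne h u hω, mem_bs.2 ?_⟩)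
      rcases (Finset.mem_filter.1 hu).2 with hu | rfl
      · exact inD_Y2 h hN hD hu (inD_comb hv.2 hw.2 i j)
      · rw [e1]; exact (inD_smul hN (rX h x1) ω _).2 (inD_comb hv.2 hw.2 i' j')
    · dsimp only at e
      rw [← inv_smul_eq_iff.trans eq_comm, ← mul_smul, ← map_inv, ← map_mul] at e
      exact inv_mul_eq_one.1 (free h hω e)
  omega

theorem C_ten (h : SE X N) (hN : N ≤ St wD) (hb : ∀ v ∈ wD, v ≠ 0 → b X N v ≤ 10) :
    (C X N 10).card * 9 ≤ (N.relIndex X - 1) * 2 := by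
  classical
  rw [← card_ne, Nat.add_sub_cancel]
  refine Finset.card_mul_le_card_mul (fun v ω => inD ω v) (fun v hv => ?_) fun ω hω =>
    meet_le h hN hb (Finset.mem_filter.1 hω).2
  obtain ⟨⟨h1, -⟩, h3⟩ := mem_C.1 hv
  rw [← b_eq hN h1] at h3
  refine (show 9 = ((bs X N v).erase (o X N)).card by omega).le.trans (Finset.card_le_card fun ω hω => ?_)
  simpa [mem_bs] using hω

end Dm

open Dm

variable {X N : Subgroup G6}

theorem SE.index_cases (h : SE X N) : N.relIndex X = 28 ∨ N.relIndex X = 55 := by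
  classical
  set S := Finset.univ.filter fun ω : Om X N => ω ≠ o X N with hS
  have h27 : Nat.card U ∣ S.card := dvd_of_free (rX h) S
    (fun u ω hω => by simp only [hS, Finset.mem_filter, Finset.mem_univ, true_and] at *; exact rX_ne h u hω)
    fun u ω hω e => free h (Finset.mem_filter.1 hω).2 e
  have hle : (S ×ˢ (Finset.univ : Finset Kˣ)).card ≤ 594 := by
    rw [← card_reg]
    refine Finset.card_le_card_of_injOn (fun p => p.2 • ((p.1.out : X) : G6) • f 0) ?_ ?_
    · rintro ⟨ω, e⟩ hp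
      have hω : ω ≠ o X N := (Finset.mem_filter.1 (Finset.mem_product.1 hp).1).2
      simp only [Finset.coe_filter, Finset.mem_univ, true_and, Set.mem_ofPred_eq]
      intro u hu e1
      rw [smul_comm, smul_left_cancel_iff] at e1
      exact out_ne hω (mem_of_fix_f0 h ω.out.2 hu e1)
    · rintro ⟨ω, e⟩ - ⟨ω', e'⟩ - e1
      dsimp only at e1
      obtain rfl : ω' = ω := by
        rw [← QuotientGroup.out_eq' ω, ← QuotientGroup.out_eq' ω', QuotientGroup.eq, mem_subgroupOf]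
        refine h.d2 (Subtype.mem _) ?_
        rw [← eq_inv_smul_iff, ← mul_smul] at e1
        rw [coe_mul, coe_inv, mul_smul, e1, smul_comm, inv_smul_smul]
        exact unit_wZ _
      rw [smul_comm e, smul_comm e', smul_left_cancel_iff] at e1
      rw [unit_f0 e e' e1]
  have hn := card_ne (X := X) (N := N)
  have hd : N.relIndex X ∣ 728 * 726 * 720 * 702 * 648 * 486 := by
    rw [← card_G6]
    exact (index_dvd_card _).trans (card_subgroup_dvd_card X)
  have h1 : N.relIndex X ≠ 1 := fun e => h.nle (relIndex_eq_one.1 e)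
  rw [Finset.card_product, Finset.card_univ, show Fintype.card Kˣ = 2 from rfl] at hle
  rw [card_U] at h27
  obtain ⟨m, hm⟩ := h27
  rw [← hS, hm] at hn
  rw [hm] at hle
  rw [← hn] at hd h1 ⊢
  have : m ≤ 11 := by omega
  clear hn hm hS
  interval_cases m <;> simp_all

theorem SE.dm (h : SE X N) (hN : N ≤ normalizer (YY Y2 : Set G6)) : False := by
  classical
  have hN' : N ≤ St wD := fun g hg => (norm_Y2_St (hN hg)).1
  have hz : ∀ j, (C X N j).card = 0 → ∀ v ∈ wD, v ≠ 0 → b X N v ≠ j := fun j e v h1 h2 h3 => by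
    have := mem_C.2 ⟨⟨h1, h2⟩, h3⟩
    rw [Finset.card_eq_zero.1 e] at this
    exact Finset.notMem_empty _ this
  have h1 := C_one h hN'
  have hb : ∀ v ∈ wD, v ≠ 0 → b X N v = 1 ∨ b X N v = 10 := fun v hv h0 => by
    obtain ⟨m, hm⟩ := b_mod h hN' hv
    have hl := b_lt h hN' h0
    by_contra hc
    refine hz _ ?_ v hv h0 rfl
    have d1 := dvd_C (X := X) hN' (b X N v)
    have d3 := three_dvd_C h hN' (j := b X N v) (by omega)
    have d4 := C_le (X := X) (N := N) (b X N v)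
    generalize (C X N (b X N v)).card = c at *
    rw [hm] at d1 hl hc
    rcases h.index_cases with e | e <;> rw [e] at d1 hl
    · obtain rfl : m = 2 := by omega
      omega
    · have : m ≤ 5 := by omega
      interval_cases m <;> omega
  have hs : (C X N 1).card + (C X N 10).card = 26 := by
    rw [← card_D, ← Finset.card_union_of_disjoint
      (Finset.disjoint_left.2 fun v h1 h2 => by have := (mem_C.1 h1).2; have := (mem_C.1 h2).2; omega)]
    congr 1
    ext v
    simp only [Finset.mem_union, mem_C, Finset.mem_filter, Finset.mem_univ, true_and]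
    exact ⟨fun e => e.elim And.left And.left, fun e => (hb v e.1 e.2).imp (⟨e, ·⟩) (⟨e, ·⟩)⟩
  have h10 := C_ten h hN' fun v hv h0 => by have := hb v hv h0; omega
  have d1 := dvd_C (X := X) hN' 10
  have d2 := two_dvd_C (X := X) (N := N) 10
  have d3 := three_dvd_C h hN' (j := 10) (by omega)
  rcases h.index_cases with e | e <;> rw [e] at d1 h1 h10 <;> omega

end CfsgLib.Cf3
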