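import Mathlib
import Cfsg.Agent.Lib.Cf3.Tri
import Cfsg.Agent.Lib.Cf3.Cmp

/-! Package K1: the normaliser of `Y2` (plans/CF3.md). -/

set_option autoImplicit false
set_option maxRecDepth 100000

namespace CfsgLib.Cf3

open Subgroup Matrix Cfsg CfsgLib.Fusion

variable {X H : Subgroup G6}

namespace K1

theorem y1_conj (k b c : K) : y1 k * ρ ⟨0, b, c⟩ = ρ ⟨0, b + c, c⟩ * y1 k :=
  Units.ext (by revert k b c; decide +kernel)

theorem eq_Y2 {y : U} (hy : y ∈ Y2) : y = ⟨0, y.b, y.c⟩ := U.ext hy rfl rfl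

theorem col (g : G6) (i j : Fin 6) : (g • f j) i = g.1 i j := by
  rw [smul_def, f, mulVec_single_one]; rfl

theorem ext_smul {g h : G6} (e : ∀ v : V, g • v = h • v) : g = h :=
  Units.ext (Matrix.ext fun i j => by rw [← col, ← col, e])

theorem y1_smul (k : K) (v : V) : y1 k • v =
    ![v 0, 2 * v 0 + v 1 + k * v 5, v 0 + v 1 + v 2 + 2 * k * v 5, v 3, v 3 + v 4, v 5] := by
  ext i
  fin_cases i <;> simp [smul_def, y1, y1M, mulVec, dotProduct, Fin.sum_univ_succ] <;> ring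

/-- two by two matrices -/
abbrev M2 : Type := Matrix (Fin 2) (Fin 2) K

/-- the block -/
def mm (g : G6) : M2 := !![g.1 3 3, g.1 3 4; g.1 4 3, g.1 4 4]

theorem zeros {g : G6} (h : g ∈ normalizer (YY Y2 : Set G6)) :
    (g.1 3 0 = 0 ∧ g.1 3 1 = 0 ∧ g.1 3 2 = 0) ∧ (g.1 4 0 = 0 ∧ g.1 4 1 = 0 ∧ g.1 4 2 = 0) ∧
    g.1 5 0 = 0 ∧ g.1 5 1 = 0 ∧ g.1 5 2 = 0 ∧ g.1 5 3 = 0 ∧ g.1 5 4 = 0 := by
  obtain ⟨h1, h2⟩ := norm_Y2_St h
  have a0 := (h1 (f 0)).2 (by decide)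
  have a1 := (h1 (f 1)).2 (by decide)
  have a2 := (h1 (f 2)).2 (by decide)
  have a3 := (h2 (f 3)).2 (by decide)
  have a4 := (h2 (f 4)).2 (by decide)
  simp only [mem_co, col, List.mem_cons, List.not_mem_nil, or_false, forall_eq_or_imp, forall_eq] at a0 a1 a2 a3 a4
  tauto

/-- the block data -/
structure Bl (X : Subgroup G6) (g : G6) (l : K) (m : M2) : Prop where
  mem : g ∈ NX X Y2
  hl : g.1 5 5 = l
  hm : mm g = m

theorem Bl.mul {g h : G6} {l l' : K} {m m' : M2} (a : Bl X g l m) (b : Bl X h l' m') :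
    Bl X (g * h) (l * l') (m * m') := by
  have za := zeros a.mem.2
  have zb := zeros b.mem.2
  refine ⟨mul_mem a.mem b.mem, ?_, ?_⟩
  · rw [← a.hl, ← b.hl, Units.val_mul, Matrix.mul_apply]
    simp [Fin.sum_univ_succ, za]
  · rw [← a.hm, ← b.hm]
    ext i j
    fin_cases i <;> fin_cases j <;> simp [mm, Matrix.mul_apply, Fin.sum_univ_succ, za, zb]

theorem bl_self {g : G6} (h : g ∈ NX X Y2) : Bl X g (g.1 5 5) (mm g) := ⟨h, rfl, rfl⟩

theorem Bl.cast {g : G6} {l l' : K} {m m' : M2} (a : Bl X g l m) (e : l = l') (e' : m = m') : Bl X g l' m' :=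
  e ▸ e' ▸ a

theorem mm_one : mm 1 = 1 := by decide

theorem Bl.inv_mul {g : G6} {l : K} {m : M2} (a : Bl X g l m) :
    l * (g⁻¹).1 5 5 = 1 ∧ m * mm g⁻¹ = 1 := by
  have := a.mul (bl_self (inv_mem a.mem))
  rw [mul_inv_cancel] at this
  exact ⟨this.hl.symm, this.hm.symm.trans mm_one⟩

theorem Bl.inv {g : G6} {l l' : K} {m m' : M2} (a : Bl X g l m) (e : l' * l = 1) (e' : m' * m = 1) :
    Bl X g⁻¹ l' m' := by
  obtain ⟨h1, h2⟩ := a.inv_mul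
  refine (bl_self (inv_mem a.mem)).cast ?_ ?_
  · rw [← one_mul (g⁻¹.1 5 5), ← e, mul_assoc, h1, mul_one]
  · rw [← one_mul (mm g⁻¹), ← e', mul_assoc, h2, mul_one]

theorem ρ_norm (u : U) : ρ u ∈ normalizer (YY Y2 : Set G6) :=
  mem_norm_YY fun y hy => ⟨u * y * u⁻¹, by rw [mem_Y2] at hy ⊢; simp [hy], by
    rw [← map_mul, ← map_mul, inv_mul_cancel_right]⟩

theorem bl_ρ (h : XD X) (u : U) : Bl X (ρ u) 1 !![1, u.a; 0, 1] := ⟨⟨h.ρ_mem u, ρ_norm u⟩, rfl, rfl⟩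

theorem τ_norm (s : Sg) : τA s ∈ normalizer (YY Y2 : Set G6) :=
  mem_norm_YY fun y hy => ⟨τU s y, by rw [mem_Y2] at hy ⊢; simp [τU, hy], τA_mul_ρ s y⟩

theorem conj {g : G6} (h : g ∈ normalizer (YY Y2 : Set G6)) {b c b' c' : K}
    (e : g * ρ ⟨0, b, c⟩ = ρ ⟨0, b', c'⟩ * g) :
    g.1 3 3 * c + g.1 3 4 * b = c' * g.1 5 5 ∧ g.1 4 3 * c + g.1 4 4 * b = b' * g.1 5 5 := by
  have z := zeros h
  have e3 := congrArg (fun t : G6 => t.1 3 5) e
  have e4 := congrArg (fun t : G6 => t.1 4 5) e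
  simp [Matrix.mul_apply, Fin.sum_univ_succ, z, ρ_val, rhoM] at e3 e4
  have h3 : (3 : K) = 0 := rfl
  constructor
  · linear_combination 2 * e3 - (g.1 3 3 * c + g.1 3 4 * b - c' * g.1 5 5) * h3
  · linear_combination 2 * e4 - (g.1 4 3 * c + g.1 4 4 * b - b' * g.1 5 5) * h3

theorem mem_B_of {g : G6} (h : g ∈ NX X Y2) (e : g.1 4 3 = 0) : g ∈ B := by
  obtain ⟨y, hy, e'⟩ := exists_of_norm_YY h.2 (y := z) rfl
  rw [eq_Y2 hy] at e'
  have h1 := (conj h.2 e').2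
  have h2 := (bl_self h).inv_mul.1
  have hb : y.b = 0 := by
    rw [e] at h1
    linear_combination (-(g⁻¹).1 5 5) * h1 - y.b * h2
  rw [hb] at e'
  have : y.c = 0 ∨ y.c = 1 ∨ y.c = -1 := by generalize y.c = c; revert c; decide
  rcases this with hc | hc | hc <;> rw [hc] at e'
  · have : ρ z = ρ 1 := by
      rw [map_one]
      exact mul_eq_left.1 (e'.trans (by rw [show (⟨0, 0, 0⟩ : U) = 1 from rfl, map_one, one_mul]))
    exact absurd (ρ_inj this) (by decide)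
  · exact norm_z (Or.inl (mul_inv_eq_of_eq_mul e'))
  · exact norm_z (Or.inr (mul_inv_eq_of_eq_mul e'))

theorem bor_dec : ∀ (u : U) (s : Sg), (ρ u * τA s).1 5 5 = 1 →
    (mm (ρ u * τA s) = 1 → s = 1 ∧ u.a = 0) ∧ (mm (ρ u * τA s) = -1 → s = s3) := by decide +kernel

theorem Bl.eq_ρ (h : XD X) {g : G6} (a : Bl X g 1 1) : ∃ u ∈ Y2, g = ρ u := by
  obtain ⟨u, s, -, rfl⟩ := h.bor g a.mem.1 (mem_B_of a.mem (congrFun (congrFun a.hm 1) 0))
  obtain ⟨rfl, hu⟩ := (bor_dec u s a.hl).1 a.hm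
  exact ⟨u, hu, by rw [map_one, mul_one]⟩

theorem Bl.τ_mem (h : XD X) {g : G6} (a : Bl X g 1 (-1)) : τA s3 ∈ X := by
  obtain ⟨u, s, hs, rfl⟩ := h.bor g a.mem.1 (mem_B_of a.mem (congrFun (congrFun a.hm 1) 0))
  obtain rfl := (bor_dec u s a.hl).2 a.hm
  exact hs

theorem dec_L : ∀ a b c d a' b' c' d' : K, (!![a, b; c, d] : M2) * !![a', b'; c', d'] = 1 → c ≠ 0 →
    ∃ i e : K, (!![1, i; 0, 1] : M2) * (!![a, b; c, d] * !![1, e; 0, 1] * !![a', b'; c', d']) * !![1, -i; 0, 1] =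
      !![1, 0; 1, 1] := by
  intro a b c d a' b' c' d'
  simp only [Matrix.mul_fin_two, Matrix.one_fin_two, EmbeddingLike.apply_eq_iff_eq, vecCons_inj, and_true]
  revert a b c d a' b' c' d'
  decide +kernel

theorem exists_L (h : XD X) (hP : P1 X) : ∃ y, Bl X y 1 !![1, 0; 1, 1] := by
  obtain ⟨g, hg, hB⟩ := SetLike.not_le_iff_exists.1 hP
  have a := bl_self hg
  have a' := bl_self (inv_mem hg)
  obtain ⟨i, e, he⟩ := dec_L _ _ _ _ _ _ _ _ a.inv_mul.2 (mt (mem_B_of hg) hB)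
  refine ⟨_, (((bl_ρ h ⟨i, 0, 0⟩).mul ((a.mul (bl_ρ h ⟨e, 0, 0⟩)).mul a')).mul (bl_ρ h ⟨-i, 0, 0⟩)).cast ?_ he⟩
  rw [one_mul, mul_one, mul_one, a.inv_mul.1]

theorem τ_sq : τA s3 * τA s3 = 1 := by rw [← map_mul, sg_sq, map_one]

theorem τ_inv {u : U} (hu : u ∈ Y2) : τA s3 * ρ u = ρ u⁻¹ * τA s3 := by
  rw [τA_mul_ρ]
  congr 2
  rw [mem_Y2] at hu
  revert u
  decide

theorem exists_L0 (h : XD X) (hP : P1 X) :
    τA s3 ∈ X ∧ ∃ y, Bl X y 1 !![1, 0; 1, 1] ∧ τA s3 * y = y * τA s3 := by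
  obtain ⟨y, a⟩ := exists_L h hP
  have hτ : τA s3 ∈ X :=
    ((((bl_ρ h x1).mul a).mul ((bl_ρ h x1).mul a)).cast (by decide) (by decide)).τ_mem h
  have t : Bl X (τA s3) 1 (-1) := ⟨⟨hτ, τ_norm s3⟩, by decide, by decide⟩
  have a' := a.inv (l' := 1) (m' := !![1, 0; -1, 1]) (by decide) (by decide)
  obtain ⟨u, hu, e⟩ := ((((t.mul a).mul t).mul a').cast (by decide) (by decide)).eq_ρ h
  refine ⟨hτ, ρ u⁻¹ * y, ((bl_ρ h u⁻¹).mul a).cast (by decide) ?_, ?_⟩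
  · rw [mem_Y2] at hu
    rw [U.inv_a, hu]
    decide
  · have e1 : τA s3 * y = ρ u * y * τA s3 := by
      rw [← e, inv_mul_cancel_right, mul_assoc, τ_sq, mul_one]
    have e2 : u * u = u⁻¹ := by
      rw [eq_inv_iff_mul_eq_one, ← U_cube u, pow_succ, pow_two]
    rw [← mul_assoc, τ_inv (inv_mem hu), inv_inv, mul_assoc, e1, ← mul_assoc, ← mul_assoc, ← map_mul, e2]

theorem braid (h : XD X) {y : G6} (a : Bl X y 1 !![1, 0; 1, 1]) (hc : τA s3 * y = y * τA s3) :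
    ρ x1 * y * ρ x1⁻¹ * y * ρ x1 = y := by
  have a' := a.inv (l' := 1) (m' := !![1, 0; -1, 1]) (by decide) (by decide)
  have x := bl_ρ h x1
  obtain ⟨u, hu, e⟩ := ((((((x.mul a').mul x).mul a).mul (bl_ρ h x1⁻¹)).mul a).cast
    (by decide) (by decide)).eq_ρ h
  have c1 : Commute (τA s3) y := hc
  have c2 : Commute (τA s3) (ρ x1) := τA_mul_ρ s3 x1
  have c3 : Commute (τA s3) (ρ x1⁻¹) := by rw [map_inv]; exact c2.inv_right
  have c4 : Commute (τA s3) (ρ u) := by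
    rw [← e]
    exact ((((c2.mul_right c1.inv_right).mul_right c2).mul_right c1).mul_right c3).mul_right c1
  have e1 : u⁻¹ = u := ρ_inj (mul_right_cancel ((τ_inv hu).symm.trans c4.eq))
  have e2 : u = 1 := by
    have d : ∀ u : U, u⁻¹ = u → u = 1 := by decide
    exact d u e1
  rw [e2, map_one, map_inv] at e
  rw [map_inv]
  calc ρ x1 * y * (ρ x1)⁻¹ * y * ρ x1
      = y * (ρ x1)⁻¹ * (ρ x1 * y⁻¹ * ρ x1 * y * (ρ x1)⁻¹ * y) * ρ x1 := by group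
    _ = y := by rw [e]; group

theorem fix_D {b c : K} {e : V} (he : e ∈ wD) : ρ ⟨0, b, c⟩ • e = e := by
  simp only [mem_co, List.mem_cons, List.not_mem_nil, or_false, forall_eq_or_imp, forall_eq] at he
  rw [ρ_smul]; ext i; fin_cases i <;> simp [he]

theorem act {y : G6} (a : Bl X y 1 !![1, 0; 1, 1]) (hc : τA s3 * y = y * τA s3) :
    ∃ e ∈ wD, ∀ v : V, y • v = y1 0 • v + v 5 • e := by
  have m33 : y.1 3 3 = 1 := congrFun (congrFun a.hm 0) 0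
  have m34 : y.1 3 4 = 0 := congrFun (congrFun a.hm 0) 1
  have m43 : y.1 4 3 = 1 := congrFun (congrFun a.hm 1) 0
  have m44 : y.1 4 4 = 1 := congrFun (congrFun a.hm 1) 1
  have hy : ∀ b c : K, y * ρ ⟨0, b, c⟩ = ρ ⟨0, b + c, c⟩ * y := by
    intro b c
    obtain ⟨t, ht, e⟩ := exists_of_norm_YY a.mem.2 (y := ⟨0, b, c⟩) rfl
    rw [eq_Y2 ht] at e
    obtain ⟨h1, h2⟩ := conj a.mem.2 e
    rw [m33, m34, a.hl] at h1
    rw [m43, m44, a.hl] at h2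
    rw [e, show t.c = c by linear_combination -h1, show t.b = b + c by linear_combination -h2]
  have hw : τA s3 • y • f 5 = y • f 5 := by
    rw [← mul_smul, hc, mul_smul, show τA s3 • f 5 = f 5 by decide]
  have he : y • f 5 - f 5 ∈ wD := by
    rw [τA_smul] at hw
    have w3 := congrFun hw 3
    have w4 := congrFun hw 4
    have w5 : (y • f 5) 5 = 1 := (col y 5 5).trans a.hl
    have d : ∀ x : K, -1 * x = x → x = 0 := by decide
    simp only [mem_co, List.mem_cons, List.not_mem_nil, or_false, forall_eq_or_imp, forall_eq, Pi.sub_apply]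
    rw [d _ w3, d _ w4, w5]
    decide
  let Fx : Submodule K V :=
    { carrier := {v | y • v = y1 0 • v}
      zero_mem' := by simp
      add_mem' := fun hv hw => by rw [Set.mem_ofPred_eq] at *; rw [smul_add, smul_add, hv, hw]
      smul_mem' := fun c v hv => by rw [Set.mem_ofPred_eq] at *; rw [smul_comm, hv, smul_comm] }
  have mF : ∀ v, v ∈ Fx ↔ y • v = y1 0 • v := fun _ => Iff.rfl
  have f1 : ∀ b c : K, ∀ v ∈ Fx, ρ ⟨0, b, c⟩ • v - v ∈ Fx := by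
    intro b c v hv
    refine Fx.sub_mem ?_ hv
    rw [mF] at hv ⊢
    rw [← mul_smul, ← mul_smul, hy, y1_conj, mul_smul, mul_smul, hv]
  have f5 : y1 0 • f 5 = f 5 := by decide
  have f2 : ∀ b c : K, ρ ⟨0, b, c⟩ • f 5 - f 5 ∈ Fx := by
    intro b c
    rw [mF, smul_sub, smul_sub, ← mul_smul, ← mul_smul, hy, y1_conj, mul_smul, mul_smul, f5]
    have := fix_D (b := b + c) (c := c) he
    rw [smul_sub] at this
    rw [sub_eq_sub_iff_sub_eq_sub, this]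
  have g0 : f 0 ∈ Fx := by
    have := Fx.neg_mem (f1 0 1 _ (f2 0 1))
    rwa [show -(ρ ⟨0, 0, 1⟩ • (ρ ⟨0, 0, 1⟩ • f 5 - f 5) - (ρ ⟨0, 0, 1⟩ • f 5 - f 5)) = f 0 by decide +kernel] at this
  have g1 : f 1 ∈ Fx := by
    have := Fx.neg_mem (f1 0 1 _ (f2 1 0))
    rwa [show -(ρ ⟨0, 0, 1⟩ • (ρ ⟨0, 1, 0⟩ • f 5 - f 5) - (ρ ⟨0, 1, 0⟩ • f 5 - f 5)) = f 1 by decide +kernel] at this
  have g2 : f 2 ∈ Fx := by
    have := Fx.neg_mem (f1 1 0 _ (f2 1 0))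
    rwa [show -(ρ ⟨0, 1, 0⟩ • (ρ ⟨0, 1, 0⟩ • f 5 - f 5) - (ρ ⟨0, 1, 0⟩ • f 5 - f 5)) = f 2 by decide +kernel] at this
  have g3 : f 3 ∈ Fx := by
    have := Fx.sub_mem g0 (f2 0 1)
    rwa [show f 0 - (ρ ⟨0, 0, 1⟩ • f 5 - f 5) = f 3 by decide +kernel] at this
  have g4 : f 4 ∈ Fx := by
    have := Fx.sub_mem g2 (f2 1 0)
    rwa [show f 2 - (ρ ⟨0, 1, 0⟩ • f 5 - f 5) = f 4 by decide +kernel] at this
  refine ⟨_, he, fun v => ?_⟩
  have hv : v - v 5 • f 5 ∈ Fx := by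
    have : v - v 5 • f 5 = v 0 • f 0 + v 1 • f 1 + v 2 • f 2 + v 3 • f 3 + v 4 • f 4 := by
      ext i; fin_cases i <;> simp [f]
    rw [this]
    exact Fx.add_mem (Fx.add_mem (Fx.add_mem (Fx.add_mem (Fx.smul_mem _ g0) (Fx.smul_mem _ g1))
      (Fx.smul_mem _ g2)) (Fx.smul_mem _ g3)) (Fx.smul_mem _ g4)
  rw [mF, smul_sub, smul_sub, smul_comm y, smul_comm (y1 0), f5, sub_eq_iff_eq_add] at hv
  rw [hv, smul_sub]
  abel

end K1

open K1

theorem y1_norm (k : K) : y1 k ∈ normalizer (YY Y2 : Set G6) :=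
  mem_norm_YY fun y hy => ⟨⟨0, y.b + y.c, y.c⟩, rfl, by rw [eq_Y2 hy]; exact y1_conj k _ _⟩

theorem P1_of_y1 {k : K} (h : y1 k ∈ X) : P1 X := fun hP =>
  absurd ((mem_B.1 (hP ⟨h, y1_norm k⟩)).1 4 3 (by decide)) (show (1 : K) ≠ 0 by decide)

theorem k1 (h : XD X) (hP : P1 X) : ∃ k, y1 k ∈ X := by
  obtain ⟨-, y, a, hc⟩ := exists_L0 h hP
  have hb := braid h a hc
  obtain ⟨e, he, hy⟩ := act a hc
  simp only [mem_co, List.mem_cons, List.not_mem_nil, or_false, forall_eq_or_imp, forall_eq] at he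
  have hy' : ∀ v : V, y • v =
      ![v 0 + v 5 * e 0, 2 * v 0 + v 1 + v 5 * e 1, v 0 + v 1 + v 2 + v 5 * e 2, v 3, v 3 + v 4, v 5] := by
    intro v
    rw [hy, y1_smul]
    ext i; fin_cases i <;> simp [he]
  have h5 : ρ x1 • y • ρ x1⁻¹ • y • ρ x1 • f 5 = y • f 5 := by
    rw [← mul_smul, ← mul_smul, ← mul_smul, ← mul_smul, hb]
  rw [show ρ x1 • f 5 = f 5 by decide, show x1⁻¹ = ⟨-1, 0, 0⟩ by decide] at h5
  have p1 := congrFun h5 1
  have p2 := congrFun h5 2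
  simp [hy', ρ_smul, x1, f] at p1 p2
  have h3 : (3 : K) = 0 := rfl
  have q0 : e 0 = 0 := by linear_combination p2
  have q2 : e 2 = 2 * e 1 := by linear_combination 2 * p1 - 8 * q0 - e 2 * h3
  refine ⟨e 1, ?_⟩
  rw [← ext_smul (g := y) (h := y1 (e 1)) fun v => ?_]
  · exact a.mem.1
  · rw [hy', y1_smul, q0, q2]
    ext i; fin_cases i <;> simp <;> ring

theorem K1.bl_y1 {k : K} (hk : y1 k ∈ X) : Bl X (y1 k) 1 !![1, 0; 1, 1] := ⟨⟨hk, y1_norm k⟩, rfl, rfl⟩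

theorem k1_gen (h : XD X) {k : K} (hk : y1 k ∈ X) (hH : Bor X H) (hy : y1 k ∈ H) : NX X Y2 ≤ H := by
  intro g hg
  by_cases e : g.1 4 3 = 0
  · exact h.mem_of_B hH hg.1 (mem_B_of hg e)
  have d : ∀ p q : K, q ≠ 0 → ∃ i : K, p + i * q + q = 0 := by decide
  obtain ⟨i, hi⟩ := d (g.1 3 3) _ e
  have a := ((bl_y1 hk).mul (bl_ρ h ⟨i, 0, 0⟩)).mul (bl_self hg)
  have e' : (y1 k * ρ ⟨i, 0, 0⟩ * g).1 4 3 = 0 := by
    refine (congrFun (congrFun a.hm 1) 0).trans ?_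
    simp [mm, Matrix.mul_apply, Fin.sum_univ_succ]
    linear_combination hi
  exact (mul_mem_cancel_left (mul_mem hy (hH.uu _))).1 (h.mem_of_B hH a.mem.1 (mem_B_of a.mem e'))

theorem y1_uniq (h : XD X) {j k : K} (hj : y1 j ∈ X) (hk : y1 k ∈ X) : j = k := by
  have a' := (bl_y1 hk).inv (l' := 1) (m' := !![1, 0; -1, 1]) (by decide) (by decide)
  obtain ⟨u, hu, e⟩ := (((bl_y1 hj).mul a').cast (by decide) (by decide)).eq_ρ h
  have e1 : y1 j • f 5 = ρ u • y1 k • f 5 := by rw [← mul_smul, ← e, inv_mul_cancel_right]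
  have p1 := congrFun e1 1
  have p3 := congrFun e1 3
  rw [mem_Y2] at hu
  simp [y1_smul, ρ_smul, f, hu] at p1 p3
  rcases p3 with p3 | p3
  · exact absurd p3 (by decide)
  · simpa [p3] using p1

end CfsgLib.Cf3
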