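import Mathlib
import Cfsg.Agent.Lib.Cf3.Tri

/-! Package KAP: the duality and transport (plans/CF3.md). -/

set_option autoImplicit false
set_option maxRecDepth 100000

namespace CfsgLib.Cf3

open Subgroup Matrix Cfsg CfsgLib.Fusion


namespace Kap

/-- inverse transpose -/
def tr : G6 ≃* G6 where
  toFun g := mkG g.invᵀ g.valᵀ (by rw [← transpose_mul, g.val_inv, transpose_one])
  invFun g := mkG g.invᵀ g.valᵀ (by rw [← transpose_mul, g.val_inv, transpose_one])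
  left_inv g := Units.ext (transpose_transpose _)
  right_inv g := Units.ext (transpose_transpose _)
  map_mul' g h := Units.ext (transpose_mul h.inv g.inv)

/-- the permutation of the coordinates -/
def σ : Fin 6 → Fin 6 := ![5, 4, 2, 3, 1, 0]
/-- the signs -/
def ε : Fin 6 → K := ![1, 1, 1, 2, 1, 1]

/-- the duality -/
def κ : G6 ≃* G6 := tr.trans (MulAut.conj J)

theorem κ_apply (g : G6) (i j : Fin 6) : (κ g).1 i j = ε i * ε j * g.inv (σ j) (σ i) := by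
  have h : ∀ m : Mat, (J.1 * m * J.inv) i j = ε i * ε j * m (σ i) (σ j) := fun m => by
    have h1 : J.1 = Matrix.of fun i k => if k = σ i then ε i else 0 := by decide
    have h2 : J.inv = Matrix.of fun l j => if l = σ j then ε j else 0 := by decide
    rw [h1, h2]
    simp only [Matrix.mul_apply, of_apply, ite_mul, mul_ite, zero_mul, mul_zero, Finset.sum_ite_eq',
      Finset.mem_univ, if_true]
    ring
  exact h g.invᵀ

theorem κ_val (g : G6) : (κ g).1 = Matrix.of fun i j => ε i * ε j * g.inv (σ j) (σ i) :=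
  Matrix.ext (κ_apply g)

theorem κ_κ (g : G6) : κ (κ g) = g := by
  refine Units.ext (Matrix.ext fun i j => ?_)
  have e : (κ g).inv = (κ g⁻¹).1 := by rw [map_inv]; rfl
  have h : ∀ i j : Fin 6, σ (σ i) = i ∧ ε i * ε j * (ε (σ j) * ε (σ i)) = 1 := by decide
  rw [κ_apply, e, κ_apply, (h i j).1, (h j i).1, ← mul_assoc, (h i j).2, one_mul]; rfl

theorem κ_mem {g : G6} (hg : g ∈ B) : κ g ∈ B := by
  have h := mem_B.1 (inv_mem hg)
  have k : ∀ i j : Fin 6, j < i → σ i < σ j ∨ (σ j = 2 ∧ σ i = 3) := by decide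
  refine mem_B.2 ⟨fun i j hij => ?_, ?_⟩
  · rw [κ_apply]
    rcases k i j hij with e | ⟨e1, e2⟩
    · exact mul_eq_zero_of_right _ (h.1 _ _ e)
    · rw [e1, e2]; exact mul_eq_zero_of_right _ h.2
  · rw [κ_apply]; exact mul_eq_zero_of_right _ (h.1 3 2 (by decide))

theorem surj {α : Type*} [Finite α] {f : α → G6} (hf : Function.Injective f) {κ : G6 ≃* G6}
    (h : ∀ a, ∃ b, κ (f a) = f b) (b : α) : ∃ a, κ.symm (f b) = f a := by
  choose F hF using h
  obtain ⟨a, rfl⟩ := Finite.injective_iff_surjective.1 (show Function.Injective F from fun a a' e =>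
    hf (κ.injective (by rw [hF, hF, e]))) b
  exact ⟨a, by rw [← hF, κ.symm_apply_apply]⟩

theorem ρ_inj : Function.Injective ρ := fun u v e => by
  have h : ∀ i j, rhoM u i j = rhoM v i j := fun i j => congrArg (fun g : G6 => g.1 i j) e
  exact U.ext (h 0 1) (h 1 3) (h 0 3)

theorem τA_inj : Function.Injective τA := (injective_iff_map_eq_one τA).2 fun s e => by
  have h : diagonal (tauD s) = (1 : Mat) := congrArg Units.val e
  revert s; decide +kernel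

theorem conj_B {b : G6} (hb : b ∈ B) (g : G6) : MulAut.conj b g ∈ B ↔ g ∈ B :=
  (B.mul_mem_cancel_right (inv_mem hb)).trans (B.mul_mem_cancel_left hb)

theorem map_norm (κ : G6 ≃* G6) (H : Subgroup G6) : (normalizer (H : Set G6)).map κ.toMonoidHom =
    normalizer ((H.map κ.toMonoidHom : Subgroup G6) : Set G6) := map_equiv_normalizer_eq H κ

theorem map_symm (κ : G6 ≃* G6) (H : Subgroup G6) : (H.map κ.symm.toMonoidHom).map κ.toMonoidHom = H := by
  rw [Subgroup.map_map]; convert Subgroup.map_id H; ext; simp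

end Kap

open Kap
theorem exists_kap : ∃ κ : G6 ≃* G6, (∀ u, κ (ρ u) = ρ ⟨u.b, u.a, u.a * u.b - u.c⟩) ∧
    (∀ s, κ (τA s) = τA (s.2.1, s.1, s.2.2)) ∧ (∀ k, κ (y1 k) = y2 (-k)) ∧ (∀ k, κ (y2 k) = y1 (-k)) ∧
    (∀ g, κ g ∈ B ↔ g ∈ B) ∧ ∀ g, κ (κ g) = g := by
  refine ⟨κ, fun u => Units.ext ((κ_val _).trans ?_),
    fun s => Units.ext ((κ_val _).trans ?_),
    fun k => Units.ext ((κ_val _).trans ?_),
    fun k => Units.ext ((κ_val _).trans ?_),
    fun g => ⟨fun h => κ_κ g ▸ κ_mem h, κ_mem⟩, κ_κ⟩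
  · revert u; decide +kernel
  · revert s; decide +kernel
  · revert k; decide +kernel
  · revert k; decide +kernel

/-- an automorphism that preserves the standard configuration -/
structure Std (κ : G6 ≃* G6) : Prop where
  uu : ∀ u, ∃ u', κ (ρ u) = ρ u'
  tt : ∀ s, ∃ s', κ (τA s) = τA s'
  bb : ∀ g, κ g ∈ B ↔ g ∈ B

theorem Std.symm {κ : G6 ≃* G6} (h : Std κ) : Std κ.symm := by
  exact ⟨surj ρ_inj h.uu, surj τA_inj h.tt, fun g => by rw [← h.bb, κ.apply_symm_apply]⟩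

theorem Std.map_UU {κ : G6 ≃* G6} (h : Std κ) : UU.map κ.toMonoidHom = UU := by
  refine le_antisymm ?_ ?_
  · rintro _ ⟨_, ⟨u, rfl⟩, rfl⟩
    obtain ⟨u', e⟩ := h.uu u
    exact ⟨u', e.symm⟩
  · rintro _ ⟨u, rfl⟩
    obtain ⟨u', e⟩ := h.symm.uu u
    exact ⟨_, ⟨u', e.symm⟩, κ.apply_symm_apply _⟩

theorem std_β (k : K) : Std (MulAut.conj (β k)) := by
  exact ⟨fun u => ⟨u, by rw [MulAut.conj_apply, β_mul_ρ, mul_inv_cancel_right]⟩,
    fun s => ⟨s, by rw [MulAut.conj_apply, β_mul_τA, mul_inv_cancel_right]⟩, conj_B (β_mem_B k)⟩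

theorem std_τA (s : Sg) : Std (MulAut.conj (τA s)) := by
  exact ⟨fun u => ⟨_, by rw [MulAut.conj_apply, τA_mul_ρ, mul_inv_cancel_right]⟩,
    fun t => ⟨s * t * s⁻¹, by rw [MulAut.conj_apply, map_mul, map_mul, map_inv]⟩, conj_B (τA_mem_B s)⟩

theorem Std.xd {κ : G6 ≃* G6} (h : Std κ) {X : Subgroup G6} (hX : XD X) : XD (X.map κ.toMonoidHom) := by
  refine ⟨h.map_UU ▸ hX.syl.map_equiv κ, ?_⟩
  rintro _ ⟨g, hg, rfl⟩ hB
  obtain ⟨u, s, hs, rfl⟩ := hX.bor g hg ((h.bb g).1 hB)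
  obtain ⟨u', e1⟩ := h.uu u
  obtain ⟨s', e2⟩ := h.tt s
  exact ⟨u', s', ⟨_, hs, e2⟩, by rw [map_mul, ← e1, ← e2]; rfl⟩

theorem Std.se {κ : G6 ≃* G6} (h : Std κ) {X N : Subgroup G6} (hX : SE X N) :
    SE (X.map κ.toMonoidHom) (N.map κ.toMonoidHom) := by
  refine ⟨h.map_UU ▸ hX.syl.map_equiv κ, map_mono hX.le,
    fun k => hX.nle ((map_le_map_iff_of_injective κ.injective).1 k), fun u => ?_, ?_⟩
  · obtain ⟨u', e⟩ := h.symm.uu u
    exact ⟨_, e ▸ hX.uu u', κ.apply_symm_apply _⟩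
  · rintro _ ⟨g, hg, rfl⟩ _ ⟨n, hn, rfl⟩ h3 h1 hc
    rw [← map_inv, ← map_mul, ← map_mul, mem_map_iff_mem κ.injective] at hc
    rw [← MonoidHom.map_zpowers] at h3
    exact mem_map_of_mem _ (hX.spe g hg n hn
      (h3.of_equiv ((zpowers n).equivMapOfInjective _ κ.injective).symm)
      (fun e => h1 (by rw [e, map_one])) hc)

theorem Std.bor {κ : G6 ≃* G6} (h : Std κ) {X H : Subgroup G6} (hX : Bor X H) :
    Bor (X.map κ.toMonoidHom) (H.map κ.toMonoidHom) := by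
  refine ⟨fun u => ?_, fun s hs => ?_⟩
  · obtain ⟨u', e⟩ := h.symm.uu u
    exact ⟨_, e ▸ hX.uu u', κ.apply_symm_apply _⟩
  · obtain ⟨s', e⟩ := h.symm.tt s
    have e' : τA s = κ.toMonoidHom (τA s') := by rw [← e]; exact (κ.apply_symm_apply _).symm
    rw [e'] at hs ⊢
    exact mem_map_of_mem _ (hX.tt s' ((mem_map_iff_mem κ.injective).1 hs))

theorem map_NX (κ : G6 ≃* G6) {X : Subgroup G6} {Y Y' : Subgroup U} (e : (YY Y).map κ.toMonoidHom = YY Y') :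
    (NX X Y).map κ.toMonoidHom = NX (X.map κ.toMonoidHom) Y' := by
  rw [NX, NX, Subgroup.map_inf _ _ _ κ.injective, map_norm, e]

theorem rad_map {κ : G6 ≃* G6} (h : UU.map κ.toMonoidHom = UU) {X : Subgroup G6} {Y Y' : Subgroup U}
    (e : (YY Y).map κ.toMonoidHom = YY Y') (hX : Rad X Y) : Rad (X.map κ.toMonoidHom) Y' := by
  refine ⟨fun Q h1 h2 h3 => ?_, ?_⟩
  · rw [← map_symm κ Q, ← map_NX κ e] at h1 h3
    rw [← map_norm] at h3
    rw [← map_symm κ Q, ← e]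
    exact map_mono (hX.rad _ ((map_le_map_iff_of_injective κ.injective).1 h1) (h2.map _)
      ((map_le_map_iff_of_injective κ.injective).1 h3))
  · have := hX.syl.map_equiv κ
    rwa [map_NX κ e, map_NX κ e, h] at this

theorem exists_dual : ∃ κ : G6 ≃* G6, Std κ ∧ (YY Y1).map κ.toMonoidHom = YY Y2 ∧ (YY Y2).map κ.toMonoidHom = YY Y1 ∧
    (∀ k, κ (y1 k) = y2 (-k)) ∧ (∀ k, κ (y2 k) = y1 (-k)) ∧ ∀ g, κ (κ g) = g := by
  obtain ⟨κ, h1, h2, h3, h4, h5, h6⟩ := exists_kap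
  have a : (YY Y1).map κ.toMonoidHom ≤ YY Y2 := by
    rintro _ ⟨_, ⟨u, hu, rfl⟩, rfl⟩
    exact ⟨_, mem_Y1.1 hu, (h1 u).symm⟩
  have b : (YY Y2).map κ.toMonoidHom ≤ YY Y1 := by
    rintro _ ⟨_, ⟨u, hu, rfl⟩, rfl⟩
    exact ⟨_, mem_Y1.2 (mem_Y2.1 hu), (h1 u).symm⟩
  exact ⟨κ, ⟨fun u => ⟨_, h1 u⟩, fun s => ⟨_, h2 s⟩, h5⟩,
    le_antisymm a fun g hg => ⟨κ g, b ⟨g, hg, rfl⟩, h6 g⟩,
    le_antisymm b fun g hg => ⟨κ g, a ⟨g, hg, rfl⟩, h6 g⟩, h3, h4, h6⟩

end CfsgLib.Cf3
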