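import Mathlib
import Cfsg.Agent.Lib.Cf3.K1
import Cfsg.Agent.Lib.Cf3.Kap

/-! Package K2: the normaliser of `Y1`, by duality (plans/CF3.md). -/

set_option autoImplicit false
set_option maxRecDepth 100000

namespace CfsgLib.Cf3

open Subgroup Matrix Cfsg CfsgLib.Fusion

variable {X H : Subgroup G6}

theorem y2_norm (k : K) : y2 k ∈ normalizer (YY Y1 : Set G6) := by
  refine mem_norm_YY fun y hy => ⟨⟨y.a - y.c, 0, y.c⟩, mem_Y1.2 rfl, Units.ext ?_⟩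
  obtain ⟨a, b, c⟩ := y
  obtain rfl : b = 0 := mem_Y1.1 hy
  change y2M k * rhoM ⟨a, 0, c⟩ = rhoM ⟨a - c, 0, c⟩ * y2M k
  clear hy
  revert k a c; decide +kernel

theorem P2_of_y2 {k : K} (h : y2 k ∈ X) : P2 X := by
  intro h'
  have := (mem_B.1 (h' ⟨h, y2_norm k⟩)).1 3 1 (by decide)
  exact (by decide : ∀ k, y2M k 3 1 ≠ 0) k this

theorem k2 (h : XD X) (hP : P2 X) : ∃ k, y2 k ∈ X := by
  obtain ⟨κ, hs, e1, -, e3, -, e5⟩ := exists_dual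
  obtain ⟨k, g, hg, e⟩ := k1 (hs.xd h) fun h' => hP fun g hg =>
    (hs.bb g).1 (h' (map_NX κ e1 ▸ mem_map_of_mem _ hg))
  exact ⟨-k, by rw [← e3, ← show κ g = y1 k from e, e5]; exact hg⟩

theorem k2_gen (h : XD X) {k : K} (hk : y2 k ∈ X) (hH : Bor X H) (hy : y2 k ∈ H) : NX X Y1 ≤ H := by
  obtain ⟨κ, hs, e1, -, -, e4, e5⟩ := exists_dual
  intro g hg
  obtain ⟨g', hg', e⟩ := k1_gen (hs.xd h) ⟨_, hk, e4 k⟩ (hs.bor hH) ⟨_, hy, e4 k⟩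
    (map_NX κ e1 ▸ mem_map_of_mem _ hg)
  exact κ.injective e ▸ hg'

theorem y2_uniq (h : XD X) {j k : K} (hj : y2 j ∈ X) (hk : y2 k ∈ X) : j = k := by
  obtain ⟨κ, hs, -, -, -, e4, -⟩ := exists_dual
  exact neg_injective (y1_uniq (hs.xd h) ⟨_, hj, e4 j⟩ ⟨_, hk, e4 k⟩)

theorem k12 (h : SylIn 3 UU X) {k : K} (h1 : y1 k ∈ X) (h2 : y2 0 ∈ X) : k = 0 ∨ (k = 1 ∧ τA s0 ∈ X) := by
  have a1 : ρ x1 ∈ X := h.le ⟨x1, rfl⟩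
  rcases (by decide : ∀ k : K, k = 0 ∨ k = 1 ∨ k = 2) k with rfl | rfl | rfl
  · exact .inl rfl
  · exact .inr ⟨rfl, (words_y a1 (h.le ⟨x2, rfl⟩) h1 h2).2⟩
  · exact absurd (no9 h (mul_mem (mul_mem a1 h1) h2) ord18.1) ord18.2

theorem c_cases {Y : Subgroup U} (h : Rad X Y) (hY : Y ≠ ⊤) :
    Y = ⊥ ∨ (Y = Y2 ∧ P1 X) ∨ (Y = Y1 ∧ P2 X) ∨ ∃ r, Reg r ∧ Y = zpowers r := by
  have key : ∀ g : G6, NX X Y ≤ cj g B → ∀ u, (∀ y ∈ Y, u * y * u⁻¹ ∈ Y) → u ∈ Y := fun g hg u hu => by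
    obtain ⟨Q, h1, h2, h3, h4⟩ := exists_tc (h := g) fun x hx => mem_cj.2 (B_le_T6 (mem_cj.1 (hg hx)))
    obtain ⟨y, hy, e⟩ := h.rad Q h1 h2 h3 (h4 _ (h.syl.le ⟨⟨u, rfl⟩, mem_norm_YY fun y hy =>
      ⟨_, hu y hy, by rw [← map_mul, ← map_mul, inv_mul_cancel_right]⟩⟩) (isPGroup_ρ u))
    exact ρ_inj e ▸ hy
  have key1 : NX X Y ≤ B → ∀ u, (∀ y ∈ Y, u * y * u⁻¹ ∈ Y) → u ∈ Y := fun hB =>
    key 1 fun x hx => mem_cj.2 (by simpa using hB hx)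
  have ya : ∀ t, Y = Ya t → ¬ NX X Y ≤ B := fun t e hB => by
    subst e
    exact absurd (mem_Ya.1 (key1 hB x2 fun y hy => by simpa [mem_Ya, x2] using hy)) (by simp [x2])
  rcases sub_cases Y with e | e | e | ⟨t, e⟩ | ⟨y, y1', e⟩
  · exact .inl e
  · exact absurd e hY
  · refine .inr (.inl ⟨e, fun hB => ?_⟩)
    subst e
    exact absurd (mem_Y2.1 (key1 hB x1 fun y hy => by simpa [mem_Y2, x1] using hy)) (by simp [x1])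
  · by_cases ht : t = 0
    · subst ht
      exact .inr (.inr (.inl ⟨e, by subst e; exact ya 0 rfl⟩))
    · exact absurd (inf_le_right.trans (e ▸ norm_Ya ht)) (ya t e)
  by_cases hr : y.a ≠ 0 ∧ y.b ≠ 0
  · exact .inr (.inr (.inr ⟨y, hr, e⟩))
  exfalso
  subst e
  obtain ⟨g, hg⟩ : ∃ g : G6, g * ρ z * g⁻¹ = ρ y ∨ g * ρ z * g⁻¹ = ρ y⁻¹ := by
    have k : ∀ (p : U) (g : G6), g * ρ z = ρ p * g → ∀ u, u * p * u⁻¹ = y ∨ u * p * u⁻¹ = y⁻¹ →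
        ∃ g : G6, g * ρ z * g⁻¹ = ρ y ∨ g * ρ z * g⁻¹ = ρ y⁻¹ := fun p g e u hu => by
      have : ρ u * g * ρ z * (ρ u * g)⁻¹ = ρ (u * p * u⁻¹) := by
        rw [map_mul, map_mul, map_inv, mul_assoc _ g, e]; group
      exact ⟨ρ u * g, hu.imp (this.trans <| congrArg ρ ·) (this.trans <| congrArg ρ ·)⟩
    obtain ⟨u, hu | hu | hu⟩ := (by decide +kernel : ∀ y : U, y ≠ 1 → ¬ (y.a ≠ 0 ∧ y.b ≠ 0) → ∃ u : U,
      (u * z * u⁻¹ = y ∨ u * z * u⁻¹ = y⁻¹) ∨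
      (u * ⟨0, 1, 1⟩ * u⁻¹ = y ∨ u * ⟨0, 1, 1⟩ * u⁻¹ = y⁻¹) ∨
      (u * ⟨-1, 0, 1⟩ * u⁻¹ = y ∨ u * ⟨-1, 0, 1⟩ * u⁻¹ = y⁻¹)) y y1' hr
    · exact k _ 1 (by simp) u hu
    · exact k _ (y1 0) (Units.ext (by decide +kernel)) u hu
    · exact k _ (y2 0) (Units.ext (by decide +kernel)) u hu
  obtain ⟨u, hu, n⟩ := (by decide +kernel : ∀ y : U, y ≠ 1 → ¬ (y.a ≠ 0 ∧ y.b ≠ 0) → ∃ u : U,
    u * y * u⁻¹ = y ∧ ¬ (u = 1 ∨ u = y ∨ u = y⁻¹)) y y1' hr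
  refine n (mem_zpowers_U.1 (key g (fun x hx => mem_cj.2 (norm_z ?_)) u fun y' hy' => ?_))
  · obtain ⟨y', hy', e⟩ := exists_of_norm_YY hx.2 (mem_zpowers y)
    have e1 : x * ρ y * x⁻¹ = ρ y' := by rw [e, mul_inv_cancel_right]
    have e2 : x * ρ y⁻¹ * x⁻¹ = ρ y'⁻¹ := by rw [map_inv, map_inv, ← e1]; group
    have e3 : ∀ {p q : G6}, g * ρ z * g⁻¹ = p → x * p * x⁻¹ = q →
        (q = p → g⁻¹ * x * g * ρ z * (g⁻¹ * x * g)⁻¹ = ρ z) ∧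
        (q = p⁻¹ → g⁻¹ * x * g * ρ z * (g⁻¹ * x * g)⁻¹ = ρ z⁻¹) := fun {p q} h1 h2 => by
      have : g⁻¹ * x * g * ρ z * (g⁻¹ * x * g)⁻¹ = g⁻¹ * q * g := by rw [← h2, ← h1]; group
      exact ⟨fun e => by rw [this, e, ← h1]; group, fun e => by rw [this, e, ← h1, map_inv]; group⟩
    rcases mem_zpowers_U.1 hy' with rfl | rfl | rfl
    · exact absurd (ρ_inj (by simpa using e1)) y1'
    · exact .inl (hg.elim (fun h1 => (e3 h1 e1).1 rfl) fun h1 => (e3 h1 e2).1 rfl)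
    · exact .inr (hg.elim (fun h1 => (e3 h1 e1).2 (map_inv _ _)) fun h1 => (e3 h1 e2).2 (map_inv _ _))
  · obtain ⟨i, rfl⟩ := hy'
    exact ⟨i, by simp only; rw [← conj_zpow, hu]⟩

end CfsgLib.Cf3
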