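import Mathlib
import Cfsg.Agent.Lib.Cf3.Dm
import Cfsg.Agent.Lib.Cf3.K2

/-! Package DA: `A` is not essential, linear part (plans/CF3.md). -/

set_option autoImplicit false
set_option maxRecDepth 100000

namespace CfsgLib.Cf3

open Subgroup Matrix Cfsg CfsgLib.Fusion

variable {X N : Subgroup G6}

theorem SE.dm' (h : SE X N) (hN : N ≤ normalizer (YY Y1 : Set G6)) : False := by
  obtain ⟨κ, hs, e1, -⟩ := exists_dual
  refine (hs.se h).dm ?_
  rintro _ ⟨g, hg, rfl⟩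
  have : κ.toMonoidHom g ∈ (NX ⊤ Y1).map κ.toMonoidHom := ⟨g, ⟨mem_top _, hN hg⟩, rfl⟩
  rw [map_NX κ e1] at this
  exact this.2

theorem SE.da0 (h : SE X N) {k : K} (h1 : y1 k ∈ X) (h2 : y2 0 ∈ X) : False := by
  have hk : k ≠ 2 := by
    rcases k12 h.syl h1 h2 with rfl | ⟨rfl, -⟩ <;> decide
  have z1 : z ≠ 1 := by decide
  have key : ∀ {g : G6} {Y : Subgroup U}, g ∈ X → z ∈ Y → g ∈ normalizer (YY Y : Set G6) → g ∈ N :=
    fun hg hz hn => by
      obtain ⟨y', -, e⟩ := exists_of_norm_YY hn hz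
      exact h.conj_ρ hg z1 (by rw [e, mul_inv_cancel_right]; exact h.uu _)
  obtain ⟨g, hg, hgN⟩ := SetLike.not_le_iff_exists.1 h.nle
  obtain ⟨m, hm, u, hu, e⟩ := exists_nonreg hk (h.uu x1) (h.uu x2) (key h1 (mem_Y2.2 rfl) (y1_norm k))
    (key h2 (mem_Y1.2 rfl) (y2_norm 0)) (g • f 0)
  have hX : (m * g)⁻¹ ∈ X := inv_mem (mul_mem (h.le hm) hg)
  have hN : (m * g)⁻¹ * ρ u * (m * g)⁻¹⁻¹ ∈ N := by
    refine h.d2 (mul_mem (mul_mem hX (h.le (h.uu u))) (inv_mem hX)) ?_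
    rw [inv_inv, mul_smul, mul_smul, mul_smul m, e, ← mul_smul m, inv_smul_smul]
    decide
  exact hgN (by simpa using mul_mem (inv_mem hm) (inv_mem (h.conj_ρ hX hu hN)))

theorem SE.da (h : SE X N) {j k : K} (h1 : y1 k ∈ X) (h2 : y2 j ∈ X) : False :=
  ((std_β (-j)).se h).da0 (k := -j + k)
    ⟨_, h1, by simp only [MulEquiv.coe_toMonoidHom, MulAut.conj_apply, β_mul_y1, mul_inv_cancel_right]⟩
    ⟨_, h2, by simp only [MulEquiv.coe_toMonoidHom, MulAut.conj_apply, β_mul_y2, mul_inv_cancel_right,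
      neg_add_cancel]⟩

end CfsgLib.Cf3
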