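import Mathlib
import Cfsg.Agent.Lib.Cf3.Tri

/-! Package XF: the automizer of `A` (plans/CF3.md). -/

set_option autoImplicit false
set_option maxRecDepth 100000

namespace CfsgLib.Cf3

open Subgroup Matrix Cfsg CfsgLib.Fusion

variable {F : FS} {P : Subgroup M} {g g' : M → M} {h : G6} {Y : Subgroup U}

theorem Au.img_eq {E : Subgroup M} (hg : Au F E g) : img E g = E := hg.1.img_eq_self hg.2

theorem Au.comp {E : Subgroup M} (hg : Au F E g) (hg' : Au F E g') : Au F E (g ∘ g') := ⟨hg'.1.comp hg.1 hg'.2, fun x hx => hg.2 _ (hg'.2 x hx)⟩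

theorem Au.exists_inv {E : Subgroup M} (hg : Au F E g) :
    ∃ k, Au F E k ∧ (∀ x ∈ E, k (g x) = x) ∧ ∀ x ∈ E, g (k x) = x :=  let ⟨k, h1, h2, h3, h4, _⟩ := hg.1.exists_inv' hg.img_eq
  ⟨k, ⟨h1, h4⟩, h2, h3⟩

theorem au_of_mem {E : Subgroup M} {α : MulAut E} (h : α ∈ F.autGroup E) : Au F E (extAut α) := ⟨(mem_autGroup le_top).1 h, fun _ => extAut_mem α⟩

theorem Au.exists_aut {E : Subgroup M} (hg : Au F E g) : ∃ α ∈ F.autGroup E, ∀ x ∈ E, extAut α x = g x := hg.1.exists_aut_of_mem hg.2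

theorem mor_conj (F : FS) (P : Subgroup M) (m : M) : Mor F P fun x => m * x * m⁻¹ := Mor.conj F le_top trivial

theorem mor_mem_A (hg : Mor F P g) (hP : A ≤ P) {x : M} (hx : x ∈ A) : g x ∈ A := by
  have k := hg.mono hP
  have c : ∀ x ∈ A, ∀ y ∈ A, x * y = y * x := fun x hx y hy => by
    rw [eq_vec hx, eq_vec hy, ← vec_add, ← vec_add, add_comm]
  refine (eq_A_of_comm (fun x hx y hy => ?_) (k.card_img.trans card_A).ge).le (mem_img_of_mem g hx)
  obtain ⟨a, ha, rfl⟩ := k.mem_img.1 hx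
  obtain ⟨b, hb, rfl⟩ := k.mem_img.1 hy
  rw [← k.map_mul ha hb, c a ha b hb, k.map_mul hb ha]

theorem A_centric (F : FS) : F.IsCentric A := ⟨le_top, fun Q hQ => by
  obtain ⟨g, hg, rfl⟩ := isConj_iff.1 hQ
  rw [hg.img_eq_self fun x => mor_mem_A hg le_rfl]
  exact fun x hx => mem_A_of_comm (mem_centralizerIn'.1 hx).2⟩

theorem exists_ind (hg : Mor F P g) (hP : A ≤ P) : ∃ h ∈ X F, Ind g h := by
  have m := fun v => mor_mem_A hg hP (vec_mem_A v)
  let L : V →ₗ[K] V := AddMonoidHom.toZModLinearMap 3 (AddMonoidHom.mk' (fun v => (g (vec v)).v) fun v w => by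
    rw [vec_add, hg.map_mul (hP (vec_mem_A v)) (hP (vec_mem_A w)), M.mul_v, mem_A.1 (m v), map_one, one_smul])
  have e : ∀ v, g (vec v) = vec (L v) := fun v => eq_vec (m v)
  obtain ⟨h, k⟩ := ((LinearMap.isUnit_iff_ker_eq_bot L).2 (LinearMap.ker_eq_bot.2 fun v w k => vec_inj.1
    (hg.inj (hP (vec_mem_A v)) (hP (vec_mem_A w)) (by rw [e, e, k])))).map LinearMap.toMatrixAlgEquiv'
  have i : Ind g h := fun v => by rw [e, smul_def, k]; exact congrArg vec (LinearMap.toMatrix'_mulVec L v).symm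
  exact ⟨h, ⟨g, hg.mono hP, i⟩, i⟩

theorem Ind.uniq {h' : G6} (e : Ind g h) (e' : Ind g h') : h = h' :=  Units.ext (Matrix.toLin'.injective (LinearMap.ext fun v => vec_inj.1 ((e v).symm.trans (e' v))))

theorem ind_conj (hg : IsHomOn P g) (hP : A ≤ P) (e : Ind g h) {x : M} (hx : x ∈ P) :
    h * ρ x.u = ρ (g x).u * h :=  Ind.uniq (g := fun y => g (x * y * x⁻¹)) (fun v => by simp only [conj_vec, e _, mul_smul]) fun v => by
    beta_reduce
    rw [hg.map_conj hx (hP (vec_mem_A v)), e, conj_vec, mul_smul]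

theorem ind_τ (s : Sg) : Ind (τ s) (τA s) := fun v => M.ext rfl (by simp [τU]; rfl)

theorem ind_c (m : M) : Ind (fun x => m * x * m⁻¹) (ρ m.u) := conj_vec m

namespace XF

/-- the action of a matrix on `A` -/
def Φ : G6 →* MulAut A := MonoidHom.mk' (fun h =>
  { toFun := fun x => ⟨vec (h • x.1.v), vec_mem_A _⟩
    invFun := fun x => ⟨vec (h⁻¹ • x.1.v), vec_mem_A _⟩
    left_inv := fun x => Subtype.ext (by simp [← eq_vec x.2])
    right_inv := fun x => Subtype.ext (by simp [← eq_vec x.2])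
    map_mul' := fun x y => Subtype.ext (by simp [mem_A.1 x.2, vec_add]) }) fun h k =>
  MulEquiv.ext fun x => Subtype.ext (congrArg vec (mul_smul h k _))

theorem Φ_ind (h : G6) : Ind (extAut (Φ h)) h := fun v => extAut_apply _ (vec_mem_A v)

theorem eq_of (e : Ind g h) (e' : Ind g' h) {x : M} (hx : x ∈ A) : g x = g' x := by rw [eq_vec hx, e, e']

theorem of_eq (e : ∀ x ∈ A, g x = g' x) (e' : Ind g' h) : Ind g h := fun v => (e _ (vec_mem_A v)).trans (e' v)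

theorem nA (x : M) : x ∈ normalizer (A : Set M) := mem_normalizer_fintype fun a ha => by
  rw [eq_vec ha, conj_vec]
  exact vec_mem_A _

theorem diag : ∀ (s : Sg) (u : U), diagonal (tauD s) = rhoM u → s = 1 := by decide +kernel

end XF

open XF

theorem X_syl (hF : F.IsSaturated 3) : SylIn 3 UU (X F) := by
  have k := (sat_sylIn pT hF (fullyNormalized_of_le_normalizer (P := A) le_top fun x _ => nA x)).comap Φ
    (IsPGroup.ker_isPGroup_of_injective fun h k e => (Φ_ind h).uniq (e ▸ Φ_ind k)) fun α hα => by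
      obtain ⟨m, -, e⟩ := mem_autInducedBy.1 hα
      exact ⟨ρ m.u, aut_ext fun x hx => (eq_of (Φ_ind _) (ind_c m) hx).trans (e x hx).symm⟩
  convert k using 1 <;> ext h
  · rw [mem_comap, mem_autInducedBy]
    exact ⟨fun ⟨u, e⟩ => ⟨up u, trivial, fun x hx => eq_of (Φ_ind h) (e ▸ ind_c (up u)) hx⟩,
      fun ⟨m, _, e⟩ => ⟨m.u, (of_eq e (ind_c m)).uniq (Φ_ind h)⟩⟩
  · rw [mem_comap, mem_autGroup le_top]
    exact ⟨fun ⟨g, hg, e⟩ => hg.congr fun x => eq_of e (Φ_ind h), fun hg => ⟨_, hg, Φ_ind h⟩⟩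

theorem X_ext (hF : F.IsSaturated 3) (hh : h ∈ NX (X F) Y) : ∃ g, Au F (AY Y) g ∧ Ind g h := by
  obtain ⟨⟨f, hf, e⟩, hn⟩ := hh
  obtain ⟨g, hg, k⟩ := sat_extend_centric pT hF (A_centric F) hf
  have hg' := hg.mono (Q := AY Y) fun x hx => by
    obtain ⟨y, -, m⟩ := exists_of_norm_YY hn hx
    refine ⟨trivial, nA x, up y, trivial, fun a ha => ?_⟩
    rw [eq_vec ha, conj_vec, e, e, conj_vec, ← mul_smul, ← mul_smul, up_u, ← m, π_apply]
  refine ⟨g, ⟨hg', fun x hx => ?_⟩, of_eq k e⟩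
  obtain ⟨y, hy, m⟩ := exists_of_norm_YY hn hx
  rw [mem_AY, ρ_inj (mul_right_cancel ((ind_conj hg'.hom (A_le_AY Y) (of_eq k e) hx).symm.trans m))]
  exact hy

theorem Au.ind (hg : Au F (AY Y) g) : ∃ h ∈ NX (X F) Y, Ind g h := by
  obtain ⟨h, hh, e⟩ := exists_ind hg.1 (A_le_AY Y)
  exact ⟨h, ⟨hh, mem_norm_YY fun y hy =>
    ⟨_, hg.2 (up y) hy, ind_conj hg.1.hom (A_le_AY Y) e (x := up y) hy⟩⟩, e⟩

theorem agree (hF : F.IsSaturated 3) (hg : Mor F P g) (hg' : Mor F P g') (hP : A ≤ P) (e : Ind g h) (e' : Ind g' h) :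
    ∃ v, ∀ x ∈ P, g' x = g (vec v * x * (vec v)⁻¹) := by
  obtain ⟨z, hz, -, k⟩ := sat_agree_on_centric pT hF (A_centric F) hP hg hg' fun x => eq_of e e'
  exact ⟨z.v, eq_vec hz ▸ k⟩

theorem XF.top (hF : F.IsSaturated 3) (hN : Nm F) (hh : h ∈ NX (X F) ⊤) :
    ∃ u s, Mor F ⊤ (τ s) ∧ h = ρ u * τA s := by
  obtain ⟨g, hg, e⟩ := X_ext hF hh
  obtain ⟨s, m, k, k'⟩ := hN g (hg.1.mono fun _ _ => trivial)
  exact ⟨m.u, s, k, e.uniq fun v => by rw [k', ind_τ, conj_vec, mul_smul]⟩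

theorem τ_iff (hF : F.IsSaturated 3) (hN : Nm F) {s : Sg} : τA s ∈ X F ↔ Mor F ⊤ (τ s) := by
  refine ⟨fun k => ?_, fun k => ⟨_, k.mono le_top, ind_τ s⟩⟩
  obtain ⟨u, t, m, e⟩ := XF.top hF hN ⟨k, mem_norm_YY fun y _ => ⟨_, trivial, τA_mul_ρ s y⟩⟩
  rw [← mul_inv_eq_iff_eq_mul, ← map_inv, ← map_mul] at e
  rwa [mul_inv_eq_one.1 (diag _ u (congrArg Units.val e))]

theorem xd (hF : F.IsSaturated 3) (hN : Nm F) : XD (X F) := ⟨X_syl hF, fun g hg hB => by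
  obtain ⟨u, s, m, e⟩ := XF.top hF hN ⟨hg, mem_norm_YY fun y _ => by
    obtain ⟨u, e⟩ := mem_UU_of_T6 (X_syl hF) (mul_mem (mul_mem hg ((X_syl hF).le ⟨y, rfl⟩)) (inv_mem hg))
      (B_le_T6 (mul_mem (mul_mem hB (ρ_mem_B y)) (inv_mem hB))) 
      (MonoidHom.map_zpowers (MulAut.conj g).toMonoidHom (ρ y) ▸ (isPGroup_ρ y).map _ :)
    exact ⟨u, trivial, mul_inv_eq_iff_eq_mul.1 e⟩⟩
  exact ⟨u, s, (τ_iff hF hN).2 m, e⟩⟩

end CfsgLib.Cf3
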