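import Mathlib
import Cfsg.Agent.Lib.Cf3.Xf

/-! Package E3A: automorphisms of `E3` (plans/CF3.md). -/

set_option autoImplicit false
set_option maxRecDepth 100000

namespace CfsgLib.Cf3

open Subgroup Matrix Cfsg CfsgLib.Fusion

variable {F : FS} {g g' : M → M} {m m' : Matrix (Fin 2) (Fin 2) K}

namespace E3a

theorem sm0 (u : U) (v : V) : (ρ u • v) 0 =
    v 0 + u.a * v 1 + u.a ^ 2 * v 2 + u.c * v 3 + u.a * u.c * v 4 + u.c ^ 2 * v 5 := by rw [ρ_smul]; rfl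
theorem sm1 (u : U) (v : V) : (ρ u • v) 1 =
    v 1 + 2 * u.a * v 2 + u.b * v 3 + (u.c + u.a * u.b) * v 4 + 2 * u.b * u.c * v 5 := by rw [ρ_smul]; rfl
theorem sm2 (u : U) (v : V) : (ρ u • v) 2 = v 2 + u.b * v 4 + u.b ^ 2 * v 5 := by rw [ρ_smul]; rfl
theorem sm3 (u : U) (v : V) : (ρ u • v) 3 = v 3 + u.a * v 4 + 2 * u.c * v 5 := by rw [ρ_smul]; rfl
theorem sm4 (u : U) (v : V) : (ρ u • v) 4 = v 4 + 2 * u.b * v 5 := by rw [ρ_smul]; rfl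
theorem sm5 (u : U) (v : V) : (ρ u • v) 5 = v 5 := by rw [ρ_smul]; rfl

/-- the commutator -/
def cm (x y : M) : M := x * y * x⁻¹ * y⁻¹

theorem cm_eq (x y : M) : cm x y = x * y * (y * x)⁻¹ := by simp [cm, mul_assoc]

theorem cm_a (x y : M) : (cm x y).u.a = 0 := by simp [cm]
theorem cm_b (x y : M) : (cm x y).u.b = 0 := by simp [cm]
theorem cm_c (x y : M) : (cm x y).u.c = x.u.a * y.u.b - y.u.a * x.u.b := by simp [cm]; ring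

theorem cm_v (x y : M) (i : Fin 6) : (cm x y).v i = x.v i + (ρ x.u • y.v) i -
    (ρ (⟨0, 0, x.u.a * y.u.b - y.u.a * x.u.b⟩ : U) • (y.v + ρ y.u • x.v)) i := by
  have e : x.u * y.u * (y.u * x.u)⁻¹ = (⟨0, 0, x.u.a * y.u.b - y.u.a * x.u.b⟩ : U) := by
    ext <;> simp <;> ring
  rw [cm_eq, M.mul_v, M.inv_v, M.mul_v, M.mul_v, M.mul_u, M.mul_u, smul_neg, ← mul_smul, ← map_mul, e,
    ← sub_eq_add_neg]
  rfl

theorem cm_5 (x y : M) : (cm x y).v 5 = 0 := by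
  simp only [cm_v, sm5, Pi.add_apply]; ring

theorem cm_4 {x : M} (h : x.v 5 = 0) (y : M) : (cm x y).v 4 = 2 * x.u.b * y.v 5 := by
  simp only [cm_v, sm4, sm5, Pi.add_apply, h]; ring

theorem cm_3 {x : M} (h : x.v 5 = 0) (y : M) : (cm x y).v 3 = x.u.a * y.v 4 + 2 * x.u.c * y.v 5 -
    y.u.a * x.v 4 - 2 * (x.u.a * y.u.b - y.u.a * x.u.b) * y.v 5 := by
  simp only [cm_v, sm3, sm4, sm5, Pi.add_apply, h]; ring

theorem cm_2 {x : M} (h : x.v 5 = 0) (y : M) : (cm x y).v 2 = x.u.b * y.v 4 + x.u.b ^ 2 * y.v 5 -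
    y.u.b * x.v 4 := by
  simp only [cm_v, sm2, sm4, sm5, Pi.add_apply, h]; ring

theorem cm_1 {x : M} (h : x.v 5 = 0) (y : M) : (cm x y).v 1 = 2 * x.u.a * y.v 2 + x.u.b * y.v 3 +
    (x.u.c + x.u.a * x.u.b) * y.v 4 + 2 * x.u.b * x.u.c * y.v 5 - 2 * y.u.a * x.v 2 - y.u.b * x.v 3 -
    (y.u.c + y.u.a * y.u.b) * x.v 4 - (x.u.a * y.u.b - y.u.a * x.u.b) * (y.v 4 + x.v 4) := by
  simp only [cm_v, sm1, sm2, sm3, sm4, sm5, Pi.add_apply, h]; ring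

theorem cm_0 {x : M} (h : x.v 5 = 0) (y : M) : (cm x y).v 0 = x.u.a * y.v 1 + x.u.a ^ 2 * y.v 2 +
    x.u.c * y.v 3 + x.u.a * x.u.c * y.v 4 + x.u.c ^ 2 * y.v 5 - (y.u.a * x.v 1 + y.u.a ^ 2 * x.v 2 +
    y.u.c * x.v 3 + y.u.a * y.u.c * x.v 4) - (x.u.a * y.u.b - y.u.a * x.u.b) *
    (y.v 3 + x.v 3 + y.u.a * x.v 4) - (x.u.a * y.u.b - y.u.a * x.u.b) ^ 2 * y.v 5 := by
  simp only [cm_v, sm0, sm1, sm2, sm3, sm4, sm5, Pi.add_apply, h]; ring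

theorem u_one {u : U} : u = 1 ↔ u.a = 0 ∧ u.b = 0 ∧ u.c = 0 :=
  ⟨fun h => by simp [h], fun h => U.ext h.1 h.2.1 h.2.2⟩

theorem mem_bot' {x : M} : x ∈ (⊥ : Subgroup M) ↔ (x.u.a = 0 ∧ x.u.b = 0 ∧ x.u.c = 0) ∧
    x.v 0 = 0 ∧ x.v 1 = 0 ∧ x.v 2 = 0 ∧ x.v 3 = 0 ∧ x.v 4 = 0 ∧ x.v 5 = 0 := by
  rw [mem_bot, ← u_one]
  refine ⟨fun h => by simp [h], fun h => M.ext ?_ h.1⟩
  obtain ⟨-, h0, h1, h2, h3, h4, h5⟩ := h
  ext i; fin_cases i <;> assumption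

theorem mem_Z {x : M} : x ∈ vg wZ ↔ (x.u.a = 0 ∧ x.u.b = 0 ∧ x.u.c = 0) ∧
    x.v 1 = 0 ∧ x.v 2 = 0 ∧ x.v 3 = 0 ∧ x.v 4 = 0 ∧ x.v 5 = 0 := by
  simp [mem_vg, mem_co, u_one]

theorem mem_Z2 {x : M} : x ∈ vg wZ2 ↔ (x.u.a = 0 ∧ x.u.b = 0 ∧ x.u.c = 0) ∧
    x.v 2 = 0 ∧ x.v 3 = 0 ∧ x.v 4 = 0 ∧ x.v 5 = 0 := by
  simp [mem_vg, mem_co, u_one]

theorem mem_D {x : M} : x ∈ vg wD ↔ (x.u.a = 0 ∧ x.u.b = 0 ∧ x.u.c = 0) ∧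
    x.v 3 = 0 ∧ x.v 4 = 0 ∧ x.v 5 = 0 := by
  simp [mem_vg, mem_co, u_one]

theorem mem_4 {x : M} : x ∈ vg w4 ↔ (x.u.a = 0 ∧ x.u.b = 0 ∧ x.u.c = 0) ∧ x.v 4 = 0 ∧ x.v 5 = 0 := by
  simp [mem_vg, mem_co, u_one]

/-- `R∞` -/
def Ri : Subgroup M := R ⊓ AY Y1

theorem mem_Ri {x : M} : x ∈ Ri ↔ (x.v 5 = 0 ∧ x.u.a = 0) ∧ x.u.b = 0 := by
  rw [Ri, mem_inf, mem_R, mem_AY, mem_Y1]

theorem mul_4 {x y : M} (hy : y.v 5 = 0) : (x * y).v 4 = x.v 4 + y.v 4 := by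
  simp only [M.mul_v, Pi.add_apply, sm4, hy]; ring

theorem inv_4 {x : M} (hx : x.v 5 = 0) : x⁻¹.v 4 = -x.v 4 := by
  simp only [M.inv_v, Pi.neg_apply, sm4, hx]; ring

/-- `R'` -/
def Rp : Subgroup M where
  carrier := {x | x ∈ Ri ∧ x.v 4 = 0}
  one_mem' := ⟨Ri.one_mem, rfl⟩
  mul_mem' := fun {x y} hx hy => ⟨Ri.mul_mem hx.1 hy.1, by
    rw [mul_4 (mem_Ri.1 hy.1).1.1, hx.2, hy.2, add_zero]⟩
  inv_mem' := fun {x} hx => ⟨Ri.inv_mem hx.1, by rw [inv_4 (mem_Ri.1 hx.1).1.1, hx.2, neg_zero]⟩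

theorem mem_Rp {x : M} : x ∈ Rp ↔ ((x.v 5 = 0 ∧ x.u.a = 0) ∧ x.u.b = 0) ∧ x.v 4 = 0 :=
  and_congr_left' mem_Ri

theorem two_ne : (2 : K) ≠ 0 := by decide

theorem x1_mem : up x1 ∈ E3 := rfl
theorem x2_mem : up x2 ∈ R := ⟨rfl, rfl⟩
theorem f4_mem : vec (f 4) ∈ Ri := mem_Ri.2 ⟨⟨rfl, rfl⟩, rfl⟩
theorem f1_mem : vec (f 1) ∈ vg wZ2 := mem_Z2.2 (by simp [f])
theorem R_le : R ≤ E3 := inf_le_left
theorem Ri_le : Ri ≤ R := inf_le_left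
theorem Rp_le : Rp ≤ Ri := fun _ h => h.1
theorem Z2_le : vg wZ2 ≤ E3 := fun _ h => (mem_Z2.1 h).2.2.2.2

theorem ch_Z (x : M) (h5 : x ∈ E3) : x ∈ vg wZ ↔ x ∈ E3 ∧ ∀ y ∈ E3, cm x y ∈ (⊥ : Subgroup M) := by
  rw [mem_E3] at h5
  constructor
  · intro h
    obtain ⟨⟨ha, hb, hc⟩, h1, h2, h3, h4, -⟩ := mem_Z.1 h
    refine ⟨h5, fun y _ => ?_⟩
    rw [mem_bot']
    simp [cm_a, cm_b, cm_c, cm_5, cm_4 h5, cm_3 h5, cm_2 h5, cm_1 h5, cm_0 h5, ha, hb, hc, h1, h2, h3, h4]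
  · rintro ⟨-, h⟩
    have e1 := mem_bot'.1 (h _ x1_mem)
    have e2 := mem_bot'.1 (h _ (R_le x2_mem))
    have e3 := mem_bot'.1 (h _ (R_le (Ri_le f4_mem)))
    simp [cm_a, cm_b, cm_c, cm_5, cm_4 h5, cm_3 h5, cm_2 h5, cm_1 h5, cm_0 h5, x1, x2, f] at e1 e2 e3
    obtain ⟨hb, e1, e1', h4⟩ := e1
    obtain ⟨ha, -, e2, -⟩ := e2
    obtain ⟨-, e3, -⟩ := e3
    simp [ha, hb, two_ne] at e1' e2 e3
    simp [hb, e1'] at e1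
    exact mem_Z.2 ⟨⟨ha, hb, e3⟩, e1, e1', e2, h4, h5⟩

theorem ch_Z2 (x : M) (h5 : x ∈ E3) : x ∈ vg wZ2 ↔ x ∈ E3 ∧ ∀ y ∈ E3, cm x y ∈ vg wZ := by
  rw [mem_E3] at h5
  constructor
  · intro h
    obtain ⟨⟨ha, hb, hc⟩, h2, h3, h4, -⟩ := mem_Z2.1 h
    refine ⟨h5, fun y _ => ?_⟩
    simp [mem_Z, cm_a, cm_b, cm_c, cm_5, cm_4 h5, cm_3 h5, cm_2 h5, cm_1 h5, ha, hb, hc, h2, h3, h4]
  · rintro ⟨-, h⟩
    have e1 := h _ x1_mem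
    have e2 := h _ (R_le x2_mem)
    have e3 := h _ (R_le (Ri_le f4_mem))
    simp [mem_Z, cm_a, cm_b, cm_c, cm_5, cm_4 h5, cm_3 h5, cm_2 h5, cm_1 h5, x1, x2, f] at e1 e2 e3
    obtain ⟨hb, e1, h4⟩ := e1
    obtain ⟨ha, e2, -⟩ := e2
    obtain ⟨e3, -⟩ := e3
    simp [ha, hb, two_ne] at e1 e2 e3
    exact mem_Z2.2 ⟨⟨ha, hb, e3⟩, e1, e2, h4, h5⟩

theorem ch_R (x : M) (h5 : x ∈ E3) : x ∈ R ↔ x ∈ E3 ∧ ∀ y ∈ vg wZ2, cm x y ∈ (⊥ : Subgroup M) := by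
  rw [mem_E3] at h5
  constructor
  · intro h
    obtain ⟨-, ha⟩ := mem_R.1 h
    refine ⟨h5, fun y hy => ?_⟩
    obtain ⟨⟨ka, kb, kc⟩, k2, k3, k4, k5⟩ := mem_Z2.1 hy
    rw [mem_bot']
    simp [cm_a, cm_b, cm_c, cm_5, cm_4 h5, cm_3 h5, cm_2 h5, cm_1 h5, cm_0 h5, ha, ka, kb, kc, k2, k3,
      k4, k5]
  · rintro ⟨-, h⟩
    have e1 := (mem_bot'.1 (h _ f1_mem)).2.1
    simp [cm_0 h5, f] at e1
    exact ⟨h5, e1⟩

theorem ch_D (x : M) (h5 : x ∈ E3) : x ∈ vg wD ↔ x ∈ R ∧ ∀ y ∈ R, cm x y ∈ (⊥ : Subgroup M) := by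
  rw [mem_E3] at h5
  constructor
  · intro h
    obtain ⟨⟨ha, hb, hc⟩, h3, h4, -⟩ := mem_D.1 h
    refine ⟨⟨h5, ha⟩, fun y hy => ?_⟩
    obtain ⟨k5, ka⟩ := mem_R.1 hy
    rw [mem_bot']
    simp [cm_a, cm_b, cm_c, cm_5, cm_4 h5, cm_3 h5, cm_2 h5, cm_1 h5, cm_0 h5, ha, hb, hc, h3, h4, ka, k5]
  · rintro ⟨hR, h⟩
    obtain ⟨-, ha⟩ := mem_R.1 hR
    have e2 := mem_bot'.1 (h _ x2_mem)
    have e3 := mem_bot'.1 (h _ (Ri_le f4_mem))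
    simp [cm_a, cm_b, cm_c, cm_5, cm_4 h5, cm_3 h5, cm_2 h5, cm_1 h5, cm_0 h5, x2, f, ha] at e2 e3
    rw [mem_D]
    simp_all

theorem ch_Rp (x : M) (h5 : x ∈ E3) : x ∈ Rp ↔ x ∈ R ∧ ∀ y ∈ E3, cm x y ∈ vg wD := by
  rw [mem_E3] at h5
  constructor
  · intro h
    obtain ⟨⟨⟨-, ha⟩, hb⟩, h4⟩ := mem_Rp.1 h
    refine ⟨⟨h5, ha⟩, fun y hy => ?_⟩
    rw [mem_E3] at hy
    simp [mem_D, cm_a, cm_b, cm_c, cm_5, cm_4 h5, cm_3 h5, ha, hb, h4, hy]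
  · rintro ⟨hR, h⟩
    obtain ⟨-, ha⟩ := mem_R.1 hR
    have e1 := h _ x1_mem
    simp [mem_D, cm_a, cm_b, cm_c, cm_5, cm_4 h5, cm_3 h5, x1, ha] at e1
    rw [mem_Rp]
    simp_all

theorem ch_4 (x : M) (h5 : x ∈ E3) : x ∈ vg w4 ↔ x ∈ Rp ∧ ∀ y ∈ Ri, cm x y ∈ vg wZ := by
  rw [mem_E3] at h5
  constructor
  · intro h
    obtain ⟨⟨ha, hb, hc⟩, h4, -⟩ := mem_4.1 h
    refine ⟨mem_Rp.2 ⟨⟨⟨h5, ha⟩, hb⟩, h4⟩, fun y hy => ?_⟩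
    obtain ⟨⟨k5, ka⟩, kb⟩ := mem_Ri.1 hy
    simp [mem_Z, cm_a, cm_b, cm_c, cm_5, cm_4 h5, cm_3 h5, cm_2 h5, cm_1 h5, ha, hb, hc, h4, ka, kb, k5]
  · rintro ⟨hR, h⟩
    obtain ⟨⟨⟨-, ha⟩, hb⟩, h4⟩ := mem_Rp.1 hR
    have e1 := (mem_Z.1 (h _ f4_mem)).2.1
    simp [cm_1 h5, f, ha, hb, h4] at e1
    exact mem_4.2 ⟨⟨ha, hb, e1⟩, h4, h5⟩

/-- `g` preserves `N` inside `E3` -/
def Pres (g : M → M) (N : Subgroup M) : Prop := ∀ x ∈ E3, g x ∈ N ↔ x ∈ N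

theorem cm_mem {x y : M} (hx : x ∈ E3) (hy : y ∈ E3) : cm x y ∈ E3 :=
  E3.mul_mem (E3.mul_mem (E3.mul_mem hx hy) (E3.inv_mem hx)) (E3.inv_mem hy)

theorem map_cm (hg : Au F E3 g) {x y : M} (hx : x ∈ E3) (hy : y ∈ E3) : g (cm x y) = cm (g x) (g y) := by
  rw [cm, hg.1.map_mul (E3.mul_mem (E3.mul_mem hx hy) (E3.inv_mem hx)) (E3.inv_mem hy), hg.1.map_conj hx hy,
    hg.1.map_inv hy, cm]

theorem pres_cm (hg : Au F E3 g) {L Q N T : Subgroup M} (hL : Pres g L) (hQ : Pres g Q) (hQ' : Q ≤ E3)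
    (hN : Pres g N) (hT : ∀ x ∈ E3, x ∈ T ↔ x ∈ L ∧ ∀ y ∈ Q, cm x y ∈ N) : Pres g T := by
  intro x hx
  obtain ⟨k, hk, -, e⟩ := hg.exists_inv
  rw [hT _ (hg.2 x hx), hT x hx, hL x hx]
  refine and_congr_right fun _ => ⟨fun h y hy => ?_, fun h y hy => ?_⟩
  · have := h _ ((hQ y (hQ' hy)).2 hy)
    rwa [← map_cm hg hx (hQ' hy), hN _ (cm_mem hx (hQ' hy))] at this
  · have h1 := hk.2 y (hQ' hy)
    rw [← e y (hQ' hy), ← map_cm hg hx h1, hN _ (cm_mem hx h1)]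
    exact h _ ((hQ _ h1).1 (by rwa [e y (hQ' hy)]))

theorem pres_E3 (hg : Au F E3 g) : Pres g E3 := fun x hx => iff_of_true (hg.2 x hx) hx

theorem pres_bot (hg : Au F E3 g) : Pres g ⊥ := fun x hx => by
  rw [mem_bot, mem_bot]
  exact ⟨hg.1.eq_one hx, fun h => by rw [h, hg.1.map_one]⟩

theorem pres_Z (hg : Au F E3 g) : Pres g (vg wZ) :=
  pres_cm hg (pres_E3 hg) (pres_E3 hg) le_rfl (pres_bot hg) ch_Z

theorem pres_Z2 (hg : Au F E3 g) : Pres g (vg wZ2) :=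
  pres_cm hg (pres_E3 hg) (pres_E3 hg) le_rfl (pres_Z hg) ch_Z2

theorem pres_R (hg : Au F E3 g) : Pres g R :=
  pres_cm hg (pres_E3 hg) (pres_Z2 hg) Z2_le (pres_bot hg) ch_R

theorem pres_D (hg : Au F E3 g) : Pres g (vg wD) :=
  pres_cm hg (pres_R hg) (pres_R hg) R_le (pres_bot hg) ch_D

theorem pres_Rp (hg : Au F E3 g) : Pres g Rp :=
  pres_cm hg (pres_R hg) (pres_E3 hg) le_rfl (pres_D hg) ch_Rp

theorem pres_4 (hg : Au F E3 g) (h : Pres g Ri) : Pres g (vg w4) :=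
  pres_cm hg (pres_Rp hg) h (Ri_le.trans R_le) (pres_Z hg) ch_4

/-- the coordinates on `R / R'` -/
def φ (x : M) : Fin 2 → K := ![x.v 4, x.u.b]

theorem φ_mul {x y : M} (hy : y ∈ R) : φ (x * y) = φ x + φ y := by
  simp [φ, -M.mul_v, mul_4 hy.1]

theorem φ_inv {x : M} (hx : x ∈ R) : φ x⁻¹ = -φ x := by
  simp [φ, -M.inv_v, inv_4 hx.1]

theorem φ_Rp {x : M} (hx : x ∈ Rp) : φ x = 0 := by
  obtain ⟨⟨-, hb⟩, h4⟩ := mem_Rp.1 hx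
  simp [φ, hb, h4]

theorem φ_f4 : φ (vec (f 4)) = ![1, 0] := by decide
theorem φ_x2 : φ (up x2) = ![0, 1] := by decide

theorem R_gen {H : Subgroup M} (h : Rp ≤ H) (h4 : vec (f 4) ∈ H) (h2 : up x2 ∈ H) : R ≤ H := by
  intro x hx
  obtain ⟨h5, ha⟩ := mem_R.1 hx
  have e1 : vec (x.v 4 • f 4) ∈ H := (Wof H).smul_mem _ h4
  have e2 : ∀ b : K, up ⟨0, b, 0⟩ ∈ H := fun b => by
    have : b = 0 ∨ b = 1 ∨ b = -1 := by revert b; decide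
    rcases this with rfl | rfl | rfl
    · exact H.one_mem
    · exact h2
    · have : (⟨0, -1, 0⟩ : U) = x2⁻¹ := by decide
      rw [this, map_inv]; exact H.inv_mem h2
  have k1 : vec (x.v 4 • f 4) ∈ R := ⟨by simp [mem_E3, f], rfl⟩
  have k2 : up ⟨0, x.u.b, 0⟩ ∈ R := ⟨rfl, rfl⟩
  have k3 := R.inv_mem (R.mul_mem k1 k2)
  have e3 : (vec (x.v 4 • f 4) * up ⟨0, x.u.b, 0⟩)⁻¹ * x ∈ Rp := by
    refine mem_Rp.2 ⟨⟨R.mul_mem k3 hx, by simp⟩, ?_⟩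
    rw [mul_4 h5, inv_4 (R.mul_mem k1 k2).1, mul_4 k2.1]
    simp [f]
  have := H.mul_mem (H.mul_mem e1 (e2 x.u.b)) (h e3)
  rwa [mul_inv_cancel_left] at this

theorem conj_mem (n : M) {x : M} (hx : x ∈ E3) : n * x * n⁻¹ ∈ E3 := by
  have : n * x * n⁻¹ = x * cm x⁻¹ n := by simp [cm, mul_assoc]
  rw [this]
  exact E3.mul_mem hx (cm_5 _ _)

theorem top_le : (⊤ : Subgroup M) ≤ normalizer (E3 : Set M) :=
  le_normalizer_of_conj_mem fun n _ _ hx => conj_mem n hx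

theorem fullyNormalized (F : FS) : F.IsFullyNormalized E3 := fullyNormalized_of_le_normalizer le_top top_le

theorem centric (hF : F.IsSaturated 3) : F.IsCentric E3 := by
  refine centric_of_fullyCentralized (sat_fullyCentralized pT hF (fullyNormalized F)) fun n hn => ?_
  have h := (mem_centralizerIn'.1 hn).2 _ (R_le x2_mem)
  have e : cm (up x2) n = 1 := by rw [cm_eq, h, mul_inv_cancel]
  have := cm_4 (x := up x2) rfl n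
  rw [e] at this
  simpa [x2, two_ne, mem_E3] using this.symm

/-- the chain -/
def Kc : ℕ → Subgroup M
  | 0 => ⊥
  | 1 => vg wZ
  | 2 => vg wZ2
  | 3 => vg wD
  | 4 => vg w4
  | 5 => Rp
  | 6 => Ri
  | 7 => R
  | _ => E3

theorem pres_Kc (hg : Au F E3 g) (h : Pres g Ri) : ∀ i, Pres g (Kc i)
  | 0 => pres_bot hg
  | 1 => pres_Z hg
  | 2 => pres_Z2 hg
  | 3 => pres_D hg
  | 4 => pres_4 hg h
  | 5 => pres_Rp hg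
  | 6 => h
  | 7 => pres_R hg
  | _ + 8 => pres_E3 hg

theorem cm_Kc (n : M) {x : M} (h5 : x.v 5 = 0) : ∀ i < 8, x ∈ Kc (i + 1) → cm x n ∈ Kc i := by
  intro i hi h
  interval_cases i
  · obtain ⟨⟨ha, hb, hc⟩, h1, h2, h3, h4, -⟩ := mem_Z.1 h
    refine mem_bot'.2 ?_
    simp [cm_a, cm_b, cm_c, cm_5, cm_4 h5, cm_3 h5, cm_2 h5, cm_1 h5, cm_0 h5, ha, hb, hc, h1, h2, h3, h4]
  · obtain ⟨⟨ha, hb, hc⟩, h2, h3, h4, -⟩ := mem_Z2.1 h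
    refine mem_Z.2 ?_
    simp [cm_a, cm_b, cm_c, cm_5, cm_4 h5, cm_3 h5, cm_2 h5, cm_1 h5, ha, hb, hc, h2, h3, h4]
  · obtain ⟨⟨ha, hb, hc⟩, h3, h4, -⟩ := mem_D.1 h
    refine mem_Z2.2 ?_
    simp [cm_a, cm_b, cm_c, cm_5, cm_4 h5, cm_3 h5, cm_2 h5, ha, hb, hc, h4]
  · obtain ⟨⟨ha, hb, hc⟩, h4, -⟩ := mem_4.1 h
    refine mem_D.2 ?_
    simp [cm_a, cm_b, cm_c, cm_5, cm_4 h5, cm_3 h5, ha, hb, hc, h4]
  · obtain ⟨⟨⟨-, ha⟩, hb⟩, -⟩ := mem_Rp.1 h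
    refine mem_4.2 ?_
    simp [cm_a, cm_b, cm_c, cm_5, cm_4 h5, ha, hb]
  · obtain ⟨-, hb⟩ := mem_Ri.1 h
    refine mem_Rp.2 ?_
    simp [cm_a, cm_b, cm_5, cm_4 h5, hb]
  · exact mem_Ri.2 ⟨⟨cm_5 _ _, cm_a _ _⟩, cm_b _ _⟩
  · exact mem_R.2 ⟨cm_5 _ _, cm_a _ _⟩

/-- the stabiliser of `R∞` -/
def Γ0 (F : FS) : Subgroup (MulAut E3) where
  carrier := {α | α ∈ F.autGroup E3 ∧ Pres (extAut α) Ri}
  one_mem' := ⟨one_mem _, fun x _ => by rw [extAut_one_apply]⟩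
  mul_mem' := fun {a b} ha hb => ⟨mul_mem ha.1 hb.1, fun x hx => by
    rw [extAut_mul_apply, ha.2 _ (extAut_mem b hx), hb.2 x hx]⟩
  inv_mem' := fun {a} ha => ⟨inv_mem ha.1, fun x hx => by
    rw [← ha.2 _ (extAut_mem a⁻¹ hx), extAut_apply_inv]⟩

theorem conj_Ri (n : M) {x : M} (hx : x ∈ Ri) : n * x * n⁻¹ ∈ Ri := by
  have : n * x * n⁻¹ = x * cm x⁻¹ n := by simp [cm, mul_assoc]
  rw [this]
  exact Ri.mul_mem hx (mem_Ri.2 ⟨⟨cm_5 _ _, cm_a _ _⟩, cm_b _ _⟩)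

theorem induced_le (F : FS) : autInducedBy ⊤ E3 ≤ (pCore 3 (Γ0 F)).map (Γ0 F).subtype := by
  intro β hβ
  obtain ⟨n, -, e⟩ := mem_autInducedBy.1 hβ
  refine mem_map_pCore_of_chain (A := Γ0 F) (pM.to_subgroup E3) Kc 8
    (fun α hα i x hx hi => (pres_Kc (au_of_mem hα.1) hα.2 i x hx).2 hi) (fun x _ h => mem_bot.1 h) le_rfl
    ⟨autInducedBy_le_autGroup F le_top hβ, fun x hx => ?_⟩ fun i hi x hx h => ?_
  · rw [e x hx]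
    refine ⟨fun h => ?_, conj_Ri n⟩
    simpa [mul_assoc] using conj_Ri n⁻¹ h
  · have : x⁻¹ * extAut β x = cm x⁻¹ n := by simp [e x hx, cm, mul_assoc]
    rw [this]
    exact cm_Kc n (E3.inv_mem hx) i hi ((Kc _).inv_mem h)

theorem conj_induced (hF : F.IsSaturated 3) {α β : MulAut E3} (hα : α ∈ Γ0 F)
    (hβ : β ∈ autInducedBy ⊤ E3) : α * β * α⁻¹ ∈ autInducedBy ⊤ E3 := by
  have e := (sat_sylIn pT hF (fullyNormalized F)).eq_of_le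
    ((CfsgLib.Core.isPGroup_pCore 3 (Γ0 F)).map (Γ0 F).subtype) (induced_le F)
    (by rintro _ ⟨a, -, rfl⟩; exact a.2.1)
  rw [← e] at hβ ⊢
  obtain ⟨b, hb, rfl⟩ := hβ
  exact ⟨⟨α, hα⟩ * b * ⟨α, hα⟩⁻¹, (inferInstance : (pCore 3 (Γ0 F)).Normal).conj_mem b hb _, rfl⟩

end E3a

open E3a

theorem Au.e3_Z (hg : Au F E3 g) {x : M} (hx : x ∈ vg wZ) : g x ∈ vg wZ :=
  (pres_Z hg x (mem_Z.1 hx).2.2.2.2.2).2 hx

theorem Au.e3_D (hg : Au F E3 g) {x : M} (hx : x ∈ vg wD) : g x ∈ vg wD :=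
  (pres_D hg x (mem_D.1 hx).2.2.2).2 hx

theorem Au.e3_R (hg : Au F E3 g) {x : M} (hx : x ∈ E3) : g x ∈ R ↔ x ∈ R := pres_R hg x hx

theorem Mu.comp (h : Mu g m) (h' : Mu g' m') : Mu (g ∘ g') (m * m') := by
  intro x hx
  obtain ⟨h1, h2⟩ := h' x hx
  obtain ⟨h3, h4⟩ := h _ h1
  exact ⟨h3, by rw [← mulVec_mulVec, ← h2]; exact h4⟩

theorem Mu.uniq (h : Mu g m) (h' : Mu g m') : m = m' := by
  have e1 : m *ᵥ φ (vec (f 4)) = m' *ᵥ φ (vec (f 4)) :=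
    (h _ (Ri_le f4_mem)).2.symm.trans (h' _ (Ri_le f4_mem)).2
  have e2 : m *ᵥ φ (up x2) = m' *ᵥ φ (up x2) := (h _ x2_mem).2.symm.trans (h' _ x2_mem).2
  rw [φ_f4] at e1
  rw [φ_x2] at e2
  ext i j
  fin_cases j
  · simpa [mulVec, dotProduct] using congrFun e1 i
  · simpa [mulVec, dotProduct] using congrFun e2 i

theorem Mu.congr (h : Mu g m) (e : ∀ x ∈ E3, g x = g' x) : Mu g' m := by
  intro x hx
  rw [← e x (R_le hx)]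
  exact h x hx

theorem mu_id : Mu id 1 := fun x hx => ⟨hx, by simp⟩

theorem Au.exists_mu' (hg : Au F E3 g) : ∃ m, Mu g m := by
  let m : Matrix (Fin 2) (Fin 2) K := Matrix.of fun i j => ![φ (g (vec (f 4))) i, φ (g (up x2)) i] j
  let H : Subgroup M :=
    { carrier := {x | x ∈ R ∧ φ (g x) = m *ᵥ φ x}
      one_mem' := ⟨R.one_mem, by rw [hg.1.map_one, φ_Rp Rp.one_mem, mulVec_zero]⟩
      mul_mem' := fun {x y} hx hy => ⟨R.mul_mem hx.1 hy.1, by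
        rw [hg.1.map_mul (R_le hx.1) (R_le hy.1), φ_mul ((hg.e3_R (R_le hy.1)).2 hy.1), φ_mul hy.1,
          mulVec_add, hx.2, hy.2]⟩
      inv_mem' := fun {x} hx => ⟨R.inv_mem hx.1, by
        rw [hg.1.map_inv (R_le hx.1), φ_inv ((hg.e3_R (R_le hx.1)).2 hx.1), φ_inv hx.1, mulVec_neg, hx.2]⟩ }
  have hH : R ≤ H := by
    refine R_gen (fun x hx => ⟨Ri_le (Rp_le hx), ?_⟩) ⟨Ri_le f4_mem, ?_⟩ ⟨x2_mem, ?_⟩
    · rw [φ_Rp hx, φ_Rp ((pres_Rp hg x (R_le (Ri_le (Rp_le hx)))).2 hx), mulVec_zero]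
    · rw [φ_f4]; ext i; simp [m, mulVec, dotProduct]
    · rw [φ_x2]; ext i; simp [m, mulVec, dotProduct]
  exact ⟨m, fun x hx => ⟨(hg.e3_R (R_le hx)).2 hx, (hH hx).2⟩⟩

theorem Au.exists_mu (hg : Au F E3 g) : ∃ m, Mu g m ∧ m.det ≠ 0 := by
  obtain ⟨m, hm⟩ := hg.exists_mu'
  obtain ⟨k, hk, -, e⟩ := hg.exists_inv
  obtain ⟨m', hm'⟩ := hk.exists_mu'
  have h1 : m * m' = 1 := ((hm.comp hm').congr (g' := id) e).uniq mu_id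
  refine ⟨m, hm, fun h => ?_⟩
  have := congrArg det h1
  rw [det_mul, h, zero_mul, det_one] at this
  exact zero_ne_one this

theorem mu_c (n : M) : Mu (fun x => n * x * n⁻¹) !![1, n.v 5; 0, 1] := by
  intro x hx
  have e : n * x * n⁻¹ = x * cm x⁻¹ n := by simp [cm, mul_assoc]
  have h1 : cm x⁻¹ n ∈ R := mem_R.2 ⟨cm_5 _ _, cm_a _ _⟩
  have h3 : (-2 : K) = 1 := by decide
  simp only [e]
  refine ⟨R.mul_mem hx h1, ?_⟩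
  rw [mul_4 h1.1, cm_4 (R.inv_mem hx).1, M.mul_u, U.mul_b, cm_b]
  ext i
  fin_cases i
  · simp [mulVec, dotProduct]
    linear_combination (x.u.b * n.v 5) * h3
  · simp [mulVec, dotProduct]

theorem mu_τ (s : Sg) : Mu (τ s) !![(s.2.2 : K) * s.2.1, 0; 0, s.2.1] := by
  intro x hx
  obtain ⟨h5, ha⟩ := mem_R.1 hx
  refine ⟨mem_R.2 ⟨by simp [τA_smul, h5], by simp [τU, ha]⟩, ?_⟩
  ext i
  fin_cases i <;> simp [mulVec, dotProduct, τA_smul, τU, tauD]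

theorem au_e3_c (F : FS) (n : M) : Au F E3 fun x => n * x * n⁻¹ :=
  ⟨mor_conj F E3 n, fun _ hx => conj_mem n hx⟩

theorem au_e3_τ {s : Sg} (h : Mor F ⊤ (τ s)) : Au F E3 (τ s) :=
  ⟨h.mono le_top, fun x hx => by rw [mem_E3] at hx ⊢; simp [τA_smul, hx]⟩

theorem Au.e3_ext (hF : F.IsSaturated 3) (hg : Au F E3 g) (h : Mu g m) (h0 : m 1 0 = 0) :
    ∃ k, Mor F ⊤ k ∧ ∀ x ∈ E3, g x = k x := by
  obtain ⟨m', hm', hd⟩ := hg.exists_mu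
  obtain rfl := h.uniq hm'
  have h11 : m 1 1 ≠ 0 := fun e => hd (by rw [det_fin_two, h0, e]; simp)
  obtain ⟨α, hα, e⟩ := hg.exists_aut
  have hΓ : α ∈ Γ0 F := by
    refine ⟨hα, fun x hx => ?_⟩
    rw [e x hx, Ri, mem_inf, mem_inf, hg.e3_R hx]
    refine and_congr_right fun hR => ?_
    have := congrFun (h x hR).2 1
    simp [mulVec, dotProduct, h0] at this
    rw [mem_AY, mem_AY, mem_Y1, mem_Y1, this]
    simp [h11]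
  have hN : Nf ⊤ E3 g = ⊤ := by
    rw [eq_top_iff]
    intro n _
    have hn := top_le (mem_top n)
    obtain ⟨k, -, ek⟩ := mem_autInducedBy.1 (conj_induced hF hΓ (conjAut_mem_autInducedBy hn (mem_top n)))
    refine mem_Nf.2 ⟨mem_top n, hn, k, mem_top k, fun x hx => ?_⟩
    rw [← e x hx, ← ek _ (extAut_mem α hx), extAut_mul_apply, extAut_mul_apply, extAut_inv_apply,
      extAut_conjAut hn hx, e _ (conj_mem n hx)]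
  obtain ⟨k, hk, ek⟩ := sat_extend_centric pT hF (centric hF) hg.1
  rw [hN] at hk
  exact ⟨k, hk, fun x hx => (ek x hx).symm⟩

theorem e3_moves (hF : F.IsSaturated 3) (hE : F.IsEssential 3 E3) : ∃ g m, Au F E3 g ∧ Mu g m ∧ m 1 0 ≠ 0 := by
  by_contra hn
  refine (essential_essAut_extendable pT hF hE).not_le fun α hα => ?_
  have hg := au_of_mem hα
  obtain ⟨m, hm, -⟩ := hg.exists_mu
  obtain ⟨k, hk, e⟩ := hg.e3_ext hF hm (by by_contra h; exact hn ⟨_, m, hg, hm, h⟩)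
  refine mem_extendableAuts (lt_top_iff_ne_top.2 fun h => ?_) hk fun x hx => (e x hx).symm
  have : vec (f 5) ∈ E3 := h ▸ mem_top _
  simp [mem_E3, f] at this

end CfsgLib.Cf3
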