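import Mathlib
import Cfsg.Agent.Lib.Cf3.Cmp

/-! Package K4A: enumeration in the centraliser of a regular element (plans/CF3.md). -/

set_option autoImplicit false
set_option maxRecDepth 100000

namespace CfsgLib.Cf3

open Subgroup Matrix Cfsg CfsgLib.Fusion

/-- with the last coordinate, the coordinates of `V / [V, r0]` -/
def lam (v : V) : K := v 3 - v 4 - v 2

namespace K4a

/-- the centraliser of `r0` -/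
def GM (a0 a1 a2 a4 b0 b1 b2 b4 : K) : Mat :=
  !![0, b1 + b2, 2 + 2 * b0 + b1 + b2, b0, 2 + 2 * a1 + 2 * a2 + 2 * b0 + b1 + b2, a0;
    2, 1 + 2 * b4, 2 + 2 * b1 + 2 * b4, b1, 2 + a4 + 2 * b1 + 2 * b4, a1;
    1, 2 + b4, 1 + 2 * b2 + b4, b2, 2 * a4 + 2 * b2 + b4, a2;
    1, b4, 1 + 2 * b2, 1 + b2 + b4, 1 + 2 * a4 + 2 * b2, a2 + a4;
    0, 1, 1 + 2 * b4, b4, 2 + 2 * b4, a4;
    0, 0, 1, 2, 1, 1]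

/-- a second solution -/
def q1 : Mat := !![0,1,1,2,2,0; 2,1,2,0,0,2; 1,2,0,1,1,0; 1,0,0,2,2,1; 0,1,1,0,2,1; 0,0,1,2,1,1]
/-- a third solution -/
def q2 : Mat := !![0,2,2,2,1,0; 2,1,1,1,0,2; 1,2,0,1,0,2; 1,0,0,2,1,1; 0,1,1,0,2,2; 0,0,1,2,1,1]

theorem n3 : (3 : K) = 0 ∧ (6 : K) = 0 ∧ (9 : K) = 0 ∧ (12 : K) = 0 ∧ (15 : K) = 0 ∧ (18 : K) = 0 := by
  decide

theorem GM_comm (a0 a1 a2 a4 b0 b1 b2 b4 : K) :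
    GM a0 a1 a2 a4 b0 b1 b2 b4 * rhoM r0 = rhoM r0 * GM a0 a1 a2 a4 b0 b1 b2 b4 := by
  ext i j
  rw [← sub_eq_zero]
  fin_cases i <;> fin_cases j <;> simp [GM, rhoM, r0, Matrix.mul_apply, Fin.sum_univ_succ] <;> ring_nf <;>
    simp [n3]

theorem ext_comm {P : Mat} (h : P * rhoM r0 = rhoM r0 * P) (h5 : P *ᵥ f 5 = 0) (h3 : P *ᵥ f 3 = 0) :
    P = 0 := by
  have k : ∀ {v : V}, P *ᵥ v = 0 → P *ᵥ (rhoM r0 *ᵥ v - v) = 0 := fun e => by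
    rw [mulVec_sub, mulVec_mulVec, h, ← mulVec_mulVec, e]; simp
  have k1 : P *ᵥ f 1 = 0 := (by decide : rhoM r0 *ᵥ f 3 - f 3 = f 1) ▸ k h3
  have k0 : P *ᵥ f 0 = 0 := (by decide : rhoM r0 *ᵥ f 1 - f 1 = f 0) ▸ k k1
  have c1 : P *ᵥ (f 2 - f 4) = 0 := (by decide : rhoM r0 *ᵥ f 5 - f 5 = f 2 - f 4) ▸ k h5
  have k2 : P *ᵥ f 2 = 0 := by
    rw [(by decide : f 2 = f 0 + f 1 - f 3 - (rhoM r0 *ᵥ (f 2 - f 4) - (f 2 - f 4))), mulVec_sub, k c1,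
      mulVec_sub, mulVec_add, k0, k1, h3]
    simp
  have k4 : P *ᵥ f 4 = 0 := by rwa [mulVec_sub, k2, zero_sub, neg_eq_zero] at c1
  ext i j
  have : P *ᵥ f j = 0 := by
    fin_cases j
    exacts [k0, k1, k2, h3, k4, h5]
  simpa [f] using congrFun this i

theorem key : ∀ a4 b1 b2 : K, 2 * a4 + b1 + b2 = 0 → ∀ a1 a2 : K, 2 * a1 + 2 * a2 + 2 * a4 = 0 →
    ∀ a0 b4 : K, 2 * a0 + a1 + 2 * a1 * b4 + 2 * a2 * b4 + a4 * a4 = 0 →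
    a0 + 2 * a1 + 2 * b4 + a1 * b4 + a2 * b4 + 2 * a4 * a4 = 0 →
    ∀ b0 : K, 2 + a1 + b0 + 2 * a4 * b4 + b1 * b4 + b2 * b4 = 0 →
    1 + 2 * b2 + 2 * b4 + a1 * a4 + 2 * a1 * b1 + 2 * a1 * b2 + a2 * a4 + 2 * a2 * b1 + 2 * a2 * b2 = 0 →
    ∃ i : K, GM a0 a1 a2 a4 b0 b1 b2 b4 * betaM i = betaM i * qM ∨
      GM a0 a1 a2 a4 b0 b1 b2 b4 * betaM i = betaM i * q1 ∨
      GM a0 a1 a2 a4 b0 b1 b2 b4 * betaM i = betaM i * q2 := by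
  decide +kernel

theorem braid {a0 a1 a2 a4 b0 b1 b2 b4 : K} {P : Mat} (e : P = GM a0 a1 a2 a4 b0 b1 b2 b4)
    (h : rhoM z⁻¹ * P * rhoM z⁻¹ = P * rhoM z⁻¹ * P) :
    ∃ i : K, P * betaM i = betaM i * qM ∨ P * betaM i = betaM i * q1 ∨ P * betaM i = betaM i * q2 := by
  subst e
  rw [show rhoM z⁻¹ = !![1,0,0,2,0,1; 0,1,0,0,2,0; 0,0,1,0,0,0; 0,0,0,1,0,1; 0,0,0,0,1,0; 0,0,0,0,0,1] by
    decide] at h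
  have k := fun i j => congrFun (congrFun h i) j
  have e1 := k 1 1
  have e2 := k 4 5
  have e3 := k 2 5
  have e4 := k 1 5
  have e5 := k 1 3
  have e6 := k 0 5
  simp [GM, Matrix.mul_apply, Fin.sum_univ_succ] at e1 e2 e3 e4 e5 e6
  refine key _ _ _ ?_ _ _ ?_ _ _ ?_ ?_ _ ?_ ?_
  · linear_combination (norm := (ring_nf; simp [n3])) e1
  · linear_combination (norm := (ring_nf; simp [n3])) e2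
  · linear_combination (norm := (ring_nf; simp [n3])) e3
  · linear_combination (norm := (ring_nf; simp [n3])) e4
  · linear_combination (norm := (ring_nf; simp [n3])) e5
  · linear_combination (norm := (ring_nf; simp [n3])) e6

theorem ord {g : G6} {Q : Mat} (e : g.1 = Q) (P1 P2 P3 P4 W W2 W3 W6 W12 : Mat)
    (h : rhoM x1 * Q = P1 ∧ P1 * P1 = P2 ∧ rhoM x2 * Q = P3 ∧ P3 * Q = P4 ∧ P2 * P4 = W ∧ W * W = W2 ∧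
      W2 * W = W3 ∧ W3 * W3 = W6 ∧ W6 * W6 = W12 ∧ W12 * W6 = 1 ∧ W6 ≠ 1) :
    (ρ x1 * g * ρ x1 * g * ρ x2 * g * g) ^ 18 = 1 ∧ (ρ x1 * g * ρ x1 * g * ρ x2 * g * g) ^ 6 ≠ 1 := by
  obtain ⟨h1, h2, h3, h4, h5, h6, h7, h8, h9, h10, h11⟩ := h
  have k : (ρ x1 * g * ρ x1 * g * ρ x2 * g * g).1 = W := by
    simp only [Units.val_mul, ρ_val, e, ← h5, ← h4, ← h3, ← h2, ← h1, Matrix.mul_assoc]
  generalize ρ x1 * g * ρ x1 * g * ρ x2 * g * g = w at k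
  have k6 : (w ^ 6).1 = W6 := by
    simp only [pow_succ, pow_zero, one_mul, Units.val_mul, k, ← h8, ← h7, ← h6, Matrix.mul_assoc]
  refine ⟨Units.ext ?_, fun e => h11 (by rw [← k6, e]; rfl)⟩
  rw [show 18 = 6 + 6 + 6 from rfl, pow_add, pow_add, Units.val_mul, Units.val_mul, k6, h9, h10]
  rfl

theorem ord1 {g : G6} (e : g.1 = q1) :
    (ρ x1 * g * ρ x1 * g * ρ x2 * g * g) ^ 18 = 1 ∧ (ρ x1 * g * ρ x1 * g * ρ x2 * g * g) ^ 6 ≠ 1 :=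
  ord e !![0,1,0,0,0,2; 1,2,2,2,2,2; 1,2,0,1,1,0; 1,1,1,2,1,2; 0,1,1,0,2,1; 0,0,1,2,1,1]
    !![1,2,1,0,1,1; 0,1,1,2,2,2; 0,1,0,0,1,0; 1,2,1,2,0,2; 2,0,2,2,2,2; 0,2,1,1,0,0]
    !![0,1,1,2,2,0; 0,1,2,2,2,0; 1,0,2,0,1,2; 1,0,0,2,2,1; 0,1,0,1,1,0; 0,0,1,2,1,1]
    !![2,2,1,2,0,0; 0,1,1,0,1,0; 2,0,1,2,2,0; 2,0,1,2,2,2; 0,2,0,2,1,1; 0,0,2,1,2,1]
    !![1,0,0,1,1,2; 0,2,2,0,1,2; 0,0,1,2,2,1; 2,1,1,1,0,0; 0,2,1,0,2,2; 1,2,1,1,0,2]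
    !![2,1,1,1,0,2; 2,1,0,0,2,0; 2,2,0,2,0,1; 1,0,1,2,2,1; 2,0,0,1,2,1; 2,0,2,0,2,2]
    !![0,1,0,1,2,2; 2,0,1,2,1,1; 1,2,1,2,1,1; 0,2,0,0,1,0; 2,1,1,1,0,1; 1,2,0,2,1,2]
    !![2,2,0,2,1,1; 1,2,2,1,2,2; 2,1,1,1,2,2; 0,1,0,2,2,0; 1,2,2,2,2,2; 2,1,0,1,2,0]
    !![0,1,0,1,2,2; 2,0,1,2,1,1; 1,2,1,2,1,1; 0,2,0,0,1,0; 2,1,1,1,0,1; 1,2,0,2,1,2]
    (by decide +kernel)

theorem ord2 {g : G6} (e : g.1 = q2) :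
    (ρ x1 * g * ρ x1 * g * ρ x2 * g * g) ^ 18 = 1 ∧ (ρ x1 * g * ρ x1 * g * ρ x2 * g * g) ^ 6 ≠ 1 :=
  ord e !![0,2,0,1,1,1; 1,2,1,0,0,0; 1,2,0,1,0,2; 1,1,1,2,0,0; 0,1,1,0,2,2; 0,0,1,2,1,1]
    !![0,0,2,1,0,0; 0,2,2,2,1,0; 0,1,2,1,0,0; 1,2,0,0,1,0; 2,0,2,2,0,2; 0,2,1,1,0,2]
    !![0,2,2,2,1,0; 0,1,1,0,1,0; 1,0,2,0,0,2; 1,0,0,2,1,1; 0,1,0,1,1,1; 0,0,1,2,1,1]
    !![2,1,0,2,1,0; 0,1,2,2,2,0; 2,0,1,2,0,0; 2,0,1,2,0,2; 0,2,0,2,1,0; 0,0,2,1,2,1]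
    !![0,0,0,0,0,2; 2,1,2,2,2,1; 0,1,2,2,2,2; 2,2,1,2,0,0; 0,2,2,2,0,0; 1,2,1,1,2,1]
    !![2,1,2,2,1,2; 1,1,1,0,2,1; 2,0,2,1,1,1; 2,1,2,1,0,2; 2,2,1,0,2,0; 1,2,0,1,2,1]
    !![2,1,0,2,1,2; 0,2,0,0,0,0; 0,2,2,0,0,0; 0,0,0,1,1,2; 1,1,1,1,0,2; 1,1,1,2,0,2]
    !![1,1,0,2,1,2; 0,1,0,0,0,0; 0,2,1,0,0,0; 0,0,0,0,1,2; 1,1,1,1,2,2; 1,1,1,2,0,1]
    !![1,2,0,1,2,1; 0,1,0,0,0,0; 0,1,1,0,0,0; 0,0,0,2,2,1; 2,2,2,2,0,1; 2,2,2,1,0,1]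
    (by decide +kernel)

theorem ord_conj {g : G6} (i : K)
    (h : (ρ x1 * ((β i)⁻¹ * g * β i) * ρ x1 * ((β i)⁻¹ * g * β i) * ρ x2 * ((β i)⁻¹ * g * β i) *
      ((β i)⁻¹ * g * β i)) ^ 18 = 1 ∧ (ρ x1 * ((β i)⁻¹ * g * β i) * ρ x1 * ((β i)⁻¹ * g * β i) * ρ x2 *
      ((β i)⁻¹ * g * β i) * ((β i)⁻¹ * g * β i)) ^ 6 ≠ 1) :
    (ρ x1 * g * ρ x1 * g * ρ x2 * g * g) ^ 18 = 1 ∧ (ρ x1 * g * ρ x1 * g * ρ x2 * g * g) ^ 6 ≠ 1 := by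
  have k : ∀ u, ρ u = β i * ρ u * (β i)⁻¹ := fun u => by rw [β_mul_ρ, mul_inv_cancel_right]
  have e : ρ x1 * g * ρ x1 * g * ρ x2 * g * g = β i * (ρ x1 * ((β i)⁻¹ * g * β i) * ρ x1 *
      ((β i)⁻¹ * g * β i) * ρ x2 * ((β i)⁻¹ * g * β i) * ((β i)⁻¹ * g * β i)) * (β i)⁻¹ := by
    conv_lhs => rw [k x1, k x2]
    group
  rw [e, conj_pow, conj_pow, h.1]
  exact ⟨by simp, fun e => h.2 (by simpa using e)⟩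

end K4a

open K4a in
theorem k4_enum {g : G6} (hc : g * ρ r0 = ρ r0 * g) (h1 : (g • f 5) 5 = 1) (h2 : lam (g • f 5) = 0)
    (h3 : (g • f 3) 5 = 2) (h4 : lam (g • f 3) = 1) (h5 : g ^ 3 = 1)
    (h6 : ρ z * g⁻¹ * ρ z = g⁻¹ * ρ z * g⁻¹) : (∃ i, g = β i * q0 * (β i)⁻¹) ∨
    ((ρ x1 * g * ρ x1 * g * ρ x2 * g * g) ^ 18 = 1 ∧ (ρ x1 * g * ρ x1 * g * ρ x2 * g * g) ^ 6 ≠ 1) := by
  have c : ∀ i j, (g • f j) i = g.1 i j := fun i j => by simp [smul_def, f]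
  simp only [lam, c] at h1 h2 h3 h4
  have e : g.1 = GM (g.1 0 5) (g.1 1 5) (g.1 2 5) (g.1 4 5) (g.1 0 3) (g.1 1 3) (g.1 2 3) (g.1 4 3) := by
    refine sub_eq_zero.1 (ext_comm ?_ ?_ ?_)
    · rw [sub_mul, mul_sub, GM_comm]
      exact congrArg (· - _) (congrArg Units.val hc)
    · ext i
      fin_cases i <;> simp [f, GM, h1]
      linear_combination h2
    · ext i
      fin_cases i <;> simp [f, GM, h3]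
      linear_combination h4
  have h7 : ρ z⁻¹ * g * ρ z⁻¹ = g * ρ z⁻¹ * g := by
    rw [map_inv, ← _root_.inv_inj]
    simpa [mul_assoc] using h6
  have v : ∀ {i : K} {Q : Mat}, g.1 * betaM i = betaM i * Q → ((β i)⁻¹ * g * β i).1 = Q := fun {i Q} k => by
    rw [mul_assoc, Units.val_mul, Units.inv_mul_eq_iff_eq_mul]
    exact k
  obtain ⟨i, k | k | k⟩ := braid e (congrArg Units.val h7)
  · exact .inl ⟨i, eq_mul_inv_of_mul_eq (Units.ext k)⟩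
  · exact .inr (ord_conj i (ord1 (v k)))
  · exact .inr (ord_conj i (ord2 (v k)))

end CfsgLib.Cf3
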