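import Mathlib
import Cfsg.Agent.Lib.Cf3.K4a
import Cfsg.Agent.Lib.Cf3.Kap

/-! Package K4: the normaliser of a regular element (plans/CF3.md). -/

set_option autoImplicit false
set_option maxRecDepth 100000

namespace CfsgLib.Cf3

open Subgroup Matrix Cfsg CfsgLib.Fusion

variable {X : Subgroup G6}

namespace K4

/-- a basis adapted to `r0` -/
def hm : G6 := mkG !![1,1,0,0,0,0; 0,1,1,0,0,0; 0,2,0,1,0,0; 0,2,0,0,1,0; 0,0,0,2,0,0; 0,0,0,0,0,1]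
  !![1,0,1,0,1,0; 0,0,2,0,2,0; 0,1,1,0,1,0; 0,0,0,0,2,0; 0,0,2,1,2,0; 0,0,0,0,0,1] (by decide +kernel)

/-- the matrix in the new basis -/
def Φ (g : G6) : Mat := (hm⁻¹ * g * hm).1

theorem Φ_mul (g h : G6) : Φ (g * h) = Φ g * Φ h := by
  rw [Φ, Φ, Φ, ← Units.val_mul]; exact congrArg Units.val (by group)

/-- `2 × 2` matrices -/
abbrev M2 : Type := Matrix (Fin 2) (Fin 2) K

/-- the action on `V / [V, r0]` -/
def P (g : G6) : M2 := !![Φ g 4 4, Φ g 4 5; Φ g 5 4, Φ g 5 5]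

/-- the normaliser of `⟨r0⟩` -/
abbrev N0 : Subgroup G6 := normalizer (YY (zpowers r0) : Set G6)

theorem Φ_r : Φ (ρ r0) = !![1,0,1,0,0,0; 0,1,0,1,0,0; 0,0,1,0,1,0; 0,0,0,1,0,1; 0,0,0,0,1,0; 0,0,0,0,0,1] ∧
    Φ (ρ r0⁻¹) = !![1,0,2,0,1,0; 0,1,0,2,0,1; 0,0,1,0,2,0; 0,0,0,1,0,2; 0,0,0,0,1,0; 0,0,0,0,0,1] := by
  decide +kernel

theorem cases_N0 {g : G6} (h : g ∈ N0) : g * ρ r0 = ρ r0 * g ∨ g * ρ r0 = ρ r0⁻¹ * g := by
  obtain ⟨y, hy, e⟩ := exists_of_norm_YY h (mem_zpowers r0)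
  rcases mem_zpowers_U.1 hy with rfl | rfl | rfl
  · rw [map_one, one_mul, mul_eq_left, ← map_one ρ] at e
    exact absurd (ρ_inj e) (by decide)
  exacts [.inl e, .inr e]

/-- block upper triangular -/
def Bl (G : Mat) : Prop := G 2 0 = 0 ∧ G 2 1 = 0 ∧ G 3 0 = 0 ∧ G 3 1 = 0 ∧ G 4 0 = 0 ∧ G 4 1 = 0 ∧ G 4 2 = 0 ∧
  G 4 3 = 0 ∧ G 5 0 = 0 ∧ G 5 1 = 0 ∧ G 5 2 = 0 ∧ G 5 3 = 0

theorem bl_pos {g : G6} (h : g * ρ r0 = ρ r0 * g) : Bl (Φ g) ∧ Φ g 1 0 = Φ g 3 2 ∧ Φ g 3 2 = Φ g 5 4 ∧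
    Φ g 0 0 = Φ g 2 2 ∧ Φ g 2 2 = Φ g 4 4 ∧ Φ g 1 1 = Φ g 3 3 ∧ Φ g 3 3 = Φ g 5 5 := by
  have e := congrArg Φ h
  rw [Φ_mul, Φ_mul, Φ_r.1] at e
  generalize Φ g = G at e
  have k := fun i j => congrFun (congrFun e i) j
  have a00 := k 0 0; have a01 := k 0 1; have a10 := k 1 0; have a11 := k 1 1
  have a20 := k 2 0; have a21 := k 2 1; have a30 := k 3 0; have a31 := k 3 1
  have a44 := k 4 4; have a45 := k 4 5; have a54 := k 5 4; have a55 := k 5 5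
  have a12 := k 1 2; have a34 := k 3 4; have a02 := k 0 2; have a24 := k 2 4
  have a13 := k 1 3; have a35 := k 3 5
  simp [Matrix.mul_apply, Fin.sum_univ_succ] at a00 a01 a10 a11 a20 a21 a30 a31 a44 a45 a54 a55 a12 a34 a02 a24 a13 a35
  exact ⟨⟨a00, a01, a10, a11, a20, a21, a44, a45, a30, a31, a54, a55⟩, by linear_combination a12,
    by linear_combination a34, by linear_combination a02, by linear_combination a24, by linear_combination a13,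
    by linear_combination a35⟩

theorem bl_neg {g : G6} (h : g * ρ r0 = ρ r0⁻¹ * g) : Bl (Φ g) ∧ Φ g 1 0 = 2 * Φ g 3 2 ∧ Φ g 3 2 = 2 * Φ g 5 4 := by
  have e := congrArg Φ h
  rw [Φ_mul, Φ_mul, Φ_r.1, Φ_r.2] at e
  generalize Φ g = G at e
  have k := fun i j => congrFun (congrFun e i) j
  have a00 := k 0 0; have a01 := k 0 1; have a10 := k 1 0; have a11 := k 1 1
  have a42 := k 4 2; have a43 := k 4 3; have a52 := k 5 2; have a53 := k 5 3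
  have a44 := k 4 4; have a45 := k 4 5; have a54 := k 5 4; have a55 := k 5 5
  have a12 := k 1 2; have a34 := k 3 4
  simp [Matrix.mul_apply, Fin.sum_univ_succ] at a00 a01 a10 a11 a42 a43 a52 a53 a44 a45 a54 a55 a12 a34
  have t : (3 : K) = 0 := rfl
  exact ⟨⟨by linear_combination 2 * a00 - 2 * a42 - G 2 0 * t, by linear_combination 2 * a01 - 2 * a43 - G 2 1 * t,
    by linear_combination 2 * a10 - 2 * a52 - G 3 0 * t, by linear_combination 2 * a11 - 2 * a53 - G 3 1 * t,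
    a42, a43, a44, a45, a52, a53, a54, a55⟩, by linear_combination a12 + a54, by linear_combination a34⟩

theorem bl {g : G6} (h : g ∈ N0) : Bl (Φ g) := (cases_N0 h).elim (fun k => (bl_pos k).1) fun k => (bl_neg k).1

theorem P_mul {g : G6} (hg : g ∈ N0) (h : G6) : P (g * h) = P g * P h := by
  obtain ⟨-, -, -, -, a, b, c, d, a', b', c', d'⟩ := bl hg
  ext i j
  fin_cases i <;> fin_cases j <;>
    simp [P, Φ_mul, Matrix.mul_apply, Fin.sum_univ_succ, a, b, c, d, a', b', c', d']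

theorem P_one : P 1 = 1 := by decide +kernel

theorem P_pow {g : G6} (hg : g ∈ N0) (n : ℕ) : P (g ^ n) = P g ^ n := by
  induction n with
  | zero => rw [pow_zero, pow_zero, P_one]
  | succ n ih => rw [pow_succ', pow_succ', P_mul hg, ih]

theorem P_inv {g : G6} (hg : g ∈ N0) : P g * P g⁻¹ = 1 := by rw [← P_mul hg, mul_inv_cancel, P_one]

theorem tri_of {G : Mat} (h : Bl G) (h1 : G 1 0 = 0) (h2 : G 3 2 = 0) (h3 : G 5 4 = 0) :
    ∀ i j, j < i → G i j = 0 := by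
  obtain ⟨a, b, c, d, a', b', c', d', a'', b'', c'', d''⟩ := h
  intro i j hij
  fin_cases i <;> fin_cases j <;> first | assumption | exact absurd hij (by decide)

theorem mem_tri {g : G6} (h : g ∈ N0) (h1 : P g 1 0 = 0) : g ∈ cj hm T6 := by
  have h1 : Φ g 5 4 = 0 := h1
  refine mem_cj.2 (mem_T6.2 ?_)
  rcases cases_N0 h with k | k
  · obtain ⟨a, b, c, -⟩ := bl_pos k
    exact tri_of a (b.trans (c.trans h1)) (c.trans h1) h1
  · obtain ⟨a, b, c⟩ := bl_neg k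
    rw [h1, mul_zero] at c
    rw [c, mul_zero] at b
    exact tri_of a b c h1

theorem P_eq (g : G6) : P g = !![lam (g • f 3), lam (g • f 5); (g • f 3) 5, (g • f 5) 5] := by
  have t : (3 : K) = 0 := rfl
  have e : Φ g = !![1,0,1,0,1,0; 0,0,2,0,2,0; 0,1,1,0,1,0; 0,0,0,0,2,0; 0,0,2,1,2,0; 0,0,0,0,0,1] * g.1 *
    !![1,1,0,0,0,0; 0,1,1,0,0,0; 0,2,0,1,0,0; 0,2,0,0,1,0; 0,0,0,2,0,0; 0,0,0,0,0,1] := rfl
  ext i j
  fin_cases i <;> fin_cases j <;>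
    simp [P, e, lam, smul_def, f, Matrix.mul_apply, Fin.sum_univ_succ, Matrix.vecMul, dotProduct]
  · linear_combination (g.1 2 3 + g.1 4 3) * t
  · linear_combination (g.1 2 5 + g.1 4 5) * t

theorem mem_N0 {g : G6} (h : g * ρ r0 = ρ r0 * g) : g ∈ N0 :=
  mem_norm_YY fun y hy => ⟨y, hy, by
    obtain ⟨n, rfl⟩ := mem_zpowers_iff.1 hy
    rw [map_zpow]
    exact (Commute.zpow_right h n).eq⟩

theorem comm_conj {n c : G6} (hn : n ∈ N0) (h : c * ρ r0 = ρ r0 * c) : n * c * n⁻¹ * ρ r0 = ρ r0 * (n * c * n⁻¹) := by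
  have h : Commute c (ρ r0) := h
  have k : Commute c (n⁻¹ * ρ r0 * n) := by
    rcases cases_N0 (inv_mem hn) with k | k <;> rw [k, inv_mul_cancel_right]
    exacts [h, map_inv ρ r0 ▸ h.inv_right]
  have := (k.conj n).eq
  rwa [show n * (n⁻¹ * ρ r0 * n) * n⁻¹ = ρ r0 by group] at this

/-- the elements that centralise `r0` and `V / [V, r0]` -/
def C1 (X : Subgroup G6) : Subgroup G6 where
  carrier := {g | g ∈ X ∧ g * ρ r0 = ρ r0 * g ∧ P g = 1}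
  one_mem' := ⟨one_mem _, by simp, P_one⟩
  mul_mem' := fun {a b} ha hb => ⟨mul_mem ha.1 hb.1, Commute.mul_left ha.2.1 hb.2.1,
    by rw [P_mul (mem_N0 ha.2.1), ha.2.2, hb.2.2, mul_one]⟩
  inv_mem' := fun {a} ha => ⟨inv_mem ha.1, Commute.inv_left ha.2.1, by
    have := P_inv (mem_N0 ha.2.1)
    rwa [ha.2.2, one_mul] at this⟩

theorem C1_le (hr : Rad X (zpowers r0)) : C1 X ≤ YY (zpowers r0) := by
  refine hr.rad _ (fun g hg => ⟨hg.1, mem_N0 hg.2.1⟩) (fun g => ?_) fun n hn => mem_normalizer_fintype fun c hc =>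
    ⟨mul_mem (mul_mem hn.1 hc.1) (inv_mem hn.1), comm_conj hn.2 hc.2.1, by
      rw [mul_assoc, P_mul hn.2, P_mul (mem_N0 hc.2.1), hc.2.2, one_mul, P_inv hn.2]⟩
  obtain ⟨g, -, h1, h2⟩ := g
  obtain ⟨-, -, -, a, b, c, d⟩ := bl_pos h1
  have e1 : Φ g 4 4 = 1 := congrFun (congrFun h2 0) 0
  have e2 : Φ g 5 5 = 1 := congrFun (congrFun h2 1) 1
  obtain ⟨k, hk⟩ := isPGroup_of_unip (mem_cj.1 (mem_tri (mem_N0 h1) (congrFun (congrFun h2 1) 0))) (fun i => by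
    fin_cases i
    exacts [a.trans (b.trans e1), c.trans (d.trans e2), b.trans e1, d.trans e2, e1, e2]) ⟨_, mem_zpowers _⟩
  refine ⟨k, Subtype.ext ?_⟩
  have h3 : (hm⁻¹ * g * hm⁻¹⁻¹) ^ 3 ^ k = 1 := congrArg Subtype.val hk
  rw [conj_pow, mul_inv_eq_one, mul_eq_left] at h3
  exact h3

theorem z_comm : ρ z * ρ r0 = ρ r0 * ρ z := by rw [← map_mul, ← map_mul]; congr 1

theorem P_z : P (ρ z) = !![1, 2; 0, 1] := by decide +kernel

theorem exists_g (h : XD X) (hr : Rad X (zpowers r0)) : ∃ g ∈ NX X (zpowers r0), P g 1 0 ≠ 0 := by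
  by_contra! k
  obtain ⟨Q, h1, h2, h3, h4⟩ := exists_tc (H := NX X (zpowers r0)) (h := hm) fun g hg => mem_tri hg.2 (k g hg)
  obtain ⟨y, hy, e⟩ := hr.rad Q h1 h2 h3 (h4 _ ⟨h.ρ_mem z, mem_N0 z_comm⟩ (isPGroup_ρ z))
  rw [ρ_inj e, SetLike.mem_coe, mem_zpowers_U] at hy
  exact absurd hy (by decide)

theorem m2_conj : ∀ a b c d a' b' c' d' : K, !![a, b; c, d] * !![a', b'; c', d'] = (1 : M2) → c ≠ 0 →
    ∃ i e : Fin 3, (!![1, 2; 0, 1] : M2) ^ i.val * ((!![a, b; c, d] * (!![1, 2; 0, 1] * !![a', b'; c', d'])) ^ e.val *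
      !![1, 2; 0, 1] ^ (2 * i.val)) = !![1, 0; 2, 1] := by
  decide +kernel

theorem m2_line : ∀ a c : K, ∃ i e : Fin 3,
    (((!![1, 0; 2, 1] : M2) ^ e.val * (!![1, 2; 0, 1] : M2) ^ i.val) 1 0) * a +
      (((!![1, 0; 2, 1] : M2) ^ e.val * (!![1, 2; 0, 1] : M2) ^ i.val) 1 1) * c = 0 := by
  decide +kernel

theorem z_cube : ρ z ^ 3 = 1 := by rw [← map_pow, U_cube, map_one]

theorem exists_y (h : XD X) (hr : Rad X (zpowers r0)) :
    ∃ y ∈ X, y * ρ r0 = ρ r0 * y ∧ y ^ 3 = 1 ∧ P y = !![1, 0; 2, 1] := by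
  obtain ⟨g, hg, h1⟩ := exists_g h hr
  have h2 := P_inv hg.2
  rw [eta_fin_two (P g), eta_fin_two (P g⁻¹)] at h2
  obtain ⟨i, e, h3⟩ := m2_conj _ _ _ _ _ _ _ _ h2 h1
  rw [← eta_fin_two, ← eta_fin_two] at h3
  have zN := mem_N0 z_comm
  have c1 : Commute (g * ρ z * g⁻¹) (ρ r0) := comm_conj hg.2 z_comm
  have c2 : Commute (ρ z) (ρ r0) := z_comm
  have e1 : ρ z ^ (2 * i.val) = (ρ z ^ i.val)⁻¹ := eq_inv_of_mul_eq_one_left (by
    rw [← pow_add, show 2 * i.val + i.val = 3 * i.val by ring, pow_mul, z_cube, one_pow])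
  refine ⟨ρ z ^ i.val * ((g * ρ z * g⁻¹) ^ e.val * ρ z ^ (2 * i.val)), mul_mem (pow_mem (h.ρ_mem z) _)
    (mul_mem (pow_mem (mul_mem (mul_mem hg.1 (h.ρ_mem z)) (X.inv_mem hg.1)) _) (pow_mem (h.ρ_mem z) _)),
    (c2.pow_left _).mul_left ((c1.pow_left _).mul_left (c2.pow_left _)), ?_, ?_⟩
  · rw [e1, ← mul_assoc, conj_pow, ← pow_mul, mul_comm e.val, pow_mul, conj_pow, z_cube]
    simp
  · rw [P_mul (pow_mem zN _), P_mul (pow_mem (mem_N0 c1) _), P_pow zN, P_pow zN, P_pow (mem_N0 c1), mul_assoc g,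
      P_mul hg.2, P_mul zN, P_z, h3]

theorem exists_q (h : XD X) (hr : Rad X (zpowers r0)) :
    ∃ i, β i * q0 * (β i)⁻¹ ∈ NX X (zpowers r0) ∧ P (β i * q0 * (β i)⁻¹) = !![1, 0; 2, 1] := by
  obtain ⟨y, hy, c, y3, py⟩ := exists_y h hr
  have c : Commute y (ρ r0) := c
  have cz : Commute (ρ z) (ρ r0) := z_comm
  have zN := mem_N0 z_comm
  have yN := mem_N0 c
  have zX := h.ρ_mem z
  have e1 : y⁻¹ = y ^ 2 := inv_eq_of_mul_eq_one_right (by rw [← pow_succ', y3])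
  have e2 : (ρ z)⁻¹ = ρ z ^ 2 := inv_eq_of_mul_eq_one_right (by rw [← pow_succ', z_cube])
  have hw : ρ z * (y⁻¹ * (ρ z * (y * ((ρ z)⁻¹ * y)))) ∈ C1 X :=
    ⟨mul_mem zX (mul_mem (inv_mem hy) (mul_mem zX (mul_mem hy (mul_mem (inv_mem zX) hy)))),
      cz.mul_left (c.inv_left.mul_left (cz.mul_left (c.mul_left (cz.inv_left.mul_left c)))), by
      rw [P_mul zN, P_mul (inv_mem yN), P_mul zN, P_mul yN, P_mul (inv_mem zN), e1, e2, P_pow yN, P_pow zN, py, P_z]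
      decide +kernel⟩
  obtain ⟨u, hu, e⟩ := C1_le hr hw
  have w3 : ρ u ^ 3 = 1 := by rw [← map_pow, U_cube, map_one]
  have hw' := inv_mem hw
  rw [← e] at hw'
  obtain ⟨n, rfl⟩ := mem_zpowers_iff.1 hu
  rw [map_zpow] at e w3 hw'
  have c1 := c.zpow_right n
  have c2 := cz.zpow_right n
  generalize ρ r0 ^ n = w at *
  have p1 : P (y * w⁻¹) = !![1, 0; 2, 1] := by rw [P_mul yN, hw'.2.2, mul_one, py]
  have p2 := p1
  rw [P_eq] at p2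
  have c3 : y * w⁻¹ * ρ r0 = ρ r0 * (y * w⁻¹) := c.mul_left hw'.2.1
  have yX := mul_mem hy hw'.1
  rcases k4_enum c3 (congrFun (congrFun p2 1) 1) (congrFun (congrFun p2 0) 1) (congrFun (congrFun p2 1) 0)
    (congrFun (congrFun p2 0) 0) (by rw [c1.inv_right.mul_pow, y3, inv_pow, w3, inv_one, mul_one]) (by
      have e3 : ρ z * y⁻¹ * ρ z = w * (y⁻¹ * ρ z * y⁻¹) := by rw [e]; group
      rw [_root_.mul_inv_rev, inv_inv]
      calc ρ z * (w * y⁻¹) * ρ z = w * (ρ z * y⁻¹ * ρ z) := by rw [← mul_assoc, c2.eq]; group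
        _ = w * (w * (y⁻¹ * ρ z)) * y⁻¹ := by rw [e3]; group
        _ = _ := by rw [← (c1.inv_left.mul_left c2).eq]; group) with ⟨i, k⟩ | ⟨k1, k2⟩
  · exact ⟨i, k ▸ ⟨yX, mem_N0 c3⟩, k ▸ p1⟩
  · exact absurd (no9 h.syl (mul_mem (mul_mem (mul_mem (mul_mem (mul_mem (mul_mem (h.ρ_mem _) yX) (h.ρ_mem _)) yX)
      (h.ρ_mem _)) yX) yX) k1) k2

theorem NX_UU : NX UU (zpowers r0) = YY (Ya 1) := by
  have k1 : ∀ u : U, u.b = 1 * u.a → u * r0 = r0 * u := by decide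
  have k2 : ∀ u : U, u * r0 = r0 * u ∨ u * r0 = r0⁻¹ * u → u.b = 1 * u.a := by decide
  refine le_antisymm ?_ ?_
  · rintro _ ⟨⟨u, rfl⟩, h⟩
    refine ⟨u, k2 u ((cases_N0 h).imp (fun k => ρ_inj ?_) fun k => ρ_inj ?_), rfl⟩ <;> rw [map_mul, map_mul, k]
  · rintro _ ⟨u, h, rfl⟩
    exact ⟨⟨u, rfl⟩, mem_N0 (by rw [← map_mul, ← map_mul, k1 u h])⟩

theorem mem_B_of (hr : Rad X (zpowers r0)) {g : G6} (hg : g ∈ NX X (zpowers r0)) (h1 : P g 1 0 = 0) : g ∈ B := by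
  obtain ⟨Q, h2, h3, h4, h5⟩ := exists_tc (H := NX X (zpowers r0) ⊓ cj hm T6) (h := hm) inf_le_right
  have h6 : Q = YY (Ya 1) := (hr.syl.eq_of_le h3 (fun x hx => by
    obtain ⟨⟨u, rfl⟩, k⟩ := id hx
    refine h5 _ ⟨hr.syl.le hx, mem_tri k ?_⟩ (isPGroup_ρ u)
    rw [P_eq, ρ_smul]; rfl) (h2.trans inf_le_left)).trans NX_UU
  exact norm_Ya one_ne_zero (h6 ▸ h4 ⟨hg, mem_tri hg.2 h1⟩)

theorem ρ_mem_cj {H : Subgroup G6} (i : K) {u : U} (h : ρ u ∈ H) : ρ u ∈ cj (β i)⁻¹ H := by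
  rwa [mem_cj, inv_inv, β_mul_ρ, mul_inv_cancel_right]

theorem y1_mem_cj {H : Subgroup G6} (i : K) : y1 1 ∈ cj (β i)⁻¹ H ↔ y1 (1 + i) ∈ H := by
  rw [mem_cj, inv_inv, β_mul_y1, mul_inv_cancel_right, add_comm]

theorem y2_mem_cj {H : Subgroup G6} (i : K) : y2 0 ∈ cj (β i)⁻¹ H ↔ y2 i ∈ H := by
  rw [mem_cj, inv_inv, β_mul_y2, mul_inv_cancel_right, add_zero]

theorem map_YY {γ : G6} {r r' : U} (h : γ * ρ r = ρ r' * γ) :
    (YY (zpowers r)).map (MulAut.conj γ).toMonoidHom = YY (zpowers r') := by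
  rw [YY, YY, MonoidHom.map_zpowers, MonoidHom.map_zpowers, MonoidHom.map_zpowers]
  exact congrArg _ (mul_inv_eq_iff_eq_mul.2 h)

/-- the conclusion -/
def Cl (X : Subgroup G6) (Y : Subgroup U) : Prop := ∃ i, y1 (1 + i) ∈ X ∧ y2 i ∈ X ∧
  ∀ H, Bor X H → y1 (1 + i) ∈ H → y2 i ∈ H → NX X Y ≤ H

end K4

open K4

theorem k4_r0 (h : XD X) (hr : Rad X (zpowers r0)) : ∃ i, y1 (1 + i) ∈ X ∧ y2 i ∈ X ∧
    ∀ H, Bor X H → y1 (1 + i) ∈ H → y2 i ∈ H → NX X (zpowers r0) ≤ H := by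
  obtain ⟨i, hq, pq⟩ := exists_q h hr
  obtain ⟨a, b⟩ := words_q (ρ_mem_cj i (h.ρ_mem x1)) (ρ_mem_cj i (h.ρ_mem x2)) (mem_cj.2 (by rw [inv_inv]; exact hq.1))
  refine ⟨i, (y1_mem_cj i).1 a, (y2_mem_cj i).1 b, fun H hH h1 h2 g hg => ?_⟩
  have qH := mem_cj.1 (words_y (ρ_mem_cj i (hH.uu x1)) (ρ_mem_cj i (hH.uu x2)) ((y1_mem_cj i).2 h1)
    ((y2_mem_cj i).2 h2)).1
  rw [inv_inv] at qH
  generalize β i * q0 * (β i)⁻¹ = y at hq pq qH
  obtain ⟨j, e, k⟩ := m2_line (P g 0 0) (P g 1 0)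
  have zN := mem_N0 z_comm
  have m1 : y ^ e.val * ρ z ^ j.val ∈ NX X (zpowers r0) :=
    mul_mem (pow_mem hq _) (pow_mem (show ρ z ∈ NX X (zpowers r0) from ⟨h.ρ_mem z, zN⟩) _)
  have m2 := h.mem_of_B hH (mul_mem m1 hg).1 (mem_B_of hr (mul_mem m1 hg) (by
    rw [P_mul m1.2, P_mul (pow_mem hq.2 _), P_pow hq.2, P_pow zN, pq, P_z, Matrix.mul_apply, Fin.sum_univ_two, k]))
  exact (H.mul_mem_cancel_left (mul_mem (pow_mem qH e.val) (pow_mem (hH.uu z) j.val))).1 m2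

theorem K4.cl_conj (h : XD X) {r : U} (hR : Rad X (zpowers r)) {u : U} (e : u * r = r0 * u ∨ u * r = r0⁻¹ * u) :
    Cl X (zpowers r) := by
  have e1 : (YY (zpowers r)).map (MulAut.conj (ρ u)).toMonoidHom = YY (zpowers r0) := by
    rcases e with e | e
    · exact map_YY (by rw [← map_mul, ← map_mul, e])
    · exact (map_YY (by rw [← map_mul, ← map_mul, e])).trans (by rw [zpowers_inv])
  have e2 := map_conj_eq_of_mem (h.ρ_mem u)
  have h1 := rad_map (map_conj_eq_of_mem (H := UU) ⟨u, rfl⟩) e1 hR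
  have h2 := map_NX (X := X) _ e1
  rw [e2] at h1 h2
  obtain ⟨i, a, b, c⟩ := k4_r0 h h1
  refine ⟨i, a, b, fun H hH k1 k2 g hg => ?_⟩
  have := c H hH k1 k2 (h2.le ⟨g, hg, rfl⟩)
  simpa [mul_assoc] using mul_mem (mul_mem (inv_mem (hH.uu u)) this) (hH.uu u)

theorem k4 (h : XD X) {r : U} (hr : Reg r) (hR : Rad X (zpowers r)) : ∃ i, y1 (1 + i) ∈ X ∧ y2 i ∈ X ∧
    ∀ H, Bor X H → y1 (1 + i) ∈ H → y2 i ∈ H → NX X (zpowers r) ≤ H := by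
  have k : ∀ r : U, r.a ≠ 0 ∧ r.b ≠ 0 → ∃ u, (u * r = r0 * u ∨ u * r = r0⁻¹ * u) ∨
      (u * τU s2 r = r0 * u ∨ u * τU s2 r = r0⁻¹ * u) := by decide +kernel
  obtain ⟨u, e | e⟩ := k r hr
  · exact cl_conj h hR e
  have s := std_τA s2
  have e1 := map_YY (τA_mul_ρ s2 r)
  have t1 : ∀ k, MulAut.conj (τA s2) (y1 k)⁻¹ = y1 k := fun k => by
    rw [MulAut.conj_apply, mul_inv_eq_iff_eq_mul, mul_inv_eq_iff_eq_mul]
    exact Units.ext (by revert k; decide +kernel)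
  have t2 : ∀ k, MulAut.conj (τA s2) (y2 k) = y2 k := fun k => by
    rw [MulAut.conj_apply, ← y2_comm, mul_inv_cancel_right]
  have m1 : ∀ (H : Subgroup G6) k, y1 k ∈ H.map (MulAut.conj (τA s2)).toMonoidHom ↔ y1 k ∈ H := fun H k => by
    refine .trans ?_ ((mem_map_iff_mem (K := H) (f := (MulAut.conj (τA s2)).toMonoidHom) (x := (y1 k)⁻¹)
      (MulEquiv.injective _)).trans inv_mem_iff)
    exact iff_of_eq (congrArg _ (t1 k).symm)
  have m2 : ∀ (H : Subgroup G6) k, y2 k ∈ H.map (MulAut.conj (τA s2)).toMonoidHom ↔ y2 k ∈ H := fun H k => by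
    rw [← mem_map_iff_mem (K := H) (f := (MulAut.conj (τA s2)).toMonoidHom) (MulEquiv.injective _)]
    exact iff_of_eq (congrArg _ (t2 k).symm)
  obtain ⟨i, a, b, c⟩ := cl_conj (s.xd h) (rad_map s.map_UU e1 hR) e
  refine ⟨i, (m1 _ _).1 a, (m2 _ _).1 b, fun H hH k1 k2 => ?_⟩
  have := c _ (s.bor hH) ((m1 _ _).2 k1) ((m2 _ _).2 k2)
  rwa [← map_NX _ e1, map_le_map_iff_of_injective (MulEquiv.injective _)] at this

end CfsgLib.Cf3
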