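import Mathlib
import Cfsg.Agent.Lib.Cf3.Xf

/-! Package XG: essential subgroups containing `A` and generation (plans/CF3.md). -/

set_option autoImplicit false
set_option maxRecDepth 100000

namespace CfsgLib.Cf3

open Subgroup Matrix Cfsg CfsgLib.Fusion

variable {F : FS} {H : Subgroup G6} {Y : Subgroup U}

namespace XG

theorem congr {P : Subgroup M} {g g' : M → M} {h : G6} (hP : A ≤ P) (e : ∀ x ∈ P, g x = g' x) (i : Ind g' h) :
    Ind g h := fun v => by rw [e _ (hP (vec_mem_A v)), i]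

theorem exists_res (F : FS) (Y : Subgroup U) :
    ∃ r : F.autGroup (AY Y) →* G6, ∀ α, Ind (extAut α.1) (r α) := by
  choose r hr using fun α : F.autGroup (AY Y) => exists_ind (au_of_mem α.2).1 (A_le_AY Y)
  exact ⟨MonoidHom.mk' r fun a b => (hr (a * b)).2.uniq fun v => by
    rw [Subgroup.coe_mul, extAut_mul_apply, (hr b).2, (hr a).2, mul_smul], fun α => (hr α).2⟩

variable {r : F.autGroup (AY Y) →* G6} (hr : ∀ α, Ind (extAut α.1) (r α))
include hr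

theorem mem (α : F.autGroup (AY Y)) : r α ∈ NX (X F) Y := by
  obtain ⟨h, hh, e⟩ := (au_of_mem α.2).ind
  rwa [(hr α).uniq e]

theorem lift {g : M → M} {h : G6} (hg : Au F (AY Y) g) (e : Ind g h) : ∃ α, r α = h := by
  obtain ⟨α, hα, e'⟩ := hg.exists_aut
  exact ⟨⟨α, hα⟩, (hr _).uniq (congr (A_le_AY Y) e' e)⟩

theorem surj (hF : F.IsSaturated 3) {h : G6} (hh : h ∈ NX (X F) Y) : ∃ α, r α = h := by
  obtain ⟨g, hg, e⟩ := X_ext hF hh
  exact lift hr hg e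

theorem of_conj {α : F.autGroup (AY Y)} {m : M} (e : ∀ x ∈ AY Y, extAut α.1 x = m * x * m⁻¹) : r α = ρ m.u :=
  (hr α).uniq (congr (A_le_AY Y) e (ind_c m))

theorem ker (hF : F.IsSaturated 3) {α : F.autGroup (AY Y)} (e : r α = 1) : α.1 ∈ Inn (AY Y) := by
  obtain ⟨v, hv⟩ := agree hF (Mor.id F le_top) (au_of_mem α.2).1 (A_le_AY Y) (h := 1) (fun v => by simp) (e ▸ hr α)
  exact mem_Inn.2 ⟨vec v, A_le_AY Y (vec_mem_A v), hv⟩

theorem pker (hF : F.IsSaturated 3) : IsPGroup 3 r.ker :=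
  ((isPGroup_Inn (pM.to_subgroup _)).comap_subtype (K := F.autGroup (AY Y))).to_le fun _ e => ker hr hF e

theorem exists_c {u : U} (hu : ρ u ∈ normalizer (YY Y : Set G6)) :
    ∃ α : F.autGroup (AY Y), α.1 ∈ autInducedBy ⊤ (AY Y) ∧ r α = ρ u := by
  have hn : up u ∈ normalizer (AY Y : Set M) := mem_normalizer_fintype fun x hx => by
    obtain ⟨y, hy, e⟩ := exists_of_norm_YY hu hx
    rw [← map_mul, ← map_mul, π_apply] at e
    change u * x.u * u⁻¹ ∈ Y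
    rwa [ρ_inj e, mul_inv_cancel_right]
  exact ⟨⟨_, conjAut_mem_autGroup F le_top (mem_top _) hn⟩, conjAut_mem_autInducedBy hn (mem_top _),
    of_conj hr (m := up u) fun x hx => extAut_conjAut hn hx⟩

omit hr in
theorem gen (hF : F.IsSaturated 3) (t : Prop) (h0 : t → ¬ F.IsEssential 3 A) (h1 : NX (X F) ⊤ ≤ H)
    (h2 : ∀ Y, Y ≠ ⊥ → F.IsEssential 3 (AY Y) → NX (X F) Y ≤ H) {P : Subgroup M} {g : M → M}
    (hg : Mor F P g) : A ≤ P → (t ∨ ¬ P ≤ A) → ∀ h, Ind g h → h ∈ H := by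
  refine alperin_induction pT hF (Φ := fun P g => A ≤ P → (t ∨ ¬ P ≤ A) → ∀ h, Ind g h → h ∈ H) ?_ ?_ ?_ hg
  · intro R hR α hα P hP hA ht h e
    obtain ⟨Y, rfl⟩ : ∃ Y, R = AY Y := ⟨_, eq_AY (hA.trans hP)⟩
    obtain ⟨h', hh, e'⟩ := (au_of_mem hα).ind
    rw [e.uniq e']
    rcases hR with hR | hR
    · obtain rfl : Y = ⊤ := eq_top_iff.2 fun u _ => (hR.ge (mem_top (up u)) : up u ∈ AY Y)
      exact h1 hh
    · refine h2 Y (fun e => ?_) hR hh
      subst e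
      exact ht.elim (fun k => h0 k hR) fun k => k hP
  · exact fun P f g _ k e hA ht h i => k hA ht h (congr hA e i)
  · intro P Q f g hf hg k1 k2 m hA ht h e
    obtain ⟨a, -, ea⟩ := exists_ind hf hA
    have on : ∀ v, vec v = f (vec (a⁻¹ • v)) := fun v => by rw [ea, smul_inv_smul]
    have hQ : A ≤ Q := fun x hx => by rw [eq_vec hx, on]; exact m _ (hA (vec_mem_A _))
    obtain ⟨b, -, eb⟩ := exists_ind hg hQ
    rw [e.uniq (h' := b * a) fun v => by rw [Function.comp_apply, ea, eb, mul_smul]]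
    refine mul_mem (k2 hQ (ht.imp_right fun n le => n fun x hx => ?_) b eb) (k1 hA ht a ea)
    have e1 := eq_vec (le (m x hx))
    rw [on] at e1
    rw [hf.inj hx (hA (vec_mem_A _)) e1]
    exact vec_mem_A _

end XG

open XG

theorem rad_of_essential (hF : F.IsSaturated 3) (hE : F.IsEssential 3 (AY Y)) : Rad (X F) Y ∧ Y ≠ ⊤ := by
  obtain ⟨r, hr⟩ := exists_res F Y
  refine ⟨⟨fun Q hQ p n q hq => ?_, ?_⟩, fun e => essential_ne_top pT hF hE (by subst e; rfl)⟩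
  · obtain ⟨-, -, N, hN⟩ := essential_iff.1 hE
    obtain ⟨α, rfl⟩ := surj hr hF (hQ hq)
    have le := hN.le_of_normal (N := (Q.comap r).map (F.autGroup (AY Y)).subtype) (isPGroup_Inn (pM.to_subgroup _))
      (le_normalizer_Inn _) ((p.comap_of_ker_isPGroup r (pker hr hF)).map _) (map_subtype_le _) fun β hβ =>
      mem_normalizer_fintype (by
        rintro _ ⟨γ, hγ, rfl⟩
        refine ⟨⟨β, hβ⟩ * γ * ⟨β, hβ⟩⁻¹, ?_, rfl⟩
        change r _ ∈ Q
        rw [map_mul, map_mul, map_inv]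
        exact (mem_normalizer_iff.1 (n (mem hr _)) _).1 hγ)
    obtain ⟨m, hm, e⟩ := mem_Inn.1 (le ⟨α, hq, rfl⟩)
    exact ⟨m.u, hm, (of_conj hr e).symm⟩
  · obtain ⟨N, hN⟩ := essential_essAut pT hF hE
    have h1 := (hN.syl.subgroupOf hN.syl.le).map r
    have e1 : ((autInducedBy ⊤ (AY Y)).subgroupOf (F.autGroup (AY Y))).map r = NX UU Y := by
      refine le_antisymm ?_ ?_
      · rintro _ ⟨α, hα, rfl⟩
        obtain ⟨m, -, e⟩ := mem_autInducedBy.1 hα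
        exact mem_inf.2 ⟨⟨m.u, (of_conj hr e).symm⟩, (mem hr α).2⟩
      · rintro _ ⟨⟨u, rfl⟩, hu⟩
        exact exists_c hr hu
    have e2 : ((F.autGroup (AY Y)).subgroupOf (F.autGroup (AY Y))).map r = NX (X F) Y := by
      refine le_antisymm ?_ fun h hh => ?_
      · rintro _ ⟨α, -, rfl⟩
        exact mem hr α
      · obtain ⟨α, e⟩ := surj hr hF hh
        exact ⟨α, α.2, e⟩
    rwa [e1, e2] at h1

theorem gen_lt (hF : F.IsSaturated 3) (h1 : NX (X F) ⊤ ≤ H)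
    (h2 : ∀ Y, Y ≠ ⊥ → F.IsEssential 3 (AY Y) → NX (X F) Y ≤ H) {P : Subgroup M} {g : M → M} {h : G6}
    (hP : A < P) (hg : Mor F P g) (e : Ind g h) : h ∈ H := by
  exact gen hF False False.elim h1 h2 hg hP.le (Or.inr hP.not_ge) h e

theorem gen_top (hF : F.IsSaturated 3) (h0 : ¬ F.IsEssential 3 A) (h1 : NX (X F) ⊤ ≤ H)
    (h2 : ∀ Y, Y ≠ ⊥ → F.IsEssential 3 (AY Y) → NX (X F) Y ≤ H) : X F ≤ H := by
  rintro h ⟨g, hg, e⟩
  exact gen hF True (fun _ => h0) h1 h2 hg le_rfl (Or.inl trivial) h e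

theorem se_of_essential (hF : F.IsSaturated 3) (h0 : F.IsEssential 3 A) : ∃ N, SE (X F) N ∧ ∀ H,
    NX (X F) ⊤ ≤ H → (∀ Y, Y ≠ ⊥ → F.IsEssential 3 (AY Y) → NX (X F) Y ≤ H) → N ≤ H := by
  obtain ⟨r, hr⟩ := exists_res F ⊥
  have hE := essential_essAut_extendable (E := AY ⊥) pT hF h0
  have inn : ∀ α : F.autGroup (AY ⊥), α.1 ∈ Inn (AY ⊥) → α = 1 := fun α hα => by
    obtain ⟨m, hm, e⟩ := mem_Inn.1 hα
    refine Subtype.ext (aut_eq_one fun x hx => ?_)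
    rw [e x hx, eq_vec hx, conj_vec, mem_A.1 hm, map_one, one_smul]
  have inj : Function.Injective r := (injective_iff_map_eq_one r).2 fun α e => inn α (ker hr hF e)
  have sur : ∀ h ∈ X F, ∃ α, r α = h := fun h ⟨g, hg, e⟩ => lift hr ⟨hg, fun x hx => mor_mem_A hg le_rfl hx⟩ e
  have mN : ∀ α, r α ∈ ((extendableAuts F (AY ⊥)).subgroupOf (F.autGroup (AY ⊥))).map r ↔
      α.1 ∈ extendableAuts F (AY ⊥) := fun α => mem_map_iff_mem inj
  refine ⟨((extendableAuts F (AY ⊥)).subgroupOf (F.autGroup (AY ⊥))).map r, ⟨X_syl hF, ?_, fun le => ?_,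
    fun u => ?_, fun g hg h hh p h1 c => ?_⟩, fun H h1 h2 => ?_⟩
  · rintro _ ⟨α, -, rfl⟩
    exact (mem hr α).1
  · exact hE.not_le fun α hα => (mN ⟨α, hα⟩).1 (le (mem hr _).1)
  · obtain ⟨α, hα, e⟩ := exists_c hr (u := u) (mem_norm_YY fun y hy => ⟨y, hy, by rw [mem_bot.1 hy]; simp⟩)
    exact ⟨α, hE.U_le hα, e⟩
  · obtain ⟨α, rfl⟩ := sur g hg
    obtain ⟨β, hβ, rfl⟩ := hh
    rw [← map_inv, ← map_mul, ← map_mul, mN] at c
    refine (mN α).2 (hE.spe _ α.2 _ hβ ?_ (fun k => h1 (by rw [inn β k, map_one])) c)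
    obtain ⟨k, hk⟩ := p ⟨_, mem_zpowers _⟩
    have e : β ^ 3 ^ k = 1 := inj (by rw [map_pow, map_one]; exact congrArg Subtype.val hk)
    rintro ⟨_, j, rfl⟩
    refine ⟨k, Subtype.ext ?_⟩
    change (β.1 ^ j) ^ 3 ^ k = 1
    rw [← zpow_natCast, ← _root_.zpow_mul, mul_comm, _root_.zpow_mul, zpow_natCast, ← Subgroup.coe_pow, e]
    simp
  · rintro _ ⟨α, hα, rfl⟩
    have le : extendableAuts F (AY ⊥) ≤ (H.comap r).map (F.autGroup (AY ⊥)).subtype :=
      extendableAuts_le_iff.2 fun β Q g lt hg e => by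
        have hβ := extendableAuts_le F _ (mem_extendableAuts lt hg e)
        have i : Ind g (r ⟨β, hβ⟩) := XG.congr (A_le_AY ⊥) e (hr ⟨β, hβ⟩)
        exact ⟨⟨β, hβ⟩, gen_lt hF h1 h2 lt hg i, rfl⟩
    obtain ⟨β, hβ, e⟩ := le hα
    rwa [← Subtype.ext e]

end CfsgLib.Cf3
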