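import Mathlib
import Cfsg.Agent.Lib.Cf3.Xg
import Cfsg.Agent.Lib.Cf3.B4
import Cfsg.Agent.Lib.Cf3.E3a
import Cfsg.Agent.Lib.Cf3.K4
import Cfsg.Agent.Lib.Cf3.Da
import Cfsg.Agent.Lib.Fusion.AbIdx

/-! Package CORE: consequences of the trivial core (plans/CF3.md). -/

set_option autoImplicit false
set_option maxRecDepth 100000

namespace CfsgLib.Cf3

open Subgroup Matrix Cfsg CfsgLib.Fusion

variable {F : FS}

theorem XD.co_norm_Y1 {X : Subgroup G6} (h : XD X) {g : G6} (hg : g ∈ X) (hB : g ∈ B) :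
    g ∈ normalizer (YY Y1 : Set G6) := by
  obtain ⟨u, s, -, rfl⟩ := h.bor g hg hB
  refine mem_norm_YY fun y hy => ⟨u * τU s y * u⁻¹, ?_, ?_⟩
  · rw [mem_Y1] at hy ⊢
    simp [τU, hy]
  · rw [mul_assoc, τA_mul_ρ]
    simp only [map_mul, map_inv]
    group

theorem XD.co_norm_Y2 {X : Subgroup G6} (h : XD X) {g : G6} (hg : g ∈ X) (hB : g ∈ B) :
    g ∈ normalizer (YY Y2 : Set G6) := by
  obtain ⟨u, s, -, rfl⟩ := h.bor g hg hB
  refine mem_norm_YY fun y hy => ⟨u * τU s y * u⁻¹, ?_, ?_⟩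
  · rw [mem_Y2] at hy ⊢
    simp [τU, hy]
  · rw [mul_assoc, τA_mul_ρ]
    simp only [map_mul, map_inv]
    group

theorem co_top_le_B (X : Subgroup G6) : NX X ⊤ ≤ B := inf_le_right.trans norm_top

theorem co_ess_cases (hF : F.IsSaturated 3) (hN : Nm F) {Y : Subgroup U} (hY : Y ≠ ⊥)
    (hE : F.IsEssential 3 (AY Y)) : (Y = Y2 ∧ P1 (X F)) ∨ (Y = Y1 ∧ P2 (X F)) ∨ (P1 (X F) ∧ P2 (X F)) := by
  obtain ⟨hr, ht⟩ := rad_of_essential hF hE
  rcases c_cases hr ht with h | h | h | ⟨r, h, rfl⟩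
  · exact absurd h hY
  · exact .inl h
  · exact .inr (.inl h)
  · obtain ⟨i, h1, h2, -⟩ := k4 (xd hF hN) h hr
    exact .inr (.inr ⟨P1_of_y1 h1, P2_of_y2 h2⟩)

theorem not_essential_A (hF : F.IsSaturated 3) (hN : Nm F) : ¬ F.IsEssential 3 A := by
  intro h0
  obtain ⟨N, h, hle⟩ := se_of_essential hF h0
  have hX := xd hF hN
  by_cases p1 : P1 (X F)
  · by_cases p2 : P2 (X F)
    · obtain ⟨k, hk⟩ := k1 hX p1
      obtain ⟨j, hj⟩ := k2 hX p2
      exact h.da hk hj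
    · refine h.dm (hle _ (fun g hg => hX.co_norm_Y2 hg.1 (co_top_le_B _ hg)) fun Y hY hE => ?_)
      rcases co_ess_cases hF hN hY hE with ⟨rfl, -⟩ | ⟨-, p⟩ | ⟨-, p⟩
      · exact inf_le_right
      · exact absurd p p2
      · exact absurd p p2
  · refine h.dm' (hle _ (fun g hg => hX.co_norm_Y1 hg.1 (co_top_le_B _ hg)) fun Y hY hE => ?_)
    rcases co_ess_cases hF hN hY hE with ⟨-, p⟩ | ⟨rfl, -⟩ | ⟨p, -⟩
    · exact absurd p p1
    · exact inf_le_right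
    · exact absurd p p1

theorem Au.co_mem_vg {Y : Subgroup U} {W : Submodule K V} {g : M → M} (hg : Au F (AY Y) g)
    (hW : NX (X F) Y ≤ St W) {x : M} (hx : x ∈ vg W) : g x ∈ vg W := by
  obtain ⟨h, hh, e⟩ := hg.ind
  rw [eq_vec (mem_A.2 hx.1), e]
  exact ⟨rfl, (mem_St.1 (hW hh) _).2 hx.2⟩

theorem co_vg_not_normal (hc : F.core = ⊥) {W : Submodule K V} (hW : f 0 ∈ W) : ¬ F.IsNormal (vg W) := fun h => by
  have h1 : vec (f 0) ∈ vg W := ⟨rfl, hW⟩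
  rw [eq_bot_of_isNormal_of_core hc h, mem_bot, ← vec_zero, vec_inj] at h1
  exact absurd h1 (by decide)

theorem co_normal_vg (hF : F.IsSaturated 3) (hN : Nm F) {W : Submodule K V} (hB : B ≤ St W)
    (h1 : ∀ Y, Y ≠ ⊥ → F.IsEssential 3 (AY Y) → NX (X F) Y ≤ St W)
    (h2 : F.IsEssential 3 E3 → vg W ≤ E3 ∧ ∀ g, Au F E3 g → ∀ x ∈ vg W, g x ∈ vg W) : F.IsNormal (vg W) := by
  refine isNormal_of_alperin_top pM hF (fun β hβ x hx => ?_) fun E hE => ?_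
  · exact Au.co_mem_vg (Y := ⊤) ⟨(mem_topAut.1 hβ).mono le_top, fun x _ => mem_top _⟩ ((co_top_le_B _).trans hB) hx
  · rcases essential_cases hF hE with ⟨Y, rfl⟩ | rfl
    · have hY : Y ≠ ⊥ := by
        rintro rfl
        exact not_essential_A hF hN hE
      exact ⟨fun x hx => A_le_AY Y (mem_A.2 hx.1), fun α hα x hx => (au_of_mem hα).co_mem_vg (h1 Y hY hE) hx⟩
    · exact ⟨(h2 hE).1, fun α hα => (h2 hE).2 _ (au_of_mem hα)⟩

theorem core_facts (hF : F.IsSaturated 3) (hN : Nm F) (hc : F.core = ⊥) :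
    F.IsEssential 3 E3 ∧ P1 (X F) ∧ P2 (X F) := by
  refine ⟨by_contra fun h => ?_, by_contra fun h => ?_, by_contra fun h => ?_⟩
  · exact co_vg_not_normal hc (W := ⊤) trivial (co_normal_vg hF hN (fun _ _ _ => Iff.rfl) (fun _ _ _ _ _ _ => Iff.rfl)
      fun e => absurd e h)
  · refine co_vg_not_normal hc (W := wZ) (by decide) (co_normal_vg hF hN (fun _ hg => hg.1.1.1.1.1) (fun Y hY hE => ?_)
      fun _ => ⟨fun x hx => hx.2 5 (by decide), fun g hg x hx => hg.e3_Z hx⟩)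
    rcases co_ess_cases hF hN hY hE with ⟨-, p⟩ | ⟨rfl, -⟩ | ⟨p, -⟩
    · exact absurd p h
    · exact fun g hg => (norm_Y1_St hg.2).1
    · exact absurd p h
  · refine co_vg_not_normal hc (W := wD) (by decide) (co_normal_vg hF hN (fun _ hg => hg.1.1.1.2) (fun Y hY hE => ?_)
      fun _ => ⟨fun x hx => hx.2 5 (by decide), fun g hg x hx => hg.e3_D hx⟩)
    rcases co_ess_cases hF hN hY hE with ⟨rfl, -⟩ | ⟨-, p⟩ | ⟨-, p⟩
    · exact fun g hg => (norm_Y2_St hg.2).1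
    · exact absurd p h
    · exact absurd p h

end CfsgLib.Cf3
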