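import Mathlib
import Cfsg.Agent.Lib.Cf3.Xf

/-! Package NRM: the automorphism group of `M` and normalisation (plans/CF3.md). -/

set_option autoImplicit false
set_option maxRecDepth 100000

namespace CfsgLib.Cf3

open Subgroup Matrix Cfsg CfsgLib.Fusion

variable {F : FS}

namespace Nrm

theorem aut_mem (α : MulAut M) (v : V) : α (vec v) ∈ A := by
  have : A.map α.toMonoidHom = A := eq_A_of_comm (by
    rintro _ ⟨x, hx, rfl⟩ _ ⟨y, hy, rfl⟩
    rw [← map_mul, ← map_mul, eq_vec hx, eq_vec hy, ← vec_add, ← vec_add, add_comm])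
    (by rw [card_map_of_injective α.injective, card_A])
  exact this.le ⟨_, vec_mem_A v, rfl⟩

/-- the linear map induced on `A` -/
def lin (α : MulAut M) : V →ₗ[K] V := AddMonoidHom.toZModLinearMap 3 (AddMonoidHom.mk' (fun v => (α (vec v)).v)
  fun v w => by rw [vec_add, map_mul, M.mul_v, mem_A.1 (aut_mem α v), map_one, one_smul])

theorem vec_lin (α : MulAut M) (v : V) : vec (lin α v) = α (vec v) := (eq_vec (aut_mem α v)).symm

/-- the matrix induced on `A` -/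
noncomputable def ind : MulAut M →* G6 := MonoidHom.toHomUnits
  { toFun := fun α => LinearMap.toMatrix' (lin α)
    map_one' := by rw [← LinearMap.toMatrix'_id]; congr 1
    map_mul' := fun α β => by
      rw [← LinearMap.toMatrix'_comp]
      congr 1
      exact LinearMap.ext fun v => vec_inj.1 (by rw [LinearMap.comp_apply, vec_lin, vec_lin, vec_lin]; rfl) }

theorem ind_spec (α : MulAut M) : Ind α (ind α) := fun v => by
  rw [← vec_lin, smul_def]
  exact congrArg vec (LinearMap.toMatrix'_mulVec _ _).symm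

theorem ind_rel (α : MulAut M) (x : M) : ind α * ρ x.u = ρ (α x).u * ind α :=
  ind_conj (P := ⊤) (fun x _ y _ => map_mul α x y) le_top (ind_spec α) (mem_top x)

theorem ind_tri (α : MulAut M) : ∀ i j, j < i → (ind α).1 i j = 0 :=
  mem_T6.1 (B_le_T6 (norm_top (mem_norm_YY fun y _ => ⟨_, mem_top _, ind_rel α (up y)⟩)))

/-- the diagonal characters -/
noncomputable def dg (i : Fin 6) : MulAut M →* Kˣ := MonoidHom.toHomUnits
  { toFun := fun α => (ind α).1 i i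
    map_one' := by simp
    map_mul' := fun α β => by
      rw [map_mul, Units.val_mul, Matrix.mul_apply]
      refine Finset.sum_eq_single i (fun k _ hk => ?_) (by simp)
      rcases lt_or_gt_of_ne hk with e | e
      · rw [ind_tri α i k e, zero_mul]
      · rw [ind_tri β k i e, mul_zero] }

theorem dg_val (i : Fin 6) (α : MulAut M) : (dg i α : K) = (ind α).1 i i := rfl

/-- the signs -/
noncomputable def sg : MulAut M →* Sg := (dg 0 * dg 1).prod ((dg 0 * dg 4).prod (dg 0))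

theorem sg_τ (s : Sg) : sg (τ s) = s := by
  have e : ∀ i, (dg i (τ s) : K) = tauD s i := fun i => by
    rw [dg_val, (ind_spec _).uniq (ind_τ s), τA_val, diagonal_apply_eq]
  refine Prod.ext (Units.ext ?_) (Prod.ext (Units.ext ?_) (Units.ext (e 0)))
  · change (dg 0 (τ s) : K) * dg 1 (τ s) = _
    rw [e, e]; clear e; revert s; decide
  · change (dg 0 (τ s) : K) * dg 4 (τ s) = _
    rw [e, e]; clear e; revert s; decide

theorem unip {α : MulAut M} (h : sg α = 1) (i : Fin 6) : (ind α).1 i i = 1 := by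
  have h0 : (ind α).1 0 0 = 1 := congrArg (fun s : Sg => (s.2.2 : K)) h
  have h1 : (ind α).1 0 0 * (ind α).1 1 1 = 1 := congrArg (fun s : Sg => (s.1 : K)) h
  have h4 : (ind α).1 0 0 * (ind α).1 4 4 = 1 := congrArg (fun s : Sg => (s.2.1 : K)) h
  rw [h0, one_mul] at h1 h4
  have t := ind_tri α
  have e : ∀ u i j, ((ind α).1 * rhoM u) i j = (rhoM (α (up u)).u * (ind α).1) i j := fun u i j =>
    congrArg (fun g : G6 => g.1 i j) (ind_rel α (up u))
  have a1 := e x1 0 1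
  have a2 := e x1 1 2
  have a3 := e x1 3 4
  have a4 := e x2 2 4
  have a5 := e x2 4 5
  simp [Matrix.mul_apply, Fin.sum_univ_succ, rhoM, x1, x2, t, h0, h1, h4] at a1 a2 a3 a4 a5
  rw [add_comm, add_right_inj] at a1 a2 a3 a4 a5
  have c : ∀ a : K, 2 = 2 * a → a = 1 := by decide
  rw [← a1, mul_one] at a2
  rw [← a4, c _ a2, mul_one] at a5
  fin_cases i
  exacts [h0, h1, c _ a2, a3.trans a1.symm, h4, c _ a5]

theorem ker_three : IsPGroup 3 sg.ker := by
  rintro ⟨α, hα⟩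
  obtain ⟨k, hk⟩ := isPGroup_of_unip (mem_T6.2 (ind_tri α)) (unip hα) ⟨_, mem_zpowers _⟩
  have h1 : ind (α ^ 3 ^ k) = 1 := by rw [map_pow]; exact congrArg Subtype.val hk
  refine ⟨k + 1, Subtype.ext ?_⟩
  change α ^ 3 ^ (k + 1) = 1
  rw [pow_succ, pow_mul]
  generalize α ^ 3 ^ k = γ at h1
  have h2 : ∀ v, γ (vec v) = vec v := fun v => by rw [ind_spec, h1, one_smul]
  ext1 x
  obtain ⟨d, hd⟩ : ∃ d, γ x = vec d * x := by
    have := ind_rel γ x
    rw [h1, one_mul, mul_one] at this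
    exact ⟨(γ x).v - x.v, M.ext (by simp) (by simpa using (ρ_inj this).symm)⟩
  change γ (γ (γ x)) = x
  simp only [hd, map_mul, h2, ← mul_assoc, ← vec_add]
  rw [show d + d + d = 0 by ext i; simp only [Pi.add_apply, Pi.zero_apply]; generalize d i = a; revert a; decide,
    vec_zero, one_mul]

theorem sg_f0 (α : MulAut M) : α (vec (f 0)) = vec (((sg α).2.2 : K) • f 0) := by
  rw [ind_spec]
  congr 1
  ext i
  change _ = (ind α).1 0 0 * f 0 i
  rw [smul_def, f, mulVec_single_one]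
  by_cases e : i = 0
  · simp [e]
  · simp [e, ind_tri α i 0 (Fin.pos_iff_ne_zero.2 e)]

end Nrm

theorem exists_sgn : ∃ σ : MulAut M →* Sg, IsPGroup 3 σ.ker ∧ (∀ s, σ (τ s) = s) ∧
    ∀ α, α (vec (f 0)) = vec (((σ α).2.2 : K) • f 0) :=
  ⟨Nrm.sg, Nrm.ker_three, Nrm.sg_τ, Nrm.sg_f0⟩

theorem τ_mul (s t : Sg) : τ (s * t) = τ s * τ t := by
  ext1 x
  refine M.ext (by simp [mul_smul]) ?_
  change τU (s * t) x.u = τU s (τU t x.u)
  ext <;> simp [τU] <;> ring

namespace Nrm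

/-- the diagonal automorphisms -/
def τH : Sg →* MulAut M := MonoidHom.mk' τ τ_mul

theorem nm_of' (hF : F.IsSaturated 3) (h : ∀ α ∈ topAut F, τ (sg α) ∈ topAut F) : Nm F := fun g hg => by
  obtain ⟨α, hα, rfl⟩ := hg.exists_topAut
  have h1 : α * (τ (sg α))⁻¹ ∈ sg.ker := by rw [MonoidHom.mem_ker, map_mul, map_inv, sg_τ, mul_inv_cancel]
  obtain ⟨m, hm⟩ := mem_Inn_of_topAut pM hF (mul_mem hα (inv_mem (h α hα)))
    (ker_three.to_le ((zpowers_le.2 h1)))
  exact ⟨sg α, m, mem_topAut.1 (h α hα), fun x => by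
    simpa using (congrArg (fun γ : MulAut M => γ (τ (sg α) x)) hm).symm⟩

theorem tr_mor {θ : MulAut M} {F' : FS} (h : IsFactor F ⊥ θ F') {P P' : Subgroup M} (e : img P θ = P') {g : M → M} :
    Mor F' P' g ↔ Mor F P fun x => θ⁻¹ (g (θ x)) :=
  ⟨fun hg => h.iso_mor_of le_top (fun _ _ => mem_top _) (e ▸ hg) fun x _ => by simp,
    fun hg => e ▸ h.iso_mor hg fun x _ => by simp⟩

theorem tr_top {θ α : MulAut M} {F' : FS} (h : IsFactor F ⊥ θ F') : α ∈ topAut F' ↔ θ⁻¹ * α * θ ∈ topAut F := by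
  rw [mem_topAut, mem_topAut, tr_mor h h.img_eq]; rfl

theorem syl_τ : SylIn 2 τH.range ⊤ := by
  have hi : Function.Injective τH := Function.LeftInverse.injective sg_τ
  refine sylIn_of_not_dvd le_top (IsPGroup.of_surjective (G := Sg) (fun s => ⟨1, by rw [pow_one, sq, sg_sq]⟩) _
    τH.rangeRestrict_surjective) ?_
  have h1 := τH.range.card_mul_index
  have h2 := sg.ker.card_mul_index
  rw [index_ker, MonoidHom.range_eq_top.2 fun s => ⟨_, sg_τ s⟩, card_top] at h2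
  rw [← Nat.card_congr (MonoidHom.ofInjective hi).toEquiv, ← h2, mul_comm] at h1
  obtain ⟨k, hk⟩ := IsPGroup.iff_card.1 ker_three
  rw [relIndex_top_right, Nat.eq_of_mul_eq_mul_right Nat.card_pos h1, hk]
  exact fun e => absurd (Nat.prime_two.dvd_of_dvd_pow e) (by norm_num)

end Nrm

theorem nm_of (hF : F.IsSaturated 3) (h2 : Mor F ⊤ (τ s2)) (h3 : Mor F ⊤ (τ s3))
    (h0 : Mor F ⊤ (τ s0) ∨ ∀ g, Mor F ⊤ g → g (vec (f 0)) ≠ vec (-f 0)) : Nm F := by
  refine Nrm.nm_of' hF fun α hα => ?_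
  have k2 : s2 ∈ (topAut F).comap Nrm.τH := mem_topAut.2 h2
  have k3 : s3 ∈ (topAut F).comap Nrm.τH := mem_topAut.2 h3
  have k : ∀ s : Sg, s.2.2 = 1 → s ∈ (topAut F).comap Nrm.τH := fun s hs => by
    rcases (by decide : ∀ s : Sg, s.2.2 = 1 → s = 1 ∨ s = s2 ∨ s = s3 ∨ s = s2 * s3) s hs with e | e | e | e <;> rw [e]
    exacts [one_mem _, k2, k3, mul_mem k2 k3]
  by_cases e : (Nrm.sg α).2.2 = 1
  · exact k _ e
  have e' : (Nrm.sg α).2.2 = -1 := (by decide : ∀ a : Kˣ, a ≠ 1 → a = -1) _ e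
  rcases h0 with h0 | h0
  · exact (mul_mem_cancel_right (show s0 ∈ (topAut F).comap Nrm.τH from mem_topAut.2 h0)).1
      (k (Nrm.sg α * s0) (by simp [e', s0]))
  · exact absurd (by rw [Nrm.sg_f0, e']; simp) (h0 α (mem_topAut.1 hα))

theorem exists_tr (F : FS) (θ : MulAut M) : ∃ F' : FS, IsFactor F ⊥ θ F' := by
  have k : ∀ S', img ⊤ θ = S' → ∃ F' : FusionSystem S', IsFactor F ⊥ θ F' := by
    rintro _ rfl
    exact exists_iso_img F (fun x _ y _ => map_mul θ x y) θ.injective.injOn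
  exact k ⊤ (eq_top_iff.2 fun x _ => θ.apply_symm_apply x ▸ mem_img_of_mem _ (mem_top _))

theorem exists_nm (hF : F.IsSaturated 3) : ∃ (θ : MulAut M) (F' : FS), IsFactor F ⊥ θ F' ∧ Nm F' := by
  obtain ⟨P, hP⟩ := exists_sylIn 2 (topAut F)
  obtain ⟨θ, -, hθ⟩ := Nrm.syl_τ.exists_conj hP.isPGroup le_top
  obtain ⟨F', h⟩ := exists_tr F θ
  refine ⟨θ, F', h, Nrm.nm_of' (h.iso_saturated pT hF) fun α hα => ?_⟩
  have h1 := (Nrm.tr_top h).1 hα
  obtain ⟨k, hk⟩ := Nrm.ker_three ⟨(θ⁻¹ * α * θ) ^ 2, by rw [MonoidHom.mem_ker, map_pow, sq, sg_sq]⟩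
  have h2 : ((θ⁻¹ * α * θ) ^ 3 ^ k) ^ 2 = 1 := by
    rw [← pow_mul, mul_comm, pow_mul]; exact congrArg Subtype.val hk
  obtain ⟨γ, -, hγ⟩ := hP.exists_conj (U := zpowers ((θ⁻¹ * α * θ) ^ 3 ^ k)) (by
    rintro ⟨_, n, rfl⟩
    exact ⟨1, Subtype.ext (by
      change (_ ^ n) ^ 2 ^ 1 = 1
      rw [pow_one, ← zpow_natCast, ← _root_.zpow_mul, mul_comm, _root_.zpow_mul, zpow_natCast, h2, _root_.one_zpow])⟩)
    (zpowers_le.2 (pow_mem h1 _))
  have h3 := hγ _ (mem_zpowers _)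
  obtain ⟨s, hs⟩ := hθ _ h3
  have h4 : s = Nrm.sg α := by
    have := congrArg Nrm.sg hs
    rw [show Nrm.sg (Nrm.τH s) = s from Nrm.sg_τ s] at this
    obtain ⟨j, hj⟩ : Odd (3 ^ k) := Odd.pow (by decide)
    simp only [this, map_mul, map_inv, map_pow, mul_inv_cancel_comm, inv_mul_cancel_comm]
    rw [hj, pow_succ, pow_mul, sq, sg_sq, one_pow, one_mul]
  rw [Nrm.tr_top h, ← h4, show τ s = _ from hs]
  simpa [mul_assoc] using hP.le h3

theorem exists_beta (F : FS) (k : K) :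
    ∃ F' : FS, IsFactor F ⊥ (βM k) F' ∧ (Nm F → Nm F') ∧ X F' = cj (β k) (X F) := by
  obtain ⟨F', h⟩ := exists_tr F (βM k)
  have hc : ∀ s x, βM k (τ s x) = τ s (βM k x) := fun s x =>
    M.ext (by simp only [βM_v, τ_v, ← mul_smul, β_mul_τA]) rfl
  have hv : ∀ v, βM k (vec v) = vec (β k • v) := fun _ => rfl
  have hv' : ∀ v, (βM k)⁻¹ (vec v) = vec ((β k)⁻¹ • v) := fun _ => rfl
  have hA : img A (βM k) = A := le_antisymm (img_le_iff.2 fun x hx => hx) fun x hx =>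
    (βM k).apply_symm_apply x ▸ mem_img_of_mem _ hx
  refine ⟨F', h, fun hN g hg => ?_, ?_⟩
  · obtain ⟨s, m, hs, e⟩ := hN _ ((Nrm.tr_mor h h.img_eq).1 hg)
    refine ⟨s, βM k m, (Nrm.tr_mor h h.img_eq).2 (hs.congr fun x _ => by simp [← hc]), fun x => ?_⟩
    simpa [hc] using congrArg (βM k) (e ((βM k)⁻¹ x))
  · ext g
    rw [mem_cj]
    refine ⟨fun ⟨a, ha, e⟩ => ⟨_, (Nrm.tr_mor h hA).1 ha, fun v => ?_⟩, fun ⟨a, ha, e⟩ =>
      ⟨fun x => βM k (a ((βM k)⁻¹ x)), (Nrm.tr_mor h hA).2 (ha.congr fun x _ => by simp), fun v => ?_⟩⟩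
    · simp only [hv, e _, hv', mul_smul]
    · simp only [hv, e _, hv', mul_smul, smul_inv_smul]

end CfsgLib.Cf3
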