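import Mathlib
import Cfsg.Agent.Lib.Cf3.E3a
import Cfsg.Agent.Lib.Cf3.Nrm

/-! Package E3B: the Weyl element on `E3` (plans/CF3.md). -/

set_option autoImplicit false
set_option maxRecDepth 100000

namespace CfsgLib.Cf3

open Subgroup Matrix Cfsg CfsgLib.Fusion

variable {F F' : FS}

/-- equality by coordinates -/
local instance (priority := high) E3B.decM : DecidableEq M := fun x y =>
  decidable_of_iff (x.v = y.v ∧ x.u = y.u) M.ext_iff.symm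

namespace E3B

variable {g : M → M} {m : Matrix (Fin 2) (Fin 2) K}

theorem τE (s : Sg) {x : M} (hx : x ∈ E3) : τ s x ∈ E3 := by
  rw [mem_E3, τ_v, τA_smul, Pi.mul_apply, mem_E3.1 hx, mul_zero]

theorem ττ (s : Sg) (x : M) : τ s (τ s x) = x := (τ s).left_inv x

theorem upE (u : U) : up u ∈ E3 := rfl

theorem f4R : vec (f 4) ∈ R := mem_R.2 (by decide)

theorem x2R : up x2 ∈ R := mem_R.2 (by decide)

theorem mu_eq (h : Mu g m) :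
    m = !![(g (vec (f 4))).v 4, (g (up x2)).v 4; (g (vec (f 4))).u.b, (g (up x2)).u.b] := by
  have h1 := (h _ f4R).2
  have h2 := (h _ x2R).2
  exact (by decide +kernel : ∀ (m : Matrix (Fin 2) (Fin 2) K) (a b : K), ![a, b] = m *ᵥ ![1, 0] → ∀ c d : K,
    ![c, d] = m *ᵥ ![0, 1] → m = !![a, c; b, d]) m _ _ h1 _ _ h2

theorem mu_inv {k : M → M} {m' : Matrix (Fin 2) (Fin 2) K} (h : Mu g m) (h' : Mu k m') (e : ∀ x ∈ E3, g (k x) = x) :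
    m * m' = 1 :=
  ((h.comp h').congr (g' := id) e).uniq mu_id

/-- the shape of an element with triangular action -/
theorem shape (hF : F.IsSaturated 3) (hN : Nm F) (hg : Au F E3 g) (h : Mu g m) (h0 : m 1 0 = 0) :
    ∃ (s : Sg) (n : M), Mor F ⊤ (τ s) ∧ (∀ x ∈ E3, g x = n * τ s x * n⁻¹) ∧
      m = !![1, n.v 5; 0, 1] * !![(s.2.2 : K) * s.2.1, 0; 0, s.2.1] := by
  obtain ⟨k, hk, e⟩ := hg.e3_ext hF h h0
  obtain ⟨s, n, hs, e'⟩ := hN k hk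
  have e2 : ∀ x ∈ E3, g x = n * τ s x * n⁻¹ := fun x hx => (e x hx).trans (e' x)
  exact ⟨s, n, hs, e2, (h.congr e2).uniq ((mu_c n).comp (mu_τ s))⟩

theorem sign (hg : Au F E3 g) (s : Sg) {y : M} (hy : y ∈ E3) : (g (τ s y)).u.a = s.1 * (g y).u.a := by
  have h1 := τE s hy
  rcases (by decide : ∀ c : Kˣ, c = 1 ∨ c = -1) s.1 with e | e
  · have m := mul_mem h1 (inv_mem hy)
    have := (mem_R.1 ((hg.e3_R m).2 (mem_R.2 ⟨m, by simp [τU, e]⟩))).2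
    rw [hg.1.map_mul h1 (inv_mem hy), hg.1.map_inv hy, M.mul_u, M.inv_u, U.mul_a, U.inv_a] at this
    rw [e, Units.val_one]
    linear_combination this
  · have m := mul_mem h1 hy
    have := (mem_R.1 ((hg.e3_R m).2 (mem_R.2 ⟨m, by simp [τU, e]⟩))).2
    rw [hg.1.map_mul h1 hy, M.mul_u, U.mul_a] at this
    rw [e, Units.val_neg, Units.val_one]
    linear_combination this

theorem half (s : Sg) {n : M} (hn : n ∈ E3) (h : ∀ y ∈ E3, n * τ s n * y * (n * τ s n)⁻¹ = y) :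
    ∃ j : ℕ, ∀ y ∈ E3, n ^ j * (n * y * n⁻¹) * (n ^ j)⁻¹ = τ s (n ^ j) * y * (τ s (n ^ j))⁻¹ := by
  obtain ⟨k, hk⟩ := pM n
  obtain ⟨j, hj⟩ : Odd (3 ^ k) := Odd.pow (by decide)
  obtain ⟨z, hz⟩ : ∃ z, z = n * τ s n := ⟨_, rfl⟩
  rw [← hz] at h
  have c : ∀ y ∈ E3, Commute z y := fun y hy => mul_inv_eq_iff_eq_mul.1 (h y hy)
  have e1 : τ s (n ^ j) = (n ^ j)⁻¹ * z ^ j := by
    rw [map_pow, show τ s n = n⁻¹ * z by rw [hz]; group, (c n hn).symm.inv_left.mul_pow, inv_pow]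
  have e2 : n ^ j * n = (n ^ j)⁻¹ := eq_inv_of_mul_eq_one_left (by
    rw [← pow_succ, ← pow_add, ← hk, hj]; congr 1; ring)
  refine ⟨j, fun y hy => ?_⟩
  rw [e1, show n ^ j * (n * y * n⁻¹) * (n ^ j)⁻¹ = n ^ j * n * y * (n ^ j * n)⁻¹ by group, e2,
    show (n ^ j)⁻¹ * z ^ j * y * ((n ^ j)⁻¹ * z ^ j)⁻¹ = (n ^ j)⁻¹ * (z ^ j * y * (z ^ j)⁻¹) * (n ^ j)⁻¹⁻¹ by group,
    ((c y hy).pow_left j).eq, mul_inv_cancel_right]

end E3B

open E3B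

theorem e3_central (hF : F.IsSaturated 3) (hN : Nm F) {s : Sg} (h1 : s.2.2 = 1) (hs : Mor F ⊤ (τ s)) {g : M → M}
    (hg : Au F E3 g) : ∃ n ∈ E3, ∀ x ∈ E3, g (τ s x) = n * τ s (g x) * n⁻¹ := by
  obtain ⟨k, hk, e1, e2⟩ := hg.exists_inv
  obtain ⟨m, hm, -⟩ := hg.exists_mu
  obtain ⟨m', hm', -⟩ := hk.exists_mu
  have a := hg.comp ((au_e3_τ hs).comp hk)
  have u := hm.comp ((mu_τ s).comp hm')
  rw [h1, (by decide +kernel : ∀ (m m' : Matrix (Fin 2) (Fin 2) K), m * m' = 1 → ∀ c : Kˣ,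
    m * (!![((1 : Kˣ) : K) * c, 0; 0, c] * m') = !![(c : K), 0; 0, c]) m m' (mu_inv hm hm' e2)] at u
  obtain ⟨s', n, -, e, em⟩ := shape hF hN a u rfl
  obtain ⟨k1, k2, k3⟩ := (by decide +kernel : ∀ (c c' d : Kˣ) (i : K),
    !![(c : K), 0; 0, c] = !![1, i; 0, 1] * !![(d : K) * c', 0; 0, c'] → c' = c ∧ d = 1 ∧ i = 0) _ _ _ _ em
  have k4 : s'.1 = s.1 := by
    have h2 := sign hg s (hk.2 _ (upE x1))
    have h3 := congrArg (fun x : M => x.u.a) (e _ (upE x1))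
    simp only [Function.comp_apply] at h3
    rw [h2, e2 _ (upE x1)] at h3
    refine Units.ext ?_
    simpa [τU, x1] using h3.symm
  obtain rfl : s' = s := Prod.ext k4 (Prod.ext k1 (k2.trans h1.symm))
  refine ⟨n, k3, fun x hx => ?_⟩
  rw [← e _ (hg.2 x hx)]
  simp only [Function.comp_apply, e1 x hx]

namespace E3B

theorem step (hF : F.IsSaturated 3) (hN : Nm F) {s : Sg} (h1 : s.2.2 = 1) (hs : Mor F ⊤ (τ s)) {g : M → M}
    (hg : Au F E3 g) : ∃ n ∈ E3, (∀ x ∈ E3, g (τ s x) = n * τ s (g x) * n⁻¹) ∧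
      ∃ j : ℕ, ∀ x ∈ E3, n ^ j * g (τ s x) * (n ^ j)⁻¹ = τ s (n ^ j * g x * (n ^ j)⁻¹) := by
  obtain ⟨n, hn, e⟩ := e3_central hF hN h1 hs hg
  obtain ⟨k, hk, -, e2⟩ := hg.exists_inv
  obtain ⟨j, hj⟩ := half s hn fun y hy => by
    have h2 := e _ (τE s (hk.2 y hy))
    rw [ττ, e _ (hk.2 y hy), e2 y hy, map_mul, map_mul, map_inv, ττ] at h2
    conv_rhs => rw [h2]
    group
  refine ⟨n, hn, e, j, fun x hx => ?_⟩
  rw [e x hx, hj _ (τE s (hg.2 x hx)), map_mul, map_mul, map_inv]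

theorem morτ (h2 : Mor F ⊤ (τ s2)) (h3 : Mor F ⊤ (τ s3)) {s : Sg} (h : s.2.2 = 1) : Mor F ⊤ (τ s) := by
  rcases (by decide : ∀ s : Sg, s.2.2 = 1 → s = s2 * s2 ∨ s = s2 ∨ s = s3 ∨ s = s2 * s3) s h with rfl | rfl | rfl | rfl
  · rw [τ_mul]; exact h2.comp h2 fun _ _ => mem_top _
  · exact h2
  · exact h3
  · rw [τ_mul]; exact h3.comp h2 fun _ _ => mem_top _

theorem z3 {a : K} (h : -1 * a = a) : a = 0 := (by decide : ∀ a : K, -1 * a = a → a = 0) a h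

theorem fix2 {y : M} (h : τ s2 y = y) : y = ⟨![y.v 0, 0, y.v 2, 0, y.v 4, y.v 5], ⟨0, y.u.b, 0⟩⟩ := by
  have h1 : tauD s2 * y.v = y.v := by rw [← τA_smul]; exact congrArg M.v h
  have h2 : τU s2 y.u = y.u := congrArg M.u h
  refine M.ext (funext fun i => ?_) (U.ext (z3 (congrArg U.a h2)) rfl (z3 (congrArg U.c h2)))
  fin_cases i
  exacts [rfl, z3 (congrFun h1 1), rfl, z3 (congrFun h1 3), rfl, rfl]

theorem fix3 {y : M} (h : τ s3 y = y) : y = ⟨![y.v 0, y.v 1, y.v 2, 0, 0, y.v 5], ⟨y.u.a, 0, 0⟩⟩ := by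
  have h1 : tauD s3 * y.v = y.v := by rw [← τA_smul]; exact congrArg M.v h
  have h2 : τU s3 y.u = y.u := congrArg M.u h
  refine M.ext (funext fun i => ?_) (U.ext rfl (z3 (congrArg U.b h2)) (z3 (congrArg U.c h2)))
  fin_cases i
  exacts [rfl, rfl, rfl, z3 (congrFun h1 3), z3 (congrFun h1 4), rfl]

theorem l1 {y : M} (hy : y ∈ E3) (h2 : τ s2 y = y) (h3 : τ s3 y = y⁻¹) :
    (y.v 4 = 0 → y = up ⟨0, y.u.b, 0⟩) ∧ (y.u.b = 0 → y = vec (y.v 4 • f 4)) := by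
  have e := fix2 h2
  rw [mem_E3.1 hy] at e
  have := (by decide +kernel : ∀ a b c d : K, τ s3 ⟨![a, 0, b, 0, c, 0], ⟨0, d, 0⟩⟩ =
    (⟨![a, 0, b, 0, c, 0], ⟨0, d, 0⟩⟩ : M)⁻¹ → (c = 0 → (⟨![a, 0, b, 0, c, 0], ⟨0, d, 0⟩⟩ : M) = up ⟨0, d, 0⟩) ∧
      (d = 0 → (⟨![a, 0, b, 0, c, 0], ⟨0, d, 0⟩⟩ : M) = vec (c • f 4))) (y.v 0) (y.v 2) (y.v 4) y.u.b (e ▸ h3)
  rwa [← e] at this

theorem l2 {y : M} (hy : y ∈ E3) (h3 : τ s3 y = y) (h2 : τ s2 y = y⁻¹) (h : y.u.a ≠ 0) :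
    ∃ i : K, vec (i • f 2) * y * (vec (i • f 2))⁻¹ = up ⟨y.u.a, 0, 0⟩ := by
  have e := fix3 h3
  rw [mem_E3.1 hy] at e
  have := (by decide +kernel : ∀ a b c d : K, τ s2 ⟨![a, b, c, 0, 0, 0], ⟨d, 0, 0⟩⟩ =
    (⟨![a, b, c, 0, 0, 0], ⟨d, 0, 0⟩⟩ : M)⁻¹ → d ≠ 0 → ∃ i : K,
      vec (i • f 2) * ⟨![a, b, c, 0, 0, 0], ⟨d, 0, 0⟩⟩ * (vec (i • f 2))⁻¹ = up ⟨d, 0, 0⟩)
    (y.v 0) (y.v 1) (y.v 2) y.u.a (e ▸ h2) h
  rwa [← e] at this

set_option synthInstance.maxSize 2000 in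
theorem l3 : ∀ a p q l : K, a ≠ 0 → 0 * 0 - p * q ≠ 0 → ∃ s : Sg, s.2.2 = 1 ∧
    τ s (up ⟨a, 0, 0⟩) = up x1 ∧ τ s (vec (l • f 2) * up ⟨0, q, 0⟩ * (vec (l • f 2))⁻¹) = up x2 ∧
      (τ s (vec (l • f 2) * vec (p • f 4) * (vec (l • f 2))⁻¹) = vec (-f 4) ∨
        τ s (vec (l • f 2) * vec (p • f 4) * (vec (l • f 2))⁻¹) = vec (f 4)) := by
  decide +kernel

end E3B

theorem e3_comm (hF : F.IsSaturated 3) (hN : Nm F) (h2 : Mor F ⊤ (τ s2)) (h3 : Mor F ⊤ (τ s3)) {g : M → M}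
    (hg : Au F E3 g) : ∃ n ∈ E3, (∀ x ∈ E3, n * g (τ s2 x) * n⁻¹ = τ s2 (n * g x * n⁻¹)) ∧
      ∀ x ∈ E3, n * g (τ s3 x) * n⁻¹ = τ s3 (n * g x * n⁻¹) := by
  obtain ⟨a, ha, -, i, e3⟩ := step hF hN (s := s3) rfl h3 hg
  have hg' := (au_e3_c F (a ^ i)).comp hg
  obtain ⟨n, hn, e, j, e2⟩ := step hF hN (s := s2) rfl h2 hg'
  simp only [Function.comp_apply] at e e2
  obtain ⟨k, hk, -, ek⟩ := hg'.exists_inv
  simp only [Function.comp_apply] at ek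
  have c : ∀ x, τ s2 (τ s3 x) = τ s3 (τ s2 x) := fun x => by
    rw [← MulAut.mul_apply, ← MulAut.mul_apply, ← τ_mul, ← τ_mul, mul_comm]
  have q : ∀ y ∈ E3, n * y * n⁻¹ = τ s3 n * y * (τ s3 n)⁻¹ := fun y hy => by
    have m := hk.2 _ (τE s3 (τE s2 hy))
    have h4 := e _ (τE s3 m)
    rw [e3 _ m, c, e3 _ (τE s2 m), e _ m, ek _ (τE s3 (τE s2 hy)), ττ, ττ, map_mul, map_mul, map_inv, c, ττ,
      ττ] at h4
    exact h4.symm
  have q' : ∀ j : ℕ, ∀ y ∈ E3, n ^ j * y * (n ^ j)⁻¹ = τ s3 n ^ j * y * (τ s3 n ^ j)⁻¹ := fun j => by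
    induction j with
    | zero => simp
    | succ j ih =>
      intro y hy
      rw [pow_succ, pow_succ, show n ^ j * n * y * (n ^ j * n)⁻¹ = n ^ j * (n * y * n⁻¹) * (n ^ j)⁻¹ by group,
        ih _ (mul_mem (mul_mem hn hy) (inv_mem hn)), q y hy]
      group
  have r : ∀ y, n ^ j * a ^ i * y * (n ^ j * a ^ i)⁻¹ = n ^ j * (a ^ i * y * (a ^ i)⁻¹) * (n ^ j)⁻¹ :=
    fun y => by group
  refine ⟨n ^ j * a ^ i, mul_mem (pow_mem hn j) (pow_mem ha i), fun x hx => ?_, fun x hx => ?_⟩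
  · rw [r, r, e2 x hx]
  · rw [r, r, e3 x hx, q' j (τ s3 (a ^ i * g x * (a ^ i)⁻¹)) (τE s3 (hg'.2 x hx)), map_mul (τ s3) (n ^ j * _), map_mul (τ s3) (n ^ j), map_inv,
      map_pow]

theorem exists_w0 (hF : F.IsSaturated 3) (hN : Nm F) (h2 : Mor F ⊤ (τ s2)) (h3 : Mor F ⊤ (τ s3))
    (hE : F.IsEssential 3 E3) : ∃ w, Au F E3 w ∧ W0 w := by
  obtain ⟨g₀, m₀, hg₀, hm₀, h0⟩ := e3_moves hF hE
  obtain ⟨i, j, k0, k1⟩ := (by decide +kernel : ∀ m : Matrix (Fin 2) (Fin 2) K, m 1 0 ≠ 0 → ∃ i j : K,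
    (!![1, i; 0, 1] * (m * !![1, j; 0, 1])) 0 0 = 0 ∧ (!![1, i; 0, 1] * (m * !![1, j; 0, 1])) 1 1 = 0) m₀ h0
  have v5 : ∀ i : K, (vec (i • f 5)).v 5 = i := by decide
  have hg₁ := (au_e3_c F (vec (i • f 5))).comp (hg₀.comp (au_e3_c F (vec (j • f 5))))
  have hm₁ := (mu_c (vec (i • f 5))).comp (hm₀.comp (mu_c (vec (j • f 5))))
  rw [v5, v5] at hm₁
  obtain ⟨n, hn, c2, c3⟩ := e3_comm hF hN h2 h3 hg₁
  have hg₂ := (au_e3_c F n).comp hg₁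
  have hm₂ := (mu_c n).comp hm₁
  rw [mem_E3.1 hn, ← Matrix.one_fin_two, one_mul] at hm₂
  generalize (fun x => vec (i • f 5) * x * (vec (i • f 5))⁻¹) ∘ g₀ ∘ (fun x => vec (j • f 5) * x * (vec (j • f 5))⁻¹) =
    g₁ at hg₂ hm₂ c2 c3
  obtain ⟨g, hg⟩ : ∃ g, g = (fun x => n * x * n⁻¹) ∘ g₁ := ⟨_, rfl⟩
  replace c2 : ∀ x ∈ E3, g (τ s2 x) = τ s2 (g x) := hg ▸ c2
  replace c3 : ∀ x ∈ E3, g (τ s3 x) = τ s3 (g x) := hg ▸ c3
  rw [← hg] at hg₂ hm₂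
  obtain ⟨m', hm', d⟩ := hg₂.exists_mu
  rw [hm'.uniq hm₂, mu_eq hm₂] at d
  rw [mu_eq hm₂] at k0 k1
  have fE := f4R.1
  have a1 := (l1 (hg₂.2 _ fE) (by rw [← c2 _ fE]; congr 1; decide)
    (by rw [← c3 _ fE, ← hg₂.1.map_inv fE]; congr 1; decide)).1 k0
  have a2 := (l1 (hg₂.2 _ (upE x2)) (by rw [← c2 _ (upE x2)]; rfl)
    (by rw [← c3 _ (upE x2), ← hg₂.1.map_inv (upE x2)]; congr 1; decide)).2 k1
  have n1 : (g (up x1)).u.a ≠ 0 := fun e =>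
    absurd (mem_R.1 ((hg₂.e3_R (upE x1)).1 (mem_R.2 ⟨hg₂.2 _ (upE x1), e⟩))).2 (by decide)
  obtain ⟨l, a3⟩ := l2 (hg₂.2 _ (upE x1)) (by rw [← c3 _ (upE x1)]; rfl)
    (by rw [← c2 _ (upE x1), ← hg₂.1.map_inv (upE x1)]; congr 1; decide) n1
  change (g (vec (f 4))).v 4 = 0 at k0
  change (g (up x2)).u.b = 0 at k1
  rw [k0, k1, det_fin_two_of] at d
  obtain ⟨s, hs, b1, b2, b3⟩ := l3 _ _ _ l n1 d
  rw [← a3] at b1
  rw [← a1] at b2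
  rw [← a2] at b3
  have hw := (au_e3_τ (morτ h2 h3 hs)).comp ((au_e3_c F (vec (l • f 2))).comp hg₂)
  rcases b3 with b3 | b3
  · exact ⟨_, hw, b1, b2, b3⟩
  obtain ⟨w, ew⟩ : ∃ w, w = τ s ∘ (fun x => vec (l • f 2) * x * (vec (l • f 2))⁻¹) ∘ g := ⟨_, rfl⟩
  rw [← ew] at hw
  replace b1 : w (up x1) = up x1 := ew ▸ b1
  replace b2 : w (vec (f 4)) = up x2 := ew ▸ b2
  replace b3 : w (up x2) = vec (f 4) := ew ▸ b3
  obtain ⟨m, hm, -⟩ := hw.exists_mu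
  have em := mu_eq hm
  rw [b2, b3] at em
  subst em
  have hb := au_e3_c F (vec (f 5))
  have mb := mu_c (vec (f 5))
  obtain ⟨t, n', ht, -, e⟩ := shape hF hN (hw.comp (hb.comp (hw.comp (hb.comp (hb.comp hw)))))
    (hm.comp (mb.comp (hm.comp (mb.comp (mb.comp hm))))) (by decide +kernel)
  have t0 : (s0 * s3 * t).2.2 = 1 := (by decide +kernel : ∀ (t : Sg) (i : K),
    !![2, 1; 0, 1] = !![1, i; 0, 1] * !![(t.2.2 : K) * t.2.1, 0; 0, t.2.1] → (s0 * s3 * t).2.2 = 1) t _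
    (Eq.trans (by decide +kernel) e)
  have ht' : Mor F ⊤ (τ (s0 * s3)) := by
    rw [show s0 * s3 = s0 * s3 * t * t by rw [mul_assoc, sg_sq, mul_one], τ_mul]
    exact ht.comp (morτ h2 h3 t0) fun _ _ => mem_top _
  refine ⟨_, hw.comp (au_e3_τ ht'), ?_, ?_, ?_⟩
  · rw [Function.comp_apply, show τ (s0 * s3) (up x1) = up x1 by decide, b1]
  · rw [Function.comp_apply, show τ (s0 * s3) (vec (f 4)) = vec (f 4) by decide, b2]
  · rw [Function.comp_apply, show τ (s0 * s3) (up x2) = (up x2)⁻¹ by decide, hw.1.map_inv (upE x2), b3, vec_neg]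

theorem e3_le (hF : F.IsSaturated 3) (hT : ∀ g, Mor F ⊤ g → Mor F' ⊤ g) {w w' g : M → M} (h1 : Au F E3 w) (h2 : W0 w)
    (h3 : Au F' E3 w') (h4 : W0 w') (hg : Au F E3 g) : Mor F' E3 g := by
  have ext : ∀ {g : M → M} {m}, Au F E3 g → Mu g m → m 1 0 = 0 → Mor F' E3 g := fun hg hm h0 => by
    obtain ⟨k, hk, e⟩ := hg.e3_ext hF hm h0
    exact ((hT k hk).mono le_top).congr fun x hx => (e x hx).symm
  have ww : ∀ x ∈ E3, w' x = w x := fun x hx => by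
    rw [← closure_E3] at hx
    induction hx using closure_induction with
    | mem x hx =>
      rcases hx with rfl | rfl | rfl
      exacts [h4.1.trans h2.1.symm, h4.2.2.trans h2.2.2.symm, h4.2.1.trans h2.2.1.symm]
    | one => rw [h3.1.map_one, h1.1.map_one]
    | mul x y hx hy e e' =>
      rw [closure_E3] at hx hy
      rw [h3.1.map_mul hx hy, h1.1.map_mul hx hy, e, e']
    | inv x hx e =>
      rw [closure_E3] at hx
      rw [h3.1.map_inv hx, h1.1.map_inv hx, e]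
  obtain ⟨m, hm, -⟩ := hg.exists_mu
  by_cases h0 : m 1 0 = 0
  · exact ext hg hm h0
  obtain ⟨k, hk, -, ek⟩ := h1.exists_inv
  obtain ⟨a, ha, -⟩ := h1.exists_mu
  obtain ⟨b, hb, -⟩ := hk.exists_mu
  have e := mu_inv ha hb ek
  rw [mu_eq ha, h2.2.1, h2.2.2] at e
  obtain rfl : b = !![0, 1; -1, 0] := (by decide +kernel : ∀ b : Matrix (Fin 2) (Fin 2) K,
    !![0, -1; 1, 0] * b = 1 → b = !![0, 1; -1, 0]) b e
  obtain ⟨i, hi⟩ := (by decide +kernel : ∀ m : Matrix (Fin 2) (Fin 2) K, m 1 0 ≠ 0 → ∃ i : K,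
    ((!![0, 1; -1, 0] * (!![1, (vec (i • f 5)).v 5; 0, 1] * m) : Matrix (Fin 2) (Fin 2) K)) 1 0 = 0) m h0
  have hc := (au_e3_c F (vec (i • f 5))).comp hg
  have h5 := ((ext (hk.comp hc) (hb.comp ((mu_c _).comp hm)) hi).comp h3.1 (hk.comp hc).2).conj_left
    (mem_top (vec (i • f 5))⁻¹)
  refine h5.congr fun x hx => ?_
  rw [Function.comp_apply, Function.comp_apply, ww _ (hk.2 _ (hc.2 x hx)), ek _ (hc.2 x hx), Function.comp_apply]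
  group

end CfsgLib.Cf3
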