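import Mathlib
import Cfsg.Agent.Lib.Cf3.Nrm
import Cfsg.Agent.Lib.RV.Uni

/-! Package REAL: the system of a group with the data (plans/CF3.md). -/

set_option autoImplicit false
set_option maxRecDepth 100000

namespace CfsgLib.Cf3

open Subgroup Matrix Cfsg CfsgLib.Fusion

variable {G : Type*} [Group G] [Finite G] {θ : M →* G} {t : Prop} {k : K}

namespace RealP

/-- a subspace invariant under `y1 k`, `y2 0` and containing `f 0` is everything -/
theorem all_mem {W : Submodule K V} (h0 : f 0 ∈ W) (h1 : ∀ v ∈ W, y1 k • v ∈ W)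
    (h2 : ∀ v ∈ W, y2 0 • v ∈ W) (v : V) : v ∈ W := by
  have e2 : f 2 = -(f 0 + y1 k • f 0 + y1 k • y1 k • f 0) :=
    (by decide +kernel : ∀ k : K, f 2 = -(f 0 + y1 k • f 0 + y1 k • y1 k • f 0)) k
  have e1 : f 1 = f 0 + f 2 - y1 k • f 0 := (by decide +kernel : ∀ k : K, f 1 = f 0 + f 2 - y1 k • f 0) k
  have e3 : f 3 = y2 0 • f 1 - f 1 := by decide +kernel
  have e5 : f 5 = -(f 2 + y2 0 • f 2 + y2 0 • y2 0 • f 2) := by decide +kernel
  have e4 : f 4 = f 2 + f 5 - y2 0 • f 2 := by decide +kernel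
  have m2 : f 2 ∈ W := by
    rw [e2]; exact W.neg_mem (W.add_mem (W.add_mem h0 (h1 _ h0)) (h1 _ (h1 _ h0)))
  have m1 : f 1 ∈ W := by rw [e1]; exact W.sub_mem (W.add_mem h0 m2) (h1 _ h0)
  have m3 : f 3 ∈ W := by rw [e3]; exact W.sub_mem (h2 _ m1) m1
  have m5 : f 5 ∈ W := by
    rw [e5]; exact W.neg_mem (W.add_mem (W.add_mem m2 (h2 _ m2)) (h2 _ (h2 _ m2)))
  have m4 : f 4 ∈ W := by rw [e4]; exact W.sub_mem (W.add_mem m2 m5) (h2 _ m2)
  have hv : v = ∑ i, v i • f i := by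
    ext j; simp [f, Finset.sum_apply, Pi.single_apply]
  rw [hv]
  refine W.sum_mem fun i _ => W.smul_mem _ ?_
  fin_cases i
  exacts [h0, m1, m2, m3, m4, m5]

omit [Finite G] in
theorem ext_eq (x : M) : extFun (θ.comp (⊤ : Subgroup M).subtype) x = θ x :=
  extFun_apply _ (mem_top x)

omit [Finite G] in
theorem mor_iff {F : FS} (hF : F.IsRealizedBy (θ.comp (⊤ : Subgroup M).subtype)) {P : Subgroup M}
    {g : M → M} : Mor F P g ↔ ∃ c : G, ∀ x ∈ P, c * θ x * c⁻¹ = θ (g x) := by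
  rw [realized_mor_iff hF]
  simp only [ext_eq, le_top, mem_top, implies_true, true_and]
  exact exists_congr fun c => forall₂_congr fun x _ => eq_comm

theorem τ_s0 : τ s0 (vec (f 0)) = vec (-f 0) := M.ext (by decide +kernel) (by decide +kernel)

omit [Finite G] in
theorem mem_X_of {F : FS} (hF : F.IsRealizedBy (θ.comp (⊤ : Subgroup M).subtype)) {y : G6}
    (h : ∃ g, ∀ v, g * θ (vec v) * g⁻¹ = θ (vec (y • v))) : y ∈ X F := by
  obtain ⟨c, hc⟩ := h
  refine mem_X.2 ⟨fun x => vec (y • x.v), (mor_iff hF).2 ⟨c, fun x hx => ?_⟩, fun v => rfl⟩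
  rw [← hc, ← eq_vec hx]

/-- the core is trivial if `A` is generated from `f 0` and is not strongly closed -/
theorem core_eq_bot {F : FS} (h1 : y1 k ∈ X F) (h2 : y2 0 ∈ X F)
    (out : ∃ v g, Mor F (zpowers (vec v)) g ∧ g (vec v) ∉ A) : F.core = ⊥ := by
  by_contra hne
  have hN := isNormal_core F
  have hZ := isNormal_ucs hN 1
  have hS := stronglyClosed_iff.1 (stronglyClosed_of_isNormal hZ)
  have hZne : ucs F.core 1 ≠ ⊥ := ucs_one_ne_bot (pM.to_subgroup _) hne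
  haveI : (ucs F.core 1).Normal := normalizer_eq_top_iff.1 (top_le_iff.1 (le_normalizer_of_isNormal hZ))
  have h0 : vec (f 0) ∈ ucs F.core 1 := by
    by_contra h; exact hZne (normal_eq_bot _ h)
  have inv : ∀ y ∈ X F, ∀ v ∈ Wof (ucs F.core 1), y • v ∈ Wof (ucs F.core 1) := by
    rintro y ⟨g, hg, e⟩ v hv
    rw [mem_Wof, ← e]
    exact hS.2 _ _ hg _ (vec_mem_A v) hv
  have hall : ∀ v, vec v ∈ ucs F.core 1 := fun v =>
    all_mem (W := Wof (ucs F.core 1)) h0 (inv _ h1) (inv _ h2) v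
  obtain ⟨v, g, hg, hx⟩ := out
  have hm := hS.2 _ _ hg _ (mem_zpowers _) (hall v)
  refine hx (mem_A_of_comm fun y hy => ?_)
  have hy' : y ∈ F.core := by rw [eq_vec hy]; exact ucs_le _ _ (hall _)
  have := (mem_ucs_succ.1 hm).2 y hy'
  rw [ucs_zero, mem_bot, commutatorElement_eq_one_iff_mul_comm] at this
  exact this.symm

end RealP

open RealP

theorem RG.sylIn (h : RG θ t k) : SylIn 3 (θ.comp (⊤ : Subgroup M).subtype).range ⊤ := by
  have e : (θ.comp (⊤ : Subgroup M).subtype).range = θ.range := by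
    rw [MonoidHom.range_comp, range_subtype, ← MonoidHom.range_eq_map]
  rw [e]
  refine sylIn_of_not_dvd le_top ?_ (by rw [relIndex_top_right]; exact h.idx)
  exact pM.of_surjective θ.rangeRestrict θ.rangeRestrict_surjective

theorem RG.exists_dat (h : RG θ t k) : ∃ F : FS, Dat F t k ∧ F.IsRealizedBy (θ.comp (⊤ : Subgroup M).subtype) := by
  obtain ⟨F, hF⟩ := RV.UniP.exists_pull (S := (⊤ : Subgroup M)) (ι := θ.comp (⊤ : Subgroup M).subtype)
    (h.inj.comp (⊤ : Subgroup M).subtype_injective)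
  have hsat : F.IsSaturated 3 := realized_saturated hF h.sylIn
  have top : ∀ {s : Sg}, (∃ g, ∀ x, g * θ x * g⁻¹ = θ (τ s x)) → Mor F ⊤ (τ s) :=
    fun ⟨c, hc⟩ => (mor_iff hF).2 ⟨c, fun x _ => hc x⟩
  have nt : ¬ t → ∀ g, Mor F ⊤ g → g (vec (f 0)) ≠ vec (-f 0) := fun ht g hg e => by
    obtain ⟨c, hc⟩ := (mor_iff hF).1 hg
    exact h.nt0 ht c (by rw [hc _ (mem_top _), e])
  have h1 := mem_X_of hF h.h1
  have h2 := mem_X_of hF h.h2
  refine ⟨F, ⟨hsat, core_eq_bot h1 h2 ?_, nm_of hsat (top h.t2) (top h.t3) ?_, h1, h2, ?_⟩, hF⟩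
  · obtain ⟨c, v, x, hx, e⟩ := h.out
    obtain ⟨g, hg, e'⟩ := realized_exists_mor hF (P := zpowers (vec v)) le_top (g := c) (by
      rintro _ ⟨n, rfl⟩
      refine ⟨⟨x ^ n, mem_top _⟩, ?_⟩
      simp only [ext_eq, map_zpow, ← conj_zpow, e]
      exact map_zpow θ x n)
    refine ⟨v, g, hg, ?_⟩
    have := e' _ (mem_zpowers _)
    rw [ext_eq, ext_eq, e] at this
    rwa [h.inj this]
  · by_cases ht : t
    · exact Or.inl (top (h.t0 ht))
    · exact Or.inr (nt ht)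
  · exact ⟨fun hm => by_contra fun ht => nt ht _ hm τ_s0, fun ht => top (h.t0 ht)⟩

end CfsgLib.Cf3
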