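import Mathlib
import Cfsg.Agent.Lib.Cf3.Defs
import Cfsg.Agent.Lib.Symp.Order

/-! Package SP: the data in `Sp6(3)` and in `GSp6(3)` (plans/CF3.md). -/

set_option autoImplicit false

namespace CfsgLib.Cf3

open Subgroup Cfsg

namespace Sp
open Matrix Sum

/-- small matrices -/
abbrev M3 : Type := Matrix (Fin 3) (Fin 3) K
/-- large matrices -/
abbrev N : Type := Matrix (Fin 3 ⊕ Fin 3) (Fin 3 ⊕ Fin 3) K
/-- the form -/
abbrev JJ : N := Matrix.J (Fin 3) K

/-- the natural representation -/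
def u3 (u : U) : M3 := !![1, u.a, u.c; 0, 1, u.b; 0, 0, 1]
/-- its dual -/
def w3 (u : U) : M3 := (u3 u⁻¹)ᵀ
/-- symmetric matrices -/
def sym (v : V) : M3 := !![2 * v 0, v 1, v 3; v 1, 2 * v 2, v 4; v 3, v 4, 2 * v 5]

theorem u3_mul (x y : U) : u3 (x * y) = u3 x * u3 y := by
  ext i j
  fin_cases i <;> fin_cases j <;> simp [u3, Matrix.mul_apply, Fin.sum_univ_succ] <;> ring
theorem w3_mul (x y : U) : w3 (x * y) = w3 x * w3 y := by rw [w3, _root_.mul_inv_rev, u3_mul, transpose_mul]; rfl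
theorem uw : ∀ u : U, u3 u * (w3 u)ᵀ = 1 ∧ w3 u * (u3 u)ᵀ = 1 ∧ (u3 u)ᵀ * w3 u = 1 := by decide +kernel
theorem u3_one : u3 1 = 1 ∧ w3 1 = 1 := by decide
theorem sym_add (v w : V) : sym (v + w) = sym v + sym w := by
  ext i j; fin_cases i <;> fin_cases j <;> simp [sym, mul_add]
theorem sym_smul (c : K) (v : V) : sym (c • v) = c • sym v := by
  ext i j; fin_cases i <;> fin_cases j <;> simp [sym, mul_left_comm]
theorem ext6 {h h' : M3} {y : G6} (e : ∀ i, h * sym (f i) = sym (y • f i) * h') (v : V) :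
    h * sym v = sym (y • v) * h' := by
  let L : V →ₗ[K] M3 := ⟨⟨sym, sym_add⟩, sym_smul⟩
  have : LinearMap.mulLeft K h ∘ₗ L = LinearMap.mulRight K h' ∘ₗ L ∘ₗ y.1.mulVecLin :=
    (Pi.basisFun K (Fin 6)).ext fun i => by rw [Pi.basisFun_apply]; exact e i
  exact LinearMap.congr_fun this v
theorem sym_t (v : V) : (sym v)ᵀ = sym v := by
  ext i j; fin_cases i <;> fin_cases j <;> rfl
theorem sym_ρ (u : U) (v : V) : sym (ρ u • v) = u3 u * sym v * (u3 u)ᵀ := by
  rw [ρ_smul]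
  ext i j
  fin_cases i <;> fin_cases j <;> simp [sym, u3, Matrix.mul_apply, Fin.sum_univ_succ] <;> ring

/-- the representation of `M` -/
def T : M →* N where
  toFun x := fromBlocks (u3 x.u) (sym x.v * w3 x.u) 0 (w3 x.u)
  map_one' := by decide
  map_mul' x y := by
    simp only [fromBlocks_multiply, M.mul_u, M.mul_v, u3_mul, w3_mul, sym_add, sym_ρ, Matrix.mul_zero,
      Matrix.zero_mul, add_zero, zero_add, add_mul, ← Matrix.mul_assoc]
    rw [Matrix.mul_assoc _ _ (w3 x.u), (uw _).2.2, Matrix.mul_one, add_comm]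

theorem T_def (x : M) : T x = fromBlocks (u3 x.u) (sym x.v * w3 x.u) 0 (w3 x.u) := rfl

theorem T_mem (x : M) : T x * JJ * (T x)ᵀ = JJ := by
  simp only [T_def, Matrix.J, fromBlocks_transpose, fromBlocks_multiply, Matrix.mul_zero, Matrix.zero_mul, add_zero,
    zero_add, Matrix.mul_one, Matrix.mul_neg, Matrix.neg_mul, transpose_mul, transpose_zero, neg_zero, sym_t,
    (uw _).1, (uw _).2.1]
  rw [Matrix.mul_assoc, (uw _).2.1, ← Matrix.mul_assoc, (uw _).1, Matrix.mul_one, Matrix.one_mul, add_neg_cancel]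

/-- the condition -/
def Cd (t : Prop) (A : N) : Prop := A * JJ * Aᵀ = JJ ∨ (t ∧ A * JJ * Aᵀ = -JJ)

theorem act (A B : N) : A * B * JJ * (A * B)ᵀ = A * (B * JJ * Bᵀ) * Aᵀ := by
  simp only [transpose_mul, Matrix.mul_assoc]

/-- the symplectic group and the group of similitudes -/
def GS (t : Prop) : Subgroup (GL (Fin 3 ⊕ Fin 3) K) where
  carrier := {g | Cd t g.1}
  one_mem' := .inl (by simp)
  mul_mem' := fun {g h} hg hh => by
    have := act g.1 h.1
    rcases hh with hh | ⟨ht, hh⟩ <;> rw [hh] at this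
    · exact hg.imp this.trans fun k => ⟨k.1, this.trans k.2⟩
    · rw [Matrix.mul_neg, Matrix.neg_mul] at this
      rcases hg with hg | ⟨-, hg⟩ <;> rw [hg] at this
      · exact .inr ⟨ht, this⟩
      · exact .inl (this.trans (neg_neg _))
  inv_mem' := fun {g} hg => by
    have := act (g⁻¹).1 g.1
    rw [Units.inv_mul, Matrix.one_mul, transpose_one, Matrix.mul_one] at this
    rcases hg with hg | ⟨ht, hg⟩ <;> rw [hg] at this
    · exact .inl this.symm
    · rw [Matrix.mul_neg, Matrix.neg_mul] at this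
      exact .inr ⟨ht, neg_eq_iff_eq_neg.1 this.symm⟩

/-- the embedding -/
def θ (t : Prop) : M →* GS t := T.toHomUnits.codRestrict _ fun x => .inl (T_mem x)

theorem ex {t : Prop} {A : N} (h : Cd t A) :
    ∃ g : GS t, ∀ x y, A * T x = T y * A → g * θ t x * g⁻¹ = θ t y := by
  have : ∃ B, A * B = 1 := by
    rcases h with h | ⟨-, h⟩
    · exact ⟨JJ * Aᵀ * -JJ, by rw [← Matrix.mul_assoc, ← Matrix.mul_assoc, h, Matrix.mul_neg, J_squared, neg_neg]⟩
    · exact ⟨JJ * Aᵀ * JJ, by rw [← Matrix.mul_assoc, ← Matrix.mul_assoc, h, Matrix.neg_mul, J_squared, neg_neg]⟩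
  obtain ⟨B, hB⟩ := this
  exact ⟨⟨⟨A, B, hB, mul_eq_one_comm.1 hB⟩, h⟩, fun x y e =>
    mul_inv_eq_iff_eq_mul.2 (Subtype.ext (Units.ext e))⟩

theorem levi {h h' : M3} {x y : M} (h1 : h * u3 x.u = u3 y.u * h) (h2 : h' * w3 x.u = w3 y.u * h')
    (h3 : h * sym x.v = sym y.v * h') : fromBlocks h 0 0 h' * T x = T y * fromBlocks h 0 0 h' := by
  simp only [T_def, fromBlocks_multiply, Matrix.mul_zero, Matrix.zero_mul, add_zero, zero_add, h1, h2]
  rw [← Matrix.mul_assoc, h3, Matrix.mul_assoc, h2, Matrix.mul_assoc]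

/-- the torus -/
def dg (s : Sg) : M3 := !![s.1, 0, 0; 0, 1, 0; 0, 0, s.2.1]
/-- the torus -/
def dg' (s : Sg) : M3 := (s.2.2 : K) • dg s

theorem dg_u : ∀ (s : Sg) (u : U), dg s * u3 u = u3 (τU s u) * dg s ∧ dg' s * w3 u = w3 (τU s u) * dg' s := by
  decide +kernel

theorem dg_v : ∀ (s : Sg) (i : Fin 6), dg s * sym (f i) = sym (τA s • f i) * dg' s := by
  decide +kernel

theorem tor {t : Prop} {s : Sg} (h : Cd t (fromBlocks (dg s) 0 0 (dg' s))) :
    ∃ g, ∀ x, g * θ t x * g⁻¹ = θ t (τ s x) :=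
  (ex h).imp fun _ k _ => k _ _ (levi (dg_u s _).1 (dg_u s _).2 (ext6 (dg_v s) _))

theorem lin {t : Prop} {h h' : M3} {y : G6} (c : Cd t (fromBlocks h 0 0 h'))
    (e : ∀ i, h * sym (f i) = sym (y • f i) * h') : ∃ g, ∀ v, g * θ t (vec v) * g⁻¹ = θ t (vec (y • v)) :=
  (ex c).imp fun _ k v => k _ _ (levi (by simp [u3_one.1]) (by simp [u3_one.2]) (ext6 e v))

theorem inj (t : Prop) : Function.Injective (θ t) := by
  refine (injective_iff_map_eq_one _).2 fun x hx => ?_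
  have h : T x = 1 := congrArg (fun g : GS t => g.1.1) hx
  rw [T_def, ← fromBlocks_one, fromBlocks_inj] at h
  obtain ⟨h1, h2, -, h3⟩ := h
  rw [h3, Matrix.mul_one] at h2
  have k1 : ∀ u, u3 u = 1 → u = 1 := by decide +kernel
  have k2 : ∀ a : K, 2 * a = 0 → a = 0 := by decide
  refine M.ext (funext fun i => ?_) (k1 _ h1)
  have e := fun i j => congrFun (congrFun h2 i) j
  fin_cases i
  exacts [k2 _ (e 0 0), e 0 1, k2 _ (e 1 1), e 0 2, e 1 2, k2 _ (e 2 2)]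

theorem card_M : Nat.card M = 3 ^ 9 := by
  let e : M ≃ V × K × K × K := ⟨fun x => (x.v, x.u.a, x.u.b, x.u.c), fun p => ⟨p.1, ⟨p.2.1, p.2.2.1, p.2.2.2⟩⟩,
    fun _ => rfl, fun _ => rfl⟩
  rw [Nat.card_congr e]
  simp

theorem card_GS (t : Prop) : Nat.card (GS t) ∣ 2 * (3 ^ 9 * (8 * 80 * 728)) := by
  have le : GS False ≤ GS t := fun g hg => hg.imp_right fun h => h.1.elim
  let φ : GS False →* symplecticGroup (Fin 3) K :=
    ⟨⟨fun g => ⟨g.1.1, g.2.resolve_right fun h => h.1⟩, rfl⟩, fun _ _ => rfl⟩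
  have h1 := card_dvd_of_injective φ fun a b h => Subtype.ext (Units.ext (congrArg Subtype.val h))
  rw [Symp.card_sp, ZMod.card, ← Nat.card_congr (subgroupOfEquivOfLe le).toEquiv] at h1
  rw [← ((GS False).subgroupOf (GS t)).index_mul_card]
  refine mul_dvd_mul ?_ (h1.trans (by decide))
  rw [index_dvd_two_iff]
  by_cases h : ∃ a : GS t, a.1.1 * JJ * a.1.1ᵀ = -JJ
  · obtain ⟨a, ha⟩ := h
    refine ⟨a, fun b => b.2.symm.imp (fun hb => .inl ?_) .inl⟩
    exact (act b.1.1 a.1.1).trans (by rw [ha, Matrix.mul_neg, Matrix.neg_mul, hb.2, neg_neg])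
  · exact ⟨1, fun b => .inr (.inl (b.2.resolve_right fun k => h ⟨b, k.2⟩))⟩

theorem idx (t : Prop) : ¬ 3 ∣ (θ t).range.index := fun h => by
  have h1 := card_GS t
  rw [← (θ t).range.index_mul_card, ← Nat.card_congr (MonoidHom.ofInjective (inj t)).toEquiv, card_M] at h1
  exact absurd ((mul_dvd_mul_right h _).trans h1) (by decide)

theorem nt (g : GS False) : g * θ False (vec (f 0)) * g⁻¹ ≠ θ False (vec (-f 0)) := fun h => by
  have h1 : g.1.1 * T (vec (f 0)) = T (vec (-f 0)) * g.1.1 :=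
    congrArg (fun g : GS False => g.1.1) (mul_inv_eq_iff_eq_mul.1 h)
  have h2 : g.1.1 * JJ * g.1.1ᵀ = JJ := g.2.resolve_right fun k => k.1
  generalize g.1.1 = A at h1 h2
  rw [show T (vec (f 0)) = 1 - single (inl 0) (inr 0) 1 by decide,
    show T (vec (-f 0)) = 1 + single (inl 0) (inr 0) 1 by decide, Matrix.mul_sub, Matrix.add_mul, Matrix.mul_one,
    Matrix.one_mul, sub_eq_add_neg, add_right_inj] at h1
  have e := fun j => congrFun (congrFun h1 (inl 0)) j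
  have e0 : -A (inl 0) (inl 0) = A (inr 0) (inr 0) := by simpa using e (inr 0)
  have e1 : ∀ j, j ≠ inr 0 → A (inr 0) j = 0 := fun j hj => by
    simpa [mul_single_apply_of_ne _ _ _ _ _ hj] using (e j).symm
  have e2 := congrFun (congrFun h2 (inr 0)) (inl 0)
  simp [Matrix.mul_apply, Matrix.J, Fin.sum_univ_succ, e1, ← e0] at e2
  generalize A (inl 0) (inl 0) = a at e2
  revert a; decide

/-- the Weyl element -/
def W : N := fromBlocks !![1,0,0; 0,1,0; 0,0,0] !![0,0,0; 0,0,0; 0,0,1] !![0,0,0; 0,0,0; 0,0,2] !![1,0,0; 0,1,0; 0,0,0]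

theorem W_c : W * JJ * Wᵀ = JJ ∧ W * T (vec (f 4)) = T (up x2) * W := by decide +kernel

/-- Levi elements -/
def L (h h' : M3) : N := fromBlocks h 0 0 h'

theorem L_c : L (dg s2) (dg' s2) * JJ * (L (dg s2) (dg' s2))ᵀ = JJ ∧
    L (dg s3) (dg' s3) * JJ * (L (dg s3) (dg' s3))ᵀ = JJ ∧
    L (dg s0) (dg' s0) * JJ * (L (dg s0) (dg' s0))ᵀ = -JJ := by decide +kernel

/-- root elements -/
def a1 : M3 := !![1,0,0; 1,1,0; 0,0,1]
/-- root elements -/
def b1 : M3 := !![1,2,0; 0,1,0; 0,0,1]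
/-- root elements -/
def a2 : M3 := !![1,0,0; 0,1,0; 0,1,1]
/-- root elements -/
def b2 : M3 := !![1,0,0; 0,1,2; 0,0,1]

theorem y_c : L a1 b1 * JJ * (L a1 b1)ᵀ = JJ ∧ L a2 b2 * JJ * (L a2 b2)ᵀ = JJ ∧
    (∀ i, a1 * sym (f i) = sym (y1 0 • f i) * b1) ∧ ∀ i, a2 * sym (f i) = sym (y2 0 • f i) * b2 := by
  decide +kernel

theorem rg (t : Prop) : RG (θ t) t 0 := by
  refine ⟨inj t, idx t, tor (.inl L_c.1), tor (.inl L_c.2.1), fun ht => tor (.inr ⟨ht, L_c.2.2⟩), fun ht => ?_,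
    lin (.inl y_c.1) y_c.2.2.1, lin (.inl y_c.2.1) y_c.2.2.2, ?_⟩
  · cases eq_false ht; exact nt
  · obtain ⟨g, hg⟩ := ex (t := t) (.inl W_c.1)
    exact ⟨g, f 4, up x2, fun h => absurd (mem_A.1 h) (by decide), hg _ _ W_c.2⟩

end Sp

theorem rg_sp : ∃ (G : Type) (_ : Group G) (_ : Finite G) (θ : M →* G), RG θ False 0 :=
  ⟨_, _, inferInstance, _, Sp.rg _⟩

theorem rg_gsp : ∃ (G : Type) (_ : Group G) (_ : Finite G) (θ : M →* G), RG θ True 0 :=
  ⟨_, _, inferInstance, _, Sp.rg _⟩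

end CfsgLib.Cf3
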