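import Mathlib
import Cfsg.Agent.Lib.Cf3.Xf

/-! Package UNA: lifts that commute with an involution (plans/CF3.md). -/

set_option autoImplicit false
set_option maxRecDepth 100000

namespace CfsgLib.Cf3

open Subgroup Matrix Cfsg CfsgLib.Fusion

variable {F F' : FS} {Y : Subgroup U} {s : Sg}

/-- cocycles fixed by `τ s` are coboundaries -/
structure Fix (Y : Subgroup U) (s : Sg) : Prop where
  inv : ∀ y ∈ Y, τU s y ∈ Y
  fix : ∀ δ : M → M, IsHomOn (AY Y) δ → Ind δ 1 → (∀ x ∈ AY Y, δ (τ s x) = τ s (δ x)) →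
    ∃ v, ∀ x ∈ AY Y, δ x = vec v * x * (vec v)⁻¹

namespace Una

variable {δ : M → M}

theorem up_mem {y : U} (hy : y ∈ Y) : up y ∈ AY Y := hy

theorem u_eq (hδ : IsHomOn (AY Y) δ) (e : Ind δ 1) {x : M} (hx : x ∈ AY Y) : (δ x).u = x.u :=
  ρ_inj (by simpa using (ind_conj hδ (A_le_AY Y) e hx).symm)

theorem conj_up (v : V) (y : U) : vec v * up y * (vec v)⁻¹ = ⟨v - ρ y • v, y⟩ :=
  M.ext (by simp [sub_eq_add_neg]) (by simp)

theorem of_gen (hδ : IsHomOn (AY Y) δ) (e : Ind δ 1) {p q : U} (hp : p ∈ Y) (hq : q ∈ Y)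
    (gen : ∀ y ∈ Y, ∃ i j : Fin 3, y = p ^ i.1 * q ^ j.1) {v : V} (ep : (δ (up p)).v = v - ρ p • v)
    (eq : (δ (up q)).v = v - ρ q • v) : ∀ x ∈ AY Y, δ x = vec v * x * (vec v)⁻¹ := by
  have mul : ∀ x ∈ AY Y, ∀ y ∈ AY Y, δ x = vec v * x * (vec v)⁻¹ → δ y = vec v * y * (vec v)⁻¹ →
      δ (x * y) = vec v * (x * y) * (vec v)⁻¹ := fun x hx y hy a b => by rw [hδ x hx y hy, a, b, conj_mul]
  have hv : ∀ w, δ (vec w) = vec v * vec w * (vec v)⁻¹ := fun w => by rw [e, conj_vec]; simp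
  have pw : ∀ y ∈ Y, (δ (up y)).v = v - ρ y • v → ∀ n : ℕ, δ (up y ^ n) = vec v * up y ^ n * (vec v)⁻¹ :=
    fun y hy a n => by
      induction n with
      | zero => exact hv 0
      | succ n ih =>
        rw [pow_succ]
        exact mul _ (pow_mem (up_mem hy) n) _ hy ih (by rw [conj_up]; exact M.ext a (u_eq hδ e (up_mem hy)))
  intro x hx
  obtain ⟨i, j, k⟩ := gen _ hx
  rw [← vec_mul_up x, show x.u = _ from k, map_mul, map_pow, map_pow]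
  have a := pow_mem (up_mem hp) i
  have b := pow_mem (up_mem hq) j
  exact mul _ (A_le_AY Y (vec_mem_A _)) _ (mul_mem a b) (hv _) (mul _ a _ b (pw p hp ep i) (pw q hq eq j))

theorem inv (hδ : IsHomOn (AY Y) δ) (e : Ind δ 1) (c : ∀ x ∈ AY Y, δ (τ s x) = τ s (δ x)) {y : U} (hy : y ∈ Y)
    (i : τU s y = y⁻¹) : τA s • (δ (up y)).v = -(ρ y⁻¹ • (δ (up y)).v) := by
  have := c _ (up_mem hy)
  rw [show τ s (up y) = (up y)⁻¹ from M.ext (by simp) i, hδ.map_inv (up_mem hy)] at this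
  simpa [u_eq hδ e (up_mem hy)] using (congrArg M.v this).symm

theorem comm (hδ : IsHomOn (AY Y) δ) (e : Ind δ 1) {p q : U} (hp : p ∈ Y) (hq : q ∈ Y) (c : p * q = q * p) :
    (δ (up p)).v + ρ p • (δ (up q)).v = (δ (up q)).v + ρ q • (δ (up p)).v := by
  have := congrArg (fun y => (δ (up y)).v) c
  simpa only [map_mul, hδ _ (up_mem hp) _ (up_mem hq), hδ _ (up_mem hq) _ (up_mem hp), M.mul_v, u_eq hδ e (up_mem hp),
    u_eq hδ e (up_mem hq), up_u] using this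

/-- a cocycle is a coboundary -/
def Cb (p q : U) (d d' v : V) : Prop := d + ρ p • d' = d' + ρ q • d → d = v - ρ p • v ∧ d' = v - ρ q • v

theorem Cb.of {p q : U} {d d' e e' v : V} (h : Cb p q e e' v) (a : d = e) (b : d' = e') : Cb p q d d' v := a ▸ b ▸ h

theorem k2 : (∀ d : V, τA s3 • d = -(ρ z⁻¹ • d) → d = ![d 0, d 1, 0, 2 * d 0, 2 * d 1, 0]) ∧
    (∀ d : V, τA s3 • d = -(ρ x2⁻¹ • d) → d = ![0, d 1, d 2, 2 * d 1, 2 * d 2, 0]) ∧
    ∀ a b c e : K, Cb z x2 ![a, b, 0, 2 * a, 2 * b, 0] ![0, c, e, 2 * c, 2 * e, 0] ![0, 0, 0, 0, 0, -a] := by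
  simp only [Cb, τA_smul, ρ_smul]
  decide +kernel

theorem k1 : (∀ d : V, τA s2 • d = -(ρ z⁻¹ • d) → d = ![d 0, d 1, 0, 2 * d 0, 0, 0]) ∧
    (∀ d : V, τA s2 • d = -(ρ x1⁻¹ • d) → d = ![d 0, 2 * d 0, 0, d 3, 0, 0]) ∧
    ∀ a b c e : K, Cb z x1 ![a, b, 0, 2 * a, 0, 0] ![c, 2 * c, 0, e, 0, 0] ![0, 0, -c, 0, -b, -a] := by
  simp only [Cb, τA_smul, ρ_smul]
  decide +kernel

theorem τ_τ (x : M) : τ s (τ s x) = x := (τ s).left_inv x

theorem τ_vec (v : V) : τ s (vec v) = vec (τA s • v) := ind_τ s v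

theorem grp {G : Type*} [Group G] {a b c d x : G} (h : a = b * c * (b * d)) (k : b * (d * x * d⁻¹) * b⁻¹ = x) :
    a * x * a⁻¹ = b * (c * x * c⁻¹) * b⁻¹ := by
  nth_rewrite 2 [← k]
  rw [h]
  group

end Una

open Una

theorem fix_Y2 : Fix Y2 s3 := by
  refine ⟨by simp only [mem_Y2]; decide, fun δ hδ e c => ?_⟩
  have hp : z ∈ Y2 := rfl
  have hq : x2 ∈ Y2 := rfl
  obtain ⟨a, b⟩ := (k2.2.2 _ _ _ _).of (k2.1 _ (inv hδ e c hp (by decide))) (k2.2.1 _ (inv hδ e c hq (by decide)))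
    (comm hδ e hp hq (by decide))
  exact ⟨_, of_gen hδ e hp hq (by simp only [mem_Y2]; decide) a b⟩

theorem fix_Y1 : Fix Y1 s2 := by
  refine ⟨by simp only [mem_Y1]; decide, fun δ hδ e c => ?_⟩
  have hp : z ∈ Y1 := mem_Y1.2 rfl
  have hq : x1 ∈ Y1 := mem_Y1.2 rfl
  obtain ⟨a, b⟩ := (k1.2.2 _ _ _ _).of (k1.1 _ (inv hδ e c hp (by decide))) (k1.2.1 _ (inv hδ e c hq (by decide)))
    (comm hδ e hp hq (by decide))
  exact ⟨_, of_gen hδ e hp hq (by simp only [mem_Y1]; decide) a b⟩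

theorem fix_s0 (Y : Subgroup U) : Fix Y s0 := by
  have t : ∀ y, τU s0 y = y := by decide
  have k : ∀ d : V, d = τA s0 • d → d = 0 := by
    simp only [τA_smul]
    decide +kernel
  refine ⟨fun y hy => (t y).symm ▸ hy, fun δ hδ e c => ⟨0, fun x hx => ?_⟩⟩
  have hy : up x.u ∈ AY Y := hx
  have := c _ hy
  rw [show τ s0 (up x.u) = up x.u from M.ext (by simp) (t _)] at this
  rw [vec_zero, one_mul, inv_one, mul_one, ← vec_mul_up x, hδ _ (A_le_AY Y (vec_mem_A _)) _ hy, e, one_smul,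
    show δ (up x.u) = up x.u from M.ext (k _ (congrArg M.v this)) (u_eq hδ e hy)]

theorem exists_comm (hF : F.IsSaturated 3) (hs : Mor F ⊤ (τ s)) (hY : ∀ y ∈ Y, τU s y ∈ Y) {h : G6}
    (hh : h ∈ NX (X F) Y) (hc : h * τA s = τA s * h) :
    ∃ g, Au F (AY Y) g ∧ Ind g h ∧ ∀ x ∈ AY Y, g (τ s x) = τ s (g x) := by
  obtain ⟨g, hg, e⟩ := X_ext hF hh
  have t : ∀ x ∈ AY Y, τ s x ∈ AY Y := fun x hx => hY _ hx
  have cm : ∀ v, ∀ x ∈ AY Y, vec v * x * (vec v)⁻¹ ∈ AY Y := fun v x hx =>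
    mul_mem (mul_mem (A_le_AY Y (vec_mem_A v)) hx) (inv_mem (A_le_AY Y (vec_mem_A v)))
  have m : Mor F (AY Y) fun x => τ s (g (τ s x)) := ((hs.mono le_top).comp' hg.1 t).comp' hs fun _ _ => mem_top _
  have i : Ind (fun x => τ s (g (τ s x))) h := fun v => by
    show τ s (g (τ s (vec v))) = _
    rw [τ_vec, e, τ_vec, ← mul_smul h, hc, ← mul_smul, ← mul_assoc, ← map_mul, sg_sq, map_one, one_mul]
  obtain ⟨v, k⟩ := agree hF hg.1 m (A_le_AY Y) e i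
  have k' : ∀ x ∈ AY Y, τ s (g x) = g (vec v * τ s x * (vec v)⁻¹) := fun x hx => by
    have := k _ (t x hx)
    rwa [τ_τ] at this
  have k2 : ∀ x ∈ AY Y, vec v * (vec (τA s • v) * x * (vec (τA s • v))⁻¹) * (vec v)⁻¹ = x := fun x hx =>
    hg.1.inj (cm _ _ (cm _ _ hx)) hx (by
      have a := k' _ (cm v _ (t x hx))
      rw [← k' _ (t x hx |> fun _ => hx), τ_τ, map_mul, map_mul, map_inv, τ_τ, τ_vec] at a
      exact a.symm)
  refine ⟨fun x => g (vec (-v) * x * (vec (-v))⁻¹), ⟨(mor_conj F _ _).comp' hg.1 (cm _), fun x hx => hg.2 _ (cm _ x hx)⟩,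
    fun w => ?_, fun x hx => ?_⟩
  · show g _ = _
    rw [← e, conj_vec, vec_u, map_one, one_smul]
  show g _ = τ s (g _)
  rw [k' _ (cm _ x hx), map_mul, map_mul, map_inv, τ_vec]
  have : vec (-v) = vec v * vec (τA s • -v) * (vec v * vec (τA s • v)) := by
    simp only [← vec_add, vec_inj, smul_neg]
    ext i
    have : (3 : K) = 0 := rfl
    simp only [Pi.add_apply, Pi.neg_apply]
    linear_combination -v i * this
  exact congrArg g (grp this (k2 _ (t x hx)))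

theorem common (hF : F.IsSaturated 3) (hF' : F'.IsSaturated 3) (hs : Mor F ⊤ (τ s)) (hs' : Mor F' ⊤ (τ s))
    (hY : Fix Y s) {h : G6} (hh : h ∈ NX (X F) Y) (hh' : h ∈ X F') (hc : h * τA s = τA s * h) :
    ∃ g, Au F (AY Y) g ∧ Au F' (AY Y) g ∧ Ind g h := by
  obtain ⟨g, hg, e, c⟩ := exists_comm hF hs hY.inv hh hc
  obtain ⟨g', hg', e', c'⟩ := exists_comm hF' hs' hY.inv ⟨hh', hh.2⟩ hc
  obtain ⟨k, hk, k1, k2⟩ := hg'.exists_inv
  have t : ∀ x ∈ AY Y, τ s x ∈ AY Y := fun x hx => hY.inv _ hx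
  obtain ⟨v, a⟩ := hY.fix (fun x => k (g x))
    (fun x hx y hy => by simp only [hg.1.map_mul hx hy, hk.1.map_mul (hg.2 x hx) (hg.2 y hy)])
    (fun v => by simp only [e v, ← e' v, k1 _ (A_le_AY Y (vec_mem_A v)), one_smul]) fun x hx => by
      have := hk.2 _ (hg.2 x hx)
      rw [c x hx, ← k1 _ (t _ this), c' _ this, k2 _ (hg.2 x hx)]
  exact ⟨g, hg, ⟨((mor_conj F' _ (vec v)).comp' hg'.1 fun x hx => a x hx ▸ hk.2 _ (hg.2 x hx)).congr fun x hx => by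
    rw [← a x hx, k2 _ (hg.2 x hx)], hg.2⟩, e⟩

end CfsgLib.Cf3
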