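import Mathlib
import Cfsg.Agent.Lib.Cf3.Core
import Cfsg.Agent.Lib.Cf3.Una
import Cfsg.Agent.Lib.Cf3.E3b

/-! Package UNB: the data determine the system (plans/CF3.md). -/

set_option autoImplicit false
set_option maxRecDepth 100000

namespace CfsgLib.Cf3

open Subgroup Matrix Cfsg CfsgLib.Fusion

variable {F F' : FS} {t : Prop} {k : K}

namespace Unb

theorem xd' (h : Dat F t k) : XD (X F) := xd h.sat h.nm

theorem a2 (h : Dat F t k) : τA s2 ∈ X F := sq2 0 ▸ pow_mem (mul_mem ((xd' h).ρ_mem x2) h.h2) 2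

theorem a3 (h : Dat F t k) : τA s3 ∈ X F := sq1 k ▸ pow_mem (mul_mem ((xd' h).ρ_mem x1) h.h1) 2

theorem sg_cases : ∀ s : Sg, (s = 1 ∨ s = s2 ∨ s = s3 ∨ s = s2 * s3) ∨
    (s * s0 = 1 ∨ s * s0 = s2 ∨ s * s0 = s3 ∨ s * s0 = s2 * s3) := by decide

theorem a_even (h : Dat F t k) {s : Sg} (hs : s = 1 ∨ s = s2 ∨ s = s3 ∨ s = s2 * s3) : τA s ∈ X F := by
  rcases hs with rfl | rfl | rfl | rfl
  · rw [map_one]; exact one_mem _
  · exact a2 h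
  · exact a3 h
  · rw [map_mul]; exact mul_mem (a2 h) (a3 h)

theorem a0_iff (h : Dat F t k) : τA s0 ∈ X F ↔ t := (τ_iff h.sat h.nm).trans h.ht

theorem a_le (h : Dat F t k) (h' : Dat F' t k) {s : Sg} (hs : τA s ∈ X F) : τA s ∈ X F' := by
  rcases sg_cases s with e | e
  · exact a_even h' e
  · have h1 : τA s0 ∈ X F := by
      have := mul_mem hs (a_even h e)
      rwa [← map_mul, ← mul_assoc, sg_sq, one_mul] at this
    have := mul_mem (a_even h' e) ((a0_iff h').2 ((a0_iff h).1 h1))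
    rwa [← map_mul, mul_assoc, sg_sq, mul_one] at this

theorem τ_le (h : Dat F t k) (h' : Dat F' t k) {s : Sg} (hs : Mor F ⊤ (τ s)) : Mor F' ⊤ (τ s) :=
  (τ_iff h'.sat h'.nm).1 (a_le h h' ((τ_iff h.sat h.nm).2 hs))

theorem top_le (h : Dat F t k) (h' : Dat F' t k) (g : M → M) (hg : Mor F ⊤ g) : Mor F' ⊤ g := by
  obtain ⟨s, m, hs, e⟩ := h.nm g hg
  exact ((τ_le h h' hs).comp (mor_conj F' ⊤ m) fun _ _ => mem_top _).congr fun x _ => (e x).symm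

theorem bor (h : Dat F t k) (h' : Dat F' t k) : Bor (X F) (X F') :=
  ⟨(xd' h').ρ_mem, fun _ => a_le h h'⟩

/-- the matrices with a common lift -/
def Cm (F F' : FS) (Y : Subgroup U) : Subgroup G6 where
  carrier := {h | ∃ g, Au F (AY Y) g ∧ Au F' (AY Y) g ∧ Ind g h}
  one_mem' := ⟨id, ⟨Mor.id F le_top, fun _ h => h⟩, ⟨Mor.id F' le_top, fun _ h => h⟩, fun v => by simp⟩
  mul_mem' := fun ⟨g, h1, h2, h3⟩ ⟨g', k1, k2, k3⟩ => ⟨g ∘ g', h1.comp k1, h2.comp k2, fun v => by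
    rw [Function.comp_apply, k3, h3, mul_smul]⟩
  inv_mem' := fun {h} ⟨g, h1, h2, h3⟩ => by
    obtain ⟨a, ha, e1, e2⟩ := h1.exists_inv
    obtain ⟨b, hb, e3, -⟩ := h2.exists_inv
    refine ⟨a, ha, ⟨hb.1.congr fun x hx => ?_, ha.2⟩, fun v => ?_⟩
    · rw [← e3 _ (ha.2 x hx), e2 x hx]
    · rw [← e1 _ (A_le_AY Y (vec_mem_A (h⁻¹ • v))), h3, smul_inv_smul]

theorem of_cm (hF : F.IsSaturated 3) {Y : Subgroup U} {g : M → M} {h : G6} (hg : Au F (AY Y) g) (e : Ind g h)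
    (hh : h ∈ Cm F F' Y) : Mor F' (AY Y) g := by
  obtain ⟨g', h1, h2, h3⟩ := hh
  obtain ⟨v, hv⟩ := agree hF h1.1 hg.1 (A_le_AY Y) h3 e
  exact ((mor_conj F' (AY Y) (vec v)).comp h2.1 fun x hx =>
    mul_mem (mul_mem (A_le_AY Y (vec_mem_A v)) hx) (inv_mem (A_le_AY Y (vec_mem_A v)))).congr
    fun x hx => (hv x hx).symm

theorem bor_cm (h : Dat F t k) (h' : Dat F' t k) {Y : Subgroup U} (h1 : ∀ u, ∀ y ∈ Y, u * y * u⁻¹ ∈ Y)
    (h2 : ∀ s, ∀ y ∈ Y, τU s y ∈ Y) : Bor (X F) (Cm F F' Y) :=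
  ⟨fun u => ⟨_, ⟨mor_conj F _ (up u), fun _ hx => h1 u _ hx⟩, ⟨mor_conj F' _ (up u), fun _ hx => h1 u _ hx⟩,
    ind_c (up u)⟩, fun s hs => ⟨τ s, ⟨((τ_iff h.sat h.nm).1 hs).mono le_top, fun _ hx => h2 s _ hx⟩,
      ⟨((τ_iff h'.sat h'.nm).1 (a_le h h' hs)).mono le_top, fun _ hx => h2 s _ hx⟩, ind_τ s⟩⟩

theorem ay_le (h : Dat F t k) (h' : Dat F' t k) {Y : Subgroup U} (hE : F.IsEssential 3 (AY Y)) :
    NX (X F) Y ≤ Cm F F' Y := by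
  obtain ⟨hR, hT⟩ := rad_of_essential h.sat hE
  have m := fun {s : Sg} (hs : τA s ∈ X F) => (τ_iff h.sat h.nm).1 hs
  rcases c_cases hR hT with rfl | ⟨rfl, -⟩ | ⟨rfl, -⟩ | ⟨r, hr, rfl⟩
  · exact absurd hE (not_essential_A h.sat h.nm)
  · exact k1_gen (xd' h) h.h1 (bor_cm h h' (fun u y hy => by simp [mem_Y2.1 hy, mem_Y2])
      fun s y hy => by simp [mem_Y2.1 hy, mem_Y2, τU])
      (common h.sat h'.sat (m (a3 h)) (τ_le h h' (m (a3 h))) fix_Y2 ⟨h.h1, y1_norm k⟩ h'.h1 (y1_comm k))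
  · exact k2_gen (xd' h) h.h2 (bor_cm h h' (fun u y hy => by simp [mem_Y1.1 hy, mem_Y1])
      fun s y hy => by simp [mem_Y1.1 hy, mem_Y1, τU])
      (common h.sat h'.sat (m (a2 h)) (τ_le h h' (m (a2 h))) fix_Y1 ⟨h.h2, y2_norm 0⟩ h'.h2 (y2_comm 0))
  · obtain ⟨i, h1, h2, h3⟩ := k4 (xd' h) hr hR
    obtain rfl := y2_uniq (xd' h) h2 h.h2
    obtain rfl := y1_uniq (xd' h) h1 h.h1
    have h0 : τA s0 ∈ X F := ((k12 (xd' h).syl h1 h2).resolve_left (by decide)).2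
    exact fun g hg => common h.sat h'.sat (m h0) (τ_le h h' (m h0)) (fix_s0 _) hg
      (h3 _ (bor h h') h'.h1 h'.h2 hg) (τA_s0_comm g)

theorem w0 (h : Dat F t k) : ∃ w, Au F E3 w ∧ W0 w :=
  exists_w0 h.sat h.nm ((τ_iff h.sat h.nm).1 (a2 h)) ((τ_iff h.sat h.nm).1 (a3 h)) (core_facts h.sat h.nm h.core).1

theorem core_bot {θ : M → M} (h : IsFactor F ⊥ θ F') (hc : F.core = ⊥) : F'.core = ⊥ := by
  rw [h.iso_core, hc]
  exact (h.iso_img_eq_bot bot_le).2 rfl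

end Unb

open Unb

theorem le_of_dat (h : Dat F t k) (h' : Dat F' t k) : F ≤ F' := by
  refine alperin_le pT h.sat fun P hP => (autGroup_le_iff le_top le_top).2 fun g hg e => ?_
  have hA : Au F P g := ⟨hg, fun x hx => e ▸ mem_img_of_mem g hx⟩
  rcases hP with rfl | hP
  · exact top_le h h' g hg
  rcases essential_cases h.sat hP with ⟨Y, rfl⟩ | rfl
  · obtain ⟨a, ha, ea⟩ := hA.ind
    exact of_cm h.sat hA ea (ay_le h h' hP ha)
  · obtain ⟨w, h1, h2⟩ := w0 h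
    obtain ⟨w', h3, h4⟩ := w0 h'
    exact e3_le h.sat (top_le h h') h1 h2 h3 h4 hA

theorem exists_dat (hF : F.IsSaturated 3) (hc : F.core = ⊥) : ∃ (θ : M → M) (F' : FS) (t : Prop) (k : K),
    IsFactor F ⊥ θ F' ∧ Dat F' t k ∧ (k = 0 ∨ (k = 1 ∧ t)) := by
  obtain ⟨θ, F₁, h1, n1⟩ := exists_nm hF
  have s1 := h1.iso_saturated pT hF
  have c1 := core_bot h1 hc
  obtain ⟨-, p1, p2⟩ := core_facts s1 n1 c1
  obtain ⟨k, hk⟩ := k1 (xd s1 n1) p1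
  obtain ⟨j, hj⟩ := k2 (xd s1 n1) p2
  obtain ⟨F₂, h2, n2, e⟩ := exists_beta F₁ (-j)
  have s2 := h2.iso_saturated pT s1
  have a1 : y1 (-j + k) ∈ X F₂ := by
    rw [e, mem_cj, mul_assoc, ← β_mul_y1, inv_mul_cancel_left]; exact hk
  have a2 : y2 0 ∈ X F₂ := by
    rw [e, mem_cj, mul_assoc, ← neg_add_cancel j, ← β_mul_y2, inv_mul_cancel_left]; exact hj
  exact ⟨_, F₂, _, _, h1.iso_trans h2, ⟨s2, core_bot h2 c1, n2 n1, a1, a2, Iff.rfl⟩,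
    (k12 (X_syl s2) a1 a2).imp_right fun h => ⟨h.1, (τ_iff s2 (n2 n1)).1 h.2⟩⟩

end CfsgLib.Cf3
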