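import Mathlib
import Cfsg.Agent.Lib.Cf3.Unb
import Cfsg.Agent.Lib.Cf3.Real
import Cfsg.Agent.Lib.Cf3.Co1
import Cfsg.Agent.Lib.Cf3.Sp

/-! Saturated fusion systems with trivial core on a Sylow `3`-subgroup of `Co1` (plans/CF3.md). -/

set_option autoImplicit false

namespace CfsgLib.Cf3

open Subgroup Cfsg CfsgLib.Fusion

theorem realizable_of_isFactor {Ω : Type*} [Group Ω] {S : Subgroup Ω} {F : FusionSystem S} {F' : FS} {t : Ω → M}
    (h : IsFactor F ⊥ t F') {G : Type} [Group G] [Finite G] {ι : (⊤ : Subgroup M) →* G} (hR : F'.IsRealizedBy ι)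
    (hT : SylIn 3 ι.range ⊤) : F.IsRealizable 3 := by
  have h1 := h.iso_trans (realized_isFactor hR)
  generalize extFun ι ∘ t = r at h1
  have e : ∀ x ∈ S, extFun h1.hom.toHom x = r x := fun x hx => by
    rw [extFun_apply _ hx]; rfl
  have h2 : F.IsRealizedBy h1.hom.toHom := by
    refine isRealizedBy_of_mor (fun a b hab => Subtype.ext (h1.injOn a.2 b.2 hab))
      fun P g hP hf hm => ⟨fun hF => ?_, ?_⟩
    · obtain ⟨f', k1, k2⟩ := h1.iso_ind hF
      obtain ⟨-, -, a, ha⟩ := mor_group_iff.1 k1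
      exact ⟨a, fun x hx => by
        rw [e _ (hm x hx), e _ (hP hx), ← k2 x hx, ha _ (mem_img_of_mem r hx)]⟩
    · rintro ⟨a, ha⟩
      have h3 : ∀ x ∈ P, a * r x * a⁻¹ = r (g x) := fun x hx => by
        rw [← e _ (hm x hx), ha x hx, e _ (hP hx)]
      refine h1.iso_mor_of hP hm (f' := fun y => a * y * a⁻¹) (mor_group_iff.2
        ⟨h1.img_eq ▸ img_mono r hP, fun y hy => ?_, a, fun _ _ => rfl⟩) h3
      obtain ⟨x, hx, rfl⟩ := (h1.hom.mono hP).mem_img.1 hy
      rw [h3 x hx, ← h1.img_eq]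
      exact mem_img_of_mem r (hm x hx)
  have h3 : SylIn 3 h1.hom.toHom.range ⊤ := by rwa [h1.hom.range_toHom, h1.img_eq]
  let k : G ≃* ULift G := MulEquiv.ulift.symm
  obtain ⟨h4, h5⟩ := realized_comp h2 h3 k.toMonoidHom k.surjective
    (by rw [(MonoidHom.ker_eq_bot_iff _).2 k.injective, inf_bot_eq])
  exact ⟨ULift G, inferInstance, inferInstance, _, h4, h5.exists_sylow⟩

theorem finite_co1 : Finite Spor.Co1 := Quotient.finite _

theorem realizable_of_dat {Ω : Type*} [Group Ω] {S : Subgroup Ω} {F : FusionSystem S} {F' : FS} {t : Ω → M}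
    (h : IsFactor F ⊥ t F') {b : Prop} {k : K} (hd : Dat F' b k) (hk : k = 0 ∨ (k = 1 ∧ b)) : F.IsRealizable 3 := by
  have key : ∀ {G : Type} [Group G] [Finite G] {θ : M →* G} {c : Prop}, RG θ c k → (b ↔ c) → F.IsRealizable 3 :=
    fun hr e => by
      obtain ⟨E, h1, h2⟩ := hr.exists_dat
      obtain rfl := propext e
      obtain rfl : F' = E := fs_le_antisymm (le_of_dat hd h1) (le_of_dat h1 hd)
      exact realizable_of_isFactor h h2 hr.sylIn
  rcases hk with rfl | ⟨rfl, hb⟩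
  · by_cases hb : b
    · obtain ⟨G, _, _, θ, hr⟩ := rg_gsp
      exact key hr (iff_true_intro hb)
    · obtain ⟨G, _, _, θ, hr⟩ := rg_sp
      exact key hr (iff_false_intro hb)
  · obtain ⟨θ, hr⟩ := rg_co1
    have := finite_co1
    exact key hr (iff_true_intro hb)

theorem realizable {Ω : Type*} [Group Ω] {S : Subgroup Ω} [Finite S] (hS : IsPGroup 3 S) {F : FusionSystem S}
    (hF : F.IsSaturated 3) (T : Sylow 3 Spor.Co1) (e : S ≃* (T : Subgroup Spor.Co1)) (hc : F.core = ⊥) :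
    F.IsRealizable 3 := by
  have := finite_co1
  obtain ⟨θ, hr⟩ := rg_co1
  obtain ⟨T', hT⟩ := hr.sylIn.exists_sylow
  have e1 : (θ.comp (⊤ : Subgroup M).subtype).range = θ.range := by
    rw [MonoidHom.range_comp, range_subtype, ← MonoidHom.range_eq_map]
  let k : S ≃* M := (e.trans (T.equiv T')).trans
    ((MulEquiv.subgroupCongr (hT.trans e1)).trans (MonoidHom.ofInjective hr.inj).symm)
  have hh := isHomOn_extFun k.toMonoidHom
  have hi : Set.InjOn (extFun k.toMonoidHom) S := fun x hx y hy h => by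
    rw [extFun_apply _ hx, extFun_apply _ hy] at h
    exact congrArg Subtype.val (k.injective h)
  have ht : img S (extFun k.toMonoidHom) = ⊤ := eq_top_iff.2 fun x _ =>
    hh.mem_img.2 ⟨k.symm x, (k.symm x).2, by rw [extFun_apply _ (k.symm x).2]; exact k.apply_symm_apply x⟩
  obtain ⟨F₀, h0⟩ : ∃ F₀ : FS, IsFactor F ⊥ (extFun k.toMonoidHom) F₀ := by
    have := exists_iso_img F hh hi
    rwa [ht] at this
  obtain ⟨t, F₁, b, j, h1, h2, h3⟩ := exists_dat (h0.iso_saturated hS hF) (by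
    rw [h0.iso_core, hc]; exact (h0.iso_img_eq_bot bot_le).2 rfl)
  exact realizable_of_dat (h0.iso_trans h1) h2 h3

end CfsgLib.Cf3
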